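import Cfsg.Agent.Lib.Block.H12DC
import Cfsg.Agent.Lib.Block.H11Av
import Cfsg.Agent.Lib.Block.BlkSubs
import Cfsg.Agent.Lib.Block.H11Prin
import Cfsg.Agent.Lib.Block.H28Prin

/-!
# Lifting projective characters over a central `p`-subgroup; bounds from subsections
-/

set_option autoImplicit false
set_option linter.unusedSectionVars false

namespace CA.BlkLift

open Cfsg MonoidAlgebra CA.BlkAlg CA.BlkVal CA.BlkOmega CA.BlkRed CA.BlkCore CA.BlkReg CA.BlkQuo
  CA.BlkHeight CA.BlkBas CA.H12PPart CA.H11Cyclo CA.H11Av CChar.CharFun CChar.CharOrth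
  CChar.CharGen Subgroup
open scoped ComplexConjugate

variable {p : ℕ} {M : Ideal AlgInt} {G : Type*} [Group G] [Fintype G]

theorem v_inner_le_one {f ξ : G → ℂ} (hf : IsClassFunction G f) (hξ : IsClassFunction G ξ)
    (h : ∀ x, v M (f x) ≤ v M (Nat.card (centralizer ({x} : Set G)) : ℂ))
    (h' : ∀ x, conj (ξ x) ∈ O M) : v M (classInner f ξ) ≤ 1 := by
  have := Fintype.ofFinite (ConjClasses G)
  have hc : ∀ g x : G, conj (ξ (x * g * x⁻¹)) = conj (ξ g) := fun g x => by rw [hξ g x]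
  have h1 : v M (chiL (fun x => conj (ξ x)) (ofFun f)) ≤ v M (Nat.card G : ℂ) := by
    rw [eq_sum_classSum (ofFun_mem_Z (f := f) hf), map_sum]
    refine Valuation.map_sum_le _ fun C _ => ?_
    rw [map_smul, chiL_classSum hc, smul_eq_mul, map_mul, ← v_index_mul_card
      (centralizer ({C.out} : Set G)), mul_comm]
    exact mul_le_mul' (v_mul_le_left (h' _)) (h _)
  rw [ci_def, ← chiL_ofFun, map_mul, map_inv₀]
  exact (inv_mul_le_one₀ (zero_lt_iff.2 (v_card_ne_zero G))).2 h1

/-- The `p`-regular part of a generalized character whose values are divisible by the centralizer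
orders is a generalized character. -/
theorem gen_pReg_of_v (hM : IsPModular p M) {θ : G → ℂ} (hθ : IsGeneralizedCharacter G θ)
    (h : ∀ x, ¬ p ∣ orderOf x → v M (θ x) ≤ v M (Nat.card (centralizer ({x} : Set G)) : ℂ)) :
    IsGeneralizedCharacter G (pRegularPart p θ) := by
  have hc := classFun_pRegularPart (p := p) (gen_classFun hθ)
  refine gen_of_inner_int hc fun ξ hξ => ?_
  obtain ⟨n, hn⟩ := exists_int_inner_pReg hM.1 hθ (gen_of_irr hξ)
  have h1 := v_inner_le_one (M := M) hc (irr_classFun hξ) (fun x => by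
    by_cases hx : p ∣ orderOf x
    · rw [pReg_of_dvd _ hx, map_zero]; exact zero_le
    · rw [pReg_of_not_dvd _ hx]; exact h x hx) (conj_char_mem_O (char_of_irr hξ))
  obtain ⟨m, rfl⟩ := pow_dvd_of_v_le hM (n := n) (k := (Nat.card G).factorization p) (by
    rw [← hn, map_mul, map_pow]; exact mul_le_of_le_one_right' h1)
  refine ⟨m, mul_left_cancel₀ (pow_ne_zero ((Nat.card G).factorization p)
    (Nat.cast_ne_zero.2 hM.1.ne_zero : (p : ℂ) ≠ 0)) ?_⟩
  rw [hn]; push_cast; rfl

section lift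
variable {Q : Type*} [Group Q] [Fintype Q] {φ : G →* Q} {β β' : Q → ℂ}

/-- The lift of a class function supported on `p`-regular elements. -/
noncomputable def al (p : ℕ) (φ : G →* Q) : (Q → ℂ) →ₗ[ℂ] (G → ℂ) :=
  (Nat.card φ.ker : ℂ) • (regL p G).comp (LinearMap.funLeft ℂ ℂ φ)

theorem al_eq (β : Q → ℂ) :
    al p φ β = (Nat.card φ.ker : ℂ) • pRegularPart p fun g => β (φ g) := rfl

theorem al_of_dvd (β : Q → ℂ) {g : G} (hg : p ∣ orderOf g) : al p φ β g = 0 := by
  rw [al_eq, Pi.smul_apply, pReg_of_dvd _ hg, smul_zero]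

theorem gen_al (hM : IsPModular p M) (hφ : Function.Surjective φ)
    (hβ : IsGeneralizedCharacter Q β) (h0 : ∀ y, p ∣ orderOf y → β y = 0) :
    IsGeneralizedCharacter G (al p φ β) := by
  have e : al p φ β = pRegularPart p ((Nat.card φ.ker : ℂ) • fun g => β (φ g)) :=
    ((regL p G).map_smul _ _).symm
  rw [e]
  refine gen_pReg_of_v hM (gen_natCast_smul _ (gen_comp hβ φ)) fun x _ => ?_
  have h1 := v_apply_le hM (γ := 1) (gen_classFun hβ) (fun χ => by
    obtain ⟨n, hn⟩ := inner_gen_gen hβ (gen_of_irr χ.2)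
    rw [hn]; exact mem_O_iff.1 (intCast_mem_O n)) h0 (φ x)
  have h2 : Nat.card (centralizer ({x} : Set G)) ∣
      Nat.card φ.ker * Nat.card (centralizer ({φ x} : Set Q)) := by
    have h3 : centralizer ({x} : Set G) ≤ (centralizer ({φ x} : Set Q)).comap φ := fun y hy => by
      rw [mem_comap, mem_centralizer_singleton_iff, ← map_mul, ← map_mul,
        mem_centralizer_singleton_iff.1 hy]
    refine (card_dvd_of_le h3).trans (dvd_of_eq ?_)
    have h4 := card_mul_index ((centralizer ({φ x} : Set Q)).comap φ)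
    have h5 := card_mul_index (centralizer ({φ x} : Set Q))
    have h6 := card_mul_index φ.ker
    rw [index_ker, MonoidHom.range_eq_top.2 hφ, card_top, ← h5, ← h4,
      index_comap_of_surjective _ hφ, ← mul_assoc] at h6
    exact (mul_right_cancel₀ index_ne_zero_of_finite h6).symm
  obtain ⟨c, hc⟩ := h2
  rw [one_mul] at h1
  calc v M ((Nat.card φ.ker : ℂ) * β (φ x))
      ≤ v M ((Nat.card φ.ker * Nat.card (centralizer ({φ x} : Set Q)) : ℕ) : ℂ) := by
        rw [map_mul, Nat.cast_mul, map_mul]; exact mul_le_mul_right h1 _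
    _ ≤ _ := by rw [hc, Nat.cast_mul]; exact v_mul_le_left (natCast_mem_O c)

theorem inner_al_right {f : G → ℂ} (h0 : ∀ g, p ∣ orderOf g → f g = 0) (β : Q → ℂ) :
    classInner f (al p φ β) = Nat.card φ.ker * classInner f fun g => β (φ g) := by
  rw [al_eq, ci_smul_right, inner_pReg_right_of_vanish h0, map_natCast]

theorem inner_al (hp : p.Prime) (hφ : Function.Surjective φ) (hN : IsPGroup p φ.ker)
    (h : ∀ g, ¬ p ∣ orderOf g → g ∈ centralizer (φ.ker : Set G))
    (h0 : ∀ y, p ∣ orderOf y → β y = 0) (β' : Q → ℂ) :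
    classInner (al p φ β) (al p φ β') = Nat.card φ.ker * classInner β β' := by
  have := Fintype.ofFinite φ.ker
  have h1 := CA.H12DC.inner_eq hp hN h (φ := fun g => β (φ g)) (φ' := fun g => β' (φ g))
    (f := fun g => β (φ g)) (f' := fun g => β' (φ g)) (ζ := fun _ => 1) (ζ' := fun _ => 1)
    (fun g hg => by
      rw [MonoidHom.mem_ker, map_pPart hp, pPart_eq_one_iff hp]; exact fun hd => hg (h0 _ hd))
    (fun x y _ => by rw [map_mul, x.2, one_mul, one_mul])
    (fun x y _ => by rw [map_mul, x.2, one_mul, one_mul])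
  rw [inner_comp_of_surjective φ hφ, inner_irr_self irr_one, mul_one] at h1
  rw [inner_al_right fun g => al_of_dvd β, al_eq, ci_smul_left, h1]

/-- A class function supported on `p`-regular elements and orthogonal to all inflated characters
vanishes at `1`. -/
theorem apply_one_eq_zero (hp : p.Prime) (hN : IsPGroup p φ.ker) {f : G → ℂ}
    (h0 : ∀ g, p ∣ orderOf g → f g = 0)
    (h : ∀ ψ : IrrCharacter Q, classInner f (fun g => ψ.1 (φ g)) = 0) : f 1 = 0 := by
  have h1 : classInner f (fun g => regChar Q (φ g)) = 0 := by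
    have : (fun g => regChar Q (φ g)) = ∑ ψ : IrrCharacter Q, ψ.1 1 • fun g => ψ.1 (φ g) := by
      funext g; simp [← sum_degree_mul_apply]
    rw [this, ci_sum_right]
    exact Finset.sum_eq_zero fun ψ _ => by rw [ci_smul_right, h, mul_zero]
  rw [ci_def, Finset.sum_eq_single 1] at h1
  · simpa [regChar_one] using h1
  · intro g _ hg
    by_cases hk : φ g = 1
    · obtain ⟨n, hn⟩ := orderOf_eq_pow_of_mem hp hN hk
      rw [h0 g, zero_mul]
      rw [hn]
      exact dvd_pow_self p fun e => hg (orderOf_eq_one_iff.1 (by rw [hn, e, pow_zero]))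
    · rw [regChar_of_ne hk, map_zero, mul_zero]
  · simp

end lift

section sub
variable {H : Subgroup G} [Fintype H] {u : G} {n : ℕ} {α : H → ℂ}

theorem inner_tr_mem_cyc (hH : H ≤ centralizer {u}) (hu : u ∈ H) (hn : orderOf u ∣ n) {θ : G → ℂ}
    (hθ : IsGeneralizedCharacter G θ) (hα : IsGeneralizedCharacter H α) :
    (fun k => classInner (tr H (u ^ k) θ) α) ∈ cyc n := by
  obtain ⟨m, hm, -⟩ := gen_exists_int_coeffs (gen_restrict hθ H)
  obtain ⟨a, -, rfl⟩ := gen_exists_int_coeffs hα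
  have hz := mem_center_of_le hH hu
  have : ∀ k, classInner (tr H (u ^ k) θ) (∑ ψ : IrrCharacter H, (a ψ : ℂ) • ψ.1) =
      ∑ ψ : IrrCharacter H, ((a ψ * m ψ : ℤ) : ℂ) * (ψ.1 ⟨u, hu⟩ / ψ.1 1) ^ k := fun k => by
    have hk : H ≤ centralizer {u ^ k} := fun h hh => mem_centralizer_singleton_iff.mpr
      (Commute.pow_right (mem_centralizer_singleton_iff.mp (hH hh)) k)
    rw [ci_sum_right]
    refine Finset.sum_congr rfl fun ψ _ => ?_
    rw [ci_smul_right, inner_tr_irr hk (H.pow_mem hu k), hm, pow_div_of_center ψ hz, map_intCast]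
    push_cast
    have : (⟨u, hu⟩ : H) ^ k = ⟨u ^ k, H.pow_mem hu k⟩ := rfl
    rw [this]; ring
  simp only [this]
  refine mono hn (sum_mem' fun ψ _ => mul_mem' (int_mem _ _) (root_mem ?_))
  rw [← pow_orderOf_div_of_center ψ hz, ← orderOf_coe]

theorem sum_av_inner_tr [NeZero n] (hM : IsPModular p M) (hu : ∃ n : ℕ, orderOf u = p ^ n)
    (hH : H = centralizer {u}) (hn : orderOf u ∣ n) (hα : IsClassFunction H α)
    (h0 : ∀ c, p ∣ orderOf c → α c = 0) :
    ∑ χ : IrrCharacter G, av n (fun k => ‖classInner (tr H (u ^ k) χ.1) α‖ ^ 2) =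
      (classInner α α).re := by
  rw [← av_sum]
  refine av_eq fun w => ?_
  have hc : (ex w).Coprime (orderOf u) := (coprime_ex w).coprime_dvd_right hn
  have h1 : H = centralizer {u ^ ex w} := by
    have := Fintype.ofFinite (centralizer ({u} : Set G))
    rw [hH, ← H11Amb.CC_zpowers, ← H11Amb.CC_zpowers, BlkSubs.zpowers_pow_of_coprime hc]
  rw [← sum_inner_tr hM (u := u ^ ex w) (by rwa [hc.symm.orderOf_pow]) h1 hα h0 h0, Complex.re_sum]
  refine Finset.sum_congr rfl fun χ _ => ?_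
  rw [Complex.mul_conj, Complex.ofReal_re, Complex.normSq_eq_norm_sq]

theorem two_mul_sum_le {I : Type*} [Fintype I] (g : I → I → ℝ) (h0 : ∀ i j, 0 ≤ g i j)
    (hs : ∀ i j, g i j = g j i) {i : I} (hi : g i i = 0) : 2 * ∑ j, g i j ≤ ∑ i, ∑ j, g i j := by
  classical
  rw [← Finset.add_sum_erase _ (fun i => ∑ j, g i j) (Finset.mem_univ i), two_mul]
  refine add_le_add_right ?_ _
  rw [← Finset.add_sum_erase _ _ (Finset.mem_univ i), hi, zero_add]
  refine Finset.sum_le_sum fun j _ => ?_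
  rw [hs]
  exact Finset.single_le_sum (fun k _ => h0 j k) (Finset.mem_univ i)

/-- The bound from the quadratic form `2 ∑ xᵢ² + ∑ (xᵢ - xⱼ)²`. -/
theorem card_mul_le (hM : IsPModular p M) (hu : ∃ n : ℕ, orderOf u = p ^ n)
    (hH : H = centralizer {u}) {I : Type*} [Fintype I] {α : I → H → ℂ}
    (hα : ∀ i, IsGeneralizedCharacter H (α i)) (h0 : ∀ i c, p ∣ orderOf c → α i c = 0)
    (S : Finset (IrrCharacter G)) (hS : ∀ χ ∈ S, ∃ i, classInner (tr H u χ.1) (α i) ≠ 0) :
    (S.card : ℝ) * (2 * Fintype.card I) ≤ 2 * ∑ i, (classInner (α i) (α i)).re +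
      ∑ i, ∑ j, (classInner (α i - α j) (α i - α j)).re := by
  have : NeZero (orderOf u) := ⟨(orderOf_pos u).ne'⟩
  have hu' := self_mem_of_eq hH
  set a : IrrCharacter G → (H → ℂ) → ℝ := fun χ β =>
    av (orderOf u) fun k => ‖classInner (tr H (u ^ k) χ.1) β‖ ^ 2 with ha
  have a0 : ∀ χ β, 0 ≤ a χ β := fun χ β => le_av fun _ => sq_nonneg _
  have a1 : ∀ χ β, IsGeneralizedCharacter H β → classInner (tr H u χ.1) β ≠ 0 → 1 ≤ a χ β :=
    fun χ β hβ h => one_le_av_sq (inner_tr_mem_cyc hH.le hu' dvd_rfl (gen_of_irr χ.2) hβ)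
      (by rwa [pow_one])
  have e1 : ∀ i, (classInner (α i) (α i)).re = ∑ χ, a χ (α i) := fun i =>
    (sum_av_inner_tr hM hu hH dvd_rfl (gen_classFun (hα i)) (h0 i)).symm
  have e2 : ∀ i j, (classInner (α i - α j) (α i - α j)).re = ∑ χ, a χ (α i - α j) := fun i j =>
    (sum_av_inner_tr hM hu hH dvd_rfl (gen_classFun (gen_sub (hα i) (hα j))) fun c hc => by
      rw [Pi.sub_apply, h0 i c hc, h0 j c hc, sub_zero]).symm
  have key : ∀ χ ∈ S, (2 * Fintype.card I : ℝ) ≤
      2 * ∑ i, a χ (α i) + ∑ i, ∑ j, a χ (α i - α j) := fun χ hχ => by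
    obtain ⟨i, hi⟩ := hS χ hχ
    have h1 := two_mul_sum_le (fun i j => a χ (α i - α j)) (fun _ _ => a0 _ _)
      (fun i j => av_congr fun w => by rw [ci_sub_right, ci_sub_right, norm_sub_rev])
      (i := i) (av_eq fun w => by simp [ci_zero_right])
    have h2 : ∑ _j : I, (1 : ℝ) ≤ ∑ j, (a χ (α j) + a χ (α i - α j)) :=
      Finset.sum_le_sum fun j _ => by
        by_cases hj : classInner (tr H u χ.1) (α j) = 0
        · exact le_add_of_nonneg_of_le (a0 _ _) (a1 χ _ (gen_sub (hα i) (hα j))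
            (by rwa [ci_sub_right, hj, sub_zero]))
        · exact le_add_of_le_of_nonneg (a1 χ _ (hα j) hj) (a0 _ _)
    rw [Finset.sum_add_distrib, Finset.sum_const, Finset.card_univ, nsmul_eq_mul, mul_one] at h2
    linarith
  calc (S.card : ℝ) * (2 * Fintype.card I) = ∑ _χ ∈ S, (2 * Fintype.card I : ℝ) := by
        rw [Finset.sum_const, nsmul_eq_mul]
    _ ≤ ∑ χ, (2 * ∑ i, a χ (α i) + ∑ i, ∑ j, a χ (α i - α j)) :=
        (Finset.sum_le_sum key).trans (Finset.sum_le_sum_of_subset_of_nonneg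
          (Finset.subset_univ S) fun χ _ _ => add_nonneg
            (mul_nonneg zero_le_two (Finset.sum_nonneg fun _ _ => a0 _ _))
            (Finset.sum_nonneg fun _ _ => Finset.sum_nonneg fun _ _ => a0 _ _))
    _ = _ := by
        simp only [e1, e2]
        rw [Finset.sum_add_distrib, ← Finset.mul_sum, Finset.sum_comm]
        congr 1
        rw [Finset.sum_comm]
        exact Finset.sum_congr rfl fun i _ => Finset.sum_comm

/-- A family of generalized characters supported on `p`-regular elements which spans the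
`p`-regular parts of the principal block, with a bound on its Gram matrix. -/
def Fam (p : ℕ) (M : Ideal AlgInt) (Q : Type*) [Group Q] [Fintype Q] (c : ℕ) : Prop :=
  ∃ (n : ℕ) (β : Fin (n + 1) → Q → ℂ), (∀ i, IsGeneralizedCharacter Q (β i)) ∧
    (∀ i y, p ∣ orderOf y → β i y = 0) ∧
    (∀ ψ ∈ principalBlock M Q, ∃ a : Fin (n + 1) → ℂ, ∀ y, ¬ p ∣ orderOf y →
      ψ.1 y = ∑ i, a i * β i y) ∧
    2 * ∑ i, (classInner (β i) (β i)).re + ∑ i, ∑ j, (classInner (β i - β j) (β i - β j)).re ≤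
      c * (2 * (n + 1))

theorem card_le_of_fam (hM : IsPModular p M) (hu : ∃ n : ℕ, orderOf u = p ^ n)
    (hH : H = centralizer {u}) {Q : Type*} [Group Q] [Fintype Q] {φ : H →* Q}
    (hφ : Function.Surjective φ) (hN : IsPGroup p φ.ker)
    (h : ∀ g, ¬ p ∣ orderOf g → g ∈ centralizer (φ.ker : Set H)) {c : ℕ} (hF : Fam p M Q c)
    (S : Finset (IrrCharacter G)) (hS : ∀ χ ∈ S, χ ∈ principalBlock M G ∧ χ.1 u ≠ 0) :
    S.card ≤ Nat.card φ.ker * c := by
  haveI := Fact.mk hM.1
  obtain ⟨n, β, hβ, h0, hs, hc⟩ := hF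
  have h1 := card_mul_le hM hu hH (α := fun i => al p φ (β i)) (fun i => gen_al hM hφ (hβ i) (h0 i))
    (fun i _ => al_of_dvd _) S fun χ hχ => by
      by_contra hne
      push Not at hne
      have hf := CA.H11Sec.inSpan_sp (u := u) hM (isSat_of_isPBlock hM
        (isPBlock_principalBlock (M := M) (G := H))) χ.1
      rw [CA.H11Prin.sp_principal hM hu hH (CA.H13Span.inSpan_irr (hS χ hχ).1)] at hf
      have hv : ∀ g, p ∣ orderOf g → pRegularPart p (tr H u χ.1) g = 0 := fun g => pReg_of_dvd _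
      have h2 : ∀ i, classInner (pRegularPart p (tr H u χ.1)) (fun g => β i (φ g)) = 0 := fun i => by
        have := hne i
        rw [← inner_pReg_left_of_vanish _ fun g => al_of_dvd _, inner_al_right hv] at this
        exact (mul_eq_zero.1 this).resolve_left (Nat.cast_ne_zero.2 Nat.card_pos.ne')
      have h3 := apply_one_eq_zero (φ := φ) hM.1 hN hv fun ψ => by
        by_cases hψ : ψ ∈ principalBlock M Q
        · obtain ⟨a, ha⟩ := hs ψ hψ
          have : pRegularPart p (fun g => ψ.1 (φ g)) =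
              pRegularPart p (∑ i, a i • fun g => β i (φ g)) := by
            funext g
            by_cases hg : p ∣ orderOf g
            · rw [pReg_of_dvd _ hg, pReg_of_dvd _ hg]
            · rw [pReg_of_not_dvd _ hg, pReg_of_not_dvd _ hg,
                ha _ fun e => hg (e.trans (orderOf_map_dvd φ g))]
              simp
          rw [← inner_pReg_right_of_vanish hv, this, inner_pReg_right_of_vanish hv, ci_sum_right]
          exact Finset.sum_eq_zero fun i _ => by rw [ci_smul_right, h2, mul_zero]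
        · exact hf.2 (infl hφ ψ) (mt (infl_mem_principal_iff_of_regular hφ hM hN h).1 hψ)
      rw [pReg_of_not_dvd _ (by rw [orderOf_one]; exact hM.1.one_lt.ne' ∘ Nat.dvd_one.1)] at h3
      exact (hS χ hχ).2 (by simpa [tr] using h3)
  simp only [← map_sub] at h1
  have e : ∀ γ : Q → ℂ, (∀ y, p ∣ orderOf y → γ y = 0) →
      (classInner (al p φ γ) (al p φ γ)).re = Nat.card φ.ker * (classInner γ γ).re := fun γ hγ => by
    rw [inner_al hM.1 hφ hN h hγ, ← Complex.ofReal_natCast, Complex.re_ofReal_mul]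
  have e2 := fun i j => e (β i - β j) fun y hy => by rw [Pi.sub_apply, h0 i y hy, h0 j y hy, sub_zero]
  simp only [e _ (h0 _), e2, ← Finset.mul_sum, Fintype.card_fin] at h1
  have h4 : (S.card : ℝ) * (2 * (n + 1)) ≤ (Nat.card φ.ker * c) * (2 * (n + 1)) := by
    have := mul_le_mul_of_nonneg_left hc (Nat.cast_nonneg (α := ℝ) (Nat.card φ.ker))
    push_cast at h1
    linarith
  exact_mod_cast le_of_mul_le_mul_right h4 (by positivity)

end sub

section fam
variable {Q : Type*} [Group Q] [Fintype Q]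

theorem fam_of_not_dvd (hM : IsPModular p M) (h : ¬ p ∣ Nat.card Q) : Fam p M Q 1 := by
  refine ⟨0, fun _ _ => 1, fun _ => gen_of_irr irr_one,
    fun _ y hy => absurd (hy.trans (orderOf_dvd_natCard y)) h, fun ψ hψ => ⟨fun _ => 1, fun y _ => ?_⟩,
    ?_⟩
  · have := CA.H13Prin.le_charKer_of_mem hM hψ ⊤ (by rwa [card_top])
    simp [(CChar.CharKer.charKer_eq_top_iff ψ.2).1 (top_le_iff.1 this)]
  · simp [inner_irr_self (G := Q) irr_one, ci_zero_right]

theorem fam_of_not_sq_dvd (hM : IsPModular p M) (h1 : p ∣ Nat.card Q) (h2 : ¬ p ^ 2 ∣ Nat.card Q) :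
    Fam p M Q p := by
  classical
  haveI := Fact.mk hM.1
  obtain ⟨x, hx⟩ := CA.H28Syl.exists_isSylGen h1 h2
  obtain ⟨d⟩ := CA.H28Prin.exists_P1 hx
  obtain ⟨n, hn⟩ : ∃ n, d.X.card = n + 1 :=
    Nat.exists_eq_succ_of_ne_zero (d.card_X ▸ (CA.H28Syl.ee_pos hx.ord).ne')
  set m := d.Y.card with hm
  have hp : (n + 1) * m + 1 = p := by
    rw [hm, d.card_Y, ← hn, d.card_X, Nat.mul_div_cancel' (CA.H28Syl.ee_dvd hx.ord)]
    exact Nat.sub_add_cancel hM.1.one_le
  have hp0 : (p : ℂ) ≠ 0 := Nat.cast_ne_zero.2 hM.1.ne_zero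
  let e := (Finset.equivFinOfCardEq hn).symm
  have hε : ∀ i, (d.ε (e i) : ℂ) * d.ε (e i) = 1 := fun i => by
    rcases d.hε _ (e i).2 with h | h <;> simp [h]
  have hδ : (d.δ : ℂ) * d.δ = 1 := by rcases d.hδ with h | h <;> simp [h]
  set T : Q → ℂ := (d.δ : ℂ) • ∑ ψ ∈ d.Y, ψ.1 with hT
  set A : Fin (n + 1) → Q → ℂ := fun i => (d.ε (e i) : ℂ) • (e i).1.1 with hA
  have hAA : ∀ i j, classInner (A i) (A j) = if i = j then 1 else 0 := fun i j => by
    rw [hA, ci_smul_left, ci_smul_right, map_intCast]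
    split_ifs with hij
    · rw [hij, inner_irr_self (e j).1.2, mul_one, hε]
    · rw [inner_irr_of_ne (e i).1.2 (e j).1.2 fun h =>
        hij (e.injective (Subtype.ext (Subtype.ext h))), mul_zero, mul_zero]
  have hAT : ∀ i, classInner (A i) T = 0 := fun i => by
    rw [hA, hT, ci_smul_left, ci_smul_right, ci_sum_right, Finset.sum_eq_zero, mul_zero, mul_zero]
    exact fun ψ hψ => inner_irr_of_ne (e i).1.2 ψ.2 fun h =>
      Finset.disjoint_left.1 d.disj (e i).2 (Subtype.ext h ▸ hψ)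
  have hTA : ∀ i, classInner T (A i) = 0 := fun i => by rw [← ci_conj_symm, hAT, map_zero]
  have hTT : classInner T T = m := by
    rw [hT, ci_smul_left, ci_smul_right, map_intCast, ← mul_assoc, hδ, one_mul, ci_sum_left, hm,
      Finset.card_eq_sum_ones, Nat.cast_sum]
    refine Finset.sum_congr rfl fun ψ hψ => ?_
    rw [ci_sum_right, Finset.sum_eq_single_of_mem ψ hψ fun χ _ h =>
      inner_irr_of_ne ψ.2 χ.2 fun h' => h (Subtype.ext h').symm, inner_irr_self ψ.2, Nat.cast_one]
  have hs : ∀ ψ ∈ d.Y, ∀ y, ¬ p ∣ orderOf y → (d.δ : ℂ) * ψ.1 y = ∑ i, A i y := fun ψ hψ y hy => by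
    rw [d.rel ψ hψ y hy, ← Finset.sum_coe_sort, ← e.sum_comp]; rfl
  have hTs : ∀ y, ¬ p ∣ orderOf y → T y = m * ∑ i, A i y := fun y hy => by
    rw [hT, Pi.smul_apply, Finset.sum_apply, smul_eq_mul, Finset.mul_sum,
      Finset.sum_congr rfl fun ψ hψ => hs ψ hψ y hy, Finset.sum_const, nsmul_eq_mul]
  have hS : ∀ y, ¬ p ∣ orderOf y → ∑ i, A i y = ∑ i, (p : ℂ)⁻¹ * (A i + T) y := fun y hy => by
    rw [← Finset.mul_sum, eq_inv_mul_iff_mul_eq₀ hp0]
    simp only [Pi.add_apply, Finset.sum_add_distrib, Finset.sum_const, Finset.card_univ,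
      Fintype.card_fin, nsmul_eq_mul, hTs y hy, ← hp]
    push_cast; ring
  refine ⟨n, fun i => A i + T, fun i => gen_add (gen_intCast_smul _ (gen_of_irr (e i).1.2))
    (gen_intCast_smul _ (gen_sum _ fun ψ _ => gen_of_irr ψ.2)), fun i y hy => ?_, fun ψ hψ => ?_, ?_⟩
  · change (d.ε (e i) : ℂ) * (e i).1.1 y + d.δ * (∑ ψ ∈ d.Y, ψ.1) y = 0
    rw [Finset.sum_apply, d.sum_Y' hx hy, d.valX' hx (e i).2 hy, hε, mul_neg, hδ, add_neg_cancel]
  · rcases (d.mem_block hM hx).1 hψ with h | h
    · obtain ⟨i, hi⟩ := e.surjective ⟨ψ, h⟩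
      refine ⟨fun j => d.ε (e i) * ((if j = i then 1 else 0) - m * (p : ℂ)⁻¹), fun y hy => ?_⟩
      simp only [mul_assoc, ← Finset.mul_sum, sub_mul, Finset.sum_sub_distrib, ite_mul, one_mul,
        zero_mul, Finset.sum_ite_eq', Finset.mem_univ, if_true]
      rw [Finset.mul_sum, ← hS y hy, ← hTs y hy, Pi.add_apply, add_sub_cancel_right]
      change _ = _ * ((d.ε (e i) : ℂ) * (e i).1.1 y)
      rw [← mul_assoc, hε, one_mul, hi]
    · refine ⟨fun _ => d.δ * (p : ℂ)⁻¹, fun y hy => ?_⟩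
      simp only [mul_assoc]
      rw [← Finset.mul_sum, ← hS y hy, ← hs ψ h y hy, ← mul_assoc, hδ, one_mul]
  · have e1 : ∀ i, (classInner (A i + T) (A i + T)).re = 1 + m := fun i => by
      rw [ci_add_left, ci_add_right, ci_add_right, hAA, hAT, hTA, hTT]; simp
    have e2 : ∀ i j, (classInner (A i + T - (A j + T)) (A i + T - (A j + T))).re =
        2 - if i = j then 2 else 0 := fun i j => by
      rw [add_sub_add_right_eq_sub, ci_sub_left, ci_sub_right, ci_sub_right, hAA, hAA, hAA, hAA]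
      by_cases hij : i = j
      · simp [hij]
      · simp [hij, Ne.symm hij]; norm_num
    have hm1 : (1 : ℝ) ≤ m := by exact_mod_cast d.Y_nonempty.card_pos
    simp only [e1, e2, Finset.sum_sub_distrib, Finset.sum_ite_eq, Finset.mem_univ, if_true,
      Finset.sum_const, Finset.card_univ, Fintype.card_fin, nsmul_eq_mul, ← hp]
    push_cast
    nlinarith [mul_nonneg (mul_nonneg (Nat.cast_nonneg (α := ℝ) n) (sub_nonneg.2 hm1))
      (by positivity : (0 : ℝ) ≤ n + 1)]

end fam

/-- A `p`-element `u` whose centralizer has `p`-part dividing `p |u|`. -/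
theorem card_le_of_pElt (hM : IsPModular p M) {u : G} {k : ℕ} (hu : orderOf u = p ^ k)
    (hk : (Nat.card (centralizer ({u} : Set G))).factorization p ≤ k + 1)
    (S : Finset (IrrCharacter G)) (hS : ∀ χ ∈ S, χ ∈ principalBlock M G ∧ χ.1 u ≠ 0) :
    S.card ≤ p ^ (Nat.card (centralizer ({u} : Set G))).factorization p := by
  classical
  haveI := Fact.mk hM.1
  set H := centralizer ({u} : Set G) with hH
  have := Fintype.ofFinite H
  let z : H := ⟨u, self_mem_of_eq hH⟩
  have hz : zpowers z ≤ center H := zpowers_le_of_mem (mem_center_of_le hH.le _)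
  haveI : (zpowers z).Normal := ⟨fun a ha g => by
    rwa [mem_center_iff.1 (hz ha) g, mul_inv_cancel_right]⟩
  have := Fintype.ofFinite (H ⧸ zpowers z)
  have hc : Nat.card (zpowers z) = p ^ k := by rw [Nat.card_zpowers, ← orderOf_coe, hu]
  have hq : (Nat.card H).factorization p = (Nat.card (H ⧸ zpowers z)).factorization p + k := by
    rw [card_eq_card_quotient_mul_card_subgroup (zpowers z), hc,
      Nat.factorization_mul Nat.card_pos.ne' (pow_ne_zero _ hM.1.ne_zero), Finsupp.add_apply,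
      Nat.Prime.factorization_pow hM.1, Finsupp.single_eq_same]
  have key : ∀ c, Fam p M (H ⧸ zpowers z) c → S.card ≤ p ^ k * c := fun c hF => by
    have := card_le_of_fam hM ⟨k, hu⟩ hH (QuotientGroup.mk'_surjective (zpowers z))
      (by rw [QuotientGroup.ker_mk']; exact IsPGroup.of_card hc)
      (fun g _ => by rw [QuotientGroup.ker_mk']; exact fun y hy => (mem_center_iff.1 (hz hy) g).symm)
      hF S hS
    rwa [QuotientGroup.ker_mk', hc] at this
  by_cases h1 : p ∣ Nat.card (H ⧸ zpowers z)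
  · have h2 := (hM.1.dvd_iff_one_le_factorization Nat.card_pos.ne').1 h1
    refine (key _ (fam_of_not_sq_dvd hM h1 fun h3 => ?_)).trans ?_
    · have := (hM.1.pow_dvd_iff_le_factorization Nat.card_pos.ne').1 h3
      omega
    · rw [← pow_succ]; exact Nat.pow_le_pow_right hM.1.pos (by omega)
  · refine (key _ (fam_of_not_dvd hM h1)).trans ?_
    rw [mul_one]; exact Nat.pow_le_pow_right hM.1.pos (by omega)

end CA.BlkLift
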