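import Cfsg.Agent.Lib.Block.H12DC2
import Cfsg.Agent.Lib.Block.H11Fus
import Cfsg.Agent.Lib.Block.BlkDom

/-!
# Blocks with a normal defect group: fusion and nilpotency; images of blocks of subgroups
-/

set_option autoImplicit false
set_option linter.unusedSectionVars false

namespace CA.BlkND

open Cfsg MonoidAlgebra CA.BlkAlg CA.H11Loc CA.SylIn CA.H11Amb CA.H11Def CA.H11Pair CA.H11Max
  CA.H11Map CA.H12Fong CA.H12FR Subgroup

section amb
variable {k : Type*} [Field k] [IsAlgClosed k] {G : Type*} [Group G] [Finite G] {p : ℕ}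
  [Fact p.Prime] {H D Q : Subgroup G} {b e e' f : k[G]}

/-- Two pairs at a normal `p`-subgroup `D` containing `(Q, f)` are conjugate under `C(Q)`. -/
theorem conj_of_sub (hp : (p : k) = 0) (hN : H ≤ NN D) (he : Pr p H D e) (he' : Pr p H D e')
    (h : Sub p H Q f D e) (h' : Sub p H Q f D e') : ∃ c ∈ H ⊓ CC Q, e' = cjA c e := by
  obtain ⟨F, h1, h2, h3, h4, h5⟩ := exists_orbit_sum (inf_CC_anti h.le)
    (le_NN_inf_CC inf_le_left (inf_le_left.trans hN)) he.blk
  have hs : F ∈ Supp k (CC D) := supp_mono inf_le_right (mem_ZA.1 h2).1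
  have hb : br D F = F := br_eq_self_iff.2 hs
  have hH : F ∈ Supp k H := supp_mono inf_le_left (mem_ZA.1 h2).1
  have a1 := (h.br_iff hp h3 hH (mem_fixed_of_supp_CC hs) (mem_ZA.1 h1).2).1 (by rw [hb, h4])
  have a2 := (h'.br_iff hp h3 hH (mem_fixed_of_supp_CC hs) (mem_ZA.1 h1).2).2 a1
  rw [hb] at a2
  exact h5 e' he'.blk (by rw [a2]; exact he'.blk.ne)

/-- With a normal defect group the stabilizer of the maximal pair controls fusion. -/
theorem exists_mul_of_normal (hp : (p : k) = 0) (hN : H ≤ NN D) (he : Pr p H D e)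
    (h : Sub p H Q f D e) {x : G} (hx : x ∈ St H Q f) :
    ∃ c ∈ H ⊓ CC Q, ∃ y ∈ St H D e, x = c * y := by
  obtain ⟨h1, h2, h3⟩ := mem_St.1 hx
  have h4 := h.conj_of_mem h1
  have h5 := he.conj_of_mem h1
  rw [conj_eq_of_mem_normalizer h2, h3, conj_eq_of_mem_normalizer (hN h1)] at h4
  rw [conj_eq_of_mem_normalizer (hN h1)] at h5
  obtain ⟨c, hc, h6⟩ := conj_of_sub hp hN he h5 h h4
  have h7 : c⁻¹ * x ∈ H := H.mul_mem (H.inv_mem hc.1) h1
  refine ⟨c, hc, c⁻¹ * x, mem_St.2 ⟨h7, hN h7, ?_⟩, by group⟩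
  rw [cjA_mul_apply, h6, cjA_inv_cjA]

theorem St_le_of_regular (hp : (p : k) = 0) (h : Mx p H b D e)
    (hr : ∀ x ∈ St H D e, ¬ p ∣ orderOf x → x ∈ CC D) : St H D e ≤ D ⊔ CC D := fun x hx => by
  have hpp : p.Prime := Fact.out
  rw [← H12PPart.pPart_mul_pReg p x]
  refine mul_mem ?_ (mem_sup_right (hr _ (H12PPart.pReg_mem hpp hx)
    (H12PPart.not_dvd_orderOf_pReg hpp x)))
  obtain ⟨n, h1⟩ := H12PPart.orderOf_pPart hpp x
  exact (sup_le_sup_left inf_le_right D) (h.le_sup hp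
    (IsPGroup.of_card (by rw [Nat.card_zpowers, h1]))
    (zpowers_le.2 (H12PPart.pPart_mem hpp hx)) (mem_zpowers _))

/-- With a normal defect group, nilpotency means trivial inertial quotient. -/
theorem nil_iff (hp : (p : k) = 0) (hN : H ≤ NN D) (h : Mx p H b D e) :
    Nil p H b ↔ St H D e ≤ D ⊔ CC D := by
  refine ⟨fun hn => St_le_of_regular hp h (hn D e h.pr h.of), fun hn => ?_⟩
  refine h.nil_of_sub hp fun Q f hs x hx hr => ?_
  obtain ⟨c, hc, y, hy, rfl⟩ := exists_mul_of_normal hp hN h.pr hs hx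
  obtain ⟨c', hc', d, hd, rfl⟩ := (Coprime.mem_sup_iff' (le_normalizer.trans
    (normalizer_le_normalizer_centralizer D))).1 (hn hy)
  have h1 : c * c' ∈ CC Q := mul_mem hc.2 (CC_anti hs.le hc')
  have h2 : d ∈ NN Q := by
    have := mul_mem (inv_mem (CC_le_NN Q h1)) (St_le_NN hx)
    rwa [← mul_assoc c, inv_mul_cancel_left] at this
  obtain ⟨n, hn⟩ := h.pr.pg ⟨d, hd⟩
  have h4 := mul_pow_mul_inv_mem h1 (normalizer_le_normalizer_centralizer Q h2) (p ^ n)
  rw [show d ^ p ^ n = 1 from congrArg Subtype.val hn, inv_one, mul_one, mul_assoc] at h4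
  exact mem_of_pow_p_pow_mem Fact.out hr h4

end amb

section bridge
open CA.BlkVal CA.BlkOmega CA.BlkRed CA.BlkDefect CA.H11Brg CA.H12Brg CA.H12Cover CA.H12DC2
  CA.BlkQuo
open CA.BlkCore hiding lam lam_mul lam_one

variable {p : ℕ} [Fact p.Prime] {M : Ideal AlgInt} {G Q : Type*} [Group G] [Group Q] [Finite G]
  [Finite Q]

theorem mp_ab (φ : G →* Q) (H : Subgroup G) (c : Set (IrrCharacter H)) :
    mp φ (ab M H c) = emb (H.map φ) (mp (φ.subgroupMap H) (eB M c)) := by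
  rw [ab_eq_mp, mp_mp, emb_eq_mp, mp_mp]; rfl

/-- The image of a block of a subgroup whose `p`-regular elements centralize the kernel. -/
theorem blk_mp (hM : IsPModular p M) (φ : G →* Q) {H : Subgroup G}
    (hK : IsPGroup p (φ.ker ⊓ H : Subgroup G))
    (hr : ∀ g ∈ H, ¬ p ∣ orderOf g → g ∈ CC (φ.ker ⊓ H)) {e : (k M)[G]} (he : Blk H e) :
    Blk (H.map φ) (mp φ e) := by
  obtain ⟨c, hc, rfl⟩ := exists_ab hM he
  have hs := φ.subgroupMap_surjective H
  have hk : (φ.subgroupMap H).ker = (φ.ker ⊓ H).subgroupOf H := by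
    ext x
    rw [MonoidHom.mem_ker, mem_subgroupOf, Subtype.ext_iff]
    exact ⟨fun h => ⟨h, x.2⟩, fun h => h.1⟩
  rw [mp_ab, mp_eB hs (isSat_of_isPBlock hM hc)]
  refine blk_ab hM (isPBlock_preimage_of_regular hs hM (hk ▸ isPGroup_subgroupOf hK H)
    (fun g hg => ?_) hc)
  rw [hk]
  exact fun x hx => Subtype.ext (hr g g.2 (by rwa [orderOf_coe]) x hx)

theorem exists_blk_mp_mul (hM : IsPModular p M) (φ : G →* Q) (H : Subgroup G) {x : (k M)[Q]}
    (hx : x ≠ 0) : ∃ e, Blk H e ∧ mp φ e * x ≠ 0 := by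
  by_contra hc
  push Not at hc
  apply hx
  have h1 : (1 : (k M)[Q]) = ∑ c ∈ blocks M H, mp φ (ab M H c) := by
    simp only [ab_eq_mp, ← map_sum, sum_eB_blocks hM, map_one]
  rw [← one_mul x, h1, Finset.sum_mul]
  exact Finset.sum_eq_zero fun c hc' => hc _ (blk_ab hM (mem_blocks.1 hc'))

variable {B : Set (IrrCharacter G)} {D : Subgroup G} [hD : D.Normal]

theorem eB_mem_ZA (hM : IsPModular p M) (hB : IsPBlock M B) (hp : IsPGroup p D) :
    eB M B ∈ ZA (k M) (⊤ ⊓ CC D) := by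
  have h := (blk_eB hM hB).br_eq_self (p_eq_zero hM) hp le_top (NN_top_of_normal D)
  rw [← h]
  exact br_mem_ZA_C (blk_eB hM hB).mem

/-- A block of `C(D)` covered by `B` gives a maximal pair. -/
theorem mx_of_mul (hM : IsPModular p M) (hB : IsPBlock M B) (h : IsDefectGroup p M B D)
    {e : (k M)[G]} (he : Blk (CC D) e) (h0 : eB M B * e ≠ 0) : Mx p ⊤ (eB M B) D e := by
  have hd := (isDefectGroup_iff_top hM hB).1 h
  have he' : Blk (⊤ ⊓ CC D) e := by rwa [top_inf_eq]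
  refine ⟨blk_eB hM hB, ⟨le_top, hd.pg, he'⟩, ?_, hd⟩
  rw [(blk_eB hM hB).br_eq_self (p_eq_zero hM) hd.pg le_top (NN_top_of_normal D)]
  exact he'.mul_eq_self_of_ne (eB_mem_ZA hM hB hd.pg) (eB_mul_self hM hB) h0

/-- A block of `D C(D)` covered by `B` gives a maximal pair. -/
theorem mx_of_cov (hM : IsPModular p M) (hB : IsPBlock M B) (h : IsDefectGroup p M B D)
    {b : Set (IrrCharacter (D ⊔ CC D : Subgroup G))} (hb : IsPBlock M b) (hc : Cov _ B b) :
    Mx p ⊤ (eB M B) D (ab M _ b) := by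
  have := Fintype.ofFinite (D ⊔ CC D : Subgroup G)
  have hp := isPGroup_of_isDefectGroup h
  have he := blk_ab hM hb
  refine mx_of_mul hM hB h (Blk.of_sup_CC le_sup_right (sup_comm D _).le le_rfl he ?_)
    ((cov_iff_ab hM hB hb).1 (cov_iff.1 hc))
  exact br_eq_self_iff.1 (he.br_eq_self (p_eq_zero hM) hp le_sup_left
    (le_top.trans (NN_top_of_normal D)))

end bridge

end CA.BlkND
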