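import Cfsg.Agent.Lib.Block.H10Sym

/-!
# Linear algebra for symmetric local algebras with five-dimensional centre
-/

set_option autoImplicit false
set_option linter.unusedSectionVars false

namespace CA.H10Five1
open Module Submodule

variable {F M V : Type*} [Field F] [AddCommGroup M] [Module F M] [FiniteDimensional F M]
  [AddCommGroup V] [Module F V] [FiniteDimensional F V] {U W : Submodule F M} {n : ℕ}

theorem ex_one (h : U ≤ W) (h1 : finrank F W ≤ finrank F U + 1) :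
    ∃ a ∈ W, W ≤ span F {a} ⊔ U := by
  by_cases e : W ≤ U
  · exact ⟨0, zero_mem _, e.trans le_sup_right⟩
  obtain ⟨t, ht, ht'⟩ := SetLike.not_le_iff_exists.1 e
  have := finrank_lt_finrank_of_lt (lt_of_le_of_ne (le_sup_right : U ≤ span F {t} ⊔ U) fun h6 =>
    ht' (h6.ge (mem_sup_left (mem_span_singleton_self t))))
  exact ⟨t, ht, (eq_of_le_of_finrank_le (sup_le ((span_singleton_le_iff_mem _ _).2 ht) h)
    (by omega)).ge⟩

theorem rk_sup (U : Submodule F M) (f : V →ₗ[F] M) :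
    finrank F (LinearMap.range f ⊔ U : Submodule F M) + finrank F (U.comap f) =
      finrank F U + finrank F V := by
  have h1 := (U.mkQ ∘ₗ f).finrank_range_add_finrank_ker
  have h2 := (U.mkQ.domRestrict (LinearMap.range f ⊔ U)).finrank_range_add_finrank_ker
  rw [LinearMap.range_domRestrict, LinearMap.ker_domRestrict, ker_mkQ, Submodule.map_sup,
    mkQ_map_self, sup_bot_eq, ← LinearMap.range_comp,
    (comapSubtypeEquivOfLe le_sup_right).finrank_eq] at h2
  rw [LinearMap.ker_comp, ker_mkQ] at h1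
  omega

theorem ex_rel (h : U ≤ W) (h1 : finrank F W ≤ finrank F U + n) (f : V →ₗ[F] M)
    (hf : ∀ v, f v ∈ W) (h2 : n < finrank F V) : ∃ v ≠ 0, f v ∈ U := by
  have h3 := rk_sup U f
  have h4 := finrank_mono (sup_le (LinearMap.range_le_iff_comap.2 (eq_top_iff.2 fun v _ => hf v)) h)
  obtain ⟨v, h5, h6⟩ := (U.comap f).ne_bot_iff.1 fun e => by rw [e, finrank_bot] at h3; omega
  exact ⟨v, h6, h5⟩

theorem le_of_inj (h : U ≤ W) (h1 : finrank F W ≤ finrank F U + finrank F V) (f : V →ₗ[F] M)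
    (hf : ∀ v, f v ∈ W) (h2 : ∀ v, f v ∈ U → v = 0) : W ≤ LinearMap.range f ⊔ U := by
  have h3 := rk_sup U f
  rw [(U.comap f).eq_bot_iff.2 h2, finrank_bot] at h3
  exact (eq_of_le_of_finrank_le (sup_le (LinearMap.range_le_iff_comap.2
    (eq_top_iff.2 fun v _ => hf v)) h) (by omega)).ge

theorem rel3 (h : U ≤ W) (h1 : finrank F W ≤ finrank F U + 2) {x y z : M} (hx : x ∈ W)
    (hy : y ∈ W) (hz : z ∈ W) :
    ∃ α β γ : F, ¬ (α = 0 ∧ β = 0 ∧ γ = 0) ∧ α • x + β • y + γ • z ∈ U := by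
  obtain ⟨v, h2, h3⟩ := ex_rel h h1 (Fintype.linearCombination F ![x, y, z]) (fun v => by
    rw [Fintype.linearCombination_apply, Fin.sum_univ_three]
    exact add_mem (add_mem (smul_mem _ _ hx) (smul_mem _ _ hy)) (smul_mem _ _ hz)) (by simp)
  rw [Fintype.linearCombination_apply, Fin.sum_univ_three] at h3
  exact ⟨v 0, v 1, v 2, fun e => h2 (funext fun i => by fin_cases i <;> simp [e]), h3⟩

theorem rk_range {ι : Type*} [Fintype ι] (f : ι → M) (U : Submodule F M) :
    finrank F (span F (Set.range f) ⊔ U : Submodule F M) ≤ finrank F U + Fintype.card ι := by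
  have := finrank_add_le_finrank_add_finrank (span F (Set.range f)) U
  have h := finrank_range_le_card (R := F) f
  rw [Set.finrank] at h
  omega

theorem two_one {x y : M} {α β : F} (h : ¬ (α = 0 ∧ β = 0)) (h1 : α • x + β • y ∈ U) :
    ∃ t, x ∈ span F {t} ⊔ U ∧ y ∈ span F {t} ⊔ U := by
  have key : ∀ {x y : M} {α β : F}, α ≠ 0 → α • x + β • y ∈ U → x ∈ span F {y} ⊔ U :=
    fun {x y α β} h h1 => by
      simpa [h] using smul_mem _ α⁻¹ (sub_mem (mem_sup_right h1)
        (mem_sup_left (smul_mem _ β (mem_span_singleton_self y))))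
  rcases not_and_or.1 h with h | h
  · exact ⟨y, key h h1, mem_sup_left (mem_span_singleton_self y)⟩
  · exact ⟨x, mem_sup_left (mem_span_singleton_self x), key h (add_comm (α • x) _ ▸ h1)⟩

theorem pencil [IsAlgClosed F] [Nontrivial V] (h : U ≤ W)
    (h1 : finrank F W ≤ finrank F U + finrank F V) (f g : V →ₗ[F] M) (hf : ∀ v, f v ∈ W)
    (hg : ∀ v, g v ∈ W) : ∃ α β : F, ¬ (α = 0 ∧ β = 0) ∧ ∃ v ≠ 0, α • f v + β • g v ∈ U := by
  by_cases h2 : ∀ v, f v ∈ U → v = 0
  swap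
  · push Not at h2
    obtain ⟨v, h3, h4⟩ := h2
    exact ⟨1, 0, by simp, v, h4, by simpa using h3⟩
  obtain ⟨l, hl⟩ := (U.mkQ ∘ₗ f).exists_leftInverse_of_injective
    (by rw [LinearMap.ker_comp, ker_mkQ]; exact (U.comap f).eq_bot_iff.2 h2)
  obtain ⟨c, hc⟩ := End.exists_eigenvalue (l ∘ₗ U.mkQ ∘ₗ g)
  obtain ⟨v, hv⟩ := hc.exists_hasEigenvector
  obtain ⟨_, ⟨w, rfl⟩, u, hu, e⟩ := mem_sup.1 (le_of_inj h h1 f hf h2 (hg v))
  have h3 := hv.apply_eq_smul
  have h4 := LinearMap.congr_fun hl w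
  simp only [LinearMap.comp_apply, LinearMap.id_apply] at h3 h4
  rw [← e, map_add, mkQ_apply U u, (Quotient.mk_eq_zero U).2 hu, add_zero, h4] at h3
  exact ⟨-c, 1, by simp, v, hv.2, by simpa [← e, h3] using hu⟩

theorem dens [Infinite F] {A B C : F} (h : ∀ t ≠ 0, A + B * t + C * t ^ 2 = 0) : A = 0 := by
  have := Polynomial.eq_zero_of_infinite_isRoot
    (Polynomial.C A + Polynomial.C B * Polynomial.X + Polynomial.C C * Polynomial.X ^ 2)
    ((Set.finite_singleton (0 : F)).infinite_compl.mono fun t ht => by simpa using h t ht)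
  simpa using congrArg (Polynomial.eval 0) this

theorem ex_char [IsAlgClosed F] (h3 : finrank F V = 3) (T : V →ₗ[F] V →ₗ[F] V) (y : V)
    (h1 : ∀ v, T y v = v) (hi : ∀ a, ∃ v, T v y = a)
    (ha : ∀ x v w, T (T x v) w = T (T x y) (T v w)) :
    ∃ c : V →ₗ[F] F, c y = 1 ∧ ∀ x v, c (T x v) = c (T x y) * c v := by
  haveI : Nontrivial V := nontrivial_of_finrank_pos (R := F) (by omega)
  suffices ∃ (φ : V →ₗ[F] F) (v : V), φ v = 1 ∧
      ∀ a b, φ (T a (T b v)) = φ (T a v) * φ (T b v) by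
    obtain ⟨φ, v, h4, h5⟩ := this
    exact ⟨φ ∘ₗ T.flip v, by simp [h1, h4], fun x w => by simp [ha x w v, h5]⟩
  obtain ⟨x, hx⟩ : ∃ x, x ∉ span F {y} := by
    by_contra! e
    have := finrank_span_le_card (R := F) ({y} : Set V)
    rw [eq_top_iff'.2 e, finrank_top] at this
    simp at this
    omega
  obtain ⟨c, hc⟩ := End.exists_eigenvalue (T x)
  obtain ⟨u, hu⟩ := hc.exists_hasEigenvector
  have h4 := (T.flip u).finrank_range_add_finrank_ker
  have h5 : 0 < finrank F (LinearMap.ker (T.flip u)) := finrank_pos_iff.2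
    (nontrivial_iff_ne_bot.2 ((Submodule.ne_bot_iff _).2 ⟨x - c • y, by simp [h1, hu.apply_eq_smul],
      fun e => hx (mem_span_singleton.2 ⟨c, (sub_eq_zero.1 e).symm⟩)⟩))
  have h6 : ∀ a, ∀ w ∈ LinearMap.range (T.flip u), T a w ∈ LinearMap.range (T.flip u) := by
    rintro a _ ⟨b, rfl⟩
    obtain ⟨a, rfl⟩ := hi a
    exact ⟨T a b, ha a b u⟩
  by_cases h7 : finrank F (LinearMap.range (T.flip u)) ≤ 1
  · have h8 := (eq_of_le_of_finrank_le ((span_singleton_le_iff_mem u
      (LinearMap.range (T.flip u))).2 ⟨y, h1 u⟩) (by rwa [finrank_span_singleton hu.2])).ge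
    obtain ⟨φ, h9⟩ := Projective.exists_dual_eq_one F hu.2
    refine ⟨φ, u, h9, fun a b => ?_⟩
    obtain ⟨d, hd⟩ := mem_span_singleton.1 (h8 ⟨b, rfl⟩)
    rw [LinearMap.flip_apply] at hd
    simp [← hd, h9, mul_comm]
  obtain ⟨φ, h8, h9⟩ := exists_dual_map_eq_bot_of_lt_top (p := LinearMap.range (T.flip u))
    (lt_top_iff_ne_top.2 fun e => by rw [e, finrank_top] at h4; omega) inferInstance
  have h10 := finrank_lt (LinearMap.ker_eq_top.not.2 h8)
  have h11 := eq_of_le_of_finrank_le (LinearMap.le_ker_iff_map.2 h9) (by omega)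
  obtain ⟨v, hv⟩ := LinearMap.surjective h8 1
  refine ⟨φ, v, hv, fun a b => ?_⟩
  have := h11.le (h6 a _ (h11.ge (show T b v - φ (T b v) • v ∈ LinearMap.ker φ by simp [hv])))
  simpa [sub_eq_zero, mul_comm] using this

/-- A twisted three-dimensional algebra is not spanned by its twisted commutators. -/
theorem gen [IsAlgClosed F] (h3 : finrank F V = 3) (T : V →ₗ[F] V →ₗ[F] V) (y : V)
    (h1 : ∀ v, T y v = v) (hi : ∀ v, T v y = 0 → v = 0)
    (ha : ∀ x v w, T (T x v) w = T (T x y) (T v w))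
    (s1 : ∀ c : V →ₗ[F] F, (∀ x v, c (T x v) = c (T v x)) → c = 0)
    (s2 : ∀ c : V →ₗ[F] F, (∀ x v, c (T (T x y) v) = c (T v x)) → c = 0) : False := by
  let σ := LinearEquiv.ofInjectiveEndo (T.flip y) ((injective_iff_map_eq_zero _).2 hi)
  have hσ : ∀ x, T x y = σ x := fun _ => rfl
  let P : (V →ₗ[F] F) → Prop := fun c => c y = 1 ∧ ∀ x v, c (T x v) = c (σ x) * c v
  obtain ⟨c, hc⟩ : ∃ c, P c := ex_char h3 T y h1 σ.surjective ha
  have hy : σ y = y := h1 y
  have hP : ∀ c, P c → P (c ∘ₗ σ.toLinearMap) := fun c h =>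
    ⟨by simp [hy, h.1], fun x v => by
      simp only [LinearMap.comp_apply, LinearEquiv.coe_coe]
      rw [← hσ (T x v), ha, h.2, hσ, hσ]⟩
  have ind : ∀ {n} (f : Fin n → V →ₗ[F] F), (∀ i, P (f i)) → Function.Injective f →
      LinearIndependent F f := fun f h h' => by
    letI : MulOneClass V :=
      { mul := fun u v => T (σ.symm u) v, one := y
        one_mul := fun v => by
          change T (σ.symm y) v = v
          rw [σ.symm_apply_eq.2 hy.symm, h1]
        mul_one := fun v => σ.apply_symm_apply v }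
    let g : _ → V →* F := fun i => ⟨⟨f i, (h i).1⟩, fun u v => by
      change f i (T (σ.symm u) v) = _
      rw [(h i).2, σ.apply_symm_apply]⟩
    exact .of_comp (LinearMap.ltoFun F V F F) ((linearIndependent_monoidHom V F).comp g
      fun i j e => h' (LinearMap.ext fun v => DFunLike.congr_fun e v))
  have n1 : ∀ c, P c → c ≠ c ∘ₗ σ.toLinearMap := fun c h e => by
    have e' : ∀ x, c (σ x) = c x := fun x => (LinearMap.congr_fun e x).symm
    simpa [h.1] using LinearMap.congr_fun (s1 c fun x v => by rw [h.2, h.2, e', e', mul_comm]) y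
  have n2 : ∀ c, P c → c ≠ (c ∘ₗ σ.toLinearMap) ∘ₗ σ.toLinearMap := fun c h e => by
    have e' : ∀ x, c (σ (σ x)) = c x := fun x => (LinearMap.congr_fun e x).symm
    have h2 := s1 (c + c ∘ₗ σ.toLinearMap) fun x v => by
      simp only [LinearMap.add_apply, h.2, (hP c h).2]
      simp only [LinearMap.comp_apply, LinearEquiv.coe_coe, e']
      ring
    refine n1 c h (LinearMap.ext fun x => ?_)
    have h4 := LinearMap.congr_fun h2 y
    have h5 := LinearMap.congr_fun h2 x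
    simp only [LinearMap.add_apply, h.1, (hP c h).1, LinearMap.zero_apply] at h4 h5
    linear_combination c x * h4 - h5
  have p1 := hP _ hc
  have p2 := hP _ p1
  have p3 := hP _ p2
  have a01 := n1 _ hc
  have a12 := n1 _ p1
  have a23 := n1 _ p2
  have a02 := n2 _ hc
  have a13 := n2 _ p1
  by_cases e : c = ((c ∘ₗ σ.toLinearMap) ∘ₗ σ.toLinearMap) ∘ₗ σ.toLinearMap
  · have e' : ∀ x, c (σ (σ (σ x))) = c x := fun x => (LinearMap.congr_fun e x).symm
    have h2 := s2 (c + c ∘ₗ σ.toLinearMap + (c ∘ₗ σ.toLinearMap) ∘ₗ σ.toLinearMap) fun x v => by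
      simp only [LinearMap.add_apply, hc.2, p1.2, p2.2, hσ]
      simp only [LinearMap.comp_apply, LinearEquiv.coe_coe, e']
      ring
    generalize c ∘ₗ σ.toLinearMap = c1 at *
    generalize c1 ∘ₗ σ.toLinearMap = c2 at *
    have := Fintype.linearIndependent_iff.1 (ind ![c, c1, c2] (fun i => by fin_cases i <;> assumption)
      (List.nodup_ofFn.1 (by simp [a01, a02, a12]))) (fun _ => 1)
      (by simpa [Fin.sum_univ_three] using h2) 0
    exact one_ne_zero this
  · generalize c ∘ₗ σ.toLinearMap = c1 at *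
    generalize c1 ∘ₗ σ.toLinearMap = c2 at *
    generalize c2 ∘ₗ σ.toLinearMap = c3 at *
    have := (ind ![c, c1, c2, c3] (fun i => by fin_cases i <;> assumption)
      (List.nodup_ofFn.1 (by simp [a01, a02, a12, e, a13, a23]))).fintype_card_le_finrank
    rw [Subspace.dual_finrank_eq, h3] at this
    simp at this

section Rk
variable {R : Type*} [Ring R] [Algebra F R] {s : R →ₗ[F] F} {X Y Z : Submodule F R}

variable (s Y Z) in
/-- The form `(y, z) ↦ s (x y z)` has rank at most one. -/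
def Dep (x : R) : Prop := ∀ y ∈ Y, ∀ y' ∈ Y, ∀ z ∈ Z, ∀ z' ∈ Z,
  s (x * y * z) * s (x * y' * z') = s (x * y' * z) * s (x * y * z')

theorem dep_of {x q : R} {S : Submodule F R} (h : Y ≤ span F {q} ⊔ S)
    (h1 : ∀ y ∈ S, ∀ z ∈ Z, s (x * y * z) = 0) : Dep s Y Z x := fun y hy y' hy' z hz z' hz' => by
  obtain ⟨_, h2, u, hu, rfl⟩ := mem_sup.1 (h hy)
  obtain ⟨c, rfl⟩ := mem_span_singleton.1 h2
  obtain ⟨_, h2, u', hu', rfl⟩ := mem_sup.1 (h hy')
  obtain ⟨c', rfl⟩ := mem_span_singleton.1 h2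
  simp only [mul_add, add_mul, map_add, h1 _ hu _ hz, h1 _ hu _ hz', h1 _ hu' _ hz, h1 _ hu' _ hz',
    mul_smul_comm, smul_mul_assoc, map_smul, smul_eq_mul]
  ring

theorem Dep.symm {x : R} (htr : ∀ a b, s (a * b) = s (b * a))
    (h : ∀ y ∈ Y, ∀ y' ∈ Y, ∀ z ∈ Z, ∀ z' ∈ Z,
      s (y * x * z) * s (y' * x * z') = s (y' * x * z) * s (y * x * z')) : Dep s Z Y x :=
  fun z hz z' hz' y hy y' hy' => by
    simp only [htr (x * _), ← mul_assoc]
    rw [h y hy y' hy' z hz z' hz', mul_comm]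

theorem dep_ext [Infinite F] {H : Submodule F R} {w : R} (hw : w ∈ X) (hw' : w ∉ H)
    (h : ∀ x ∈ X, x ∉ H → Dep s Y Z x) : ∀ x ∈ X, Dep s Y Z x := fun x hx => by
  by_cases e : x ∈ H
  swap
  · exact h x hx e
  intro y hy y' hy' z hz z' hz'
  refine sub_eq_zero.1 (dens (B := s (x * y * z) * s (w * y' * z') + s (w * y * z) * s (x * y' * z') -
    s (x * y' * z) * s (w * y * z') - s (w * y' * z) * s (x * y * z'))
    (C := s (w * y * z) * s (w * y' * z') - s (w * y' * z) * s (w * y * z')) fun t ht => ?_)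
  have := h (x + t • w) (add_mem hx (smul_mem _ _ hw))
    (fun h1 => hw' ((H.smul_mem_iff ht).1 ((H.add_mem_iff_right e).1 h1))) y hy y' hy' z hz z' hz'
  simp only [add_mul, map_add, smul_mul_assoc, map_smul, smul_eq_mul] at this
  linear_combination this

/-- Spaces of forms of rank at most one. -/
theorem rk1 (h : ∀ x ∈ X, Dep s Y Z x) :
    (∃ a : R →ₗ[F] F, ∀ y ∈ Y, a y = 0 → ∀ x ∈ X, ∀ z ∈ Z, s (x * y * z) = 0) ∨
      ∃ b : R →ₗ[F] F, ∀ z ∈ Z, b z = 0 → ∀ x ∈ X, ∀ y ∈ Y, s (x * y * z) = 0 := by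
  by_cases h0 : ∀ x ∈ X, ∀ y ∈ Y, ∀ z ∈ Z, s (x * y * z) = 0
  · exact .inl ⟨0, fun y hy _ x hx z hz => h0 x hx y hy z hz⟩
  push Not at h0
  obtain ⟨x0, hx0, y0, hy0, z0, hz0, h0⟩ := h0
  have pol : ∀ x ∈ X, ∀ y ∈ Y, ∀ z ∈ Z, s (x * y * z) * s (x0 * y0 * z0) +
      s (x0 * y * z) * s (x * y0 * z0) =
      s (x * y0 * z) * s (x0 * y * z0) + s (x0 * y0 * z) * s (x * y * z0) := fun x hx y hy z hz => by
    have h1 := h _ (add_mem hx hx0) y hy y0 hy0 z hz z0 hz0
    simp only [add_mul, map_add] at h1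
    linear_combination h1 - h x hx y hy y0 hy0 z hz z0 hz0 - h x0 hx0 y hy y0 hy0 z hz z0 hz0
  have z0' : ∀ y ∈ Y, ∀ z ∈ Z, s (x0 * y0 * z) * s (x0 * y * z0) = 0 → s (x0 * y * z) = 0 :=
    fun y hy z hz e => (mul_eq_zero.1 ((h x0 hx0 y hy y0 hy0 z hz z0 hz0).trans e)).resolve_right h0
  by_cases h1 : ∀ y ∈ Y, s (x0 * y * z0) = 0 → ∀ x ∈ X, s (x * y * z0) = 0
  · refine .inl ⟨s ∘ₗ LinearMap.mulRight F z0 ∘ₗ LinearMap.mulLeft F x0,
      fun y hy (e : s (x0 * y * z0) = 0) x hx z hz => ?_⟩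
    have := pol x hx y hy z hz
    rw [e, h1 y hy e x hx, z0' y hy z hz (by rw [e, mul_zero])] at this
    simpa [h0] using this
  push Not at h1
  obtain ⟨y1, hy1, e1, x1, hx1, h1⟩ := h1
  refine .inr ⟨s ∘ₗ LinearMap.mulLeft F (x0 * y0), fun z hz (e : s (x0 * y0 * z) = 0) x hx y hy => ?_⟩
  have h2 : ∀ x ∈ X, s (x * y1 * z0) * s (x * y0 * z) = 0 := fun x hx => by
    have h3 := pol x hx y1 hy1 z hz
    rw [e, e1, z0' y1 hy1 z hz (by rw [e, zero_mul])] at h3
    have h4 : s (x * y1 * z) = 0 := by simpa [h0] using h3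
    rw [mul_comm, ← h x hx y1 hy1 y0 hy0 z hz z0 hz0, h4, zero_mul]
  have h3 := (mul_eq_zero.1 (h2 x1 hx1)).resolve_left h1
  have h4 : s (x * y0 * z) = 0 := by
    rcases mul_eq_zero.1 (h2 x hx) with h5 | h5
    · have := h2 _ (add_mem hx hx1)
      simp only [add_mul, map_add, h5, h3, zero_add, add_zero] at this
      exact (mul_eq_zero.1 this).resolve_left h1
    · exact h5
  have := pol x hx y hy z hz
  rw [e, h4, z0' y hy z hz (by rw [e, zero_mul])] at this
  simpa [h0] using this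

end Rk

end CA.H10Five1
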