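import Cfsg.Agent.Lib.Block.H10Five1

/-!
# Symmetric local algebras with five-dimensional centre and two generators
-/

set_option autoImplicit false
set_option linter.unusedSectionVars false

namespace CA.H10Five2
open Module Submodule CA.BlkDim CA.H10Sym CA.H10Five1

variable {F R : Type*} [Field F] [Ring R] [Algebra F R] [FiniteDimensional F R]
  {J : Submodule F R} {s : R →ₗ[F] F} {a b c x y w : R} {m n : ℕ}

theorem p1 (hx : x ∈ J) : x ∈ J ^ 1 := (pow_one J).ge hx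

theorem ml (hx : x ∈ J) (hy : y ∈ J ^ n) : x * y ∈ J ^ (n + 1) :=
  add_comm 1 n ▸ mul_mem_pow (p1 hx) hy

theorem mr (hx : x ∈ J ^ n) (hy : y ∈ J) : x * y ∈ J ^ (n + 1) := mul_mem_mul hx hy

theorem m2 (hx : x ∈ J) (hy : y ∈ J) : x * y ∈ J ^ 2 := mr (p1 hx) hy

theorem pow_le_J (h : Rad J s) : J ^ (n + 1) ≤ J := (h.pow_le' one_pos (by omega)).trans (pow_one J).le

theorem nd' (h : Rad J s) (hx : x ∈ J) (h0 : s x = 0) (h1 : ∀ u ∈ J, s (x * u) = 0) : x = 0 := by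
  have : ∀ n, (∀ u ∈ J ^ (n + 1), x * u = 0) → x = 0 := fun n => by
    induction n with
    | zero => exact fun e => h.nd x hx h0 fun b hb => e b (p1 hb)
    | succ n ih =>
      exact fun e => ih fun u hu => h.nd _ (h.mul (mul_mem_mul hx (pow_le_J h hu)))
        (h1 u (pow_le_J h hu)) fun b hb => by rw [mul_assoc, e _ (mr hu hb)]
  obtain ⟨N, hN⟩ := h.nil
  exact this N fun u hu => by rw [hN, mem_bot] at hu; rw [hu, mul_zero]

theorem le_of_mul (h : Rad J s) {C : Submodule F R} (hC : ∀ x ∈ C, ∀ y ∈ C, x * y ∈ C)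
    (h1 : J ≤ (J ⊓ C) ⊔ J ^ 2) : J ≤ C := by
  have h2 : ∀ n, J ^ (1 + n) ≤ (J ^ (1 + n) ⊓ C) ⊔ J ^ (1 + n + 1) := fun n => by
    induction n with
    | zero => rwa [add_zero, pow_one]
    | succ n ih =>
      exact mul_le_sup (n := 1) (X := (J ^ (1 + n) ⊓ C :)) (Y := (J ⊓ C :))
        (fun x hx => hx.1) (fun x hx => p1 hx.1) (by rwa [span_eq])
        (by rwa [pow_one, span_eq]) fun x hx y hy => mem_sup_left (mem_inf.2
          ⟨mul_mem_mul hx.1 hy.1, hC _ hx.2 _ hy.2⟩)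
  exact (pow_one J).ge.trans (h.le_of fun n => (h2 n).trans (sup_le_sup_right inf_le_right _))

variable (F) in
/-- The commutator with `x`. -/
def ad (x : R) : R →ₗ[F] R := LinearMap.mulLeft F x - LinearMap.mulRight F x

theorem ad_apply (x y : R) : ad F x y = x * y - y * x := rfl

theorem K_le_gen (h : Rad J s) {X : Set R} (hX : ∀ x ∈ X, x ∈ J) (h1 : J ≤ span F X ⊔ J ^ 2)
    {S : Submodule F R} (h2 : ∀ x ∈ X, J ≤ S.comap (ad F x)) : KK J ≤ S := by
  have h3 : ∀ {x y : R}, x ∈ S.comap (ad F y) ↔ y ∈ S.comap (ad F x) := fun {x y} => by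
    rw [mem_comap, mem_comap, ad_apply, ad_apply, ← neg_mem_iff, neg_sub]
  have h4 : ∀ {x : R}, x ∈ ⨅ y ∈ J, S.comap (ad F y) ↔ ∀ y ∈ J, x ∈ S.comap (ad F y) := by
    simp only [mem_iInf, implies_true]
  have := le_of_mul h (C := J ⊓ ⨅ y ∈ J, S.comap (ad F y)) (fun u hu v hv => ?_)
    (h1.trans (sup_le_sup_right (le_inf (span_le.2 hX) (le_inf (span_le.2 hX)
      (span_le.2 fun x hx => h4.2 fun y hy => h3.1 (h2 x hx hy)))) _))
  · refine span_le.2 ?_
    rintro _ ⟨x, hx, y, hy, rfl⟩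
    exact h4.1 (this hy).2 x hx
  refine ⟨h.mul (mul_mem_mul hu.1 hv.1), h4.2 fun y hy => ?_⟩
  have e1 := h4.1 hu.2 _ (h.mul (mul_mem_mul hv.1 hy))
  have e2 := h4.1 hv.2 _ (h.mul (mul_mem_mul hy hu.1))
  rw [mem_comap, ad_apply] at e1 e2 ⊢
  simpa only [mul_assoc, sub_add_sub_cancel] using add_mem e2 e1

theorem cnt (h : Rad J s) (h1 : J ^ (m + 1) ≠ ⊥) :
    finrank F (KK J) < finrank F (KK J ⊔ J ^ (m + 1) :) :=
  let ⟨_, hw, hw'⟩ := h.exists_soc h1
  finrank_lt_finrank_of_lt (lt_of_le_of_ne le_sup_left fun e => hw' (e.ge (mem_sup_right hw)))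

theorem cnt' (h : Rad J s) (h1 : J ^ (m + 1) ≠ ⊥) {ι : Type*} [Fintype ι] {f : ι → R}
    (h2 : KK J ≤ span F (Set.range f) ⊔ J ^ (m + 1)) :
    finrank F (KK J) < finrank F (J ^ (m + 1) :) + Fintype.card ι :=
  (cnt h h1).trans_le ((finrank_mono (sup_le h2 le_sup_right)).trans (rk_range f _))

theorem one_prod (h1 : J ^ (m + 1) ≤ span F {w} ⊔ J ^ (m + 2)) :
    ∃ x ∈ J, ∃ w ∈ J ^ m, J ^ (m + 1) ≤ span F {x * w} ⊔ J ^ (m + 2) := by
  by_cases e : ∀ x ∈ J, ∀ w ∈ J ^ m, x * w ∈ J ^ (m + 2)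
  · refine ⟨0, zero_mem _, 0, zero_mem _, le_sup_of_le_right ?_⟩
    rw [add_comm, pow_add, pow_one]
    exact mul_le.2 e
  push Not at e
  obtain ⟨x, hx, w, hw, e⟩ := e
  exact ⟨x, hx, w, hw, swap h1 (ml hx hw) e⟩

theorem one_succ (hx : x ∈ J) (hw : w ∈ J ^ m) (h1 : J ^ (m + 1) ≤ span F {x * w} ⊔ J ^ (m + 2)) :
    J ^ (m + 2) ≤ span F {x * (x * w)} ⊔ J ^ (m + 3) := by
  refine mul_le_sup (n := 1) (by simpa using ml hx hw) (Y := J) (by simp) h1 (by simp) ?_
  rintro _ rfl y hy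
  obtain ⟨_, h4, z, hz, h5⟩ := mem_sup.1 (h1 (mr hw hy))
  obtain ⟨c, rfl⟩ := mem_span_singleton.1 h4
  rw [mul_assoc, ← h5, mul_add, mul_smul_comm]
  exact add_mem (mem_sup_left (smul_mem _ _ (mem_span_singleton_self _))) (mem_sup_right (ml hx hz))

/-- A uniserial power of the radical forces the previous power to be central. -/
theorem central (h : Rad J s) (h1 : J ^ (m + 1) ≤ span F {w} ⊔ J ^ (m + 2)) {t : R}
    (ht : t ∈ J ^ m) (hy : y ∈ J) : y * t = t * y := by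
  obtain ⟨x, hx, w, hw, h1⟩ := one_prod h1
  have hx' : ∀ j, x ^ j * w ∈ J ^ (m + j) := fun j =>
    add_comm j m ▸ mul_mem_pow (pow_mem_pow J hx j) hw
  have h2 : ∀ j, J ^ (m + j + 1) ≤ span F {x * (x ^ j * w)} ⊔ J ^ (m + j + 2) := fun j => by
    induction j with
    | zero => simpa using h1
    | succ j ih => simpa only [pow_succ' x, mul_assoc, add_assoc] using one_succ hx (hx' j) ih
  let C := J ⊓ (Algebra.adjoin F {x}).toSubmodule
  have h3 : J ^ (m + 2) ≤ C.map (LinearMap.mulRight F (x * w)) := h.le_of fun j => by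
    rw [show m + 2 + j = m + (j + 1) + 1 by omega]
    refine (h2 _).trans (sup_le_sup_right ((span_singleton_le_iff_mem _ _).2 (mem_map.2 ⟨x ^ (j + 1),
      mem_inf.2 ⟨pow_le_J h (pow_mem_pow J hx _),
        Subalgebra.pow_mem _ (Algebra.self_mem_adjoin_singleton F x) _⟩, ?_⟩)) _)
    rw [LinearMap.mulRight_apply, ← mul_assoc, ← mul_assoc, ← pow_succ, ← pow_succ']
  have h4 : J ^ (m + 1) ≤ span F {x * w} ⊔ J.map (LinearMap.mulLeft F (x * w)) :=
    h.le_of fun j => by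
      rcases j with _ | j
      · exact h1.trans (sup_le_sup_right le_sup_left _)
      refine mul_le_sup (by simpa using ml hx hw) (Y := (J ^ (j + 1) :)) (by simp) h1 (by simp) ?_
      rintro _ rfl y hy
      exact mem_sup_left (mem_sup_right ⟨y, pow_le_J h hy, rfl⟩)
  have h5 : ∀ y ∈ J, ∃ f ∈ C, ∃ i, y = f + i ∧ ∀ z ∈ J ^ (m + 1), i * z = 0 := fun y hy => by
    obtain ⟨f, hf, e⟩ := h3 (ml hy (ml hx hw))
    have e' : (y - f) * (x * w) = 0 := by rw [sub_mul, ← e, LinearMap.mulRight_apply, sub_self]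
    refine ⟨f, hf, y - f, by simp, fun z hz => (sup_le ((span_singleton_le_iff_mem _ _).2 e') ?_ :
      _ ≤ LinearMap.ker (LinearMap.mulLeft F (y - f))) (h4 hz)⟩
    rintro _ ⟨u, -, rfl⟩
    change _ * (_ * u) = 0
    rw [← mul_assoc, e', zero_mul]
  refine sub_eq_zero.1 (nd' h (sub_mem (pow_le_J h (ml hy ht)) (pow_le_J h (mr ht hy)))
    (by simp [h.tr y t]) fun u hu => ?_)
  obtain ⟨f, hf, i, e1, hi⟩ := h5 y hy
  obtain ⟨g, hg, j, e2, hj⟩ := h5 u hu
  have hc : f * g = g * f := setLike_mul_comm (s := Algebra.adjoin F {x}) hf.2 hg.2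
  have a1 : s (y * t * u) = s (t * (g * f)) := by
    rw [mul_assoc, e1, add_mul, hi _ (mr ht hu), add_zero, ← mul_assoc, h.tr, e2, add_mul,
      hj _ (ml hf.1 ht), add_zero, ← mul_assoc, h.tr]
  have a2 : s (t * y * u) = s (t * (g * f)) := by
    rw [h.tr, e2, add_mul, hj _ (mr ht hy), add_zero, ← mul_assoc, h.tr, e1, add_mul,
      hi _ (ml hg.1 ht), add_zero, ← mul_assoc, h.tr, hc]
  rw [sub_mul, map_sub, a1, a2, sub_self]

variable (J a b) in
/-- Two generators. -/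
structure Gn : Prop where
  ha : a ∈ J
  hb : b ∈ J
  le : J ≤ span F {a, b} ⊔ J ^ 2

theorem Gn.symm (g : Gn J a b) : Gn J b a := ⟨g.hb, g.ha, Set.pair_comm a b ▸ g.le⟩

theorem Gn.chg (g : Gn J a b) {α β γ δ : F} (h : α * δ - β * γ ≠ 0) :
    Gn J (α • a + β • b) (γ • a + δ • b) := by
  refine ⟨add_mem (smul_mem _ _ g.ha) (smul_mem _ _ g.hb), add_mem (smul_mem _ _ g.ha)
    (smul_mem _ _ g.hb), g.le.trans (sup_le_sup_right (span_le.2 ?_) _)⟩
  rintro x (e | e) <;> rw [e] <;> refine (smul_mem_iff _ h).1 (mem_span_pair.2 ?_)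
  · exact ⟨δ, -β, by module⟩
  · exact ⟨-γ, α, by module⟩

theorem Gn.j1 (g : Gn J a b) : ∀ x ∈ ({a, b} : Set R), x ∈ J ^ 1 := by simp [g.ha, g.hb]

theorem Gn.K1 (g : Gn J a b) : KK J ≤ span F (Set.range ![a * b - b * a]) ⊔ J ^ 3 := by
  have : a * b - b * a ∈ span F (Set.range ![a * b - b * a]) := subset_span ⟨0, rfl⟩
  refine K_le_sup (by simp [g.ha, g.hb]) g.le ?_
  rintro x (e1 | e1) y (e2 | e2) <;> rw [e1, e2]
  · simp
  · exact this
  · simpa only [neg_sub] using neg_mem this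
  · simp

theorem Gn.K3 (h : Rad J s) (g : Gn J a b) {T : Submodule F R} (e1 : a * b - b * a ∈ T)
    (e2 : a * a * b - a * b * a ∈ T) (e3 : a * b * a - b * a * a ∈ T)
    (e4 : a * b * b - b * a * b ∈ T) (e5 : b * a * b - b * b * a ∈ T)
    (e6 : J ^ 3 ≤ T.comap (ad F a)) (e7 : J ^ 3 ≤ T.comap (ad F b)) : KK J ≤ T := by
  have h2 : ∀ x, J ^ 3 ≤ T.comap (ad F x) → ad F x (a * a) ∈ T → ad F x (a * b) ∈ T →
      ad F x (b * a) ∈ T → ad F x (b * b) ∈ T → J ^ 2 ≤ T.comap (ad F x) :=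
    fun x h0 h1 h2 h3 h4 => (mul_le_sup g.j1 g.j1 (by simpa using g.le) (by simpa using g.le)
      (S := T.comap (ad F x)) (by
        rintro x (e1 | e1) y (e2 | e2) <;> rw [e1, e2] <;> exact mem_sup_left ‹_›)).trans
      (sup_le le_rfl h0)
  refine K_le_gen h (by simp [g.ha, g.hb]) g.le ?_
  rintro x (e | e) <;> rw [e] <;> refine g.le.trans (sup_le (span_le.2 ?_) (h2 _ ‹_› ?_ ?_ ?_ ?_))
  · rintro x (e | e) <;> rw [e]
    · simp [ad_apply]
    · exact e1
  · simp [ad_apply, mul_assoc]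
  · simpa only [ad_apply, mul_assoc] using e2
  · simpa only [ad_apply, mul_assoc] using e3
  · simpa only [ad_apply, mul_assoc, sub_add_sub_cancel] using add_mem e4 e5
  · rintro x (e | e) <;> rw [e]
    · exact mem_comap.2 (by simpa only [ad_apply, neg_sub] using neg_mem e1)
    · simp [ad_apply]
  · simpa only [ad_apply, mul_assoc, sub_add_sub_cancel, neg_sub] using neg_mem (add_mem e2 e3)
  · simpa only [ad_apply, mul_assoc, neg_sub] using neg_mem e4
  · simpa only [ad_apply, mul_assoc, neg_sub] using neg_mem e5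
  · simp [ad_apply, mul_assoc]

theorem ad_pow (hx : x ∈ J) {S : Submodule F R} : J ^ n ≤ (S ⊔ J ^ (n + 1)).comap (ad F x) :=
  fun _ hy => mem_sup_right (sub_mem (ml hx hy) (mr hy hx))

variable (J s) in
/-- The standing assumptions in the case of two generators. -/
structure Tw : Prop where
  rad : Rad J s
  d : finrank F (J ^ 2 :) ≤ finrank F (KK J) + 2
  n2 : finrank F (J ^ 3 :) + 2 ≤ finrank F (J ^ 2 :)
  ne : J ^ 5 ≠ ⊥

namespace Tw
variable (t : Tw J s)
include t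

theorem ne' (hm : m + 1 ≤ 5) : J ^ (m + 1) ≠ ⊥ := fun e =>
  t.ne (eq_bot_iff.2 (e ▸ t.rad.pow_le' m.succ_pos hm))

theorem of3 (h : finrank F (J ^ 3 :) ≤ finrank F (J ^ 4 :) + 1) : ∃ w, J ^ 4 ≤ span F {w} ⊔ J ^ 5 :=
  let ⟨_, _, h1⟩ := exists_one (t.rad.pow_le 2) h
  let ⟨_, hx, _, hw, h2⟩ := one_prod h1
  ⟨_, one_succ hx hw h2⟩

theorem fin3 (g : Gn J a b) (e2 : a * a * b - a * b * a ∈ span F {c} ⊔ J ^ 4)
    (e3 : a * b * a - b * a * a ∈ span F {c} ⊔ J ^ 4)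
    (e4 : a * b * b - b * a * b ∈ span F {c} ⊔ J ^ 4)
    (e5 : b * a * b - b * b * a ∈ span F {c} ⊔ J ^ 4) : ∃ w, J ^ 4 ≤ span F {w} ⊔ J ^ 5 := by
  have h1 : span F {c} ⊔ J ^ 4 ≤ span F (Set.range ![a * b - b * a, c]) ⊔ J ^ 4 :=
    sup_le_sup_right (span_mono (Set.singleton_subset_iff.2 (Set.mem_range_self (f := ![a * b - b * a, c]) 1))) _
  have h2 : _ < finrank F (J ^ 4 :) + _ := cnt' t.rad (t.ne' (by norm_num)) (g.K3 t.rad (mem_sup_left (subset_span ⟨0, rfl⟩))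
    (h1 e2) (h1 e3) (h1 e4) (h1 e5) (ad_pow g.ha) (ad_pow g.hb))
  have := t.d
  have := t.n2
  rw [Fintype.card_fin] at h2
  exact t.of3 (by omega)

theorem d23 (g : Gn J a b) : finrank F (J ^ 2 :) ≤ finrank F (J ^ 3 :) + 2 := by
  have h2 : _ < finrank F (J ^ 3 :) + _ := cnt' t.rad (t.ne' (by norm_num)) g.K1
  have := t.d
  rw [Fintype.card_fin] at h2
  omega

theorem nab (g : Gn J a b) : a * b - b * a ∉ J ^ 3 := fun e => by
  have h2 := (cnt t.rad (t.ne' (m := 2) (by norm_num))).trans_le (finrank_mono (sup_le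
    (g.K1.trans (sup_le (span_le.2 (by simpa using e)) le_rfl)) le_rfl))
  have := t.d
  have := t.n2
  omega

theorem b1 (g : Gn J a b) (h : a * b ∈ J ^ 3) : ∃ w, J ^ 4 ≤ span F {w} ⊔ J ^ 5 := by
  obtain ⟨α, β, γ, h1, h2⟩ := rel3 (t.rad.pow_le 1) (t.d23 g) (m2 g.ha g.ha) (m2 g.hb g.ha)
    (m2 g.hb g.hb)
  have aab : a * a * b ∈ J ^ 4 := mul_assoc a a b ▸ ml g.ha h
  have bab : b * a * b ∈ J ^ 4 := mul_assoc b a b ▸ ml g.hb h
  obtain ⟨c, h3, h4⟩ : ∃ c, b * a * a ∈ span F {c} ⊔ J ^ 4 ∧ b * b * a ∈ span F {c} ⊔ J ^ 4 := by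
    by_cases e : α = 0
    · refine two_one (α := β) (β := γ) (fun e' => h1 ⟨e, e'⟩) ?_
      convert mr h2 g.ha using 1
      simp only [e, add_mul, smul_mul_assoc, zero_smul, zero_add]
    · refine two_one (α := α) (β := β) (fun e' => e e'.1) ?_
      convert add_mem (sub_mem (ml g.hb h2) (mr h2 g.hb))
        (add_mem (smul_mem _ α aab) (smul_mem _ β bab)) using 1
      simp only [add_mul, mul_add, smul_mul_assoc, mul_smul_comm, mul_assoc]
      module
  exact t.fin3 g (mem_sup_right (sub_mem aab (mr h g.ha))) (sub_mem (mem_sup_right (mr h g.ha)) h3)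
    (mem_sup_right (sub_mem (mr h g.hb) bab)) (sub_mem (mem_sup_right bab) h4)

theorem ty1 (g : Gn J a b) (ha : a * a ∈ J ^ 3) (hb : b * b ∈ J ^ 3) :
    ∃ w, J ^ 4 ≤ span F {w} ⊔ J ^ 5 := by
  have h2 : J ^ (1 + 1) ≤ span F {a * b, b * a} ⊔ J ^ (1 + 1 + 1) :=
    mul_le_sup g.j1 g.j1 (by simpa using g.le) (by simpa using g.le) (by
      rintro x (e1 | e1) y (e2 | e2) <;> rw [e1, e2]
      exacts [mem_sup_right ha, mem_sup_left (subset_span (by simp)),
        mem_sup_left (subset_span (by simp)), mem_sup_right hb])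
  have h3 : J ^ (2 + 1) ≤ span F {a * b * a, b * a * b} ⊔ J ^ (2 + 1 + 1) :=
    mul_le_sup (by simp [m2, g.ha, g.hb]) g.j1 h2 (by simpa using g.le) (by
      rintro x (e1 | e1) y (e2 | e2) <;> rw [e1, e2]
      exacts [mem_sup_left (subset_span (by simp)), mem_sup_right (mul_assoc a b b ▸ ml g.ha hb),
        mem_sup_right (mul_assoc b a a ▸ ml g.hb ha), mem_sup_left (subset_span (by simp))])
  obtain ⟨_, h4, r, hr, e1⟩ := mem_sup.1 (h3 ha)
  obtain ⟨l, μ, rfl⟩ := mem_span_pair.1 h4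
  obtain ⟨_, h4, r', hr', e2⟩ := mem_sup.1 (h3 hb)
  obtain ⟨μ', l', rfl⟩ := mem_span_pair.1 h4
  let f := ![a * b - b * a, a * b * a - l • (a * b * a * b), b * a * b - l' • (a * b * a * b),
    a * b * a * b - b * a * b * a]
  have hf : ∀ i, f i ∈ span F (Set.range f) ⊔ J ^ 5 := fun i => mem_sup_left (subset_span ⟨i, rfl⟩)
  have q1 : a * b * a * a ∈ J ^ 5 := mul_assoc (a * b) a a ▸ mul_mem_pow (m2 g.ha g.hb) ha
  have q2 : b * a * b * b ∈ J ^ 5 := mul_assoc (b * a) b b ▸ mul_mem_pow (m2 g.hb g.ha) hb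
  have q3 : a * a * b * a ∈ J ^ 5 := mr (mr ha g.hb) g.ha
  have q4 : b * b * a * b ∈ J ^ 5 := mr (mr hb g.ha) g.hb
  have h5 : _ < finrank F (J ^ 5 :) + _ := cnt' t.rad t.ne (f := f) (g.K3 t.rad (hf 0) ?_ ?_ ?_ ?_
    (h3.trans (sup_le (span_le.2 ?_) (ad_pow g.ha))) (h3.trans (sup_le (span_le.2 ?_) (ad_pow g.hb))))
  · have := t.d
    have := t.n2
    rw [Fintype.card_fin] at h5
    by_cases e : finrank F (J ^ 3 :) ≤ finrank F (J ^ 4 :) + 1
    · exact t.of3 e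
    · exact (exists_one (U := J ^ 5) (V := J ^ 4) (t.rad.pow_le 3) (by omega)).imp fun _ h => h.2
  · convert sub_mem (mem_sup_right (add_mem (smul_mem _ μ q2) (mr hr g.hb))) (hf 1) using 1
    rw [← e1]
    simp only [f, add_mul, smul_mul_assoc, mul_assoc, Matrix.cons_val]
    module
  · convert sub_mem (add_mem (hf 1) (smul_mem _ l (hf 3)))
      (mem_sup_right (add_mem (smul_mem _ μ q4) (ml g.hb hr))) using 1
    rw [mul_assoc b a a, ← e1]
    simp only [f, mul_add, mul_smul_comm, mul_assoc, Matrix.cons_val]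
    module
  · convert sub_mem (mem_sup_right (add_mem (smul_mem _ μ' q3) (ml g.ha hr'))) (hf 2) using 1
    rw [mul_assoc a b b, ← e2]
    simp only [f, mul_add, mul_smul_comm, mul_assoc, Matrix.cons_val]
    module
  · convert sub_mem (add_mem (hf 2) (smul_mem _ l' (hf 3)))
      (mem_sup_right (add_mem (smul_mem _ μ' q1) (mr hr' g.ha))) using 1
    rw [← e2]
    simp only [f, add_mul, smul_mul_assoc, mul_assoc, Matrix.cons_val]
    module
  · rintro x (e | e) <;> rw [e, SetLike.mem_coe, mem_comap, ad_apply]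
    · simpa only [mul_assoc] using mem_sup_right (S := span F (Set.range f)) (sub_mem q3 q1)
    · simpa only [f, mul_assoc, Matrix.cons_val] using hf 3
  · rintro x (e | e) <;> rw [e, SetLike.mem_coe, mem_comap, ad_apply]
    · simpa only [f, mul_assoc, Matrix.cons_val, neg_sub] using neg_mem (hf 3)
    · simpa only [mul_assoc] using mem_sup_right (S := span F (Set.range f)) (sub_mem q4 q2)

theorem a2 (g : Gn J a b) (h : a * a ∈ J ^ 3) : ∃ w, J ^ 4 ≤ span F {w} ⊔ J ^ 5 := by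
  obtain ⟨α, β, γ, h1, h2⟩ := rel3 (t.rad.pow_le 1) (t.d23 g) (m2 g.ha g.hb) (m2 g.hb g.ha)
    (m2 g.hb g.hb)
  by_cases e : γ = 0
  swap
  · have h3 : (α • a + γ • b) * (β • a + γ • b) ∈ J ^ 3 := by
      convert add_mem (smul_mem _ (α * β) h) (smul_mem _ γ h2) using 1
      simp only [add_mul, mul_add, smul_mul_assoc, mul_smul_comm]
      module
    by_cases e' : α = β
    · subst e'
      exact t.ty1 (by simpa using g.chg (α := 1) (β := 0) (γ := α) (δ := γ) (by simpa)) h h3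
    · exact t.b1 (g.chg (by rw [mul_comm γ, ← sub_mul]; exact mul_ne_zero (sub_ne_zero.2 e') e)) h3
  rw [e, zero_smul, add_zero] at h2
  by_cases e' : β = 0
  · rw [e', zero_smul, add_zero] at h2
    exact t.b1 g ((smul_mem_iff _ fun e'' => h1 ⟨e'', e', e⟩).1 h2)
  have aba : a * b * a ∈ J ^ 4 := (smul_mem_iff _ e').1 (by
    convert sub_mem (ml g.ha h2) (smul_mem _ α (mr h g.hb)) using 1
    simp only [mul_add, mul_smul_comm, mul_assoc]
    module)
  have abb : a * b * b ∈ span F {a * b * b} ⊔ J ^ 4 := mem_sup_left (mem_span_singleton_self _)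
  have bab : b * a * b ∈ span F {a * b * b} ⊔ J ^ 4 := (smul_mem_iff _ e').1 (by
    convert sub_mem (mem_sup_right (mr h2 g.hb)) (smul_mem _ α abb) using 1
    simp only [add_mul, smul_mul_assoc, mul_assoc]
    module)
  have bba : b * b * a ∈ span F {a * b * b} ⊔ J ^ 4 := (smul_mem_iff _ e').1 (by
    convert sub_mem (mem_sup_right (ml g.hb h2)) (smul_mem _ α bab) using 1
    simp only [mul_add, mul_smul_comm, mul_assoc]
    module)
  exact t.fin3 g (mem_sup_right (sub_mem (mr h g.hb) aba))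
    (mem_sup_right (sub_mem aba (mul_assoc b a a ▸ ml g.hb h))) (sub_mem abb bab) (sub_mem bab bba)

theorem one4 [IsAlgClosed F] (g : Gn J a b) : ∃ w, J ^ 4 ≤ span F {w} ⊔ J ^ 5 := by
  have hl : ∀ v, Fintype.linearCombination F ![a, b] v = v 0 • a + v 1 • b := fun v => by
    simp [Fintype.linearCombination_apply]
  have hm : ∀ v, Fintype.linearCombination F ![a, b] v ∈ J := fun v =>
    hl v ▸ add_mem (smul_mem _ _ g.ha) (smul_mem _ _ g.hb)
  obtain ⟨α, β, h1, v, h2, h3⟩ := pencil (t.rad.pow_le 1) (by simpa using t.d23 g)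
    (LinearMap.mulLeft F a ∘ₗ Fintype.linearCombination F ![a, b])
    (LinearMap.mulLeft F b ∘ₗ Fintype.linearCombination F ![a, b])
    (fun v => m2 g.ha (hm v)) (fun v => m2 g.hb (hm v))
  have h4 : (α • a + β • b) * (v 0 • a + v 1 • b) ∈ J ^ 3 := by
    simpa only [LinearMap.comp_apply, LinearMap.mulLeft_apply, hl, add_mul, smul_mul_assoc] using h3
  by_cases e : α * v 1 - β * v 0 = 0
  swap
  · exact t.b1 (g.chg e) h4
  have h5 : ∀ i, v i • ((α • a + β • b) * (α • a + β • b)) ∈ J ^ 3 := by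
    refine Fin.forall_fin_two.2 ⟨?_, ?_⟩
    · convert smul_mem _ α h4 using 1
      rw [← mul_smul_comm, ← mul_smul_comm]
      congr 1
      linear_combination (norm := module) -(e • b)
    · convert smul_mem _ β h4 using 1
      rw [← mul_smul_comm, ← mul_smul_comm]
      congr 1
      linear_combination (norm := module) e • a
  obtain ⟨i, hi⟩ := Function.ne_iff.1 h2
  have h6 := (smul_mem_iff _ hi).1 (h5 i)
  rcases not_and_or.1 h1 with h | h
  · exact t.a2 (g.chg (γ := 0) (δ := 1) (by simpa)) h6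
  · exact t.a2 (g.chg (γ := 1) (δ := 0) (by simpa)) h6

end Tw

theorem one_top (h : Rad J s) (h1 : J ^ (m + 2) = ⊥) : ∃ w, J ^ (m + 1) ≤ span F {w} := by
  have h2 : ∀ x ∈ J ^ (m + 1), s x = 0 → x = 0 := fun x hx e =>
    h.nd x (pow_le_J h hx) e fun b hb => (mem_bot F).1 (h1 ▸ mr hx hb)
  by_cases e : ∀ x ∈ J ^ (m + 1), s x = 0
  · exact ⟨0, fun x hx => by rw [h2 x hx (e x hx)]; exact zero_mem _⟩
  push Not at e
  obtain ⟨w, hw, e⟩ := e
  exact ⟨w, fun x hx => mem_span_singleton.2 ⟨s x / s w, sub_eq_zero.1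
    (h2 _ (sub_mem (smul_mem _ _ hw) hx) (by simp [e]))⟩⟩

theorem two [IsAlgClosed F] (h : Rad J s) (g : Gn J a b)
    (hd : finrank F (J ^ 2 :) ≤ finrank F (KK J) + 2) : finrank F (KK J) ≤ 5 := by
  by_cases hK : KK J = ⊥
  · rw [hK, finrank_bot]; omega
  have h2 : finrank F (J ^ 3 :) + 2 ≤ finrank F (J ^ 2 :) := by
    by_contra e
    obtain ⟨c, -, hc⟩ := exists_one (U := J ^ 3) (V := J ^ 2) (h.pow_le 1) (by omega)
    exact hK (h.w1' g.ha g.hb g.le hc)
  have h3 : _ < finrank F (J ^ 3 :) + _ := cnt' h (fun e => hK (h.K_bot e)) g.K1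
  rw [Fintype.card_fin] at h3
  obtain ⟨c, -, d, -, h4⟩ := exists_two (U := J ^ 3) (V := J ^ 2) (h.pow_le 1) (by omega)
  obtain ⟨w, hw⟩ : ∃ w, J ^ 4 ≤ span F {w} ⊔ J ^ 5 := by
    by_cases e : J ^ 5 = ⊥
    · exact (one_top h e).imp fun _ => le_sup_of_le_left
    · exact Tw.one4 ⟨h, hd, h2, e⟩ g
  let f := ![ad F a b, ad F a c, ad F a d, ad F b c, ad F b d]
  have hf : ∀ i, f i ∈ span F (Set.range f) := fun i => subset_span ⟨i, rfl⟩
  have h5 : ∀ x ∈ J, J ^ 3 ≤ (span F (Set.range f)).comap (ad F x) := fun x hx y hy => by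
    rw [mem_comap, ad_apply, central h hw hy hx, sub_self]
    exact zero_mem _
  refine (finrank_mono (K_le_gen h (by simp [g.ha, g.hb]) g.le ?_)).trans
    ((finrank_range_le_card (R := F) f).trans (Fintype.card_fin 5).le)
  rintro x (e | e) <;> rw [e] <;> refine g.le.trans (sup_le (span_le.2 ?_)
    (h4.trans (sup_le (span_le.2 ?_) (h5 _ ?_))))
  · rintro x (e | e) <;> rw [e]
    · simp [ad_apply]
    · exact hf 0
  · rintro x (e | e) <;> rw [e]
    exacts [hf 1, hf 2]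
  · exact g.ha
  · rintro x (e | e) <;> rw [e]
    · exact mem_comap.2 (by simpa only [f, Matrix.cons_val, ad_apply, neg_sub] using neg_mem (hf 0))
    · simp [ad_apply]
  · rintro x (e | e) <;> rw [e]
    exacts [hf 3, hf 4]
  · exact g.hb

end CA.H10Five2
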