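import Cfsg.Agent.Lib.Block.H10Five2

/-!
# Symmetric local algebras with five-dimensional centre and three generators
-/

set_option autoImplicit false
set_option linter.unusedSectionVars false

namespace CA.H10Five3
open Module Submodule CA.BlkDim CA.H10Sym CA.H10Five1 CA.H10Five2

variable {F R : Type*} [Field F] [Ring R] [Algebra F R] [FiniteDimensional F R]
  {J V W S : Submodule F R} {s : R →ₗ[F] F} {a b c q v x y w : R} {i k m n : ℕ}

variable (J s) in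
/-- The annihilator of a power of the radical under the form. -/
def P (k : ℕ) : Submodule F R where
  carrier := {x | ∀ w ∈ J ^ k, s (x * w) = 0}
  add_mem' ha hb w hw := by rw [add_mul, map_add, ha w hw, hb w hw, add_zero]
  zero_mem' w _ := by simp
  smul_mem' c x hx w hw := by rw [smul_mul_assoc, map_smul, hx w hw, smul_zero]

theorem P_add (h : ∀ u ∈ J ^ i, ∀ w ∈ J ^ k, s (a * u * w) = 0) : a ∈ P J s (i + k) :=
  fun w hw => (mul_le.2 fun u hu w hw => (show s (a * (u * w)) = 0 from mul_assoc a u w ▸ h u hu w hw) :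
    J ^ i * J ^ k ≤ LinearMap.ker (s ∘ₗ LinearMap.mulLeft F a)) (pow_add J i k ▸ hw)

theorem P_r (ha : a ∈ P J s (k + 1)) (hx : x ∈ J) : a * x ∈ P J s k :=
  fun w hw => mul_assoc a x w ▸ ha _ (ml hx hw)

theorem P_l (h : Rad J s) (hx : x ∈ J) (ha : a ∈ P J s (k + 1)) : x * a ∈ P J s k :=
  fun w hw => by rw [mul_assoc, h.tr, mul_assoc]; exact ha _ (mr hw hx)

theorem KK_le_span {X : Set R} (hV : V ≤ span F X) (h : ∀ x ∈ X, ∀ y ∈ X, x * y - y * x ∈ S) :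
    KK V ≤ S := by
  refine span_le.2 ?_
  rintro _ ⟨x, hx, y, hy, rfl⟩
  refine (span_le (p := S.comap (ad F x))).2 (fun y hy => ?_) (hV hy)
  have : ad F y x ∈ S := (span_le (p := S.comap (ad F y))).2 (fun x hx => h y hy x hx) (hV hx)
  exact mem_comap.2 (by simpa only [ad_apply, neg_sub] using neg_mem this)

theorem rk_KK (h : finrank F V ≤ 3) : finrank F (KK V) ≤ 3 := by
  obtain ⟨a, ha, h1⟩ := exists_step (U := ⊥) (V := V) (n := 2) bot_le (by simpa using h)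
  obtain ⟨b, -, c, -, h2⟩ := exists_two (sup_le ((span_singleton_le_iff_mem _ _).2 ha) bot_le) h1
  rw [sup_bot_eq, sup_comm, ← span_insert] at h2
  let f := ![a * b - b * a, a * c - c * a, b * c - c * b]
  have hf : ∀ i, f i ∈ span F (Set.range f) := fun i => subset_span ⟨i, rfl⟩
  have hf' : ∀ i, -f i ∈ span F (Set.range f) := fun i => neg_mem (hf i)
  refine (finrank_mono (KK_le_span h2 ?_)).trans
    ((finrank_range_le_card (R := F) f).trans (Fintype.card_fin 3).le)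
  rintro x (e1 | e1 | e1) y (e2 | e2 | e2) <;> rw [e1, e2]
  exacts [by simp, hf 0, hf 1, neg_sub (a * b) _ ▸ hf' 0, by simp, hf 2, neg_sub (a * c) _ ▸ hf' 1,
    neg_sub (b * c) _ ▸ hf' 2, by simp]

theorem ex_ker (f : R →ₗ[F] F) (h : 2 ≤ finrank F W) : ∃ w ∈ W, w ≠ 0 ∧ f w = 0 :=
  let ⟨w, h1, h2⟩ := ex_rel (U := ⊥) (W := ⊤) (n := 1) bot_le (by simp) (f ∘ₗ W.subtype)
    (fun _ => mem_top) h
  ⟨w, w.2, fun e => h1 (Subtype.ext e), h2⟩

theorem dep_of' {Y Z : Submodule F R} (h : Z ≤ span F {q} ⊔ S)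
    (h1 : ∀ y ∈ Y, ∀ z ∈ S, s (x * y * z) = 0) : Dep s Y Z x := fun y hy y' hy' z hz z' hz' => by
  obtain ⟨_, h2, u, hu, rfl⟩ := mem_sup.1 (h hz)
  obtain ⟨c, rfl⟩ := mem_span_singleton.1 h2
  obtain ⟨_, h2, u', hu', rfl⟩ := mem_sup.1 (h hz')
  obtain ⟨c', rfl⟩ := mem_span_singleton.1 h2
  simp only [mul_add, map_add, h1 _ hy _ hu, h1 _ hy _ hu', h1 _ hy' _ hu, h1 _ hy' _ hu',
    mul_smul_comm, map_smul, smul_eq_mul]
  ring

variable (V) in
/-- Left multiplication on the generators. -/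
def L (y : R) : V →ₗ[F] R := LinearMap.mulLeft F y ∘ₗ V.subtype

variable (V) in
/-- Right multiplication on the generators. -/
def Rt (y : R) : V →ₗ[F] R := LinearMap.mulRight F y ∘ₗ V.subtype

variable (J s V n) in
/-- The standing assumptions in the case of three generators. -/
structure Th : Prop where
  rad : Rad J s
  top : J ^ (n + 5) = ⊥
  ne : J ^ (n + 4) ≠ ⊥
  le : V ≤ J
  sup : J ≤ V ⊔ J ^ 2
  rk : finrank F V = 3
  dis : ∀ v ∈ V, v ∈ J ^ 2 → v = 0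
  K4 : J ^ 2 ≤ KK J ⊔ J ^ 4

namespace Th
variable (t : Th J V s n)
include t

theorem pP (h : n + 5 ≤ i + k) : J ^ i ≤ P J s k := fun x hx w hw => by
  have := t.rad.pow_le' (by omega) h (mul_mem_pow hx hw)
  rw [t.top, mem_bot] at this
  rw [this, map_zero]

theorem ofV (h : x ∈ P J s (k + 2)) (h1 : ∀ v ∈ V, x * v ∈ P J s k) : x ∈ P J s (k + 1) := by
  rw [add_comm]
  refine P_add fun u hu w hw => ?_
  obtain ⟨v, hv, r, hr, rfl⟩ := mem_sup.1 (t.sup ((pow_one J).le hu))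
  rw [mul_add, add_mul, map_add, h1 v hv w hw, mul_assoc, h _ (add_comm 2 k ▸ mul_mem_pow hr hw),
    add_zero]

theorem ofV' (h : x ∈ P J s (k + 2)) (h1 : ∀ v ∈ V, v * x ∈ P J s k) : x ∈ P J s (k + 1) := by
  refine P_add fun u hu w hw => ?_
  obtain ⟨v, hv, r, hr, rfl⟩ := mem_sup.1 (t.sup ((pow_one J).le hw))
  rw [mul_add, map_add, t.rad.tr, ← mul_assoc, h1 v hv u hu, mul_assoc, h _ (mul_mem_pow hu hr),
    add_zero]

theorem rgL (hy : y ∈ V) : LinearMap.range (L V y) ≤ J ^ 2 := by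
  rintro _ ⟨v, rfl⟩
  exact m2 (t.le hy) (t.le v.2)

theorem K3 : J ^ 2 ≤ KK J ⊔ J ^ 3 := t.K4.trans (sup_le_sup_left (t.rad.pow_le 2) _)

theorem KV : J ^ 2 ≤ KK V ⊔ J ^ 3 :=
  t.K3.trans (sup_le (K_le_sup (X := V) t.le (by simpa using t.sup)
    fun x hx y hy => subset_span ⟨x, hx, y, hy, rfl⟩) le_sup_right)

theorem r2 (h : J ^ 3 ≤ S) : finrank F (J ^ 2 ⊔ S :) ≤ finrank F S + 3 := by
  have h1 := finrank_mono (sup_le (t.KV.trans (sup_le_sup_left h _)) le_sup_right)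
  have h2 := finrank_add_le_finrank_add_finrank (KK V) S
  have := rk_KK t.rk.le
  omega

theorem no1 (γ : R →ₗ[F] F) (h : ∀ v ∈ J, γ v = 0 → v ∈ P J s (n + 3)) : False := by
  obtain ⟨u, hu, h1⟩ : ∃ u ∈ J, ∀ x ∈ J, ∃ c : F, x - c • u ∈ P J s (n + 3) := by
    by_cases e : ∀ v ∈ J, γ v = 0
    · exact ⟨0, zero_mem _, fun x hx => ⟨0, by simpa using h x hx (e x hx)⟩⟩
    push Not at e
    obtain ⟨u, hu, e⟩ := e
    exact ⟨u, hu, fun x hx => ⟨γ x / γ u, h _ (sub_mem hx (smul_mem _ _ hu)) (by simp [e])⟩⟩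
  have h2 : J ^ 2 ≤ P J s (n + 2) := t.K3.trans (sup_le (span_le.2 ?_) (t.pP (by omega)))
  · refine t.ne (eq_bot_iff.2 fun x hx => t.rad.nd x (pow_le_J t.rad hx) ?_
      fun b hb => (mem_bot F).1 (t.top ▸ mr hx hb))
    rw [show n + 4 = 2 + (n + 2) by omega, pow_add] at hx
    exact (mul_le.2 fun a ha w hw => h2 ha w hw : _ ≤ LinearMap.ker s) hx
  rintro _ ⟨x, hx, y, hy, rfl⟩
  obtain ⟨c, hc⟩ := h1 x hx
  obtain ⟨d, hd⟩ := h1 y hy
  convert add_mem (sub_mem (P_r hc hy) (P_l t.rad hy hc))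
    (smul_mem _ c (sub_mem (P_l t.rad hu hd) (P_r hd hu))) using 1
  refine iff_of_eq (congrArg (· ∈ P J s (n + 2)) ?_)
  simp only [sub_mul, mul_sub, smul_mul_assoc, mul_smul_comm]
  module

theorem pt (hik : i + k = n + 2) (b : R →ₗ[F] F)
    (hb : ∀ z ∈ J ^ (k + 1), b z = 0 → z ∈ P J s (i + 1)) : False := by
  have e1 : n + 3 = i + (k + 1) := by omega
  by_cases e : ∀ u ∈ J, ∀ w ∈ J ^ k, b (u * w) = 0
  · refine t.no1 0 fun v hv _ => e1 ▸ P_add fun a ha z hz => ?_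
    rw [t.rad.tr]
    refine hb z hz ?_ _ (ml hv ha)
    rw [add_comm, pow_add, pow_one] at hz
    exact (mul_le.2 e : _ ≤ LinearMap.ker b) hz
  push Not at e
  obtain ⟨u, hu, w, hw, e⟩ := e
  refine t.no1 (b ∘ₗ LinearMap.mulLeft F w) fun v hv (h : b (w * v) = 0) =>
    e1 ▸ P_add fun a ha z hz => ?_
  have h1 := hb _ (sub_mem (smul_mem _ (b (u * w)) hz) (smul_mem _ (b z) (ml hu hw)))
    (by simp [mul_comm]) _ (ml hv ha)
  have h2 := hb _ (mr hw hv) h _ (mr ha hu)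
  rw [← mul_assoc, t.rad.tr, mul_assoc w, ← mul_assoc] at h2
  rw [sub_mul, smul_mul_assoc, smul_mul_assoc, map_sub, map_smul, map_smul, h2, t.rad.tr] at h1
  simpa [e] using h1

theorem one (hik : i + k = n + 2) (h : J ^ (i + 1) ≤ span F {q} ⊔ P J s (k + 1)) : False :=
  t.pt hik (s ∘ₗ LinearMap.mulLeft F q) fun z hz (e : s (q * z) = 0) x hx => by
    obtain ⟨_, h2, u, hu, rfl⟩ := mem_sup.1 (h hx)
    obtain ⟨c, rfl⟩ := mem_span_singleton.1 h2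
    rw [t.rad.tr, add_mul, map_add, hu z hz, smul_mul_assoc, map_smul, e, smul_zero, add_zero]

theorem nd1 (hv : v ∈ V) (h : v ∈ P J s (n + 3)) : v = 0 := by
  by_contra e
  obtain ⟨a, ha, b, hb, h1⟩ := exists_two ((span_singleton_le_iff_mem _ _).2 hv)
    (by rw [finrank_span_singleton e, t.rk])
  rw [sup_comm, ← span_insert] at h1
  have h2 : ∀ x ∈ V, v * x - x * v ∈ span F {a * b - b * a} ⊔ P J s (n + 2) := fun x hx =>
    mem_sup_right (sub_mem (P_r h (t.le hx)) (P_l t.rad (t.le hx) h))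
  have h3 : a * b - b * a ∈ span F {a * b - b * a} ⊔ P J s (n + 2) :=
    mem_sup_left (mem_span_singleton_self _)
  refine t.one (i := 1) (k := n + 1) (q := a * b - b * a) (by omega) (t.KV.trans (sup_le
    (KK_le_span h1 ?_) (le_sup_of_le_right (t.pP (by omega)))))
  rintro x (e1 | e1 | e1) y (e2 | e2 | e2) <;> rw [e1, e2]
  exacts [by simp, h2 a ha, h2 b hb, neg_sub (v * a) _ ▸ neg_mem (h2 a ha), by simp, h3,
    neg_sub (v * b) _ ▸ neg_mem (h2 b hb), neg_sub (a * b) _ ▸ neg_mem h3, by simp]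

theorem nd2 (hv : v ∈ V) (h : ∀ u ∈ V, v * u ∈ P J s (n + 2)) : v = 0 :=
  t.nd1 hv (t.ofV (t.pP (i := 1) (by omega) (p1 (t.le hv))) h)

theorem d23 : finrank F (J ^ 2 :) ≤ finrank F (J ^ 3 :) + finrank F V :=
  (finrank_mono le_sup_left).trans ((t.r2 le_rfl).trans_eq (by rw [t.rk]))

theorem spanL (hy : y ∈ V) (hi : ∀ v ∈ V, y * v ∈ P J s (n + 2) → v = 0) :
    J ^ 2 ≤ LinearMap.range (L V y) ⊔ J ^ 3 :=
  le_of_inj (t.rad.pow_le 1) t.d23 _ (fun v => m2 (t.le hy) (t.le v.2))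
    fun v h => Subtype.ext (hi v v.2 (t.pP (by omega) h))

theorem spanR (hy : y ∈ V) (hi : ∀ v ∈ V, v * y ∈ P J s (n + 2) → v = 0) :
    J ^ 2 ≤ LinearMap.range (Rt V y) ⊔ J ^ 3 :=
  le_of_inj (t.rad.pow_le 1) t.d23 _ (fun v => m2 (t.le v.2) (t.le hy))
    fun v h => Subtype.ext (hi v v.2 (t.pP (by omega) h))

theorem injR (h : J ^ 2 ≤ LinearMap.range (L V y) ⊔ J ^ 3) (h1 : a * y ∈ P J s (k + 1))
    (h2 : a ∈ P J s (k + 3)) : a ∈ P J s (k + 2) := by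
  rw [add_comm]
  refine P_add fun u hu w hw => ?_
  obtain ⟨_, ⟨v, rfl⟩, r, hr, rfl⟩ := mem_sup.1 (h hu)
  rw [mul_add, add_mul, map_add, mul_assoc a r, h2 _ (add_comm 3 k ▸ mul_mem_pow hr hw), add_zero]
  change s (a * (y * v) * w) = 0
  rw [← mul_assoc, mul_assoc _ _ w, h1 _ (ml (t.le v.2) hw)]

theorem injL (h : J ^ 2 ≤ LinearMap.range (Rt V y) ⊔ J ^ 3) (h1 : y * a ∈ P J s (k + 1))
    (h2 : a ∈ P J s (k + 3)) : a ∈ P J s (k + 2) := by
  refine P_add fun u hu w hw => ?_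
  obtain ⟨_, ⟨v, rfl⟩, r, hr, rfl⟩ := mem_sup.1 (h hw)
  rw [mul_add, map_add, mul_assoc a u r, h2 _ (mul_mem_pow hu hr), add_zero]
  change s (a * u * (v * y)) = 0
  rw [← mul_assoc, t.rad.tr, mul_assoc a, ← mul_assoc, h1 _ (mr hu (t.le v.2))]

theorem genL [IsAlgClosed F] (hy : y ∈ V) (hi : ∀ v ∈ V, y * v ∈ P J s (n + 2) → v = 0) :
    False := by
  have hL := t.spanL hy hi
  have hi' : ∀ v ∈ V, v * y ∈ P J s (n + 2) → v = 0 := fun v hv h =>
    t.nd1 hv (t.injR hL h (t.pP (i := 1) (by omega) (p1 (t.le hv))))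
  have hR := t.spanR hy hi'
  have hJ := t.le hy
  have i1 : (J ^ 3).comap (L V y) = ⊥ :=
    (Submodule.eq_bot_iff _).2 fun v h => Subtype.ext (hi v v.2 (t.pP (i := 3) (by omega) h))
  have i2 : ∀ u : V, y * (y * u) ∈ J ^ 4 → u = 0 := fun u h => Subtype.ext (hi u u.2
    (t.injL hR (t.pP (by omega) h) (t.pP (by omega) (m2 hJ (t.le u.2)))))
  obtain ⟨g, hg⟩ := ((J ^ 3).mkQ ∘ₗ L V y).exists_leftInverse_of_injective
    (by rw [LinearMap.ker_comp, ker_mkQ, i1])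
  obtain ⟨g', hg'⟩ := ((J ^ 4).mkQ ∘ₗ L V (y * y)).exists_leftInverse_of_injective
    (by rw [LinearMap.ker_comp, ker_mkQ]
        exact (Submodule.eq_bot_iff _).2 fun v h => i2 v (mul_assoc y y v ▸ h))
  have k2 : ∀ u : V, g ((J ^ 3).mkQ (y * u)) = u := LinearMap.congr_fun hg
  have k3 : ∀ u : V, ∀ z, z - y * (y * u) ∈ J ^ 4 → g' ((J ^ 4).mkQ z) = u := fun u z h => by
    rw [mkQ_apply, (Submodule.Quotient.eq _).2 h, ← mul_assoc]
    exact LinearMap.congr_fun hg' u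
  let T := ((LinearMap.mul F R).domRestrict₁₂ V V).compr₂ (g ∘ₗ (J ^ 3).mkQ)
  have hT : ∀ x v : V, T x v = g ((J ^ 3).mkQ (x * v)) := fun _ _ => rfl
  have k1 : ∀ x v : V, (x : R) * v - y * T x v ∈ J ^ 3 := fun x v => by
    obtain ⟨_, ⟨u, rfl⟩, r, hr, e⟩ := mem_sup.1 (hL (m2 (t.le x.2) (t.le v.2)))
    change y * u + r = _ at e
    rw [hT, ← e, map_add, mkQ_apply _ r, (Submodule.Quotient.mk_eq_zero _).2 hr, add_zero, k2]
    simpa using hr
  refine gen t.rk T ⟨y, hy⟩ k2 (fun v h => Subtype.ext (hi' v v.2 (t.pP (i := 3) (by omega) ?_)))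
    (fun x v w => sub_eq_zero.1 (i2 _ ?_)) (fun c hc => ?_) fun c hc => ?_
  · simpa [h] using k1 v ⟨y, hy⟩
  · convert add_mem (add_mem (sub_mem (sub_mem (ml (t.le x.2) (k1 v w)) (ml hJ (k1 (T x v) w)))
      (mr (k1 x v) (t.le w.2))) (mr (k1 x ⟨y, hy⟩) (t.le (T v w).2)))
      (ml hJ (k1 (T x ⟨y, hy⟩) (T v w))) using 1
    rw [AddSubgroupClass.coe_sub]
    noncomm_ring
  · have : KK V ⊔ J ^ 3 ≤ LinearMap.ker (c ∘ₗ g ∘ₗ (J ^ 3).mkQ) := sup_le (span_le.2 ?_)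
      fun r hr => by simp [(Submodule.Quotient.mk_eq_zero _).2 hr]
    · ext u
      exact (congrArg c (k2 u)).symm.trans (this (t.KV (m2 hJ (t.le u.2))))
    rintro _ ⟨x, hx, v, hv, rfl⟩
    exact (map_sub _ _ _).trans (sub_eq_zero.2 (hc ⟨x, hx⟩ ⟨v, hv⟩))
  let S := J ^ 3 ⊓ LinearMap.ker (c ∘ₗ g' ∘ₗ (J ^ 4).mkQ)
  have h4 : J ^ 4 ≤ S := le_inf (t.rad.pow_le 2)
    fun r hr => by simp [(Submodule.Quotient.mk_eq_zero _).2 hr]
  have h5 : KK J ≤ KK V ⊔ S := K_le_gen t.rad (X := V) t.le (by simpa using t.sup) fun x hx =>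
    t.sup.trans (sup_le (fun v hv => mem_sup_left (subset_span ⟨x, hx, v, hv, rfl⟩))
      (hL.trans (sup_le ?_ fun r hr => mem_sup_right
        (h4 (sub_mem (ml (t.le hx) hr) (mr hr (t.le hx)))))))
  · have h6 := finrank_mono (t.K4.trans (sup_le h5 (h4.trans le_sup_right)))
    have h7 := finrank_add_le_finrank_add_finrank (KK V) S
    have h8 := rk_KK t.rk.le
    have h9 := rk_sup (J ^ 3) (L V y)
    have h10 : finrank F (LinearMap.range (L V y) ⊔ J ^ 3 :) ≤ _ :=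
      finrank_mono (sup_le (t.rgL hy) (t.rad.pow_le 1))
    rw [i1, finrank_bot, t.rk] at h9
    have h11 := eq_of_le_of_finrank_le (S₁ := S) (S₂ := J ^ 3) inf_le_left (by omega)
    ext u
    exact (congrArg c (k3 u _ (by simp))).symm.trans (h11.ge (ml hJ (m2 hJ (t.le u.2)))).2
  rintro _ ⟨v, rfl⟩
  have h6 := m2 hJ (t.le v.2)
  refine mem_sup_right ⟨sub_mem (ml (t.le hx) h6) (mr h6 (t.le hx)),
    (map_sub _ _ _).trans (sub_eq_zero.2 ?_)⟩
  refine ((congrArg c (k3 _ _ ?_)).trans (hc ⟨x, hx⟩ v)).trans (congrArg c (k3 _ _ ?_)).symm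
  · convert add_mem (mr (k1 ⟨x, hx⟩ ⟨y, hy⟩) (t.le v.2)) (ml hJ (k1 (T ⟨x, hx⟩ ⟨y, hy⟩) v)) using 1
    change x * (y * v) - _ = _
    noncomm_ring
  · convert ml hJ (k1 v ⟨x, hx⟩) using 1
    change y * v * x - _ = _
    noncomm_ring

theorem genR [IsAlgClosed F] (hy : y ∈ V) (hi : ∀ v ∈ V, v * y ∈ P J s (n + 2) → v = 0) :
    False := t.genL hy fun v hv h =>
  t.nd1 hv (t.injL (t.spanR hy hi) h (t.pP (i := 1) (by omega) (p1 (t.le hv))))

theorem c1 (hL : ∀ y ∈ V, ∃ k ∈ V, y * k ∈ P J s (n + 2) ∧ k ≠ 0)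
    (h : ∀ k ∈ V, k ≠ 0 → finrank F ((P J s (n + 2)).comap (L V k)) ≤ 1) : False := by
  refine (rk1 (s := s) (X := V) (Y := J ^ 2) (Z := J ^ (n + 1)) fun y hy => ?_).elim
    (fun ⟨a, ha⟩ => ?_) fun ⟨b, hb⟩ => ?_
  rotate_left
  · exact t.pt (i := n + 1) (k := 1) (by omega) a fun x hx e =>
      t.ofV' (t.pP (by omega) hx) fun v hv => ha x hx e v hv
  · refine t.pt (i := 2) (k := n) (by omega) b fun z hz e =>
      t.ofV (t.pP (by omega) hz) fun v hv x hx => ?_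
    rw [mul_assoc, t.rad.tr, hb z hz e v hv x hx]
  obtain ⟨k, hk, h1, h2⟩ := hL y hy
  have h3 := rk_sup (P J s (n + 2)) (L V k)
  have h4 := h k hk h2
  have h5 := t.r2 (S := P J s (n + 2)) (t.pP (by omega))
  have h6 := t.rk
  obtain ⟨q, -, h7⟩ := ex_one (sup_le_sup_right (t.rgL hk) (P J s (n + 2))) (by omega)
  refine dep_of (le_sup_left.trans h7) fun x hx => (sup_le ?_ fun p hp => P_l t.rad (t.le hy) hp :
    _ ≤ (P J s (n + 1)).comap (LinearMap.mulLeft F y)) hx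
  rintro _ ⟨v, rfl⟩
  change y * (k * v) ∈ P J s (n + 1)
  exact mul_assoc y k v ▸ P_r h1 (t.le v.2)

theorem cmp {z : R} (hW : W ≤ V) (h2 : 2 ≤ finrank F W) (hz : z ∈ V) (h1 : V ≤ span F {z} ⊔ W)
    (a : R →ₗ[F] F) (ha : ∀ φ ∈ J ^ (n + 2), a φ = 0 → ∀ v ∈ V, ∀ w ∈ W, s (v * φ * w) = 0) :
    False := by
  replace ha : ∀ φ ∈ J ^ (n + 2), a φ = 0 → ∀ v ∈ V, ∀ w ∈ W, s (w * v * φ) = 0 :=
    fun φ h e v hv w hw => by rw [mul_assoc, t.rad.tr, ha φ h e v hv w hw]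
  by_cases e : ∀ φ ∈ J ^ (n + 2), a φ = 0
  · obtain ⟨w, hw, h3, -⟩ := ex_ker 0 h2
    exact h3 (t.nd2 (hW hw) fun v hv φ h => ha φ h (e φ h) v hv w hw)
  push Not at e
  obtain ⟨ψ, hψ, e⟩ := e
  have h3 : ∀ w ∈ W, ∀ v ∈ V, ∀ φ ∈ J ^ (n + 2), a ψ * s (w * v * φ) = a φ * s (w * v * ψ) :=
    fun w hw v hv φ h => by
      simpa [mul_sub, sub_eq_zero] using ha _ (sub_mem (smul_mem _ (a ψ) h) (smul_mem _ (a φ) hψ))
        (by simp [mul_comm]) v hv w hw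
  have h4 : ∀ w ∈ W, ∀ v ∈ V, s (w * v * ψ) = 0 → w * v ∈ P J s (n + 2) :=
    fun w hw v hv e' φ h => by simpa [e, e'] using h3 w hw v hv φ h
  have h5 : ∀ w ∈ W, ∀ φ ∈ J ^ (n + 1), a (φ * w) = 0 := fun w hw φ h => by
    obtain ⟨u, hu, h5, h6⟩ := ex_ker (s ∘ₗ LinearMap.mulRight F ψ ∘ₗ LinearMap.mulLeft F w) h2
    by_contra h7
    refine h5 (t.nd2 (hW hu) fun v hv => h4 u hu v hv ?_)
    have h8 := h3 u hu v hv _ (mr h (t.le (hW hw)))
    rw [← mul_assoc, t.rad.tr _ w, ← mul_assoc, ← mul_assoc,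
      P_r (h4 w hw u (hW hu) h6) (t.le hv) φ h] at h8
    simpa [h7] using h8
  obtain ⟨w, hw, h6, h7⟩ := ex_ker (s ∘ₗ LinearMap.mulRight F ψ ∘ₗ LinearMap.mulRight F z) h2
  refine h6 (t.nd2 (hW hw) fun v hv => (sup_le ((span_singleton_le_iff_mem _ _).2
    (h4 w hw z hz h7)) fun u hu => ?_ : _ ≤ (P J s (n + 2)).comap (LinearMap.mulLeft F w)) (h1 hv))
  refine t.ofV (t.pP (by omega) (m2 (t.le (hW hw)) (t.le (hW hu)))) fun v hv φ h => ?_
  change s (w * u * v * φ) = 0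
  rw [mul_assoc w, mul_assoc w, t.rad.tr, mul_assoc]
  exact ha _ (mr h (t.le (hW hw))) (h5 w hw φ h) v hv u hu

theorem c2 [Infinite F] (hR : ∀ y ∈ V, ∃ k ∈ V, k * y ∈ P J s (n + 2) ∧ k ≠ 0) (hk : c ∈ V)
    (h0 : c ≠ 0) (h : 2 ≤ finrank F ((P J s (n + 2)).comap (L V c))) : False := by
  rw [← finrank_map_subtype_eq] at h
  have hW := map_subtype_le V ((P J s (n + 2)).comap (L V c))
  have h1 : ∀ w ∈ ((P J s (n + 2)).comap (L V c)).map V.subtype, c * w ∈ P J s (n + 2) := by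
    rintro _ ⟨w, hw, rfl⟩
    exact hw
  generalize ((P J s (n + 2)).comap (L V c)).map V.subtype = W at *
  have h2 := finrank_lt_finrank_of_lt (lt_of_le_of_ne hW fun e => h0 (t.nd2 hk (e ▸ h1)))
  have h3 := t.rk
  obtain ⟨z, hz, h4⟩ := ex_one hW (by omega)
  obtain ⟨v, hv, h5⟩ : ∃ v ∈ V, v ∉ (W * V ⊔ P J s (n + 2)).comap (LinearMap.mulLeft F z) := by
    by_contra! e
    have h5 : ∀ x ∈ V, ∀ y ∈ V, x * y ∈ W * V ⊔ P J s (n + 2) := fun x hx y hy =>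
      (sup_le ((span_singleton_le_iff_mem _ _).2 (e y hy)) fun w hw =>
        mem_sup_left (mul_mem_mul hw hy) : _ ≤ comap (LinearMap.mulRight F y) _) (h4 hx)
    have h6 : J ^ 2 ≤ (P J s (n + 1)).comap (LinearMap.mulLeft F c) :=
      (t.KV.trans (sup_le (KK_le_span subset_span fun x hx y hy => sub_mem (h5 x hx y hy)
        (h5 y hy x hx)) (le_sup_of_le_right (t.pP (by omega))))).trans (sup_le (mul_le.2
        fun w hw y hy => show c * (w * y) ∈ _ from mul_assoc c w y ▸ P_r (h1 w hw) (t.le hy))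
        fun p hp => P_l t.rad (t.le hk) hp)
    exact h0 (t.nd1 hk (show n + 3 = 2 + (n + 1) by omega ▸ P_add fun u hu => h6 hu))
  refine (rk1 (s := s) (X := V) (Y := J ^ (n + 2)) (Z := W)
    (dep_ext hv h5 fun x hx h6 => ?_)).elim (fun ⟨a, ha⟩ => ?_) fun ⟨b, hb⟩ => ?_
  rotate_left
  · exact t.cmp hW h hz h4 a ha
  · obtain ⟨w, hw, h6, h7⟩ := ex_ker b h
    exact h6 (t.nd2 (hW hw) fun v hv φ e => by rw [mul_assoc, t.rad.tr, hb w hw h7 v hv φ e])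
  obtain ⟨k, hk, h7, h8⟩ := hR x hx
  obtain ⟨_, h9, w, hw, rfl⟩ := mem_sup.1 (h4 hk)
  obtain ⟨d, rfl⟩ := mem_span_singleton.1 h9
  obtain rfl : d = 0 := by
    by_contra e
    refine h6 (mem_comap.2 ((smul_mem_iff _ e).1 ?_))
    simpa [add_mul] using sub_mem (mem_sup_right h7) (mem_sup_left (mul_mem_mul hw hx))
  rw [zero_smul, zero_add] at h7 h8
  obtain ⟨q, -, h10⟩ := ex_one ((span_singleton_le_iff_mem _ _).2 hw)
    (by rw [finrank_span_singleton h8]; omega)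
  refine dep_of' h10 fun φ e u hu => ?_
  obtain ⟨d, rfl⟩ := mem_span_singleton.1 hu
  rw [mul_smul_comm, map_smul, t.rad.tr, ← mul_assoc, h7 φ e, smul_zero]

theorem false [IsAlgClosed F] : False := by
  by_cases h : ∀ k ∈ V, k ≠ 0 → finrank F ((P J s (n + 2)).comap (L V k)) ≤ 1
  · refine t.c1 (fun y hy => ?_) h
    by_contra! e
    exact t.genL hy e
  push Not at h
  obtain ⟨k, hk, h0, h⟩ := h
  refine t.c2 (fun y hy => ?_) hk h0 h
  by_contra! e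
  exact t.genR hy e

end Th

/-- Chlebowitz and Külshammer: a symmetric local algebra with centre of dimension at most five has
dimension at most ten. -/
theorem five [IsAlgClosed F] (h : Rad J s) (h1 : finrank F J ≤ finrank F (KK J) + 4) :
    finrank F J ≤ 9 := by
  classical
  by_cases hK : KK J = ⊥
  · rw [hK, finrank_bot] at h1; omega
  have h3 : J ^ 3 ≠ ⊥ := fun e => hK (h.K_bot e)
  have h6 : J ^ 2 ≤ J := pow_le_J h
  have h4 : ∀ m, J ^ (m + 2 + 1) ≠ ⊥ → finrank F (KK J) < finrank F (KK J ⊔ J ^ (m + 2 + 1) :) ∧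
      KK J ⊔ J ^ (m + 2 + 1) ≤ J ^ 2 := fun m e =>
    ⟨cnt h e, sup_le K_le (h.pow_le' two_pos (by omega))⟩
  have h5 := (h4 0 h3).1.trans_le (finrank_mono (h4 0 h3).2)
  by_cases h7 : finrank F J ≤ finrank F (J ^ 2 :) + 1
  · obtain ⟨a, ha, h8⟩ := exists_one h6 h7
    exact (hK (h.K_bot_of_comm ha ha (by simpa using h8) rfl)).elim
  by_cases h8 : finrank F J ≤ finrank F (J ^ 2 :) + 2
  · obtain ⟨a, ha, b, hb, h9⟩ := exists_two h6 h8
    have := two h ⟨ha, hb, h9⟩ (by omega)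
    omega
  have h9 : ∀ m, J ^ (m + 2 + 1) ≠ ⊥ → J ^ 2 ≤ KK J ⊔ J ^ (m + 2 + 1) := fun m e =>
    (eq_of_le_of_finrank_le (h4 m e).2 (by have := (h4 m e).1; omega)).ge
  obtain ⟨C, hC⟩ := Submodule.exists_isCompl (J ^ 2)
  have e1 : C ⊓ J ⊔ J ^ 2 = J := by
    rw [sup_comm, ← sup_inf_assoc_of_le _ h6, hC.sup_eq_top, top_inf_eq]
  have e2 : C ⊓ J ⊓ J ^ 2 = ⊥ :=
    eq_bot_iff.2 fun x hx => hC.inf_eq_bot.le ⟨hx.2, hx.1.1⟩
  have e3 := finrank_sup_add_finrank_inf_eq (C ⊓ J) (J ^ 2)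
  rw [e1, e2, finrank_bot] at e3
  by_cases h10 : J ^ 4 = ⊥
  · obtain ⟨w, hw⟩ := one_top h h10
    have a1 : finrank F (J ^ 3 :) ≤ 1 :=
      (finrank_mono hw).trans ((finrank_span_le_card ({w} : Set R)).trans (by simp))
    have a2 := finrank_mono ((h9 0 h3).trans (sup_le (K_le_sup (X := (C ⊓ J :)) (S := KK (C ⊓ J))
      (fun x hx => hx.2) (by rw [span_eq, e1]) fun x hx y hy => subset_span ⟨x, hx, y, hy, rfl⟩)
      le_sup_right))
    have a3 := finrank_add_le_finrank_add_finrank (KK (C ⊓ J)) (J ^ 3)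
    have a4 := rk_KK (V := C ⊓ J) (by omega)
    omega
  have h2 : ∃ n, J ^ (n + 5) = ⊥ := let ⟨N, hN⟩ := h.nil
    ⟨N, eq_bot_iff.2 (hN ▸ h.pow_le' N.succ_pos (by omega))⟩
  refine (Th.false ⟨h, Nat.find_spec h2, ?_, inf_le_right, e1.ge, by omega,
    fun v hv e => e2.le ⟨hv, e⟩, h9 1 h10⟩).elim
  rcases e : Nat.find h2 with _ | n
  · exact h10
  · exact Nat.find_min h2 (e ▸ n.lt_succ_self)

end CA.H10Five3
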