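import Cfsg.Agent.Lib.Block.BlkDim
import Cfsg.Agent.Lib.Block.BlkOT

/-!
# Symmetric local algebras with small centre
-/

set_option autoImplicit false
set_option linter.unusedSectionVars false

namespace CA.H10Sym
open Cfsg MonoidAlgebra CA.BlkAlg CA.BlkVal CA.BlkOmega CA.BlkRed CA.BlkCore CA.BlkHeight
  CA.BlkReg CA.BlkBas CA.BlkIdem CA.BlkIBr CA.BlkZero CChar.CharFun CChar.CharOrth CChar.CharInt
  CA.BlkDim Module Submodule

section Alg
variable {F R : Type*} [Field F] [Ring R] [Algebra F R] [FiniteDimensional F R]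

/-- The radical of a symmetric local algebra inside an ambient algebra. -/
structure Rad (J : Submodule F R) (s : R →ₗ[F] F) : Prop where
  mul : J * J ≤ J
  nil : ∃ N, J ^ (N + 1) = ⊥
  tr : ∀ a b, s (a * b) = s (b * a)
  nd : ∀ a ∈ J, s a = 0 → (∀ b ∈ J, a * b = 0) → a = 0

variable {J : Submodule F R} {s : R →ₗ[F] F} {a b c x y : R} {m n : ℕ}

theorem mul_mem_pow (hx : x ∈ J ^ m) (hy : y ∈ J ^ n) : x * y ∈ J ^ (m + n) :=
  pow_add J m n ▸ mul_mem_mul hx hy

theorem s_K (h : Rad J s) (hx : x ∈ KK J) : s x = 0 := by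
  refine (span_le (p := LinearMap.ker s)).2 ?_ hx
  rintro _ ⟨a, -, b, -, rfl⟩
  simp [h.tr a b]

theorem Rad.pow_le (h : Rad J s) (n : ℕ) : J ^ (n + 2) ≤ J ^ (n + 1) := by
  induction n with
  | zero => rw [zero_add, pow_two, zero_add, pow_one]; exact h.mul
  | succ n ih => rw [pow_succ J (n + 2), pow_succ J (n + 1)]; exact mul_le_mul' ih le_rfl

theorem Rad.pow_le' (h : Rad J s) (h1 : 0 < m) (h2 : m ≤ n) : J ^ n ≤ J ^ m := by
  induction n, h2 using Nat.le_induction with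
  | base => exact le_rfl
  | succ n h3 ih =>
    obtain ⟨n, rfl⟩ := Nat.exists_eq_add_one.2 (h1.trans_le h3)
    exact (h.pow_le n).trans ih

theorem Rad.le_of (h : Rad J s) {S : Submodule F R}
    (h1 : ∀ n, J ^ (m + n) ≤ S ⊔ J ^ (m + n + 1)) : J ^ m ≤ S := by
  obtain ⟨N, hN⟩ := h.nil
  have : ∀ n, J ^ m ≤ S ⊔ J ^ (m + n) := fun n => by
    induction n with
    | zero => exact le_sup_right
    | succ n ih => exact ih.trans (sup_le le_sup_left (h1 n))
  simpa [pow_add J m, hN] using this (N + 1)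

theorem Rad.eq_bot (h : Rad J s) (h1 : J ^ m ≤ J ^ (m + 1)) : J ^ m = ⊥ :=
  eq_bot_iff.2 (h.le_of fun n => le_sup_of_le_right (by
    rw [pow_add, add_right_comm, pow_add _ (m + 1)]; exact mul_le_mul' h1 le_rfl))

theorem Rad.exists_soc (h : Rad J s) (h1 : J ^ (m + 1) ≠ ⊥) :
    ∃ w ∈ J ^ (m + 1), w ∉ KK J := by
  classical
  have h2 : ∃ n, J ^ (m + 1 + n + 1) = ⊥ := let ⟨N, hN⟩ := h.nil
    ⟨N, by rw [add_assoc (m + 1), pow_add, hN, mul_bot]⟩
  have h3 : J ^ (m + 1 + Nat.find h2) ≠ ⊥ := by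
    rcases e : Nat.find h2 with _ | n
    · exact h1
    · exact Nat.find_min h2 (e ▸ n.lt_succ_self)
  obtain ⟨w, hw, h0⟩ := (Submodule.ne_bot_iff _).1 h3
  refine ⟨w, h.pow_le' m.succ_pos (Nat.le_add_right _ _) hw, fun e => h0 (h.nd w ?_ (s_K h e)
    fun b hb => (mem_bot F).1 (Nat.find_spec h2 ▸ mul_mem_mul hw hb))⟩
  exact pow_one J ▸ h.pow_le' one_pos (by omega) hw

theorem K_le : KK J ≤ J ^ 2 := span_le.2 (by
  rintro _ ⟨a, ha, b, hb, rfl⟩
  rw [pow_two]
  exact sub_mem (mul_mem_mul ha hb) (mul_mem_mul hb ha))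

theorem Rad.K_bot (h : Rad J s) (h3 : J ^ 3 = ⊥) : KK J = ⊥ :=
  eq_bot_iff.2 fun x hx => h.nd x (h.mul (pow_two J ▸ K_le hx)) (s_K h hx)
    fun _ hb => (mem_bot F).1 (h3 ▸ mul_mem_mul (K_le hx) hb)

theorem mul_le_sup {X Y : Set R} (hX : ∀ x ∈ X, x ∈ J ^ m) (hY : ∀ y ∈ Y, y ∈ J ^ n)
    (h1 : J ^ m ≤ span F X ⊔ J ^ (m + 1)) (h2 : J ^ n ≤ span F Y ⊔ J ^ (n + 1))
    {S : Submodule F R} (h : ∀ x ∈ X, ∀ y ∈ Y, x * y ∈ S ⊔ J ^ (m + n + 1)) :
    J ^ (m + n) ≤ S ⊔ J ^ (m + n + 1) := by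
  rw [pow_add]
  refine (mul_le_mul' h1 le_rfl).trans ?_
  rw [Submodule.sup_mul, ← pow_add, add_right_comm]
  refine sup_le ((mul_le_mul' le_rfl h2).trans ?_) le_sup_right
  rw [Submodule.mul_sup, span_mul_span]
  refine sup_le (span_le.2 ?_) (le_sup_of_le_right ((mul_le_mul' (span_le.2 hX) le_rfl).trans ?_))
  · rintro _ ⟨x, hx, y, hy, rfl⟩
    exact h x hx y hy
  · rw [← pow_add, add_assoc]

theorem Rad.le_adjoin (h : Rad J s) {X : Set R} (hX : ∀ x ∈ X, x ∈ J)
    (h1 : J ≤ span F X ⊔ J ^ 2) : J ≤ (Algebra.adjoin F X).toSubmodule := by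
  have h2 : ∀ n, J ^ (1 + n) ≤ (J ^ (1 + n) ⊓ (Algebra.adjoin F X).toSubmodule) ⊔ J ^ (1 + n + 1) :=
    fun n => by
      induction n with
      | zero =>
        rw [add_zero, pow_one]
        exact h1.trans (sup_le_sup_right (span_le.2 fun x hx =>
          mem_inf.2 ⟨hX x hx, Algebra.subset_adjoin hx⟩) _)
      | succ n ih =>
        exact mul_le_sup (n := 1) (X := (J ^ (1 + n) ⊓ (Algebra.adjoin F X).toSubmodule :))
          (fun x hx => hx.1) (by simpa using hX) (by rwa [span_eq])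
          (by rwa [pow_one]) fun x hx y hy => mem_sup_left (mem_inf.2
            ⟨mul_mem_mul hx.1 (hX y hy), Subalgebra.mul_mem _ hx.2 (Algebra.subset_adjoin hy)⟩)
  exact (pow_one J).ge.trans (h.le_of fun n => (h2 n).trans (sup_le_sup_right inf_le_right _))

theorem Rad.K_bot_of_comm (h : Rad J s) (ha : a ∈ J) (hb : b ∈ J)
    (h1 : J ≤ span F {a, b} ⊔ J ^ 2) (hc : a * b = b * a) : KK J = ⊥ := span_eq_bot.2 (by
  rintro _ ⟨x, hx, y, hy, rfl⟩
  have h2 := h.le_adjoin (X := {a, b}) (by simp [ha, hb]) h1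
  have := Algebra.isMulCommutative_adjoin F (s := {a, b}) (by simp [hc])
  exact sub_eq_zero.2 (setLike_mul_comm (s := Algebra.adjoin F {a, b}) (h2 hx) (h2 hy)))

theorem Rad.w1 (h : Rad J s) (ha : a ∈ J) (hb : b ∈ J) (h1 : J ≤ span F {a, b} ⊔ J ^ 2)
    (h2 : J ^ 2 ≤ span F {a * a} ⊔ J ^ 3) : KK J = ⊥ := by
  let S : Submodule F R :=
    { carrier := {x | ∃ f, Commute f a ∧ f * a * a = x}
      add_mem' := by
        rintro _ _ ⟨f, h, rfl⟩ ⟨g, h', rfl⟩
        exact ⟨f + g, h.add_left h', by rw [add_mul, add_mul]⟩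
      zero_mem' := ⟨0, Commute.zero_left _, by simp⟩
      smul_mem' := by
        rintro c _ ⟨f, h, rfl⟩
        exact ⟨c • f, h.smul_left c, by simp⟩ }
  have h3 : ∀ n, J ^ (2 + n) ≤ span F {a ^ (2 + n)} ⊔ J ^ (2 + n + 1) := fun n => by
    induction n with
    | zero => rwa [add_zero, sq a]
    | succ n ih =>
      refine mul_le_sup (n := 1) (by simpa using pow_mem_pow J ha _) (Y := J) (by simp) ih
        (by simp) ?_
      rintro _ rfl y hy
      obtain ⟨_, h4, z, hz, h5⟩ := mem_sup.1 (h2 (pow_two J ▸ mul_mem_mul ha hy))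
      obtain ⟨c, rfl⟩ := mem_span_singleton.1 h4
      have : a ^ (2 + n) * y = c • a ^ (2 + (n + 1)) + a ^ (n + 1) * z := by
        rw [show 2 + n = n + 1 + 1 by omega, show 2 + (n + 1) = n + 1 + 1 + 1 by omega, pow_succ,
          mul_assoc, ← h5, mul_add, mul_smul_comm, ← mul_assoc, ← pow_succ, ← pow_succ]
      rw [this, show 2 + n + 1 + 1 = n + 1 + 3 by omega]
      exact add_mem (mem_sup_left (smul_mem _ _ (mem_span_singleton_self _)))
        (mem_sup_right (mul_mem_pow (pow_mem_pow J ha _) hz))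
  have h4 : J ^ 2 ≤ S := h.le_of fun n => (h3 n).trans (sup_le_sup_right
    ((span_singleton_le_iff_mem _ S).2 ⟨a ^ n, (Commute.refl a).pow_left n, by
      rw [add_comm, pow_succ, pow_succ]⟩) _)
  have h5 := pow_two J ▸ mul_mem_mul ha hb
  have h6 := pow_two J ▸ mul_mem_mul hb ha
  obtain ⟨f, hf, e1⟩ := h4 h5
  obtain ⟨f', hf', e2⟩ := h4 h6
  obtain ⟨g, hg, e3⟩ := h4 (sub_mem h5 h6)
  have h7 : (a * b - b * a) * a = 0 := by
    rw [sub_mul, mul_assoc a, ← e2, ← mul_assoc, ← mul_assoc, ← hf'.eq, sub_self]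
  refine h.K_bot_of_comm ha hb h1 (sub_eq_zero.1 (h.nd _ (h.mul (pow_two J ▸ sub_mem h5 h6))
    (by simp [h.tr a b]) fun y hy => ?_))
  refine (sup_le (span_le.2 ?_) fun z hz => ?_ :
    _ ≤ LinearMap.ker (LinearMap.mulLeft F (a * b - b * a))) (h1 hy)
  · rintro _ (rfl | h8)
    · exact h7
    · rw [h8]
      calc (a * b - b * a) * b = g * a * (a * b) := by rw [← e3, mul_assoc]
        _ = g * a * a * a * f := by rw [← e1, hf.eq, mul_assoc a f a, hf.eq]; simp only [mul_assoc]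
        _ = 0 := by rw [e3, h7, zero_mul]
  · obtain ⟨t, ht, rfl⟩ := h4 hz
    change (a * b - b * a) * _ = 0
    rw [ht.eq, ← mul_assoc, ← mul_assoc, h7, zero_mul, zero_mul]

theorem exists_step {U V : Submodule F R} (h : U ≤ V) (h1 : finrank F V ≤ finrank F U + (n + 1)) :
    ∃ a ∈ V, finrank F V ≤ finrank F (span F {a} ⊔ U : Submodule F R) + n := by
  by_cases e : V ≤ U
  · exact ⟨0, zero_mem _, le_add_right (finrank_mono (e.trans le_sup_right))⟩
  obtain ⟨t, ht, ht'⟩ := SetLike.not_le_iff_exists.1 e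
  have := finrank_lt_finrank_of_lt (lt_of_le_of_ne (le_sup_right : U ≤ span F {t} ⊔ U) fun h6 =>
    ht' (h6.ge (mem_sup_left (mem_span_singleton_self t))))
  exact ⟨t, ht, by omega⟩

theorem exists_one {U V : Submodule F R} (h : U ≤ V) (h1 : finrank F V ≤ finrank F U + 1) :
    ∃ a ∈ V, V ≤ span F {a} ⊔ U :=
  let ⟨a, ha, h2⟩ := exists_step h h1
  ⟨a, ha, (eq_of_le_of_finrank_le (sup_le ((span_singleton_le_iff_mem _ _).2 ha) h) h2).ge⟩

theorem exists_two {U V : Submodule F R} (h : U ≤ V) (h1 : finrank F V ≤ finrank F U + 2) :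
    ∃ a ∈ V, ∃ b ∈ V, V ≤ span F {a, b} ⊔ U := by
  obtain ⟨b, hb, h2⟩ := exists_step h h1
  obtain ⟨a, ha, h3⟩ := exists_one (sup_le ((span_singleton_le_iff_mem _ _).2 hb) h) h2
  exact ⟨a, ha, b, hb, by rwa [span_insert, sup_assoc]⟩

theorem swap {U V : Submodule F R} (h : V ≤ span F {a} ⊔ U) (hx : x ∈ V) (h1 : x ∉ U) :
    V ≤ span F {x} ⊔ U := by
  obtain ⟨_, h2, z, hz, rfl⟩ := mem_sup.1 (h hx)
  obtain ⟨c, rfl⟩ := mem_span_singleton.1 h2
  refine h.trans (sup_le ((span_singleton_le_iff_mem _ _).2 ?_) le_sup_right)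
  have hc : c ≠ 0 := fun e => h1 (by simpa [e] using hz)
  simpa [hc] using smul_mem _ c⁻¹
    (sub_mem (mem_sup_left (mem_span_singleton_self (c • a + z))) (mem_sup_right hz))

theorem K_le_sup {X : Set R} (hX : ∀ x ∈ X, x ∈ J) (h1 : J ≤ span F X ⊔ J ^ 2)
    {S : Submodule F R} (h : ∀ x ∈ X, ∀ y ∈ X, x * y - y * x ∈ S) : KK J ≤ S ⊔ J ^ 3 := by
  have h2 : ∀ x ∈ J, ∀ y ∈ J ^ 2, x * y - y * x ∈ J ^ 3 := fun x hx y hy =>
    sub_mem (mul_mem_pow (m := 1) ((pow_one J).ge hx) hy) (mul_mem_mul hy hx)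
  refine span_le.2 ?_
  rintro _ ⟨x, hx, y, hy, rfl⟩
  obtain ⟨x, hx1, x', hx', rfl⟩ := mem_sup.1 (h1 hx)
  obtain ⟨y, hy1, y', hy', rfl⟩ := mem_sup.1 (h1 hy)
  rw [show (x + x') * (y + y') - (y + y') * (x + x') = (x * y - y * x) + ((x * y' - y' * x) -
    ((y + y') * x' - x' * (y + y'))) by noncomm_ring]
  refine add_mem (mem_sup_left ?_) (mem_sup_right (sub_mem (h2 _ (span_le.2 hX hx1) _ hy') (h2 _ hy _ hx')))
  refine span_induction₂ (p := fun x y _ _ => x * y - y * x ∈ S) (fun x y a b => h x a y b)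
    (by simp) (by simp) (fun x y z _ _ _ a b => ?_) (fun x y z _ _ _ a b => ?_)
    (fun r x y _ _ a => ?_) (fun r x y _ _ a => ?_) hx1 hy1
  · simpa [add_mul, mul_add, add_sub_add_comm] using add_mem a b
  · simpa [add_mul, mul_add, add_sub_add_comm] using add_mem a b
  · simpa [smul_sub] using smul_mem _ r a
  · simpa [smul_sub] using smul_mem _ r a

/-- the case `dim J² / J³ ≤ 1` -/
theorem Rad.w1' (h : Rad J s) (ha : a ∈ J) (hb : b ∈ J) (h1 : J ≤ span F {a, b} ⊔ J ^ 2)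
    (h2 : J ^ 2 ≤ span F {c} ⊔ J ^ 3) : KK J = ⊥ := by
  have e : ∀ x ∈ J, x * x ∉ J ^ 3 → J ^ 2 ≤ span F {x * x} ⊔ J ^ 3 := fun x hx =>
    swap h2 (pow_two J ▸ mul_mem_mul hx hx)
  by_cases a2 : a * a ∈ J ^ 3
  swap
  · exact h.w1 ha hb h1 (e a ha a2)
  by_cases b2 : b * b ∈ J ^ 3
  swap
  · exact h.w1 hb ha (Set.pair_comm a b ▸ h1) (e b hb b2)
  by_cases c2 : (a + b) * (a + b) ∈ J ^ 3
  swap
  · refine h.w1 (add_mem ha hb) hb (h1.trans (sup_le_sup_right (span_le.2 ?_) _)) (e _ (add_mem ha hb) c2)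
    rintro _ (rfl | rfl)
    · exact mem_span_pair.2 ⟨1, -1, by simp⟩
    · exact subset_span (by simp)
  have h3 : a * b + b * a ∈ J ^ 3 := by
    convert sub_mem (sub_mem c2 a2) b2 using 1
    noncomm_ring
  have j1 : ∀ x ∈ ({a, b} : Set R), x ∈ J ^ 1 := by simp [ha, hb]
  have h4 : J ^ (1 + 1) ≤ span F {a * b} ⊔ J ^ (1 + 1 + 1) :=
    mul_le_sup j1 j1 (by rwa [pow_one]) (by rwa [pow_one]) (by
      rintro x (e1 | e1) y (e2 | e2) <;> rw [e1, e2]
      · exact mem_sup_right a2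
      · exact mem_sup_left (mem_span_singleton_self _)
      · rw [← add_sub_cancel_left (a * b) (b * a)]
        exact sub_mem (mem_sup_right h3) (mem_sup_left (mem_span_singleton_self _))
      · exact mem_sup_right b2)
  refine h.K_bot (h.eq_bot ((mul_le_sup (S := ⊥) j1 (Y := {a * b}) (by
    simpa [pow_two] using mul_mem_mul ha hb) (by rwa [pow_one]) h4 ?_).trans (bot_sup_eq _).le))
  rintro x (h5 | h5) _ rfl <;> rw [h5]
  · exact mem_sup_right (mul_assoc _ _ b ▸ mul_mem_mul a2 hb)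
  · rw [show b * (a * b) = (a * b + b * a) * b - a * (b * b) by noncomm_ring]
    exact mem_sup_right (sub_mem (mul_mem_mul h3 hb) (mul_mem_pow (m := 1) (n := 3) (j1 a (by simp)) b2))

/-- Külshammer: a symmetric local algebra with centre of dimension at most four is commutative. -/
theorem Rad.four (h : Rad J s) (h1 : finrank F J ≤ finrank F (KK J) + 3) : KK J = ⊥ := by
  by_cases h3 : J ^ 3 = ⊥
  · exact h.K_bot h3
  obtain ⟨w, hw, hw'⟩ := h.exists_soc h3
  have h2 := finrank_lt_finrank_of_lt (lt_of_le_of_ne (le_sup_left : KK J ≤ KK J ⊔ J ^ 3) fun e =>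
    hw' (e.ge (mem_sup_right hw)))
  have h4 : KK J ⊔ J ^ 3 ≤ J ^ 2 := sup_le K_le (h.pow_le 1)
  have h5 := finrank_mono h4
  have h6 : J ^ 2 ≤ J := pow_two J ▸ h.mul
  by_cases h7 : finrank F J ≤ finrank F (J ^ 2 :) + 1
  · obtain ⟨a, ha, h8⟩ := exists_one h6 h7
    exact h.K_bot_of_comm ha ha (by simpa using h8) rfl
  obtain ⟨a, ha, b, hb, h8⟩ := exists_two h6 (by omega)
  refine h.w1' ha hb h8 (c := a * b - b * a) ((eq_of_le_of_finrank_le h4 (by omega)).ge.trans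
    (sup_le (K_le_sup (by simp [ha, hb]) h8 ?_) le_sup_right))
  rintro x (e1 | e1) y (e2 | e2) <;> rw [e1, e2]
  · simp
  · exact mem_span_singleton_self _
  · simpa using neg_mem (mem_span_singleton_self (R := F) (a * b - b * a))
  · simp

end Alg

variable {p : ℕ} {M : Ideal AlgInt} {G : Type*} [Group G] [Finite G] {B : Set (IrrCharacter G)}

theorem exists_rad (hM : IsPModular p M) (hB : IsPBlock M B) (hl : blockRank p B = 1) :
    ∃ (J : Submodule (k M) (k M)[G]) (s : (k M)[G] →ₗ[k M] k M), Rad J s ∧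
      finrank (k M) J + 1 = p ^ blockDefect p B ∧
      finrank (k M) J + 1 ≤ finrank (k M) (KK J) + Nat.card B := by
  classical
  haveI := Fintype.ofFinite G
  have hA := isSat_of_isPBlock hM hB
  have h4 := card_IBrIn hM hA
  haveI : Subsingleton (IBrIn M B) := Fintype.card_le_one_iff_subsingleton.mp (by omega)
  obtain ⟨i⟩ : Nonempty (IBrIn M B) := Fintype.card_pos_iff.mp (by omega)
  have h5 := (ibr hM hA).C_eq_of_subsingleton hM hB i
  have h6 := finrank_lr (eh_mem i.1) (eh_mem i.1) (eh_idem i.1) (eh_idem i.1)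
  set ε := red M (eh i.1) with hεd
  have hε : ε * ε = ε := by rw [← red_mul (eh_mem _) (eh_mem _), eh_idem]
  set A := LinearMap.range (lr (F := k M) ε ε)
  have h7 : finrank (k M) A = p ^ blockDefect p B := by
    apply Nat.cast_injective (R := ℂ)
    have := congrArg (Int.cast : ℤ → ℂ) h5
    rw [BSet.C_apply] at this
    simp only [ibr_d] at this
    push_cast at this ⊢
    rw [h6, ← this]
    simp only [cast_dn_irr]
  have hfB := fB_mem_OG hM hB
  obtain ⟨D⟩ := nonempty_decO (M := M) (e := ⟨fB B, hfB⟩) (Subtype.ext (fB_mul_self B))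
  have hc : ∀ j, D.c j = i.1 := fun j => congrArg Subtype.val (Subsingleton.elim
    (⟨D.c j, (blk_subset_iff hM hA).mpr (by
      have e1 := congrArg Subtype.val (D.yx j)
      have e2 := congrArg Subtype.val (D.ye j)
      simp only [Subring.coe_mul] at e1 e2
      rw [eh, ← e1, ← mul_assoc, (commute_of_mem_Z (fB_mem_Z B) _).eq, e2])⟩ : IBrIn M B) i)
  have hr : redHom M G (ehO i.1) = ε := rfl
  have h8 := finrank_corner_le hε (eB_mem_Z B) (by
      rw [eB, ← red_mul hfB (eh_mem _), (blk_subset_iff hM hA).mp i.2])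
    (x := fun j => redHom M G (D.x j)) (y := fun j => redHom M G (D.y j))
    (by simp only [← map_mul, ← map_sum, D.sum]; rfl)
    (fun j => by rw [← hr, ← map_mul, ← hc j, D.xê]) (fun j => by rw [← hr, ← map_mul, ← hc j, D.êy])
  have h9 := finrank_ZB_le hA
  have hπ : (wed M G).π ε = (wed M G).E i.1 := pi_red_eh i.1
  have hm : ∀ {a}, a ∈ A ↔ ε * a * ε = a := fun {a} => ⟨by
    rintro ⟨a, rfl⟩
    rw [lr_apply, ← mul_assoc, ← mul_assoc, hε, mul_assoc, hε], fun h => ⟨a, by rw [lr_apply, h]⟩⟩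
  have hεA : ε ∈ A := hm.mpr (by rw [hε, hε])
  have hl : ∀ a ∈ A, ε * a = a := fun a ha => by rw [← hm.mp ha, ← mul_assoc, ← mul_assoc, hε]
  have hr' : ∀ a ∈ A, a * ε = a := fun a ha => by rw [← hm.mp ha, mul_assoc, hε]
  let J := A ⊓ LinearMap.ker (wed M G).π.toLinearMap
  have hJ : ∀ a ∈ A, ∃ c : k M, ∃ b ∈ J, a = c • ε + b := fun a ha => by
    have e1 := (wed M G).E_mul_mul i.1 ((wed M G).π a)
    rw [← hπ, ← map_mul, ← map_mul, hm.mp ha, ← map_smul, ← sub_eq_zero, ← map_sub] at e1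
    exact ⟨_, _, ⟨sub_mem ha (A.smul_mem _ hεA), e1⟩, (add_sub_cancel _ _).symm⟩
  have h10 : finrank (k M) J + 1 = finrank (k M) A := by
    have e1 : finrank (k M) J < finrank (k M) A := finrank_lt_finrank_of_lt (lt_of_le_of_ne (inf_le_left : J ≤ A) fun e =>
      (wed M G).E_ne_zero i.1 (hπ ▸ (e.ge hεA).2))
    have e2 := finrank_mono (show A ≤ span (k M) {ε} ⊔ J from fun a ha => by
      obtain ⟨c, b, hb, rfl⟩ := hJ a ha
      exact add_mem (mem_sup_left (smul_mem _ _ (mem_span_singleton_self _))) (mem_sup_right hb))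
    have e3 := finrank_add_le_finrank_add_finrank (span (k M) {ε}) J
    have e4 := finrank_span_le_card (R := k M) ({ε} : Set (k M)[G])
    simp at e4
    omega
  have h11 := finrank_mono (show KK A ≤ KK J from span_le.2 (by
    rintro _ ⟨a, ha, b, hb, rfl⟩
    obtain ⟨c, a', ha', rfl⟩ := hJ a ha
    obtain ⟨d, b', hb', rfl⟩ := hJ b hb
    refine subset_span ⟨a', ha', b', hb', ?_⟩
    simp only [add_mul, mul_add, smul_mul_assoc, mul_smul_comm, hl _ ha'.1, hl _ hb'.1, hr' _ ha'.1,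
      hr' _ hb'.1, smul_add, smul_comm c d]
    abel))
  let s : (k M)[G] →ₗ[k M] k M := chiL fun g => if g = 1 then 1 else 0
  have hs : ∀ a, s a = a.coeff 1 := fun a => by simp [s, chiL_apply]
  have ht : ∀ a b, s (a * b) = s (b * a) := chiL_mul_comm fun g x => by simp
  refine ⟨J, s, ⟨Submodule.mul_le.mpr fun a ha b hb => ⟨hm.mpr (by
      rw [← mul_assoc, hl a ha.1, mul_assoc, hr' b hb.1]), by
        change (wed M G).π (a * b) = 0
        rw [map_mul, show (wed M G).π a = 0 from ha.2, zero_mul]⟩,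
    pow_le_ker (wed M G) fun a ha => ha.2, ht, fun a ha h1 h2 => ext_coeff fun g => ?_⟩,
    h10.trans h7, h10.le.trans (h8.trans (add_le_add h11 h9))⟩
  obtain ⟨c, b, hb, e⟩ := hJ _ (LinearMap.mem_range_self _ (single g⁻¹ 1))
  have := congrArg (fun x => s (a * x)) e
  simp only [lr_apply] at this
  rw [← mul_assoc, ← mul_assoc, hr' a ha.1, ht, ← mul_assoc, hl a ha.1, mul_add, h2 b hb,
    mul_smul_comm, hr' a ha.1, add_zero, map_smul, h1, hs, coeff_mul_single_apply] at this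
  simpa using this

theorem card_eq_of_K {G : Type*} [Group G] [Fintype G] {B : Set (IrrCharacter G)} (hM : IsPModular p M) (hB : IsPBlock M B) (hl : blockRank p B = 1)
    (h : p ^ blockDefect p B ≤ Nat.card B) : ∃ i : IBr M G, BlkOT.One B i := by
  obtain ⟨d, hd⟩ := BlkOT.exists_deg_of_card hM hB hl h
  exact BlkOT.exists_one_of_deg hM hB hd

theorem one_of_le_four {G : Type*} [Group G] [Fintype G] {B : Set (IrrCharacter G)} (hM : IsPModular p M) (hB : IsPBlock M B) (hl : blockRank p B = 1)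
    (h : Nat.card B ≤ 4) : ∃ i : IBr M G, BlkOT.One B i := by
  obtain ⟨J, s, h1, h2, h3⟩ := exists_rad hM hB hl
  rw [h1.four (by omega), finrank_bot] at h3
  exact card_eq_of_K hM hB hl (by omega)

end CA.H10Sym
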