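import Cfsg.Agent.Lib.Block.H11Sm

/-!
Contributions of the subsections of a block, indexed by the elements of a defect group.
-/

set_option autoImplicit false
set_option linter.unusedSectionVars false

namespace CA.H11Cw

open Cfsg MonoidAlgebra CA.BlkAlg CA.BlkVal CA.BlkOmega CA.BlkRed CA.H11Loc CA.H11Amb CA.H11Pair
  CA.H11Max CA.H11Tau CA.H11Brg CA.H11Sec CA.BlkSubs CA.H11Contrib CA.SylIn CA.H12PPart
  CA.H11Star CA.H13Span CA.H11Def CA.H11Eta CA.H11NilB CA.BlkHeight CA.H11Fb CA.H11Exc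
  CA.H11Map CA.H11Tr CA.H11CycD CA.H11Cyclo CChar.CharFun CChar.CharOrth CChar.CharGen
  CChar.CharInt Subgroup
open CA.BlkCore hiding lam lam_mul lam_one
open CA.BlkBas (tr tr_apply)
open scoped ComplexConjugate

theorem int_of_three {f : ℕ → ℂ} (hf : f ∈ cyc 4) (h : f 3 = f 1) : ∃ t : ℤ, f 1 = t :=
  exists_int_of_const hf fun u => by
    rcases (by decide : ∀ u : (ZMod 4)ˣ, ex u = 1 ∨ ex u = 3) u with h1 | h1 <;> rw [h1]
    exact h

theorem int_of_real {f : ℕ → ℂ} (hf : f ∈ cyc 4) (h : conj (f 1) = f 1) : ∃ t : ℤ, f 1 = t :=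
  int_of_three hf (by
    rw [← h, map_apply hf (starRingEnd ℂ) (j := 3) fun z hz => ?_]
    have h1 : ‖z‖ = 1 := Complex.norm_eq_one_of_pow_eq_one hz (by norm_num)
    have h2 : z ≠ 0 := by rintro rfl; simp at h1
    refine mul_left_cancel₀ h2 ?_
    rw [Complex.mul_conj, Complex.normSq_eq_norm_sq, h1, ← pow_succ', hz]; simp)

variable {p : ℕ} {M : Ideal AlgInt} {G : Type*} [Group G] [Fintype G] {P : Subgroup G}
  {e : (k M)[G]} {B : Set (IrrCharacter G)} {v w : P} {α β θ η : G → ℂ} {χ ψ : IrrCharacter G}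

variable (p e) in
/-- The contribution of the subsection at `v`. -/
noncomputable def cw (θ η : G → ℂ) (v : P) : ℂ := cA p M (v : G) (lb p P e v) θ η

theorem ct_eq_cw (θ η : G → ℂ) (v : P) : ct p e θ η v = cw p e θ η v / nF p e v := rfl

theorem cw_eq_ct (θ η : G → ℂ) (v : P) : cw p e θ η v = nF p e v * ct p e θ η v := by
  rw [ct_eq_cw, mul_div_cancel₀ _ (nF_ne v)]

open Classical in
variable (p e) in
/-- The block of the subsection at `v`. -/
noncomputable def lB (v : P) : Set (IrrCharacter (centralizer ({(v : G)} : Set G))) :=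
  if h : ∃ b, IsPBlock M b ∧ ab M (centralizer ({(v : G)} : Set G)) b = lb p P e v then h.choose else ∅

variable (p e) in
/-- The number of Brauer characters of the subsection at `v`. -/
noncomputable def rk (v : P) : ℕ := blockRank p (lB p e v)

open Classical in
variable (p e) in
/-- The number of elements of `X` fused to `v`. -/
noncomputable def nX (X : Finset P) (v : P) : ℕ := (X.filter fun w : P => FC p P e v w).card

theorem sum_div [Fintype P] {X : Finset P} (hX : ∀ v : P, ∃ w ∈ X, FC p P e v w) {F : P → ℂ}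
    (hF : Stb p e F) : ∑ v, F v / nF p e v = ∑ v ∈ X, F v / nX p e X v := by
  classical
  have h1 : ∀ v w : P, FC p P e v w → nX p e X v = nX p e X w := fun v w h => by
    simp only [nX, h.iff]
  have h2 : ∀ v : P, (nX p e X v : ℂ) ≠ 0 := fun v => by
    obtain ⟨w, h1, h2⟩ := hX v
    exact Nat.cast_ne_zero.2 (Finset.card_ne_zero.2 ⟨w, Finset.mem_filter.2 ⟨h1, h2⟩⟩)
  calc ∑ v, F v / nF p e v
      = ∑ v : P, ∑ w ∈ X, if FC p P e v w then F w / nX p e X w / nF p e w else 0 := by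
        refine Finset.sum_congr rfl fun v _ => ?_
        rw [← Finset.sum_filter, Finset.sum_congr rfl (g := fun _ => F v / nX p e X v / nF p e v)
          fun w hw => ?_, Finset.sum_const, nsmul_eq_mul]
        swap
        · have hw := (Finset.mem_filter.1 hw).2
          rw [hF v w hw, h1 v w hw, nF_congr hw]
        have := h2 v
        have := nF_ne (p := p) (e := e) v
        rw [show Finset.card _ = nX p e X v from rfl]
        field_simp
    _ = _ := by
        rw [Finset.sum_comm]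
        refine Finset.sum_congr rfl fun w _ => ?_
        rw [← Finset.sum_filter, Finset.sum_const, nsmul_eq_mul, show Finset.card _ = nF p e w by
          rw [nF, Nat.card_eq_fintype_card, Fintype.card_subtype]
          exact congrArg _ (Finset.filter_congr fun v _ => ⟨fun h => FC.symm h v.2, fun h => FC.symm h w.2⟩),
          mul_div_cancel₀ _ (nF_ne w)]

theorem st_ne_zero {F : P → ℂ} {g : G} (h : st p e F θ g ≠ 0) :
    ∃ v : P, IsConj (pPart p g) v ∧ F v ≠ 0 := by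
  classical
  rw [st_def, star_apply] at h
  obtain ⟨f, -, h⟩ := Finset.exists_ne_zero_of_sum_ne_zero h
  have h := left_ne_zero_of_mul h
  by_cases h1 : ∃ v : P, Fu p P e (pPart p g) f v
  · rw [Lam, dif_pos h1] at h
    exact ⟨_, h1.choose_spec.isConj, h⟩
  · exact (h (Lam_of_not h1)).elim

open Classical in
variable (p e) in
/-- The indicator function of a fusion class. -/
noncomputable def ic (v : P) : P → ℂ := fun w => if FC p P e v w then 1 else 0

theorem stb_ic (v : P) : Stb p e (ic p e v) := fun a b h => by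
  classical
  exact if_congr ⟨fun h1 => h1.trans h, fun h1 => h1.trans (h.symm a.2)⟩ rfl rfl

variable (p P e B) in
/-- A block with a maximal Brauer pair. -/
structure Bk : Prop where
  hM : IsPModular p M
  hB : IsPBlock M B
  mx : Mx p ⊤ (eB M B) P e

variable [Fact p.Prime]

theorem exists_bk (hM : IsPModular p M) (hB : IsPBlock M B) (hD : IsDefectGroup p M B P) :
    ∃ e : (k M)[G], Bk p P e B :=
  (exists_mx (p_eq hM) (blk_eB hM hB) ((isDefectGroup_iff_top hM hB).1 hD)).imp fun _ h => ⟨hM, hB, h⟩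

namespace Bk
variable (T : Bk p P e B)
include T

theorem hp : (p : k M) = 0 := p_eq T.hM

theorem isDefectGroup : IsDefectGroup p M B P := (isDefectGroup_iff_top T.hM T.hB).2 T.mx.isDef

theorem lB_spec (v : P) : IsInducedBlock M _ (lB p e v) B ∧ ab M _ (lB p e v) = lb p P e v := by
  obtain ⟨b, h1, h2⟩ := exists_lB T.hM T.hB T.mx v
  have h : ∃ b, IsPBlock M b ∧ ab M (centralizer ({(v : G)} : Set G)) b = lb p P e v := ⟨b, h1.1, h2⟩
  rw [lB, dif_pos h, ab_inj T.hM h.choose_spec.1 h1.1 (h.choose_spec.2.trans h2.symm)]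
  exact ⟨h1, h2⟩

theorem blk (v : P) : IsPBlock M (lB p e v) := (T.lB_spec v).1.1

theorem sat (v : P) : IsSat M (lB p e v) := isSat_of_isPBlock T.hM (T.blk v)

theorem pel (v : P) : ∃ n : ℕ, orderOf (v : G) = p ^ n := CA.H11Eta.pel T.mx.pr v

theorem sub (v : P) : Sub p ⊤ (zpowers (v : G)) (lb p P e v) P e := lb_sub T.hp T.mx.pr v.2

theorem rk_eq {H : Subgroup G} (hH : H = centralizer {(v : G)}) {b : Set (IrrCharacter H)}
    (hb : IsPBlock M b) (h : ab M H b = lb p P e v) : rk p e v = blockRank p b := by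
  subst hH
  rw [rk, ab_inj T.hM hb (T.blk v) (h.trans (T.lB_spec v).2.symm)]

theorem rk_pos (v : P) : 0 < rk p e v :=
  let ⟨_, h⟩ := block_nonempty T.hM (T.blk v); blockRank_pos T.hM.1 h

theorem rk_one : rk p e (1 : P) = blockRank p B :=
  rank_one_eq T.hM T.hB T.mx (T.blk 1) (T.lB_spec 1).2

theorem rk_of_nil (h : Nil p (centralizer {(v : G)}) (lb p P e v)) : rk p e v = 1 :=
  rank_eq_one_of_nil_ab T.hM (T.blk v) (by rwa [(T.lB_spec v).2])

theorem cw_eq [Fintype (centralizer ({(v : G)} : Set G))] (θ η : G → ℂ) :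
    cw p e θ η v = cb p (lB p e v) v θ η := by
  rw [cw, ← (T.lB_spec v).2, cA_eq T.hM rfl (T.blk v)]

theorem stb_cw (hθ : IsClassFunction G θ) (hη : IsClassFunction G η) :
    Stb p e (cw p e θ η : P → ℂ) := fun v w h => by
  rw [cw_eq_ct, cw_eq_ct, nF_congr h, stb_ct T.hM T.mx.pr hθ hη v w h]

theorem conj_cw (θ η : G → ℂ) (v : P) : conj (cw p e θ η v) = cw p e η θ v := by
  classical
  rw [T.cw_eq, T.cw_eq, conj_cb]

theorem cw_self (θ : G → ℂ) (v : P) : cw p e θ θ v = ‖cw p e θ θ v‖ := by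
  classical
  rw [T.cw_eq, ← cb_self_eq_norm]

theorem cw_eq_zero (h : cw p e θ θ v = 0) (η : G → ℂ) : cw p e θ η v = 0 := by
  classical
  rw [T.cw_eq] at h ⊢
  rw [cb_def, cb_self_eq_zero.1 h, CChar.CharFun.inner_zero_left]

theorem cw_ne_zero (hχ : χ ∈ B) (h0 : blockHeight p B χ.1 = 0) (hψ : ψ ∈ B)
    (h1 : blockHeight p B ψ.1 = 0) (v : P) : cw p e χ.1 ψ.1 v ≠ 0 := by
  rw [cw_eq_ct]
  exact mul_ne_zero (nF_ne v) (ct_ne_zero T.hM T.hB T.mx hχ h0 hψ h1 v)

theorem cw_of_not_mem (hχ : χ ∉ B) (η : G → ℂ) (v : P) : cw p e χ.1 η v = 0 := by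
  classical
  rw [T.cw_eq, cb_def, sp_eq_zero_of_not_mem T.hM (T.pel v) rfl (T.lB_spec v).1 hχ,
    CChar.CharFun.inner_zero_left]

theorem cw_st {F : P → ℂ} (hF : Stb p e F) (hθ : IsClassFunction G θ) (η : G → ℂ) (v : P) :
    cw p e (st p e F θ) η v = F v * cw p e θ η v := by
  rw [cw_eq_ct, cw_eq_ct, ct_st_left T.hM T.mx.pr hF hθ, mul_left_comm]

theorem cw_mul (h : rk p e v = 1) (α β γ δ : G → ℂ) :
    cw p e α β v * cw p e γ δ v = cw p e α δ v * cw p e γ β v := by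
  classical
  obtain ⟨g, -, -, -, h5, -⟩ := exists_col T.hM (T.pel v) (T.blk v) h
  simp only [← T.cw_eq] at h5
  have h6 : (p : ℂ) ^ blockDefect p (lB p e v) ≠ 0 := pow_ne_zero _ (Nat.cast_ne_zero.2 T.hM.1.ne_zero)
  refine mul_left_cancel₀ (mul_ne_zero h6 h6) ?_
  rw [mul_mul_mul_comm, h5, h5, mul_mul_mul_comm _ _ (cw p e α δ v), h5, h5]
  ring

variable [DecidablePred (· ∈ B)]

theorem cw_expand (hθ : InSpan B θ) (η : G → ℂ) (v : P) :
    cw p e θ η v = ∑ χ with χ ∈ B, classInner θ χ.1 * cw p e χ.1 η v := by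
  classical
  simp only [T.cw_eq, cb_def]
  conv_lhs => rw [← hθ.blockPart_eq, blockPart_eq_sum', map_sum, CChar.CharFun.inner_sum_left]
  simp only [map_smul, CChar.CharFun.inner_smul_left]

theorem sum_cw_self (v : P) : ∑ χ with χ ∈ B, cw p e χ.1 χ.1 v = rk p e v := by
  classical
  simp only [T.cw_eq]
  exact sum_cb_self T.hM (T.pel v) rfl (T.lB_spec v).1

omit [DecidablePred (· ∈ B)] in
theorem stb_rk : Stb p e fun v : P => (rk p e v : ℂ) := fun v w h => by
  classical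
  simp only [← T.sum_cw_self]
  exact Finset.sum_congr rfl fun χ _ => T.stb_cw (irr_classFun χ.2) (irr_classFun χ.2) v w h

theorem sum_cw_mul (α β : G → ℂ) (v : P) :
    ∑ ψ with ψ ∈ B, cw p e α ψ.1 v * cw p e ψ.1 β v = cw p e α β v := by
  classical
  simp only [T.cw_eq]
  exact sum_cb_mul T.hM (T.pel v) rfl (T.lB_spec v).1 α β

theorem sum_cw_reg (α : G → ℂ) (hv : v ≠ 1) : ∑ ψ with ψ ∈ B, cw p e α ψ.1 v * ψ.1 1 = 0 := by
  classical
  have h1 := congrFun (inSpan_pj T.hM (T.pel v) rfl (T.lB_spec v).1 α).blockPart_eq 1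
  rw [blockPart_eq_sum', Finset.sum_apply, pj_def, up_eq_zero T.hM.1 (T.pel v) le_rfl _ (by
    rw [(pPart_eq_one_iff T.hM.1).2 (by simpa using T.hM.1.ne_one)]
    exact fun h => hv (Subtype.ext (isConj_one_left.1 h)))] at h1
  rw [← h1]
  refine Finset.sum_congr rfl fun ψ _ => ?_
  rw [T.cw_eq, cb_eq_inner_pj' T.hM (T.sat v) rfl _ (irr_classFun ψ.2), pj_def]
  rfl

omit [DecidablePred (· ∈ B)] in
theorem inner_st_ic (hθ : IsClassFunction G θ) (hη : IsClassFunction G η) (v : P) :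
    classInner (st p e (ic p e v) θ) η = cw p e θ η v := by
  classical
  rw [inner_st T.hM T.mx.pr (stb_ic v) hθ hη]
  simp only [ic, ite_mul, one_mul, zero_mul]
  rw [← Finset.sum_filter, Finset.sum_congr rfl (g := fun _ => ct p e θ η v) fun w hw =>
    (stb_ct T.hM T.mx.pr hθ hη v w (Finset.mem_filter.1 hw).2).symm, Finset.sum_const, nsmul_eq_mul,
    cw_eq_ct, nF, Nat.card_eq_fintype_card, Fintype.card_subtype]

theorem sum_cw_mul_ne (hα : IsClassFunction G α) (hβ : IsClassFunction G β) (h : ¬ FC p P e v w) :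
    ∑ ψ with ψ ∈ B, cw p e α ψ.1 v * cw p e ψ.1 β w = 0 := by
  classical
  have h1 := inner_st_st T.hM T.hB T.mx (stb_ic v) (stb_ic w) hα hβ
  rw [inner_eq_sum_of_inSpan (inSpan_st T.hM T.hB T.mx hα), Finset.sum_eq_zero (s := Finset.univ)
    fun x _ => by
      by_cases h1 : FC p P e v x
      · simp [ic, show ¬ FC p P e w x from fun h2 => h (h1.trans (h2.symm w.2))]
      · simp [ic, h1]] at h1
  rw [← h1]
  refine Finset.sum_congr rfl fun ψ _ => ?_
  rw [T.inner_st_ic hα (irr_classFun ψ.2), T.inner_st_ic hβ (irr_classFun ψ.2), T.conj_cw]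

section sums
variable [Fintype P] {X : Finset P} (hX : ∀ v : P, ∃ w ∈ X, FC p P e v w)
include hX
omit [DecidablePred (· ∈ B)]

theorem inner_st {F : P → ℂ} (hF : Stb p e F) (hθ : IsClassFunction G θ) (hη : IsClassFunction G η) :
    classInner (st p e F θ) η = ∑ v ∈ X, F v * cw p e θ η v / nX p e X v := by
  rw [CA.H11Eta.inner_st T.hM T.mx.pr hF hθ hη, ← sum_div hX (F := fun v => F v * cw p e θ η v)
    (hF.mul (T.stb_cw hθ hη))]
  simp only [ct_eq_cw, mul_div_assoc]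

theorem inner_st_st {F F' : P → ℂ} (hF : Stb p e F) (hF' : Stb p e F') (hθ : IsClassFunction G θ)
    (hη : IsClassFunction G η) : classInner (st p e F θ) (st p e F' η) =
      ∑ v ∈ X, F v * conj (F' v) * cw p e θ η v / nX p e X v := by
  rw [CA.H11Eta.inner_st_st T.hM T.hB T.mx hF hF' hθ hη, ← sum_div hX (F := fun v =>
    F v * conj (F' v) * cw p e θ η v) fun v w h => by
      simp only [hF v w h, hF' v w h, T.stb_cw hθ hη v w h]]
  simp only [ct_eq_cw, mul_div_assoc]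

theorem inner_eq (hθ : InSpan B θ) (hη : IsClassFunction G η) :
    classInner θ η = ∑ v ∈ X, cw p e θ η v / nX p e X v := by
  rw [inner_eq_sum_ct T.hM T.hB T.mx hθ hη, ← sum_div hX (T.stb_cw hθ.1 hη)]
  rfl

theorem card_eq : (Nat.card B : ℂ) = ∑ v ∈ X, (rk p e v : ℂ) / nX p e X v := by
  rw [card_eq_sum T.hM T.hB T.mx (fun v => (T.lB_spec v).1) fun v => (T.lB_spec v).2,
    ← sum_div hX T.stb_rk]
  rfl

end sums

omit [DecidablePred (· ∈ B)]

theorem isDef_cent (h : ∀ w : P, FC p P e v w → Nat.card (P ⊓ centralizer {(w : G)} : Subgroup G) ≤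
    Nat.card (P ⊓ centralizer {(v : G)} : Subgroup G)) :
    IsDef p (centralizer {(v : G)}) (lb p P e v) (P ⊓ centralizer {(v : G)}) := by
  have hs := T.sub v
  obtain ⟨x, -, h1, h2⟩ := T.mx.exists_conj_isDef T.hp (hs.pr T.mx.pr) (T.mx.of_sub T.hp hs)
  have h3 := (isDef_cent_of_norm T.hp (h1.pr T.mx.pr) h2).conj x⁻¹
  rw [cjA_inv_cjA, conj_inf, conj_top, conj_CC, inv_conj_conj] at h3
  have h4 : x * v * x⁻¹ ∈ P := h1.le (by rw [conj_zpowers]; exact mem_zpowers _)
  have h5 := isDef_cent_of_card T.hp T.mx.pr hs h3 (by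
    rw [card_conj, conj_zpowers, CC_zpowers, CC_zpowers]
    exact h ⟨_, h4⟩ ((fu_iff T.hp T.mx.pr).2 ⟨x, rfl, h1⟩))
  rwa [top_inf_eq, CC_zpowers] at h5

theorem card_eq_pow_of {Q : Subgroup G} (h : IsDef p (centralizer {(v : G)}) (lb p P e v) Q) :
    (Nat.card Q : ℂ) = p ^ blockDefect p (lB p e v) := by
  have h1 := h.le
  rw [← (T.lB_spec v).2, ← isDefectGroup_iff_subgroupOf T.hM (T.blk v) h1] at h
  rw [← Nat.cast_pow, ← card_defectGroup T.hM (T.blk v) h]
  exact congrArg _ (Nat.card_congr (subgroupOfEquivOfLe h1).toEquiv).symm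

theorem v_cw_eq_one_iff {Q : Subgroup G} (h : IsDef p (centralizer {(v : G)}) (lb p P e v) Q) :
    BlkVal.v M (Nat.card Q * cw p e χ.1 ψ.1 v) = 1 ↔
      (χ ∈ B ∧ blockHeight p B χ.1 = 0) ∧ ψ ∈ B ∧ blockHeight p B ψ.1 = 0 := by
  classical
  rw [T.card_eq_pow_of h, T.cw_eq]
  exact v_cb_eq_one_iff T.hM (T.pel v) le_rfl (mem_centralizer_singleton_iff.2 rfl) (T.lB_spec v).1

theorem exists_int {Q : Subgroup G} (h : IsDef p (centralizer {(v : G)}) (lb p P e v) Q)
    (h4 : orderOf (v : G) ∣ 4) (hθ : IsGeneralizedCharacter G θ) (hη : IsGeneralizedCharacter G η)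
    (hr : cw p e η θ v = cw p e θ η v ∨ (v : G) ^ 2 = 1) : ∃ n : ℤ, Nat.card Q * cw p e θ η v = n := by
  classical
  have h1 := cb_mem_cyc T.hM (T.blk v) le_rfl (mem_centralizer_singleton_iff.2 rfl) h4 hθ hη
  rw [T.card_eq_pow_of h, T.cw_eq]
  rcases hr with hr | hr
  · simpa only [pow_one] using int_of_real h1 (by
      simp only [pow_one, ← T.cw_eq, map_mul, T.conj_cw, hr, map_pow, map_natCast])
  · simpa only [pow_one] using int_of_three h1 (by
      simp only [pow_succ' (v : G) 2, hr, mul_one, pow_one])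

theorem isDef_major (hv : (v : G) ∈ CC P) : IsDef p (centralizer {(v : G)}) (lb p P e v) P := by
  have h := T.isDef_cent (v := v) fun w _ => by
    rw [inf_eq_left.2 (mem_CC_iff_le.1 hv)]; exact card_le_of_le inf_le_left
  rwa [inf_eq_left.2 (mem_CC_iff_le.1 hv)] at h

theorem major (hv : (v : G) ∈ CC P) (h2 : (v : G) ^ 2 = 1) :
    ∃ N : IrrCharacter G → IrrCharacter G → ℤ,
      (∀ χ ψ, Nat.card P * cw p e χ.1 ψ.1 v = N χ ψ) ∧ (∀ χ ψ, N χ ψ = N ψ χ) ∧
      (∀ χ ∈ B, 0 < N χ χ) ∧ ∀ χ ∈ B, ∀ ψ, (p : ℤ) ^ blockHeight p B χ.1 ∣ N χ ψ ∧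
        ((p : ℤ) ^ (blockHeight p B χ.1 + 1) ∣ N χ ψ ↔ ¬ (ψ ∈ B ∧ blockHeight p B ψ.1 = 0)) := by
  classical
  have hD := T.isDef_major hv
  choose N hN using fun χ ψ : IrrCharacter G => T.exists_int hD ((orderOf_dvd_of_pow_eq_one h2).trans
    (by norm_num)) (gen_of_irr χ.2) (gen_of_irr ψ.2) (.inr h2)
  have h1 : (Nat.card P : ℂ) = p ^ blockDefect p B := by
    rw [card_eq_pow T.hM T.hB T.mx, Nat.cast_pow]
  have h3 : blockDefect p (lB p e v) = blockDefect p B := Nat.pow_right_injective T.hM.1.two_le (by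
    exact_mod_cast (T.card_eq_pow_of hD).symm.trans h1)
  refine ⟨N, hN, fun χ ψ => ?_, fun χ hχ => ?_, fun χ hχ ψ => ?_⟩
  · have := congrArg conj (hN χ ψ)
    rw [map_mul, T.conj_cw, map_natCast, hN, map_intCast] at this
    exact_mod_cast this.symm
  · have h4 := hN χ χ
    have h5 : cw p e χ.1 χ.1 v ≠ 0 := by
      rw [cw_eq_ct]
      exact mul_ne_zero (nF_ne v) (CA.H11Sm.ct_self_ne_zero T.hM T.hB T.mx hχ hv)
    rw [T.cw_self] at h4
    have h6 : (Nat.card P * ‖cw p e χ.1 χ.1 v‖ : ℝ) = N χ χ := by exact_mod_cast h4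
    exact_mod_cast h6 ▸ mul_pos (Nat.cast_pos.2 Nat.card_pos) (norm_pos_iff.2 h5)
  · have h4 := v_pow_cb_le T.hM (T.sat v) (T.pel v) rfl hχ (gen_of_irr ψ.2)
    have h5 := v_pow_cb_eq_iff (ψ := ψ) T.hM (T.pel v) rfl (T.lB_spec v).1 h3 hχ
    rw [← T.cw_eq, ← h1, hN] at h4 h5
    exact ⟨(pow_dvd_iff_v_le T.hM).2 h4, by
      rw [pow_succ_dvd_iff_v_lt T.hM, ← h5, lt_iff_le_and_ne, and_iff_right h4]⟩

theorem eq_of_sub {Q R : Subgroup G} {f g : (k M)[G]} (h : Sub p ⊤ Q f P e) (h' : Sub p ⊤ R g P e)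
    (h1 : Q ≤ R) (h2 : R ≤ CC Q) (h3 : CC Q ≤ CC R) : f = g := by
  have h4 := h.nsub_of_le T.hp T.mx.pr h' h1 (h2.trans (CC_le_NN _))
  have h5 := h4.br
  rw [br_eq_self_iff.2 (supp_mono h3 (h.pr T.mx.pr).suppC)] at h5
  have h6 := (h'.pr T.mx.pr).blk
  rw [← le_antisymm h3 (CC_anti h1)] at h6
  exact h6.eq_of_mul_ne_zero (h.pr T.mx.pr).blk (h5.trans_ne h6.ne)

section shift
variable {z : P} (hz : (z : G) ∈ center G)
include hz

omit T in
theorem cent_mul (v : P) : centralizer ({(v : G)} : Set G) = centralizer {((z * v : P) : G)} := by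
  ext g
  simp only [mem_centralizer_singleton_iff, coe_mul]
  rw [← mul_assoc, mem_center_iff.1 hz g, mul_assoc, mul_assoc, mul_left_cancel_iff]

theorem lb_mul (v : P) : lb p P e (z * v : P) = lb p P e v := by
  obtain ⟨g, hg⟩ := exists_sub T.hp T.mx.pr (sup_le (zpowers_le.2 z.2) (zpowers_le.2 v.2))
  have h1 : ∀ Q : Subgroup G, zpowers (z : G) ≤ CC Q := fun Q =>
    zpowers_le.2 (mem_CC.2 fun u _ => mem_center_iff.1 hz u)
  have h2 : CC (zpowers (z : G) ⊔ zpowers (v : G)) = CC (zpowers (v : G)) := by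
    rw [CC_sup, inf_eq_right]
    exact fun x _ => mem_CC_iff_le.2 (zpowers_le.2 (mem_centralizer_singleton_iff.2
      (mem_center_iff.1 hz x).symm))
  have h3 : CC (zpowers ((z * v : P) : G)) = CC (zpowers (v : G)) := by
    rw [CC_zpowers, CC_zpowers, cent_mul hz v]
  have h4 : zpowers (v : G) ≤ CC (zpowers (v : G)) := by
    rw [CC_zpowers]; exact zpowers_le.2 (mem_centralizer_singleton_iff.2 rfl)
  rw [T.eq_of_sub (T.sub v) hg le_sup_right (sup_le (h1 _) h4) h2.ge,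
    T.eq_of_sub (T.sub (z * v)) hg (zpowers_le.2 (mul_mem (mem_sup_left (mem_zpowers _))
      (mem_sup_right (mem_zpowers _)))) (sup_le (h1 _) (h3 ▸ h4)) (h3.trans h2.symm).le]

theorem rk_mul (v : P) : rk p e (z * v) = rk p e v :=
  T.rk_eq (cent_mul hz v) (T.blk v) (by rw [(T.lB_spec v).2, T.lb_mul hz])

theorem cw_mul_left {a b : ℂ} (hθ : ∀ g, θ (z * g) = a * θ g) (hη : ∀ g, η (z * g) = b * η g)
    (v : P) : cw p e θ η (z * v) = a * conj b * cw p e θ η v := by
  classical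
  have h1 : ∀ {θ : G → ℂ} {a : ℂ}, (∀ g, θ (z * g) = a * θ g) →
      sp p (lB p e v) ((z * v : P) : G) θ = a • sp p (lB p e v) v θ := fun {θ a} h => by
    rw [← map_smul, sp_def, sp_def]
    congr 2
    ext c
    simp [mul_assoc, h]
  rw [cw, T.lb_mul hz, ← (T.lB_spec v).2, cA_eq T.hM (cent_mul hz v) (T.blk v), T.cw_eq, cb_def,
    cb_def, h1 hθ, h1 hη, CChar.CharFun.inner_smul_left, CChar.CharFun.inner_smul_right, mul_assoc]

end shift

theorem val_mul (hr : rk p e v = 1) (h : ∀ w : P, IsConj (v : G) w → FC p P e v w) (hv : (v : G) ∈ CC P)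
    (hχ : χ ∈ B) (hψ : ψ ∈ B) (η : G → ℂ) :
    χ.1 v ≠ 0 ∧ χ.1 v * cw p e ψ.1 η v = ψ.1 v * cw p e χ.1 η v := by
  classical
  have h1 : ∀ χ ∈ B, sp p (lB p e v) v χ.1 1 = χ.1 v := fun χ hχ => by
    have h2 := congrFun (sum_sp (p := p) (H := centralizer {(v : G)}) T.hM le_rfl (irr_classFun χ.2)) 1
    rw [pReg_one T.hM.1, tr_apply, Finset.sum_apply, Finset.sum_eq_single_of_mem (lB p e v)
      (mem_blocks.2 (T.blk v)) fun b hb hne => ?_] at h2
    · simpa using h2
    have hb := mem_blocks.1 hb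
    rw [sp_eq_zero_of_not_ind T.hM (T.pel v) rfl T.hB hb (fun h3 => hne ?_) (inSpan_irr hχ)]
    · rfl
    obtain ⟨w, h4⟩ := (ind_iff_fu T.hM T.hB T.mx (T.pel v) rfl hb).1 h3
    obtain ⟨-, g, h5, h6⟩ := h4.iff.2 ((h w h4.isConj).symm v.2)
    refine ab_inj T.hM hb (T.blk v) ?_
    rw [(T.lB_spec v).2, ← h6, (blk_ab T.hM hb).fixed g (mem_centralizer_singleton_iff.2
      (mul_inv_eq_iff_eq_mul.1 h5))]
  obtain ⟨ξ, hξ⟩ := block_nonempty T.hM (T.blk v)
  have h2 : ∀ θ : G → ℂ, ξ.1 1 • sp p (lB p e v) v θ = sp p (lB p e v) v θ 1 • pRegularPart p ξ.1 :=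
    fun θ => by
      rw [sp_def, blockPart_eq_sum', CA.BlkBas.pReg_sum, Finset.smul_sum, Finset.sum_apply, Finset.sum_smul]
      refine Finset.sum_congr rfl fun ζ hζ => ?_
      rw [smul_comm, smul_pReg_of_rank_one T.hM.1 hr (Finset.mem_filter.1 hζ).2 hξ, smul_smul,
        Pi.smul_apply, pReg_one T.hM.1, smul_eq_mul]
  have h3 := irr_apply_one_ne_zero ξ.2
  refine ⟨fun h4 => ?_, mul_left_cancel₀ h3 ?_⟩
  · have h5 := h2 χ.1
    rw [h1 χ hχ, h4, zero_smul, smul_eq_zero_iff_right h3, ← cb_self_eq_zero, ← T.cw_eq, cw_eq_ct] at h5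
    exact mul_ne_zero (nF_ne v) (CA.H11Sm.ct_self_ne_zero T.hM T.hB T.mx hχ hv) h5
  · rw [T.cw_eq, T.cw_eq, cb_def, cb_def, mul_left_comm, mul_left_comm (ξ.1 1),
      ← CChar.CharFun.inner_smul_left, ← CChar.CharFun.inner_smul_left (ξ.1 1), h2, h2, h1 χ hχ, h1 ψ hψ,
      CChar.CharFun.inner_smul_left, CChar.CharFun.inner_smul_left, mul_left_comm]

end Bk

end CA.H11Cw
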