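import Cfsg.Agent.Lib.Block.H11Cw

/-!
Columns of generalized decomposition numbers coming from a nilpotent local block.
-/

set_option autoImplicit false
set_option linter.unusedSectionVars false

namespace CA.H11Nb

open Cfsg MonoidAlgebra CA.BlkAlg CA.BlkVal CA.BlkOmega CA.BlkRed CA.H11Loc CA.H11Amb CA.H11Pair
  CA.H11Max CA.H11Tau CA.H11Brg CA.H11Sec CA.BlkSubs CA.H11Contrib CA.SylIn CA.H12PPart
  CA.H11Star CA.H13Span CA.H11Def CA.H11Eta CA.H11NilB CA.BlkHeight CA.H11Map CA.H11Tr CA.H11CycD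
  CA.H11Cw CChar.CharFun CChar.CharOrth CChar.CharGen CChar.CharInt Subgroup
open CA.BlkCore hiding lam lam_mul lam_one
open CA.Ind (ext_coe ext_of_mem ext_of_not_mem ext_ne_zero indFun_def' indFun_classFun inner_ind_left
  card_ne_zero)
open scoped ComplexConjugate

variable {p : ℕ} {M : Ideal AlgInt} {G : Type*} [Group G] [Fintype G]

theorem ord_conj {K : Type*} [Group K] {x y : K} (h : IsConj x y) : orderOf x = orderOf y := by
  obtain ⟨c, h⟩ := h
  exact SemiconjBy.orderOf_eq _ h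

theorem sum_ext_conj {L : Subgroup G} [DecidablePred (· ∈ L)] (ξ : IrrCharacter L) (z y : G) :
    ∑ a, (if a * z * a⁻¹ ∈ L then extendByZero L ξ.1 (a * z * a⁻¹ * y) else 0) =
      (∑ a, extendByZero L ξ.1 (a * z * a⁻¹)) * extendByZero L ξ.1 y / ξ.1 1 := by
  by_cases hy : y ∈ L
  swap
  · rw [ext_of_not_mem _ _ hy, mul_zero, zero_div]
    exact Finset.sum_eq_zero fun a _ => ite_eq_right_iff.2 fun h =>
      ext_of_not_mem _ _ fun h' => hy ((mul_mem_cancel_left h).1 h')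
  lift y to L using hy
  refine mul_left_cancel₀ (card_ne_zero L) ?_
  have h1 : ∀ l : L, ∑ a, (if a * z * a⁻¹ ∈ L then extendByZero L ξ.1 (a * z * a⁻¹ * y) else 0) =
      ∑ a, if a * z * a⁻¹ ∈ L then extendByZero L ξ.1 (l * (a * z * a⁻¹) * (l : G)⁻¹ * y) else 0 :=
    fun l => by
      rw [← Equiv.sum_comp (Equiv.mulLeft (l : G))]
      refine Finset.sum_congr rfl fun a _ => ?_
      rw [Equiv.coe_mulLeft, show l * a * z * (l * a)⁻¹ = l * (a * z * a⁻¹) * (l : G)⁻¹ by group]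
      exact if_congr (by rw [mul_mem_cancel_right (inv_mem l.2), mul_mem_cancel_left l.2]) rfl rfl
  rw [Nat.card_eq_fintype_card, ← nsmul_eq_mul, ← Finset.card_univ, ← Finset.sum_const,
    Finset.sum_congr rfl fun l _ => h1 l, Finset.sum_comm, Finset.sum_mul, Finset.sum_div,
    Finset.mul_sum]
  refine Finset.sum_congr rfl fun a _ => ?_
  split_ifs with h
  · rw [ext_of_mem _ _ h, ext_coe, Finset.card_univ, ← Nat.card_eq_fintype_card, ← mul_div_assoc,
      ← mul_assoc, ← sum_irr_conj_mul ξ.2]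
    exact Finset.sum_congr rfl fun l _ => ext_coe L ξ.1 (l * ⟨_, h⟩ * l⁻¹ * y)
  · simp [ext_of_not_mem _ _ h]

theorem trick {z : G} (hz : z * z = 1) {L : Subgroup G} (hL : L = centralizer {z}) (hzL : z ∈ L)
    {ξ ζ : IrrCharacter L} (h1 : ξ.1 1 = ζ.1 1) (h2 : ξ.1 ⟨z, hzL⟩ ^ 2 = ζ.1 ⟨z, hzL⟩ ^ 2)
    (h3 : ∀ x : L, IsConj z x → x ≠ ⟨z, hzL⟩ → ξ.1 x = 0 ∧ ζ.1 x = 0)
    (h4 : ∀ g : L, ξ.1 g ≠ ζ.1 g → z ∈ zpowers (g : G)) :
    ∑ χ : IrrCharacter G, classInner (indFun L (ξ.1 - ζ.1)) χ.1 * (χ.1 z * χ.1 z / χ.1 1) = 0 := by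
  classical
  have h5 : ∀ a b : G, extendByZero L (ξ.1 - ζ.1) (a * z * a⁻¹ * (b * z * b⁻¹)) =
      (if a * z * a⁻¹ ∈ L then extendByZero L ξ.1 (a * z * a⁻¹ * (b * z * b⁻¹)) else 0) -
      if a * z * a⁻¹ ∈ L then extendByZero L ζ.1 (a * z * a⁻¹ * (b * z * b⁻¹)) else 0 := fun a b => by
    have hx : a * z * a⁻¹ * (a * z * a⁻¹) = 1 := by rw [conj_mul, hz]; simp
    have hy : b * z * b⁻¹ * (b * z * b⁻¹) = 1 := by rw [conj_mul, hz]; simp
    generalize a * z * a⁻¹ = x at *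
    generalize b * z * b⁻¹ = y at *
    by_cases h : x * y ∈ L
    · simp only [ext_of_mem _ _ h, Pi.sub_apply]
      split_ifs with h6
      · rfl
      rw [sub_self, sub_eq_zero]
      by_contra h7
      obtain ⟨n, hn⟩ := h4 _ h7
      have h8 : x * (x * y) * x⁻¹ = (x * y)⁻¹ := by
        rw [← mul_assoc, hx, one_mul, mul_inv_rev, inv_eq_of_mul_eq_one_right hy]
      refine h6 (hL ▸ mem_centralizer_singleton_iff.2 (mul_inv_eq_iff_eq_mul.1 ?_))
      rw [← inv_eq_of_mul_eq_one_right hz]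
      conv_lhs => rw [inv_eq_of_mul_eq_one_right hz]
      rw [← show (x * y) ^ n = z from hn, ← conj_zpow, h8, inv_zpow]
    · simp [ext_of_not_mem _ _ h]
  have h6 : ∀ ξ : IrrCharacter L, (∀ x : L, IsConj z x → x ≠ ⟨z, hzL⟩ → ξ.1 x = 0) →
      ∑ a, extendByZero L ξ.1 (a * z * a⁻¹) = Nat.card (centralizer ({z} : Set G)) * ξ.1 ⟨z, hzL⟩ :=
    fun ξ h => by
      rw [sum_conj_eq (extendByZero L ξ.1), nsmul_eq_mul, Finset.sum_eq_single_of_mem z
        (Finset.mem_filter.2 ⟨Finset.mem_univ _, IsConj.refl _⟩) fun x hx hne => ?_, ext_of_mem _ _ hzL]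
      by_contra h7
      obtain ⟨h8, h9⟩ := ext_ne_zero h7
      exact h9 (h _ (Finset.mem_filter.1 hx).2 fun e => hne (congrArg Subtype.val e))
  have h7 : ∑ a, ∑ b, extendByZero L (ξ.1 - ζ.1) (a * z * a⁻¹ * (b * z * b⁻¹)) = 0 := by
    rw [Finset.sum_comm]
    simp only [h5, Finset.sum_sub_distrib, sum_ext_conj, ← Finset.sum_div, ← Finset.mul_sum,
      h6 ξ fun x a b => (h3 x a b).1, h6 ζ fun x a b => (h3 x a b).2, h1]
    linear_combination (Nat.card (centralizer ({z} : Set G)) : ℂ) ^ 2 / ζ.1 1 * h2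
  have h8 := CA.H11PS.sum_conj_conj (indFun_classFun L (ξ.1 - ζ.1)) z z
  simp only [indFun_def', ← Finset.mul_sum] at h8
  rw [Finset.sum_congr rfl fun a _ => Finset.sum_comm, Finset.sum_comm,
    Finset.sum_eq_zero fun g _ => ?_, mul_zero, eq_comm, mul_eq_zero] at h8
  · exact h8.resolve_left (pow_ne_zero _ (card_ne_zero G))
  rw [← h7]
  refine Fintype.sum_equiv (Equiv.mulLeft g) _ _ fun a => Fintype.sum_equiv (Equiv.mulLeft g) _ _
    fun b => congrArg _ ?_
  simp [mul_assoc]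

variable {P R L : Subgroup G} {e : (k M)[G]} {B : Set (IrrCharacter G)} {c : Set (IrrCharacter L)}
  {e' : (k M)[L]} {v w : P} [Fact p.Prime]

variable (p P R e) in
/-- The block of the stabilizer of a subpair normalized by the defect group. -/
structure Lo (c : Set (IrrCharacter L)) (e' : (k M)[L]) : Prop where
  sub : Sub p ⊤ R (ab M L c) P e
  mem : ∀ g, g ∈ L ↔ g ∈ St ⊤ R (ab M L c)
  le : P ≤ L
  eq : mp L.subtype e' = e
  bk : ∀ [Fintype L], Bk p (P.subgroupOf L) e' c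

theorem exists_lo (T : Bk p P e B) {f : (k M)[G]} (hs : Sub p ⊤ R f P e) (hL : L = St ⊤ R f)
    (hP : P ≤ NN R) : ∃ c e', Lo p P R e (L := L) c e' ∧ Mx p L (ab M L c) P e := by
  have h0 := hs.pr T.mx.pr
  have h1 := T.mx.local T.hp hs (h0.le_St.trans hL.ge) (h0.C_le_St.trans hL.ge) hL.le
    ((le_inf le_rfl hP).trans ((CA.H11Max.Sub.norm_le_St T.hp T.mx.pr hs).trans hL.ge))
  obtain ⟨c, hc, rfl⟩ := exists_ab T.hM h1.blk
  obtain ⟨e', h3⟩ := exists_mp_eq L.subtype_injective (L := ⊤) (f := e)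
    (by rw [map_top_subtype]; exact h1.pr.suppH)
  refine ⟨c, e', ⟨hs, fun g => SetLike.ext_iff.1 hL g, h1.pr.le, h3, ⟨T.hM, hc,
    (mx_mp_iff L.subtype_injective).1 ?_⟩⟩, h1⟩
  rwa [map_top_subtype, map_subgroupOf_eq_of_le h1.pr.le, h3]

open Classical in
/-- The size of a conjugacy class. -/
noncomputable def cl {K : Type*} [Group K] (v : K) : ℕ := Nat.card {w // IsConj v w}

namespace Lo
variable (S : Lo p P R e c e') (T : Bk p P e B) [Fintype L]
include S

/-- The defect group inside the local subgroup. -/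
def io : P ≃* P.subgroupOf L := (subgroupOfEquivOfLe S.le).symm

theorem coe_io (v : P) : ((S.io v : L) : G) = v := rfl

theorem card : Nat.card (P.subgroupOf L) = Nat.card P := (Nat.card_congr S.io.toEquiv).symm

include T

theorem cent_le (hv : R ≤ zpowers (v : G)) : centralizer {(v : G)} ≤ L := fun g hg =>
  (S.mem g).2 ((S.sub.pr T.mx.pr).C_le_St ⟨mem_top g, CC_anti hv (by rwa [CC_zpowers])⟩)

theorem pr : Pr p ⊤ ((P.subgroupOf L).map L.subtype) (mp L.subtype e') := by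
  rw [map_subgroupOf_eq_of_le S.le, S.eq]; exact T.mx.pr

theorem lb_eq (hv : R ≤ zpowers (v : G)) :
    lb p P e v = mp L.subtype (lb p (P.subgroupOf L) e' (S.io v)) := by
  have h := lb_map T.hM L.subtype_injective S.bk.mx.pr (S.pr T) (S.io v).2 (by
    rw [range_subtype]; exact S.cent_le T hv)
  rwa [map_subgroupOf_eq_of_le S.le, S.eq] at h

theorem cw_eq (hv : R ≤ zpowers (v : G)) (θ η : G → ℂ) :
    cw p e θ η v = cw p e' (fun x : L => θ x) (fun x => η x) (S.io v) := by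
  have h := cA_lb_map T.hM L.subtype_injective S.bk.mx.pr (S.pr T) (S.io v) (by
    rw [range_subtype]; exact S.cent_le T hv) θ η
  rwa [map_subgroupOf_eq_of_le S.le, S.eq] at h

theorem rk_eq (hv : R ≤ zpowers (v : G)) : rk p e v = rk p e' (S.io v) :=
  (rank_congr T.hM L.subtype_injective (H := centralizer {(v : G)}) (map_cent (u := (S.io v : L))
    L.subtype_injective (by rw [range_subtype]; exact S.cent_le T hv)) (S.bk.blk (S.io v)) (T.blk v) (by
      rw [(T.lB_spec v).2, (S.bk.lB_spec _).2, S.lb_eq T hv])).1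

theorem le_of_fc (hv : R ≤ zpowers (v : G))
    (h : FC p (P.subgroupOf L) e' (S.io v : L) (S.io w : L)) : R ≤ zpowers (w : G) := by
  obtain ⟨-, g, h1, -⟩ := h
  rw [← show (g : G) * v * (g : G)⁻¹ = w from congrArg Subtype.val h1, ← conj_zpowers,
    ← conj_eq_of_mem_normalizer (mem_St.1 ((S.mem g).1 g.2)).2.1]
  exact conj_mono _ hv

theorem fc_of (hv : R ≤ zpowers (v : G))
    (h : FC p (P.subgroupOf L) e' (S.io v : L) (S.io w : L)) : FC p P e v w := by
  have hw := S.le_of_fc T hv h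
  obtain ⟨-, g, h1, h2⟩ := h
  exact ⟨w.2, g, congrArg Subtype.val h1, by
    rw [S.lb_eq T hv, S.lb_eq T hw, ← h2, ← cjA_mp]; rfl⟩

theorem fc_iff (hv : R ≤ zpowers (v : G)) (hw : R ≤ zpowers (w : G)) :
    FC p (P.subgroupOf L) e' (S.io v : L) (S.io w : L) ↔ FC p P e v w := by
  refine ⟨S.fc_of T hv, fun ⟨_, g, h1, h2⟩ => ?_⟩
  have h3 : g •ᶜ R = R := CA.NPC2.eq_of_card_eq_of_isCyclic (P := zpowers (w : G)) inferInstance
    ((conj_mono g hv).trans (by rw [conj_zpowers, h1])) hw (card_conj g R)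
  have h4 := (S.sub.sandwich T.hp T.mx.pr (T.sub v) hv).conj_of_mem (mem_top g)
  rw [h3, conj_zpowers, h1, h2] at h4
  have h5 : g ∈ L := (S.mem g).2 (mem_St.2 ⟨mem_top g, mem_normalizer_iff_conj_eq.2 h3,
    Sub.unique T.hp T.mx.pr (h4.trans (T.sub w)) S.sub⟩)
  refine ⟨(S.io w).2, ⟨g, h5⟩, Subtype.ext h1, mp_injective L.subtype_injective ?_⟩
  rw [← cjA_mp, ← S.lb_eq T hv, ← S.lb_eq T hw]
  exact h2

theorem rk_top (hv : R = zpowers (v : G)) (hL : L = centralizer {(v : G)}) :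
    rk p e v = blockRank p c :=
  T.rk_eq hL S.bk.hB (eq_lb T.hp T.mx.pr (hv ▸ S.sub))

end Lo

variable [Fintype P]

variable (p P R e B) in
/-- Columns at the elements whose powers cover `R`. -/
structure Nb (D : (G → ℂ) → P → ℂ) (ω : G → ℂ) : Prop extends Bk p P e B where
  gen : ∀ θ, IsGeneralizedCharacter G θ → IsGeneralizedCharacter P (D θ)
  fc : ∀ v w : P, R ≤ zpowers (v : G) → R ≤ zpowers (w : G) → (FC p P e v w ↔ IsConj v w)
  rk : ∀ v : P, R ≤ zpowers (v : G) → rk p e v = 1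
  val : ∀ θ (v : P), R ≤ zpowers (v : G) → D θ v * cl v = Nat.card P * cw p e θ ω v
  one : ∀ v : P, R ≤ zpowers (v : G) → Nat.card P * cw p e ω ω v = cl v
  trk : ∀ z : P, R = zpowers (z : G) → (z : G) ∈ CC P → p = 2 → z * z = 1 →
    ∀ η η' : IrrCharacter P, η.1 1 = η'.1 1 → η.1 z ^ 2 = η'.1 z ^ 2 →
    (∀ t, t * t = 1 → t ≠ 1 → t ≠ z → η.1 t = 0 ∧ η'.1 t = 0) → (∀ v, η.1 v ≠ η'.1 v → z ∈ zpowers v) →
    ∑ χ : IrrCharacter G, classInner (η.1 - η'.1) (D χ.1) * (χ.1 z * χ.1 z / χ.1 1) = 0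

theorem exists_nb (T : Bk p P e B) (hR : R ≤ P) (hP : P ≤ NN R)
    (hn : ∀ Q ≤ P, ∀ x ∈ NN Q, x ∈ NN R → ¬ p ∣ orderOf x → x ∈ CC Q) :
    ∃ D ω, Nb p P R e B D ω := by
  classical
  obtain ⟨f, hf⟩ := exists_sub T.hp T.mx.pr hR
  obtain ⟨c, e', S, h1⟩ := exists_lo T hf rfl hP
  generalize St ⊤ R f = L at c e' S h1
  haveI := Fintype.ofFinite L
  haveI := Fintype.ofFinite (P.subgroupOf L)
  have T' := S.bk
  have h2 : Nil p ⊤ (eB M c) := (nil_mp_iff L.subtype_injective).1 (by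
    rw [map_top_subtype]
    exact h1.nil_of_sub T.hp fun Q g hs x hx => hn Q hs.le x (mem_St.1 hx).2.1
      (mem_St.1 ((S.mem x).1 (mem_St.1 hx).1)).2.1)
  obtain ⟨θ, hθ, h0⟩ := exists_height_zero (p := p) (block_nonempty T.hM T'.hB)
  have h3 : ∀ v w : P, FC p _ e' (S.io v : L) (S.io w : L) ↔ IsConj v w := fun v w => by
    rw [fc_iff_of_nil T.hp T'.mx h2]
    exact ⟨fun h => by simpa using S.io.symm.toMonoidHom.map_isConj h, S.io.toMonoidHom.map_isConj⟩
  have h4 : ∀ v : P, nF p e' (S.io v) = cl v := fun v =>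
    (Nat.card_congr (S.io.toEquiv.subtypeEquiv (q := fun w : P.subgroupOf L =>
      FC p _ e' (S.io v : L) w) fun w => (h3 v w).symm)).symm
  have h5 : (fun x : L => extendByZero L θ.1 x) = θ.1 := funext (ext_coe L θ.1)
  refine ⟨fun α v => Nat.card (P.subgroupOf L) * ct p e' (fun x : L => α x) θ.1 (S.io v),
    extendByZero L θ.1, T, fun α hα => gen_comp (gen_ct T.hM T'.hB T'.mx h2 (gen_comp hα L.subtype)
      (gen_of_irr θ.2)) S.io.toMonoidHom, fun v w hv hw => by rw [← S.fc_iff T hv hw, h3],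
    fun v hv => ?_, fun α v hv => ?_, fun v hv => ?_, fun z hz hzP hp hz2 η η' h6 h7 h8 h9 => ?_⟩
  · rw [S.rk_eq T hv]
    have := h2.local T.hp T'.mx.blk ((T'.sub (S.io v)).pr T'.mx.pr) (T'.mx.of_sub T.hp (T'.sub _))
    rw [top_inf_eq, CC_zpowers] at this
    exact T'.rk_of_nil this
  · rw [S.cw_eq T hv, h5, cw_eq_ct, h4, S.card]; ring
  · rw [S.cw_eq T hv, h5, cw_eq_ct, h4, ← S.card, mul_left_comm,
      card_mul_ct_eq_one T.hM T'.hB T'.mx h2 hθ h0, mul_one]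
  subst hp
  obtain ⟨Φ, hΦ⟩ := exists_equiv_nil T.hM T'.hB T'.mx h2 hθ h0
  have hz2' : (z : G) * z = 1 := congrArg Subtype.val hz2
  have hL : L = centralizer {(z : G)} := le_antisymm (fun g hg => by
    have h := (mem_St.1 ((S.mem g).1 hg)).2.1
    rw [hz] at h
    have h1 : ∀ x ∈ zpowers (z : G), x ≠ 1 → x = z := by
      rintro _ ⟨n, rfl⟩ hn
      obtain ⟨j, rfl | rfl⟩ := Int.even_or_odd' n
      · simp only [zpow_mul, zpow_two, hz2', one_zpow, ne_eq, not_true] at hn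
      · simp only [zpow_add, zpow_mul, zpow_two, hz2', one_zpow, one_mul, zpow_one]
    by_cases h0 : (z : G) = 1
    · simp [h0, mem_centralizer_singleton_iff]
    exact mem_centralizer_singleton_iff.2 (mul_inv_eq_iff_eq_mul.1 (h1 _
      ((mem_normalizer_iff.1 h _).1 (mem_zpowers _)) (by simpa using h0)))) (S.cent_le T hz.le)
  have hc : ∀ x : L, IsConj x (S.io z : L) → x = S.io z := fun x h => by
    obtain ⟨g, h⟩ := isConj_iff.1 h.symm
    rw [← h, mul_inv_eq_iff_eq_mul]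
    exact Subtype.ext (mem_centralizer_singleton_iff.1 (hL.le g.2))
  have hs : ∀ η : IrrCharacter P, Stb 2 e' (irrE S.io.symm η).1 := fun η =>
    stb_of_nil T.hM T'.mx h2 (irr_classFun (irrE _ η).2)
  have h10 : ∀ η : IrrCharacter P, (Φ (irrE S.io.symm η)).1.1 ⟨z, S.le z.2⟩ = η.1 z * θ.1 ⟨z, S.le z.2⟩ :=
    fun η => by
      have := mt (st_ne_zero (p := 2) (e := e') (θ := θ.1) (g := (S.io z : L))
        (F := (irrE S.io.symm η).1 - η.1 z • 1)) (by
          rintro ⟨v, h, h'⟩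
          rw [(pPart_eq_self_iff T.hM.1).2 (T'.pel _)] at h
          rw [show v = S.io z from Subtype.ext (hc _ h.symm)] at h'
          simp [irrE_apply] at h')
      rw [not_not, map_sub, map_smul, LinearMap.sub_apply, LinearMap.smul_apply,
        st_one T.hM T'.hB T'.mx (inSpan_irr hθ), Pi.sub_apply, sub_eq_zero] at this
      rw [hΦ]
      exact this
  have h11 : ∀ η : IrrCharacter P, (∀ t, t * t = 1 → t ≠ 1 → t ≠ z → η.1 t = 0) → ∀ x : L,
      IsConj (z : G) x → x ≠ ⟨z, S.le z.2⟩ → (Φ (irrE S.io.symm η)).1.1 x = 0 := fun η h x hx hne => by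
    by_contra h'
    rw [hΦ] at h'
    obtain ⟨v, h12, h13⟩ := st_ne_zero h'
    obtain ⟨v, rfl⟩ := S.io.surjective v
    rw [(pPart_eq_self_iff T.hM.1).2 (by
      rw [← orderOf_coe, ← ord_conj hx]; exact T.pel z)] at h12
    obtain ⟨g, h14⟩ := isConj_iff.1 (hx.trans (L.subtype.map_isConj h12))
    replace h14 : g * z * g⁻¹ = v := h14
    rw [irrE_apply, MulEquiv.symm_apply_apply] at h13
    refine h13 (h v (Subtype.ext (by
      rw [coe_mul, ← h14, conj_mul, hz2']; simp)) (fun h15 => ?_) fun h15 => hne (hc _ (h15 ▸ h12)))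
    rw [h15, coe_one, conj_eq_one_iff] at h14
    exact hne (Subtype.ext ((isConj_one_right.1 (h14 ▸ hx)).trans h14.symm))
  have h12 := trick hz2' hL (S.le z.2) (ξ := (Φ (irrE S.io.symm η)).1) (ζ := (Φ (irrE S.io.symm η')).1)
    (by simp only [hΦ, st_apply_one T.hM T'.hB T'.mx (inSpan_irr hθ), irrE_apply, map_one, h6])
    (by rw [h10, h10, mul_pow, mul_pow, h7])
    (fun x a b => ⟨h11 η (fun t a b c => (h8 t a b c).1) x a b, h11 η' (fun t a b c => (h8 t a b c).2) x a b⟩)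
    fun g hg => by
      rw [hΦ, hΦ, ← sub_ne_zero, ← Pi.sub_apply, ← LinearMap.sub_apply, ← map_sub] at hg
      obtain ⟨v, h12, h13⟩ := st_ne_zero hg
      obtain ⟨v, rfl⟩ := S.io.surjective v
      obtain ⟨n, hn⟩ := h9 v (by simpa [irrE_apply, sub_ne_zero] using h13)
      obtain ⟨a, ha⟩ := isConj_iff.1 h12
      have h14 := hc (pPart 2 g ^ n) (isConj_iff.2 ⟨a, by rw [← conj_zpow, ha, ← hn]; rfl⟩)
      rw [← S.coe_io z, ← h14]
      exact zpow_mem (by rw [coe_pPart T.hM.1]; exact pPart_mem T.hM.1 (mem_zpowers _)) n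
  rw [← h12]
  refine Finset.sum_congr rfl fun χ _ => ?_
  rw [inner_ind_left _ _ (irr_classFun χ.2), hΦ, hΦ, ← LinearMap.sub_apply, ← map_sub,
    CA.H11Eta.inner_st T.hM T'.mx.pr (fun v w h => by rw [Pi.sub_apply, hs η v w h, hs η' v w h]; rfl)
      (irr_classFun θ.2) (classFun_restrict (irr_classFun χ.2) L), CChar.CharFun.inner_def,
    Finset.mul_sum, ← S.io.toEquiv.sum_comp]
  congr 1
  refine Finset.sum_congr rfl fun v _ => ?_
  simp only [map_mul, conj_ct T.hM T'.mx.pr, S.card, map_natCast]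
  have := card_ne_zero P
  simp [irrE_apply]
  field_simp

theorem cl_ne {K : Type*} [Group K] [Finite K] (v : K) : (cl v : ℂ) ≠ 0 :=
  haveI : Nonempty {w // IsConj v w} := ⟨⟨v, IsConj.refl v⟩⟩
  Nat.cast_ne_zero.2 Nat.card_pos.ne'

theorem card_mul_cl (v : P) :
    Nat.card (P ⊓ centralizer {(v : G)} : Subgroup G) * cl v = Nat.card P := by
  rw [cl, natCard_class_eq_index, ← (centralizer ({v} : Set P)).card_mul_index,
    ← Nat.card_congr (subgroupOfEquivOfLe inf_le_left).toEquiv, inf_subgroupOf_left]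
  congr 3
  ext x
  simp [mem_subgroupOf, mem_centralizer_singleton_iff, Subtype.ext_iff]

namespace Nb
variable {D : (G → ℂ) → P → ℂ} {ω θ : G → ℂ} (N : Nb p P R e B D ω) {χ ψ : IrrCharacter G}
  (hv : R ≤ zpowers (v : G))
include N

theorem congr (h : IsConj v w) (χ : IrrCharacter G) : D χ.1 v = D χ.1 w :=
  CA.Ind.classFun_isConj (gen_classFun (N.gen _ (gen_of_irr χ.2))) h

include hv

theorem mul_conj (α β : G → ℂ) : D α v * conj (D β v) * cl v = Nat.card P * cw p e α β v := by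
  have h1 := congrArg conj (N.val β v hv)
  rw [map_mul, map_mul, map_natCast, map_natCast, N.conj_cw] at h1
  refine mul_right_cancel₀ (cl_ne v) ?_
  linear_combination conj (D β v) * cl v * N.val α v hv + Nat.card P * cw p e α ω v * h1 +
    (Nat.card P : ℂ) ^ 2 * N.cw_mul (N.rk v hv) α ω ω β + Nat.card P * cw p e α β v * N.one v hv

theorem ne_zero (hχ : χ ∈ B) (h0 : blockHeight p B χ.1 = 0) : D χ.1 v ≠ 0 := fun h =>
  mul_ne_zero (card_ne_zero P) (N.cw_ne_zero hχ h0 hχ h0 v) (by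
    rw [← N.mul_conj hv, h, zero_mul, zero_mul])

theorem of_not_mem (hχ : χ ∉ B) : D χ.1 v = 0 :=
  (mul_eq_zero.1 ((N.val _ v hv).trans (by rw [N.cw_of_not_mem hχ, mul_zero]))).resolve_right (cl_ne v)

theorem cw_eq_zero' {α : G → ℂ} (h : D α v = 0) (β : G → ℂ) : cw p e α β v = 0 :=
  (mul_eq_zero.1 ((N.mul_conj hv α β).symm.trans (by rw [h, zero_mul, zero_mul]))).resolve_left
    (card_ne_zero P)

theorem D_st {F : P → ℂ} (hF : Stb p e F) (hθ : IsClassFunction G θ) :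
    D (st p e F θ) v = F v * D θ v :=
  mul_right_cancel₀ (cl_ne v) (by rw [N.val _ v hv, mul_assoc, N.val _ v hv, N.cw_st hF hθ]; ring)

theorem not_dvd_iff {Q : Subgroup G} (h : IsDef p (centralizer {(v : G)}) (lb p P e v) Q)
    (hQ : Nat.card Q * cl v = Nat.card P) {s : ℤ} (hs : D χ.1 1 = s) :
    ¬ (p : ℤ) ∣ s ↔ χ ∈ B ∧ blockHeight p B χ.1 = 0 := by
  obtain ⟨n, hn⟩ := N.pel v
  have h1 := gen_mem_cyc (N.gen _ (gen_of_irr χ.2)) v
  rw [← orderOf_coe, hn] at h1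
  have h2 := CA.H11Cyclo.mul_mem' h1 (CA.H11Cyclo.conj_mem h1)
  have h3 := CA.H11Cyclo.res_eq N.hM h2 1
  have h4 := isIntegral_mem (M := M) (CA.H11Cyclo.isIntegral (pow_ne_zero n N.hM.1.ne_zero) h2 1)
  simp only [pow_one, pow_zero, hs, map_intCast] at h3 h4
  have h5 : D χ.1 v * conj (D χ.1 v) = Nat.card Q * cw p e χ.1 χ.1 v :=
    mul_right_cancel₀ (cl_ne v) (by rw [N.mul_conj hv, ← hQ]; push_cast; ring)
  rw [← and_self_iff (a := χ ∈ B ∧ _), ← N.v_cw_eq_one_iff h, ← h5, ← res_ne_zero_iff h4, h3,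
    ← Int.cast_mul, res_ne_zero_iff (intCast_mem_O _), v_intCast_eq_one_iff N.hM,
    (Nat.prime_iff_prime_int.1 N.hM.1).dvd_mul, or_self]

variable [DecidablePred (· ∈ B)]

theorem expand (hθ : InSpan B θ) : D θ v = ∑ χ with χ ∈ B, classInner θ χ.1 * D χ.1 v := by
  refine mul_right_cancel₀ (cl_ne v) ?_
  rw [N.val _ v hv, N.cw_expand hθ, Finset.sum_mul, Finset.mul_sum]
  exact Finset.sum_congr rfl fun χ _ => by rw [mul_assoc, N.val _ v hv]; ring

theorem reg (h1 : v ≠ 1) : ∑ χ with χ ∈ B, conj (D χ.1 v) * χ.1 1 = 0 := by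
  refine mul_right_cancel₀ (cl_ne v) ?_
  rw [zero_mul, Finset.sum_mul, ← mul_zero (Nat.card P : ℂ), ← N.sum_cw_reg ω h1, Finset.mul_sum]
  refine Finset.sum_congr rfl fun χ _ => ?_
  have h1 := congrArg conj (N.val χ.1 v hv)
  rw [map_mul, map_mul, map_natCast, map_natCast, N.conj_cw] at h1
  linear_combination χ.1 1 * h1

theorem orth (hw : R ≤ zpowers (w : G)) [Decidable (IsConj v w)] :
    (∑ χ with χ ∈ B, D χ.1 v * conj (D χ.1 w)) * cl v = if IsConj v w then (Nat.card P : ℂ) else 0 := by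
  split_ifs with h
  · simp only [← N.congr h, Finset.sum_mul, N.mul_conj hv]
    rw [← Finset.mul_sum, N.sum_cw_self, N.rk v hv, Nat.cast_one, mul_one]
  obtain ⟨ψ, hψ, h0⟩ := exists_height_zero (p := p) (block_nonempty N.hM N.hB)
  refine mul_right_cancel₀ (mul_ne_zero (mul_ne_zero ((map_ne_zero (starRingEnd ℂ)).2
    (N.ne_zero hv hψ h0)) (N.ne_zero hw hψ h0)) (cl_ne w)) ?_
  have h1 := N.sum_cw_mul_ne (irr_classFun ψ.2) (irr_classFun ψ.2)
    (mt (fun h => ((N.fc w v hw hv).1 h).symm) h)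
  rw [zero_mul, Finset.sum_mul, Finset.sum_mul, ← mul_zero ((Nat.card P : ℂ) ^ 2), ← h1, Finset.mul_sum]
  refine Finset.sum_congr rfl fun χ _ => ?_
  linear_combination D χ.1 v * conj (D ψ.1 v) * cl v * N.mul_conj hw ψ.1 χ.1 +
    Nat.card P * cw p e ψ.1 χ.1 w * N.mul_conj hv χ.1 ψ.1

end Nb

theorem Nb.gram {D : (G → ℂ) → P → ℂ} {ω : G → ℂ} (N : Nb p P R e B D ω) [DecidablePred (· ∈ B)]
    {F F' : P → ℂ} (hF : ∀ v, F v ≠ 0 → R ≤ zpowers (v : G)) (hF' : ∀ v, F' v ≠ 0 → R ≤ zpowers (v : G))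
    (hc : IsClassFunction P F') :
    ∑ χ with χ ∈ B, classInner (D χ.1) F * conj (classInner (D χ.1) F') = classInner F' F := by
  classical
  have h1 : ∀ v w, ∑ χ with χ ∈ B, D χ.1 v * conj (F v) * conj (D χ.1 w * conj (F' w)) =
      if IsConj v w then Nat.card P * (F' v * conj (F v)) / cl v else 0 := fun v w => by
    by_cases hv : F v = 0
    · simp [hv]
    by_cases hw : F' w = 0
    · rw [Finset.sum_eq_zero fun χ _ => by simp [hw]]
      split_ifs with h
      · simp [CA.Ind.classFun_isConj hc h, hw]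
      · rfl
    have h2 := N.orth (hF v hv) (hF' w hw)
    have h3 := cl_ne v
    rw [Finset.sum_congr rfl fun χ _ => show _ = F' w * conj (F v) * (D χ.1 v * conj (D χ.1 w)) by
      simp only [map_mul, Complex.conj_conj]; ring, ← Finset.mul_sum, eq_div_of_mul_eq h3 h2]
    split_ifs with h
    · rw [CA.Ind.classFun_isConj hc h]; ring
    · simp
  have h2 := card_ne_zero P
  simp only [CChar.CharFun.inner_def, map_mul (starRingEnd ℂ) _⁻¹, map_inv₀, map_natCast, map_sum,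
    mul_mul_mul_comm _⁻¹, Finset.sum_mul_sum, ← Finset.mul_sum]
  rw [Finset.sum_comm, mul_assoc, Finset.mul_sum]
  refine congrArg _ (Finset.sum_congr rfl fun v _ => ?_)
  rw [Finset.sum_congr rfl fun χ _ => Finset.mul_sum _ _ _, Finset.sum_comm,
    Finset.sum_congr rfl fun w _ => h1 v w, ← Finset.sum_filter, Finset.sum_const,
    nsmul_eq_mul, show Finset.card _ = cl v by rw [cl, Nat.card_eq_fintype_card, Fintype.card_subtype]]
  have h3 := cl_ne v
  field_simp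

theorem Nb.inner_of_not_mem {D : (G → ℂ) → P → ℂ} {ω : G → ℂ} (N : Nb p P R e B D ω) {F : P → ℂ}
    (hF : ∀ v, F v ≠ 0 → R ≤ zpowers (v : G)) {χ : IrrCharacter G} (hχ : χ ∉ B) :
    classInner (D χ.1) F = 0 := by
  rw [CChar.CharFun.inner_def, Finset.sum_eq_zero fun v _ => ?_, mul_zero]
  by_cases h : F v = 0
  · simp [h]
  · rw [N.of_not_mem (hF v h) hχ, zero_mul]

theorem Nb.inner_reg {D : (G → ℂ) → P → ℂ} {ω : G → ℂ} (N : Nb p P R e B D ω) [DecidablePred (· ∈ B)]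
    {F : P → ℂ} (hF : ∀ v, F v ≠ 0 → R ≤ zpowers (v : G)) (h1 : F 1 = 0) :
    ∑ χ with χ ∈ B, conj (classInner (D χ.1) F) * χ.1 1 = 0 := by
  simp only [CChar.CharFun.inner_def, map_mul, map_sum, Complex.conj_conj, mul_assoc, Finset.sum_mul,
    ← Finset.mul_sum]
  rw [Finset.sum_comm, Finset.sum_eq_zero fun v _ => ?_, mul_zero]
  by_cases h : F v = 0
  · simp [h]
  · simp only [mul_left_comm _ (F v), ← Finset.mul_sum, N.reg (hF v h) fun e => h (e ▸ h1), mul_zero]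

end CA.H11Nb
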