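import Cfsg.Agent.Lib.Block.H11Nb
import Cfsg.Agent.Lib.Block.H11Foc
import Cfsg.Agent.Lib.Block.H11Dih

/-!
Generalized characters of 2-groups of maximal class, restricted to a cyclic subgroup of index two.
-/

set_option autoImplicit false
set_option linter.unusedSectionVars false

namespace CA.H11Row

open Cfsg CA.H11PS CA.H11Nb CA.MC2 CA.H11Foc CChar.CharFun CChar.CharOrth CChar.CharGen Subgroup
open CA.Ind (ext_coe ext_of_mem ext_of_not_mem sum_ext_mul card_ne_zero classFun_isConj)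
open CA.H11Dih (comm_zpowers)
open scoped ComplexConjugate

section int
variable {ι : Type*} {J : Finset ι} {r : ι → ℤ}

variable (J r) in
/-- The variance form of an integral vector. -/
def W : ℤ := J.card * ∑ j ∈ J, r j ^ 2 - (∑ j ∈ J, r j) ^ 2

theorem two_W : 2 * W J r = ∑ i ∈ J, ∑ j ∈ J, (r i - r j) ^ 2 := by
  simp only [W, sub_sq, Finset.sum_add_distrib, Finset.sum_sub_distrib, Finset.sum_const,
    nsmul_eq_mul, ← Finset.mul_sum, ← Finset.sum_mul]
  ring

theorem W_nonneg : 0 ≤ W J r := by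
  have := two_W (J := J) (r := r)
  have := Finset.sum_nonneg (s := J) fun i _ => Finset.sum_nonneg (s := J) fun j _ => sq_nonneg (r i - r j)
  omega

theorem W_shift [DecidableEq ι] {i : ι} (hi : i ∈ J) {c d : ℤ}
    (h : ∀ j ∈ J, r j = c + if j = i then d else 0) :
    W J r = (J.card - 1) * d ^ 2 ∧ ∑ j ∈ J, r j = J.card * c + d := by
  have h1 : ∑ j ∈ J, r j = J.card * c + d := by
    simp [Finset.sum_congr rfl h, Finset.sum_add_distrib, hi]
  have h2 : ∑ j ∈ J, r j ^ 2 = J.card * c ^ 2 + (2 * c * d + d ^ 2) := by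
    rw [Finset.sum_congr rfl (g := fun j => c ^ 2 + if j = i then 2 * c * d + d ^ 2 else 0)
      fun j hj => by rw [h j hj]; split_ifs <;> ring]
    simp [Finset.sum_add_distrib, hi]
  exact ⟨by rw [W, h1, h2]; ring, h1⟩

theorem mul_le_W (c : ℤ) : ((J.filter (r · = c)).card * (J.filter (r · ≠ c)).card : ℤ) ≤ W J r := by
  have h1 : ∀ i ∈ J, (if r i = c then ((J.filter (r · ≠ c)).card : ℤ) else (J.filter (r · = c)).card) ≤
      ∑ j ∈ J, (r i - r j) ^ 2 := fun i _ => by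
    split_ifs with h <;> rw [Finset.card_filter] <;> push_cast <;>
      refine Finset.sum_le_sum fun j _ => ?_ <;> split_ifs with h'
    · exact sq_pos_of_ne_zero (a := r i - r j) (by omega)
    · exact sq_nonneg _
    · exact sq_pos_of_ne_zero (a := r i - r j) (by omega)
    · exact sq_nonneg _
  have h2 := Finset.sum_le_sum h1
  rw [← two_W, Finset.sum_ite, Finset.sum_const, Finset.sum_const, nsmul_eq_mul, nsmul_eq_mul] at h2
  linarith

theorem exists_of_lt [DecidableEq ι] (hJ : J.Nonempty) (h : W J r < 2 * J.card - 4) :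
    ∃ i ∈ J, ∃ c d : ℤ, d ^ 2 ≤ 1 ∧ ∀ j ∈ J, r j = c + if j = i then d else 0 := by
  have h0 := fun c => Finset.card_filter_add_card_filter_not (s := J) (r · = c)
  by_cases h1 : ∃ c, (J.filter (r · ≠ c)).card ≤ 1
  · obtain ⟨c, h1⟩ := h1
    haveI : Nonempty ι := ⟨hJ.choose⟩
    obtain ⟨i, hi⟩ := Finset.card_le_one_iff_subset_singleton.1 h1
    obtain ⟨i, h2, hi⟩ : ∃ i ∈ J, ∀ j ∈ J, r j = c + if j = i then r i - c else 0 := by
      by_cases h3 : i ∈ J
      · refine ⟨i, h3, fun j hj => ?_⟩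
        split_ifs with h4
        · simp [h4]
        · exact (not_not.1 fun h5 => h4 (Finset.mem_singleton.1 (hi (Finset.mem_filter.2 ⟨hj, h5⟩)))).trans
            (add_zero _).symm
      · have h4 : ∀ j ∈ J, r j = c := fun j hj => not_not.1 fun h5 =>
          h3 (Finset.mem_singleton.1 (hi (Finset.mem_filter.2 ⟨hj, h5⟩)) ▸ hj)
        exact ⟨_, hJ.choose_spec, fun j hj => by simp [h4 j hj, h4 _ hJ.choose_spec]⟩
    refine ⟨i, h2, c, _, ?_, hi⟩
    rw [(W_shift h2 hi).1] at h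
    have h3 : (1 : ℤ) ≤ J.card := by exact_mod_cast hJ.card_pos
    by_contra h4
    nlinarith
  exfalso
  push Not at h1
  by_cases h2 : ∃ c, 2 ≤ (J.filter (r · = c)).card
  · obtain ⟨c, h2⟩ := h2
    have h3 := mul_le_W (J := J) (r := r) c
    have h4 := h1 c
    rw [← h0 c] at h
    zify at h2 h4
    push_cast at h
    nlinarith
  push Not at h2
  have h3 : ∀ i ∈ J, (J.card - 1 : ℤ) ≤ ∑ j ∈ J, (r i - r j) ^ 2 := fun i _ => by
    have h4 : ((J.filter (r · ≠ r i)).card : ℤ) ≤ ∑ j ∈ J, (r i - r j) ^ 2 := by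
      rw [Finset.card_filter]; push_cast
      refine Finset.sum_le_sum fun j _ => ?_
      split_ifs with h'
      · exact sq_pos_of_ne_zero (a := r i - r j) (by omega)
      · exact sq_nonneg _
    have := h0 (r i)
    have := h2 (r i)
    simp only [ne_eq] at h4
    omega
  have h4 := Finset.sum_le_sum h3
  rw [← two_W, Finset.sum_const, nsmul_eq_mul] at h4
  nlinarith [sq_nonneg (2 * (J.card : ℤ) - 5)]

theorem W_even (hJ : J.Nonempty) (h1 : Even J.card) (h2 : Even (∑ j ∈ J, r j)) :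
    W J r = 0 ∨ 2 * J.card - 4 ≤ W J r := by
  classical
  refine or_iff_not_imp_right.2 fun h => ?_
  obtain ⟨i, hi, c, d, h3, h4⟩ := exists_of_lt hJ (not_le.1 h)
  obtain ⟨h5, h6⟩ := W_shift hi h4
  rw [h6, Int.even_add, iff_true_intro (((Int.even_coe_nat _).2 h1).mul_right c), true_iff] at h2
  obtain ⟨x, rfl⟩ := h2
  rw [h5, show x = 0 by nlinarith]
  simp

theorem odd_sum_sq (h : Odd (∑ j ∈ J, r j)) : Odd (∑ j ∈ J, r j ^ 2) := by
  have := Finset.even_sum (s := J) (fun j => r j * (r j - 1)) fun j _ => Int.even_mul_pred_self _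
  simp only [mul_sub, ← sq, mul_one, Finset.sum_sub_distrib] at this
  simpa using this.add_odd h

theorem W_odd_ge (h1 : Even J.card) (h2 : Odd (∑ j ∈ J, r j)) : J.card - 1 ≤ W J r := by
  obtain ⟨i, hi⟩ : J.Nonempty := Finset.nonempty_iff_ne_empty.2 (by rintro rfl; simp at h2)
  have h3 := mul_le_W (J := J) (r := r) (r i)
  have h4 := Finset.card_filter_add_card_filter_not (s := J) (r · = r i)
  have h5 : 0 < (J.filter (r · = r i)).card := Finset.card_pos.2 ⟨i, Finset.mem_filter.2 ⟨hi, rfl⟩⟩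
  have h6 : 0 < (J.filter (r · ≠ r i)).card := Finset.card_pos.2 (Finset.filter_nonempty_iff.2 (by
    by_contra h
    push Not at h
    rw [Finset.sum_congr rfl h, Finset.sum_const, nsmul_eq_mul, ← Int.not_even_iff_odd] at h2
    exact h2 (((Int.even_coe_nat _).2 h1).mul_right _)))
  rw [← h4]
  zify at h5 h6
  push_cast
  nlinarith

theorem W_odd {n : ℕ} (h1 : J.card = 2 ^ (n + 1)) (h2 : Odd (∑ j ∈ J, r j)) (h3 : W J r < 2 * J.card) :
    W J r = J.card - 1 ∨ W J r = 2 * J.card - 1 ∧ 2 ≤ n := by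
  classical
  obtain ⟨s, h4⟩ := odd_sum_sq h2
  obtain ⟨t, h5⟩ := h2
  obtain ⟨u, h6⟩ := Int.even_mul_succ_self t
  have h7 : W J r = J.card * (2 * s + 1) - (8 * u + 1) := by rw [W, h4, h5]; linear_combination -4 * h6
  have h8 := W_nonneg (J := J) (r := r)
  by_cases h : W J r < 2 * J.card - 4
  · obtain ⟨i, hi, c, d, h9, h10⟩ := exists_of_lt (Finset.card_pos.1 (by rw [h1]; positivity)) h
    obtain ⟨h11, h12⟩ := W_shift hi h10
    rw [h5, h1, pow_succ] at h12
    push_cast at h12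
    rw [h11, show d ^ 2 = 1 by
      have : d ≠ 0 := by rintro rfl; rw [mul_assoc, mul_left_comm] at h12; omega
      have := sq_pos_of_ne_zero this
      omega, mul_one]
    exact .inl rfl
  rw [h1] at h3 h h7 ⊢
  rcases n with _ | _ | n
  · norm_num at *; omega
  · norm_num at *; omega
  · obtain ⟨x, hx⟩ : ∃ x : ℤ, x = 2 ^ n := ⟨_, rfl⟩
    obtain ⟨w, hw⟩ : ∃ w, w = x * s := ⟨_, rfl⟩
    have : ((2 ^ (n + 1 + 1 + 1) : ℕ) : ℤ) = 8 * x := by rw [hx]; push_cast; ring
    rw [this] at h3 h h7 ⊢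
    rw [show 8 * x * (2 * s + 1) = 16 * w + 8 * x by rw [hw]; ring] at h7
    omega

end int

section ab
variable {A : Type*} [Group A] [Fintype A] (hA : ∀ a b : A, a * b = b * a)

theorem parseval (J : Finset (A →* ℂˣ)) (r : (A →* ℂˣ) → ℤ) :
    ∑ x, (∑ l ∈ J, r l * hc l x) * conj (∑ l ∈ J, r l * hc l x) = Nat.card A * (∑ l ∈ J, r l ^ 2 : ℤ) := by
  classical
  have h := card_ne_zero A
  have h1 : ∀ l l' : A →* ℂˣ, ∑ x, hc l x * conj (hc l' x) = if l = l' then (Nat.card A : ℂ) else 0 :=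
    fun l l' => by
      have := inner_hc l l'
      rw [CChar.CharFun.inner_def, inv_mul_eq_iff_eq_mul₀ h] at this
      rw [this]; simp
  simp only [map_sum, Finset.sum_mul_sum, map_mul, map_intCast, mul_mul_mul_comm (r _ : ℂ)]
  rw [Finset.sum_comm, Int.cast_sum, Finset.mul_sum]
  refine Finset.sum_congr rfl fun l hl => ?_
  rw [Finset.sum_comm]
  simp only [← Finset.mul_sum, h1]
  simp [hl, sq, mul_comm]

theorem sum_pow {H R : Type*} [Group H] [Fintype H] [AddCommMonoid R] {l : H} (h : ∀ x, x ∈ zpowers l)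
    (f : H → R) : ∑ x, f x = ∑ j ∈ Finset.range (orderOf l), f (l ^ j) := by
  classical
  refine (Finset.sum_bij (fun j _ => l ^ j) (by simp) (fun i hi j hj =>
    pow_injOn_Iio_orderOf (by simpa using hi) (by simpa using hj)) (fun x _ => ?_) (by simp)).symm
  simpa using mem_zpowers_iff_mem_range_orderOf.1 (h x)

end ab

variable {K : Type*} [Group K] [Fintype K] {m : ℕ} {ε δ : ℤ} {a y v w : K} {θ : K → ℂ}

variable (m ε δ a y) in
/-- A group of maximal class with its generators. -/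
structure Mc : Prop extends MC m ε δ a y where
  top : zpowers a ⊔ zpowers y = ⊤

variable (m a) in
/-- The central involution. -/
def zz : zpowers a := ⟨a ^ (2 ^ m : ℤ), zpow_mem_zpowers _ _⟩

theorem coe_zz : (zz m a : K) = a ^ (2 ^ m : ℤ) := rfl

open Classical in
variable (a) in
/-- The elements of order at least four in the cyclic subgroup. -/
noncomputable def Gd : Finset K := Finset.univ.filter fun v => v ∈ zpowers a ∧ v ^ 2 ≠ 1

theorem mem_Gd : v ∈ Gd a ↔ v ∈ zpowers a ∧ v ^ 2 ≠ 1 := by simp [Gd]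

noncomputable instance : Fintype (zpowers a) := Fintype.ofFinite _

noncomputable instance : Fintype (zpowers a →* ℂˣ) := @Fintype.ofFinite _ finite_hom

variable (a) in
/-- The multiplicity of a linear character in the restriction. -/
noncomputable def co (θ : K → ℂ) (l : zpowers a →* ℂˣ) : ℤ :=
  ⌊(classInner (fun x : zpowers a => θ x) (hc l)).re⌋

theorem co_eq (hθ : IsGeneralizedCharacter K θ) (l : zpowers a →* ℂˣ) :
    classInner (fun x : zpowers a => θ x) (hc l) = co a θ l := by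
  obtain ⟨n, h⟩ := inner_gen_gen (gen_restrict hθ (zpowers a)) (hc_gen l)
  simp [co, h]

theorem eq_sum_co (hθ : IsGeneralizedCharacter K θ) (x : zpowers a) :
    θ x = ∑ l, co a θ l * hc l x := by
  simpa only [co_eq hθ] using eq_sum_hc (comm_zpowers a) (fun x : zpowers a => θ x) x

theorem one_eq (hθ : IsGeneralizedCharacter K θ) : θ 1 = (∑ l, co a θ l : ℤ) := by
  simpa [hc_apply_one] using eq_sum_co (a := a) hθ 1

open Classical in
variable (m a) in
/-- The linear characters with a given value at the central involution. -/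
noncomputable def Js (s : ℂ) : Finset (zpowers a →* ℂˣ) := Finset.univ.filter fun l => hc l (zz m a) = s

theorem mem_Js {s : ℂ} {l : zpowers a →* ℂˣ} : l ∈ Js m a s ↔ hc l (zz m a) = s := by simp [Js]

variable (m a) in
/-- The part of the restriction of given sign. -/
noncomputable def pt (s : ℂ) (r : (zpowers a →* ℂˣ) → ℤ) : K → ℂ :=
  extendByZero _ fun x => ∑ l ∈ Js m a s, r l * hc l x

namespace Mc
variable (h : Mc m ε δ a y)
include h

theorem mem (g : K) : g ∈ zpowers a ⊔ zpowers y := h.top ▸ mem_top g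

theorem card_K : Nat.card K = 2 ^ (m + 2) := by rw [← h.card, h.top, card_top]

theorem card_A : Nat.card (zpowers a) = 2 ^ (m + 1) := by rw [Nat.card_zpowers, h.ord]

theorem z_comm (g : K) : g * zz m a = zz m a * g := h.z_central (h.mem g)

theorem zz_ne : zz m a ≠ 1 := fun e => h.z_ne (congrArg Subtype.val e)

theorem zz_sq : zz m a * zz m a = 1 := Subtype.ext (by simpa [sq, coe_zz] using h.z_sq)

theorem sum_A {R : Type*} [AddCommMonoid R] (g : K → R) :
    ∑ x : zpowers a, g x = g 1 + g (zz m a) + ∑ v ∈ Gd a, g v := by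
  classical
  rw [← Finset.sum_subtype (Finset.univ.filter (· ∈ zpowers a)) (by simp) g, add_assoc,
    ← Finset.sum_insert (by simp [mem_Gd, coe_zz, h.z_sq]), ← Finset.sum_insert (by
      simpa [mem_Gd, coe_zz] using h.z_ne.symm)]
  refine Finset.sum_congr ?_ fun _ _ => rfl
  ext v
  simp only [Finset.mem_filter, Finset.mem_univ, true_and, Finset.mem_insert, mem_Gd]
  refine ⟨fun hv => ?_, ?_⟩
  · by_contra h1
    push Not at h1
    exact h1.2.1 (h.eq_z hv (h1.2.2 hv) h1.1)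
  · rintro (rfl | rfl | h1)
    exacts [one_mem _, (zz m a).2, h1.1]

theorem card_Gd : ((Gd a).card : ℂ) = 2 ^ (m + 1) - 2 := by
  have := h.sum_A fun _ => (1 : ℂ)
  simp only [Finset.sum_const, Finset.card_univ, ← Nat.card_eq_fintype_card, h.card_A, nsmul_eq_mul,
    mul_one] at this
  push_cast at this
  linear_combination -this

theorem conj_mem (hv : v ∈ zpowers a) (g : K) : g * v * g⁻¹ ∈ zpowers a :=
  (mem_normalizer_iff.1 (h.le_normalizer (h.mem g)) v).1 hv

theorem isConj_iff (hv : v ∈ zpowers a) : IsConj v w ↔ w = v ∨ w = y * v * y⁻¹ := by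
  have h1 : ∀ i : ℤ, ∀ v ∈ zpowers a, a ^ i * v * (a ^ i)⁻¹ = v := fun i v hv =>
    mul_inv_eq_iff_eq_mul.2 (congrArg Subtype.val (comm_zpowers a ⟨_, zpow_mem_zpowers a i⟩ ⟨v, hv⟩))
  refine ⟨fun e => ?_, ?_⟩
  · obtain ⟨g, rfl⟩ := _root_.isConj_iff.1 e
    obtain ⟨i, rfl | rfl⟩ := h.mem_iff.1 (h.mem g)
    · exact .inl (h1 i v hv)
    · exact .inr (by rw [← h1 i _ (h.conj_mem hv y)]; group)
  · rintro (rfl | rfl)
    exacts [IsConj.refl _, _root_.isConj_iff.2 ⟨y, rfl⟩]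

omit h in
theorem cl_eq_one (hv : ∀ g, g * v = v * g) : cl v = 1 :=
  Nat.card_eq_one_iff_exists.2 ⟨⟨v, IsConj.refl v⟩, fun ⟨w, hw⟩ => Subtype.ext (by
    obtain ⟨g, rfl⟩ := _root_.isConj_iff.1 hw
    simp [hv g])⟩

theorem cl_z : cl (zz m a : K) = 1 := cl_eq_one h.z_comm

omit h in
theorem cl_one : cl (1 : K) = 1 := cl_eq_one (by simp)

theorem cl_Gd (hv : v ∈ Gd a) : cl v = 2 := by
  obtain ⟨h1, h2⟩ := mem_Gd.1 hv
  simp only [cl, h.isConj_iff h1]
  exact (Nat.card_coe_set_eq {v, y * v * y⁻¹}).trans (Set.ncard_pair fun e => h.notMem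
    (h.mem_of_commute h1 h2 (h.mem y) (mul_inv_eq_iff_eq_mul.1 e.symm)))

theorem cent_out (hv : v ∉ zpowers a) : centralizer {v} = H m a v := by
  obtain ⟨δ', h1, h2⟩ := h.out (h.mem v) hv
  refine le_antisymm (fun g hg => h1.mem_H_of_commute (h2 ▸ h.mem g)
    (mem_centralizer_singleton_iff.1 hg).symm) fun g hg => mem_centralizer_singleton_iff.2 ?_
  exact congrArg Subtype.val (h1.H_comm.1.1 ⟨g, hg⟩ ⟨v, right_mem_H _ _ _⟩)

theorem cl_out (hv : v ∉ zpowers a) : cl v = 2 ^ m := by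
  obtain ⟨δ', h1, -⟩ := h.out (h.mem v) hv
  have := (centralizer ({v} : Set K)).card_mul_index
  rw [← natCard_class_eq_index, ← cl, h.cent_out hv, h1.card_H (j := 0) rfl, h.card_K] at this
  exact Nat.eq_of_mul_eq_mul_left (by norm_num : 0 < 2 ^ (0 + 2)) (by rw [this]; ring)

theorem one_le (hv : v ^ 2 ≠ 1) (hε : m = 0 → Even δ) : 1 ≤ m := by
  refine Nat.pos_of_ne_zero fun hm => hv ?_
  have h1 := (h.isKleinFour_H (hε hm)).exponent_two
  have h2 := Monoid.pow_exponent_eq_one (⟨v, by rw [hm, H_zero]; exact h.mem v⟩ : H m a y)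
  rw [h1] at h2
  exact congrArg Subtype.val h2

theorem two_le_cl (hm : 1 ≤ m) (hv : v ^ 2 ≠ 1) : 2 ≤ cl v := by
  by_cases h1 : v ∈ zpowers a
  · rw [h.cl_Gd (mem_Gd.2 ⟨h1, hv⟩)]
  · rw [h.cl_out h1]
    exact le_self_pow₀ one_le_two (by omega)

theorem z_mem (hv : v ^ 2 ≠ 1) : (zz m a : K) ∈ zpowers v := by
  by_cases h1 : v ∈ zpowers a
  · haveI := Fact.mk Nat.prime_two
    exact CA.H11Cyc.le_of_ne_bot (P := zpowers a) (h.isPGroup.to_le le_sup_left) inferInstance
      (zpowers_le.2 (zz m a).2) (by rw [Nat.card_zpowers, coe_zz, h.ord_z]) (zpowers_le.2 h1)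
      (by rw [Ne, zpowers_eq_bot]; rintro rfl; simp at hv) (mem_zpowers _)
  · obtain ⟨δ', h2, -⟩ := h.out (h.mem v) h1
    rw [coe_zz, ← h2.sq_or.resolve_left hv]
    exact npow_mem_zpowers v 2

theorem w_mem {j : ℕ} (hj : j + 1 = m) (hv : v ∈ Gd a) : a ^ (2 ^ j : ℤ) ∈ zpowers v := by
  obtain ⟨h1, h2⟩ := mem_Gd.1 hv
  obtain ⟨i, hi, h3⟩ := h.exists_eq_pow (zpowers_le.2 h1)
  rw [h3]
  refine zpow_mem_zpowers_of_dvd a (pow_dvd_pow 2 (not_lt.1 fun h4 => h2 ?_))
  obtain ⟨n, rfl⟩ := h3 ▸ mem_zpowers v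
  simp only
  rw [← zpow_natCast, ← zpow_mul, ← zpow_mul, ← mul_assoc, h.zpow_one]
  exact (mul_dvd_mul_right ((pow_dvd_pow 2 (by omega : m ≤ i)).mul_right n) 2)

/-- Conjugation by `y`. -/
def tau : zpowers a →* zpowers a :=
  MonoidHom.mk' (fun x => ⟨y * x * y⁻¹, h.conj_mem x.2 y⟩) fun _ _ => Subtype.ext (by simp)

theorem tau_eq (x : zpowers a) : h.tau x = x ^ (2 ^ m * ε - 1 : ℤ) := by
  obtain ⟨_, i, rfl⟩ := x
  exact Subtype.ext ((h.conj_zpow i).trans (by simp [← zpow_mul, mul_comm]))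

theorem tau_tau (x : zpowers a) : h.tau (h.tau x) = x := Subtype.ext (by
  have := congrArg Subtype.val (comm_zpowers a ⟨_, h.sq_mem⟩ x)
  change y * (y * x * y⁻¹) * y⁻¹ = x
  rw [show y * (y * x * y⁻¹) * y⁻¹ = y ^ 2 * x * (y ^ 2)⁻¹ by rw [sq]; group, mul_inv_eq_iff_eq_mul]
  exact this)

theorem comp_tau (l : zpowers a →* ℂˣ) : l.comp h.tau = l ^ (2 ^ m * ε - 1 : ℤ) :=
  MonoidHom.ext fun x => by simp [h.tau_eq]

theorem tau_z : h.tau (zz m a) = zz m a := Subtype.ext (mul_inv_eq_iff_eq_mul.2 (h.z_comm y))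

theorem inner_tau (hθ : IsClassFunction K θ) (f : zpowers a → ℂ) :
    classInner (fun x : zpowers a => θ x) (fun x => f (h.tau x)) = classInner (fun x : zpowers a => θ x) f := by
  rw [CChar.CharFun.inner_def, CChar.CharFun.inner_def,
    ← Equiv.sum_comp (Function.Involutive.toPerm _ h.tau_tau)]
  refine congrArg _ (Finset.sum_congr rfl fun x _ => ?_)
  change θ (y * x * y⁻¹) * conj (f (h.tau (h.tau x))) = _
  rw [h.tau_tau, hθ x y]

theorem co_tau (hθ : IsClassFunction K θ) (l : zpowers a →* ℂˣ) : co a θ (l.comp h.tau) = co a θ l := by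
  rw [co, co, ← h.inner_tau hθ (hc l)]; rfl

theorem ext_classFun {f : zpowers a → ℂ} (hf : ∀ x, f (h.tau x) = f x) :
    IsClassFunction K (extendByZero _ f) := fun x g => by
  by_cases hx : x ∈ zpowers a
  · rcases (h.isConj_iff hx).1 (_root_.isConj_iff.2 ⟨g, rfl⟩) with e | e <;> rw [e]
    rw [ext_of_mem _ _ hx, ← hf]
    exact ext_coe _ f (h.tau ⟨x, hx⟩)
  · rw [ext_of_not_mem _ _ hx, ext_of_not_mem _ _ fun e => hx (by simpa [mul_assoc] using h.conj_mem e g⁻¹)]

theorem inner_ext (θ : K → ℂ) (f : zpowers a → ℂ) :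
    2 * classInner θ (extendByZero _ f) = classInner (fun x : zpowers a => θ x) f := by
  rw [CChar.CharFun.inner_def, CChar.CharFun.inner_def, h.card_K, h.card_A]
  simp only [mul_comm (θ _), ← CA.Ind.ext_map _ f conj (map_zero _), sum_ext_mul]
  push_cast
  field_simp
  ring

/-- The induced character. -/
noncomputable def rho (l : zpowers a →* ℂˣ) : K → ℂ := extendByZero _ (hc l + hc (l.comp h.tau))

theorem rho_classFun (l : zpowers a →* ℂˣ) : IsClassFunction K (h.rho l) :=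
  h.ext_classFun fun x => by simp [hc, h.tau_tau, add_comm]

theorem rho_coe (l : zpowers a →* ℂˣ) (x : zpowers a) : h.rho l x = hc l x + hc (l.comp h.tau) x :=
  ext_coe _ _ x

theorem rho_out (l : zpowers a →* ℂˣ) (hv : v ∉ zpowers a) : h.rho l v = 0 := ext_of_not_mem _ _ hv

theorem inner_rho (hθ : IsClassFunction K θ) (l : zpowers a →* ℂˣ) :
    classInner θ (h.rho l) = classInner (fun x : zpowers a => θ x) (hc l) := by
  have := h.inner_ext θ (hc l + hc (l.comp h.tau))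
  rw [CChar.CharFun.inner_add_right, ← rho, show hc (l.comp h.tau) = fun x => hc l (h.tau x) from rfl,
    h.inner_tau hθ] at this
  linear_combination this / 2

theorem rho_gen (l : zpowers a →* ℂˣ) : IsGeneralizedCharacter K (h.rho l) :=
  gen_of_inner_int (h.rho_classFun l) fun χ hχ => ⟨_, by
    rw [← CChar.CharFun.inner_conj_symm, h.inner_rho (irr_classFun hχ), co_eq (gen_of_irr hχ), map_intCast]⟩

theorem inner_rho_rho [DecidableEq (zpowers a →* ℂˣ)] (l l' : zpowers a →* ℂˣ) :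
    classInner (h.rho l) (h.rho l') = (if l = l' then 1 else 0) + if l.comp h.tau = l' then 1 else 0 := by
  rw [h.inner_rho (h.rho_classFun l), show (fun x : zpowers a => h.rho l x) = hc l + hc (l.comp h.tau)
    from funext (h.rho_coe l), CChar.CharFun.inner_add_left, inner_hc, inner_hc]

theorem rho_one (l : zpowers a →* ℂˣ) : h.rho l 1 = 2 := by
  simp [rho, CA.Ind.ext_one, hc, one_add_one_eq_two]

theorem rho_z (l : zpowers a →* ℂˣ) : h.rho l (zz m a) = 2 * hc l (zz m a) := by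
  simp [h.rho_coe, hc, h.tau_z, two_mul]

theorem rho_irr {l : zpowers a →* ℂˣ} (hl : l.comp h.tau ≠ l) : IsIrrCharacter K (h.rho l) := by
  classical
  exact irr_of_gen_norm_one (h.rho_gen l) (by rw [h.inner_rho_rho, if_pos rfl, if_neg hl, add_zero])
    (by simp [h.rho_one])

theorem exists_lam : ∃ (L : ℤ → zpowers a →* ℂˣ) (ζ : ℂˣ), orderOf ζ = 2 ^ (m + 1) ∧
    (∀ (j i : ℤ) (x : zpowers a), (x : K) = a ^ i → L j x = ζ ^ (i * j)) ∧ (∀ ψ, ∃ j, ψ = L j) ∧
    (∀ i j, L i = L j ↔ 2 ^ (m + 1) ∣ i - j) ∧ (∀ j, (L j).comp h.tau = L (j * (2 ^ m * ε - 1))) ∧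
    ∀ f : (zpowers a →* ℂˣ) → ℂ, ∑ ψ, f ψ = ∑ j ∈ Finset.range (2 ^ (m + 1)), f (L j) := by
  obtain ⟨ζ, hζ⟩ : ∃ ζ : ℂ, IsPrimitiveRoot ζ (2 ^ (m + 1)) :=
    ⟨_, Complex.isPrimitiveRoot_exp (2 ^ (m + 1)) (pow_ne_zero _ two_ne_zero)⟩
  have hu := hζ.isUnit (pow_ne_zero _ two_ne_zero)
  have h1 : ∀ x : zpowers a, x ∈ zpowers (⟨a, mem_zpowers a⟩ : zpowers a) :=
    fun ⟨_, k, hk⟩ => ⟨k, Subtype.ext hk⟩
  have h2 : orderOf hu.unit = 2 ^ (m + 1) := by rw [← orderOf_units, hu.unit_spec, ← hζ.eq_orderOf]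
  let l := monoidHomOfForallMemZpowers h1 (g' := hu.unit) (by rw [h2, orderOf_mk, h.ord])
  have h3 : l ⟨a, mem_zpowers a⟩ = hu.unit := monoidHomOfForallMemZpowers_apply_gen _ _
  have h4 : orderOf l = 2 ^ (m + 1) := by
    rw [← h2]
    refine orderOf_eq_orderOf_iff.2 fun n => ⟨fun h => by rw [← h3, ← MonoidHom.pow_apply, h]; rfl,
      fun h => MonoidHom.ext fun x => ?_⟩
    obtain ⟨k, rfl⟩ := h1 x
    rw [MonoidHom.pow_apply, map_zpow, h3, ← zpow_natCast, ← zpow_mul, mul_comm, zpow_mul,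
      zpow_natCast, h, one_zpow, MonoidHom.one_apply]
  have h5 : ∀ ψ, ψ ∈ zpowers l := fun ψ => by
    rw [(eq_top_of_card_eq (zpowers l) (by
      rw [card_hom (comm_zpowers a), Nat.card_zpowers, h4, h.card_A]) :)]
    trivial
  refine ⟨fun j => l ^ j, _, h2, fun j i x hx => ?_, fun ψ => (h5 ψ).imp fun _ => Eq.symm, fun i j =>
    (zpow_eq_zpow_iff_modEq (x := l)).trans ?_, fun j => (h.comp_tau _).trans (zpow_mul l _ _).symm,
    fun f => (sum_pow h5 f).trans ?_⟩
  · rw [MonoidHom.zpow_apply, show x = ⟨a, mem_zpowers a⟩ ^ i from Subtype.ext hx, map_zpow, h3, zpow_mul]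
  · rw [h4, Int.modEq_comm, Int.modEq_iff_dvd]; simp
  · rw [h4]
    exact Finset.sum_congr rfl fun j _ => congrArg f (zpow_natCast l j).symm

theorem hc_z (l : zpowers a →* ℂˣ) : hc l (zz m a) = 1 ∨ hc l (zz m a) = -1 :=
  mul_self_eq_one_iff.1 (by rw [hc_apply, ← Units.val_mul, ← map_mul, h.zz_sq]; simp)

theorem sum_Js {R : Type*} [AddCommMonoid R] (f : (zpowers a →* ℂˣ) → R) :
    ∑ l, f l = ∑ l ∈ Js m a 1, f l + ∑ l ∈ Js m a (-1), f l := by
  classical
  rw [← Finset.sum_filter_add_sum_filter_not Finset.univ (fun l => hc l (zz m a) = 1)]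
  refine congrArg₂ _ (Finset.sum_congr (by ext; simp [mem_Js]) fun _ _ => rfl)
    (Finset.sum_congr ?_ fun _ _ => rfl)
  ext l
  rw [mem_Js, Finset.mem_filter]
  exact ⟨fun e => (h.hc_z l).resolve_left e.2, fun e => ⟨Finset.mem_univ _, by rw [e]; norm_num⟩⟩

theorem card_hom' : Fintype.card (zpowers a →* ℂˣ) = 2 ^ (m + 1) := by
  rw [← Nat.card_eq_fintype_card, card_hom (comm_zpowers a), h.card_A]

theorem card_Js : (Js m a 1).card = 2 ^ m ∧ (Js m a (-1)).card = 2 ^ m := by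
  have h1 := h.sum_Js fun _ => 1
  have h2 := h.sum_Js fun l => hc l (zz m a)
  rw [sum_hc (comm_zpowers a) h.zz_ne, Finset.sum_congr rfl fun l hl => mem_Js.1 hl,
    Finset.sum_congr rfl fun l hl => mem_Js.1 hl] at h2
  simp only [Finset.sum_const, Finset.card_univ, h.card_hom', smul_eq_mul, mul_one, nsmul_eq_mul,
    mul_neg, eq_comm (a := (0 : ℂ)), add_neg_eq_zero, Nat.cast_inj, pow_succ] at h1 h2
  omega

theorem pt_norm {s : ℂ} (hs : s = 1 ∨ s = -1) (r : (zpowers a →* ℂˣ) → ℤ) :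
    ∑ v ∈ Gd a, pt m a s r v * conj (pt m a s r v) = 2 * W (Js m a s) r := by
  have h1 := parseval (Js m a s) r
  have h2 := h.sum_A fun v => pt m a s r v * conj (pt m a s r v)
  simp only [pt, ext_coe, CA.Ind.ext_one, hc_apply_one, mul_one, h1, h.card_A] at h2
  rw [Finset.sum_congr rfl fun l hl => congrArg ((r l : ℂ) * ·) (mem_Js.1 hl), ← Finset.sum_mul,
    ← Int.cast_sum, map_mul, map_intCast] at h2
  rw [W, show (Js m a s).card = 2 ^ m by rcases hs with rfl | rfl; exacts [h.card_Js.1, h.card_Js.2]]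
  rcases hs with rfl | rfl <;> simp only [pt, map_neg, map_one] at h2 ⊢ <;> push_cast at h2 ⊢ <;>
    linear_combination -h2

theorem pt_eq_zero_iff {s : ℂ} (hs : s = 1 ∨ s = -1) {r : (zpowers a →* ℂˣ) → ℤ} :
    W (Js m a s) r = 0 ↔ ∀ v ∈ Gd a, pt m a s r v = 0 := by
  have h1 := h.pt_norm hs r
  refine ⟨fun h2 => ?_, fun h2 => ?_⟩
  · simp only [h2, Int.cast_zero, mul_zero, Complex.mul_conj, ← Complex.ofReal_sum,
      Complex.ofReal_eq_zero] at h1
    simpa using (Finset.sum_eq_zero_iff_of_nonneg fun _ _ => Complex.normSq_nonneg _).1 h1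
  · rw [Finset.sum_eq_zero fun v hv => by rw [h2 v hv, zero_mul]] at h1
    exact_mod_cast (mul_eq_zero.1 h1.symm).resolve_left two_ne_zero

theorem eq_add (hθ : IsGeneralizedCharacter K θ) (hv : v ∈ zpowers a) :
    θ v = pt m a 1 (co a θ) v + pt m a (-1) (co a θ) v ∧
      θ (zz m a * v) = pt m a 1 (co a θ) v - pt m a (-1) (co a θ) v := by
  lift v to zpowers a using hv
  rw [← coe_mul, eq_sum_co hθ, eq_sum_co hθ, h.sum_Js, h.sum_Js fun l => _ * hc l (_ * _), pt, pt, ext_coe,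
    ext_coe, sub_eq_add_neg, ← Finset.sum_neg_distrib]
  refine ⟨rfl, congrArg₂ _ (Finset.sum_congr rfl fun l hl => ?_) (Finset.sum_congr rfl fun l hl => ?_)⟩ <;>
    rw [hc_apply, map_mul, Units.val_mul, ← hc_apply, mem_Js.1 hl, hc_apply] <;> ring

theorem z_eq (hθ : IsGeneralizedCharacter K θ) :
    θ (zz m a) = (∑ l ∈ Js m a 1, co a θ l - ∑ l ∈ Js m a (-1), co a θ l : ℤ) := by
  simpa [pt, CA.Ind.ext_one, hc_apply_one] using (h.eq_add hθ (one_mem _)).2

theorem norm_all (hθ : IsGeneralizedCharacter K θ) :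
    θ (zz m a) * conj (θ (zz m a)) + ∑ v ∈ Gd a, θ v * conj (θ v) = W Finset.univ (co a θ) := by
  have h1 := parseval Finset.univ (co a θ)
  have h2 := h.sum_A fun v => θ v * conj (θ v)
  simp only [← eq_sum_co hθ] at h1
  rw [h1, one_eq (a := a) hθ, map_intCast, h.card_A] at h2
  rw [W, Finset.card_univ, h.card_hom']
  push_cast at h2 ⊢
  linear_combination -h2

theorem norm_Gd (hθ : IsGeneralizedCharacter K θ) : ∑ v ∈ Gd a, θ v * conj (θ v) =
    2 * (W (Js m a 1) (co a θ) + W (Js m a (-1)) (co a θ) : ℤ) := by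
  have h1 := h.norm_all hθ
  rw [h.z_eq hθ, map_intCast, W, h.sum_Js, h.sum_Js, Finset.card_univ, h.card_hom'] at h1
  rw [W, W, h.card_Js.1, h.card_Js.2]
  push_cast at h1 ⊢
  linear_combination h1

theorem even_sum (hθ : IsClassFunction K θ) {J : Finset (zpowers a →* ℂˣ)}
    (h1 : ∀ l ∈ J, l.comp h.tau ∈ J) (h2 : ∀ l ∈ J, l.comp h.tau ≠ l) : Even (∑ l ∈ J, co a θ l) := by
  rw [← ZMod.intCast_eq_zero_iff_even, Int.cast_sum]
  exact Finset.sum_involution (fun l _ => l.comp h.tau) (fun l _ => by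
    rw [h.co_tau hθ, CharTwo.add_self_eq_zero]) (fun l hl _ => h2 l hl) h1
    fun l _ => MonoidHom.ext fun x => congrArg l (h.tau_tau x)

theorem exists_beta : ∃ b : zpowers a →* ℂˣ, b ≠ 1 ∧ (∀ l, l.comp h.tau = l ↔ l = 1 ∨ l = b) ∧
    ∀ (i : ℤ) (x : zpowers a), (x : K) = a ^ i → hc b x = if Even i then 1 else -1 := by
  obtain ⟨L, ζ, h1, h2, h3, h4, h5, -⟩ := h.exists_lam
  have h0 : (2 : ℤ) ^ m ≠ 0 := by positivity
  have h6 : L 0 = 1 := MonoidHom.ext fun ⟨_, i, hi⟩ => by rw [h2 0 i _ hi.symm]; simp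
  refine ⟨L (2 ^ m : ℤ), fun e => ?_, fun ψ => ?_, fun i x hx => ?_⟩
  · rw [← h6, h4, sub_zero, pow_succ] at e
    have := Int.le_of_dvd (by positivity) e
    have : (0 : ℤ) < 2 ^ m := by positivity
    omega
  · obtain ⟨j, rfl⟩ := h3 ψ
    obtain ⟨s, hs⟩ := h.four
    rw [h5, ← h6, h4, h4, h4, hs, sub_zero,
      show j * (4 * s - 1) - j = -(j * (1 - 2 * s)) * 2 by ring, pow_succ,
      mul_dvd_mul_iff_right two_ne_zero, dvd_neg]
    refine ⟨fun e => ?_, fun e => Dvd.dvd.mul_right ?_ _⟩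
    · obtain ⟨n, rfl⟩ := two_pow_dvd_of_mul e
      rw [← mul_sub_one, mul_dvd_mul_iff_left h0, mul_dvd_mul_iff_left h0]
      omega
    · rcases e with e | e
      · exact (dvd_mul_right _ _).trans e
      · exact (dvd_sub_left dvd_rfl).1 ((dvd_mul_right _ _).trans e)
  · have h7 : ∀ n : ℤ, ζ ^ n = 1 ↔ 2 * 2 ^ m ∣ n := fun n => by
      rw [← orderOf_dvd_iff_zpow_eq_one, h1, pow_succ']; simp
    have h8 := h7 (i * 2 ^ m)
    rw [mul_dvd_mul_iff_right h0, ← even_iff_two_dvd, ← Units.val_eq_one, ← h2 _ i x hx, ← hc_apply] at h8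
    split_ifs with h6
    · exact h8.2 h6
    · refine (mul_self_eq_one_iff.1 ?_).resolve_left (mt h8.1 h6)
      rw [hc_apply, ← Units.val_mul, h2 _ i x hx, ← zpow_add, (h7 _).2 ⟨i, by ring⟩, Units.val_one]

end Mc

end CA.H11Row
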