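import Cfsg.Agent.Lib.Block.H11Row

/-!
Blocks whose defect groups are 2-groups of maximal class: subsections and characters of height zero.
-/

set_option autoImplicit false
set_option linter.unusedSectionVars false

namespace CA.H11Tm

open Cfsg MonoidAlgebra CA.BlkVal CA.H11Amb CA.H11Pair CA.H11Max CA.H11Def CA.H11Eta CA.H11Cw CA.H11Nb
  CA.H11Row CA.H11PS CA.MC2 CA.BlkHeight CA.H13Span CA.SylIn CA.H11Contrib CChar.CharFun CChar.CharOrth
  CChar.CharGen Subgroup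
open CA.BlkCore hiding lam lam_mul lam_one
open CA.Ind (ext_coe ext_ne_zero card_ne_zero)
open scoped ComplexConjugate

theorem eq_of_sum_four {ι : Type*} {s : Finset ι} {q : ι → Prop} [DecidablePred q] {n : ι → ℤ}
    (h0 : ∀ i ∈ s, 0 ≤ n i) (h1 : ∀ i ∈ s, q i → n i ≠ 0) (h2 : ∑ i ∈ s, n i = (s.filter q).card) :
    ∀ i ∈ s, n i = if q i then 1 else 0 := fun i hi =>
  ((Finset.sum_eq_sum_iff_of_le (f := fun i => if q i then 1 else 0) fun i hi => by
    split_ifs with h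
    · exact (h0 i hi).lt_of_ne' (h1 i hi h)
    · exact h0 i hi).1 (by simp [h2]) i hi).symm

variable {M : Ideal AlgInt} {G : Type*} [Group G] [Fintype G] {P R : Subgroup G} [Fintype P]
  {e : (k M)[G]} {B : Set (IrrCharacter G)} {m : ℕ} {ε δ : ℤ} {a y v w t : P} {χ ψ : IrrCharacter G}
  {D : (G → ℂ) → P → ℂ} {ω θ η : G → ℂ}

variable (m ε δ a y e B) in
/-- A block whose defect group has maximal class. -/
structure Tm : Prop extends Bk 2 P e B where
  mc : Mc m ε δ a y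

theorem exists_tm (hM : IsPModular 2 M) (hB : IsPBlock M B) (hD : IsDefectGroup 2 M B P) {a y : G}
    (h : MC m ε δ a y) (h' : zpowers a ⊔ zpowers y = P) :
    ∃ (e : (k M)[G]) (a' y' : P), Tm e B m ε δ a' y' := by
  obtain ⟨e, T⟩ := exists_bk hM hB hD
  refine ⟨e, ⟨a, h' ▸ mem_sup_left (mem_zpowers a)⟩, ⟨y, h' ▸ mem_sup_right (mem_zpowers y)⟩, T,
    CA.H11Dih.mc_coe h, map_injective P.subtype_injective ?_⟩
  rw [Subgroup.map_sup, MonoidHom.map_zpowers, MonoidHom.map_zpowers, CA.H11Map.map_top_subtype]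
  exact h'

theorem mem_coe : (v : G) ∈ zpowers (w : G) ↔ v ∈ zpowers w :=
  ⟨fun ⟨n, h⟩ => ⟨n, Subtype.ext h⟩, fun ⟨n, h⟩ => ⟨n, congrArg Subtype.val h⟩⟩

theorem ord_eq (h : FC 2 P e v w) : orderOf v = orderOf w := by
  rw [← orderOf_coe, ← orderOf_coe w, h.orderOf_eq]

theorem sq_iff (h : FC 2 P e v w) : v ^ 2 = 1 ↔ w ^ 2 = 1 := by
  rw [← orderOf_dvd_iff_pow_eq_one, ← orderOf_dvd_iff_pow_eq_one, ord_eq h]

open Classical in
variable (e a y) in
/-- Representatives of the classes not fused into the cyclic subgroup. -/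
noncomputable def Yf : Finset P := Finset.univ.filter fun t =>
  (t = y ∨ t = a * y ∧ ¬ FC 2 P e y (a * y : P)) ∧ ∀ v ∈ zpowers a, ¬ FC 2 P e t v

theorem mem_Yf : t ∈ Yf e a y ↔
    (t = y ∨ t = a * y ∧ ¬ FC 2 P e y (a * y : P)) ∧ ∀ v ∈ zpowers a, ¬ FC 2 P e t v := by
  simp only [Yf, Finset.mem_filter, Finset.mem_univ, true_and]

theorem not_mem_of_fc (ht : t ∈ Yf e a y) (h : FC 2 P e t w) : w ∉ zpowers a := fun h' =>
  (mem_Yf.1 ht).2 w h' h

open Classical in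
variable (e a y) in
/-- A set meeting every fusion class. -/
noncomputable def Xf : Finset P := Finset.univ.filter (· ∈ zpowers a) ∪ Yf e a y

theorem mem_Xf : v ∈ Xf e a y ↔ v ∈ zpowers a ∨ v ∈ Yf e a y := by simp [Xf]

namespace Tm
variable (T : Tm e B m ε δ a y)
include T

theorem mcG : MC m ε δ (a : G) y := T.mc.toMC.map P.subtype P.subtype_injective

theorem supG : zpowers (a : G) ⊔ zpowers (y : G) = P := CA.MC3.map_sup_eq T.mc.top

theorem card_P : (Nat.card P : ℂ) = 4 * 2 ^ m := by rw [T.mc.card_K]; push_cast; ring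

theorem defect : blockDefect 2 B = m + 2 := Nat.pow_right_injective le_rfl
  ((CA.H11NilB.card_eq_pow T.hM T.hB T.mx).symm.trans T.mc.card_K)

theorem z_cent : ((zz m a : P) : G) ∈ CC P := mem_CC.2 fun u hu =>
  congrArg Subtype.val (T.mc.z_comm ⟨u, hu⟩)

theorem z_sq : ((zz m a : P) : G) ^ 2 = 1 := T.mcG.z_sq

theorem fc_of_conj (h : IsConj v w) : FC 2 P e v w := by
  obtain ⟨g, rfl⟩ := isConj_iff.1 h
  exact fc_conj T.hp T.mx.pr v.2 (T.mx.pr.le_St g.2)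

theorem exists_nb {r : ℕ} (hr : r = m ∧ (∀ w ∉ zpowers a, w ^ 2 = 1) ∨ r + 1 = m) :
    ∃ D ω, Nb 2 P (zpowers ((a : G) ^ (2 ^ r : ℤ))) e B D ω := by
  refine CA.H11Nb.exists_nb T.toBk (zpowers_le.2 (zpow_mem a.2 _)) (T.supG.ge.trans (T.mcG.le_normalizer_pow _))
    fun Q hQ x h1 h2 h3 => not_not.1 fun h4 => ?_
  obtain ⟨j, w, h5, h6, -, h7, h8⟩ := T.mcG.act_cases (hQ.trans T.supG.ge) h1
    ((Nat.prime_two.coprime_iff_not_dvd.2 h3).symm) h4
  refine h6 (zpowers_pow_le _ _ (h7 ▸ (mem_normalizer_iff.1 h2 _).1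
    (zpow_mem_zpowers_of_dvd _ (pow_dvd_pow 2 ?_))))
  rcases hr with ⟨rfl, hr⟩ | hr
  · refine h8.elim (fun h => h.1.ge) fun h => (T.mcG.z_ne ?_).elim
    rw [← h.2]
    exact congrArg Subtype.val (hr ⟨w, hQ h5⟩ (mt mem_coe.2 h6))
  · omega

theorem good {r : ℕ} (hr : r = m ∨ r + 1 = m) (hv : v ∈ Gd a) :
    zpowers ((a : G) ^ (2 ^ r : ℤ)) ≤ zpowers (v : G) := by
  refine zpowers_le.2 ((mem_coe (v := a ^ (2 ^ r : ℤ))).2 ?_)
  rcases hr with rfl | hr
  · exact T.mc.z_mem (mem_Gd.1 hv).2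
  · exact T.mc.w_mem hr hv

theorem cover (v : P) : ∃ w ∈ Xf e a y, FC 2 P e v w := by
  by_cases h : ∃ w ∈ zpowers a, FC 2 P e v w
  · exact h.imp fun w hw => ⟨mem_Xf.2 (.inl hw.1), hw.2⟩
  push Not at h
  have h1 : ∀ t : P, FC 2 P e v t → ∀ w ∈ zpowers a, ¬ FC 2 P e t w := fun t ht w hw h' =>
    h w hw (ht.trans h')
  by_cases h2 : FC 2 P e v y
  · exact ⟨y, mem_Xf.2 (.inr (mem_Yf.2 ⟨.inl rfl, h1 y h2⟩)), h2⟩
  have h3 : FC 2 P e v (a * y : P) := by
    rcases T.mc.exists_conj (T.mc.mem v) fun hv => h v hv (FC.refl v.2) with ⟨j, hj⟩ | ⟨j, hj⟩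
    · exact (h2 (T.fc_of_conj (isConj_iff.2 ⟨_, hj⟩).symm)).elim
    · exact T.fc_of_conj (isConj_iff.2 ⟨_, by simpa using hj⟩).symm
  exact ⟨_, mem_Xf.2 (.inr (mem_Yf.2 ⟨.inr ⟨rfl, fun h4 => h2 (h3.trans (h4.symm y.2))⟩, h1 _ h3⟩)), h3⟩

theorem isDef (h : ∀ w : P, FC 2 P e v w → cl v ≤ cl w) :
    IsDef 2 (centralizer {(v : G)}) (lb 2 P e v) (P ⊓ centralizer {(v : G)}) :=
  T.isDef_cent fun w hw => Nat.le_of_mul_le_mul_right ((card_mul_cl w).trans_le ((card_mul_cl v).ge.trans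
    (Nat.mul_le_mul_left _ (h w hw)))) (Nat.pos_of_ne_zero (by exact_mod_cast cl_ne w))

theorem isDef_A (hv : v ∈ zpowers a) :
    IsDef 2 (centralizer {(v : G)}) (lb 2 P e v) (P ⊓ centralizer {(v : G)}) := T.isDef fun w hw => by
  by_cases h : v ^ 2 = 1
  · have : cl v = 1 := by
      by_cases h1 : v = 1
      · rw [h1, Mc.cl_one]
      · rw [T.mc.eq_z hv h h1]; exact T.mc.cl_z
    exact this ▸ Nat.pos_of_ne_zero (by exact_mod_cast cl_ne w)
  · rw [T.mc.cl_Gd (mem_Gd.2 ⟨hv, h⟩)]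
    refine T.mc.two_le_cl (Nat.pos_of_ne_zero fun h0 => h ?_) (mt (sq_iff hw).2 h)
    obtain ⟨i, rfl⟩ := hv
    simp only
    rw [← zpow_natCast, ← zpow_mul, T.mc.zpow_one, h0]
    simp

section Y
variable (ht : t ∈ Yf e a y)
include ht

theorem isDef_Y : IsDef 2 (centralizer {(t : G)}) (lb 2 P e t) (P ⊓ centralizer {(t : G)}) :=
  T.isDef fun w hw => by
    rw [T.mc.cl_out (not_mem_of_fc ht hw), T.mc.cl_out (not_mem_of_fc ht (FC.refl t.2))]

theorem card_Y : Nat.card (P ⊓ centralizer {(t : G)} : Subgroup G) = 4 :=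
  Nat.eq_of_mul_eq_mul_right (pow_pos two_pos m) (by
    rw [← T.mc.cl_out (not_mem_of_fc ht (FC.refl t.2)), card_mul_cl, T.mc.card_K,
      T.mc.cl_out (not_mem_of_fc ht (FC.refl t.2))]; ring)

theorem rk_Y : rk 2 e t = 1 := by
  have h0 := not_mem_of_fc ht (FC.refl t.2)
  have h1 := T.isDef_Y ht
  obtain ⟨f, h2⟩ := exists_mx T.hp (by
    simpa [CC_zpowers] using ((T.sub t).pr T.mx.pr).blk) h1
  refine T.rk_of_nil (h2.nil_of_sub T.hp fun Q g hs x hx ho => not_not.1 fun h4 => ?_)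
  have ho' := (Nat.prime_two.coprime_iff_not_dvd.2 ho).symm
  obtain ⟨j, w, h5, h6, h7, h8, h9⟩ := T.mcG.act_cases ((hs.le.trans inf_le_left).trans T.supG.ge)
    (mem_St.1 hx).2.1 ho' h4
  have h10 : ∀ i : ℤ, (a : G) ^ i ∈ Q → (2 : ℤ) ^ m ∣ i := fun i hi => by
    obtain ⟨δ', h, -⟩ := T.mcG.out (T.supG.ge t.2) (mt mem_coe.1 h0)
    exact h.commute_iff.1 (mem_centralizer_singleton_iff.1 (hs.le hi).2).symm
  have h11 := (pow_dvd_pow_iff two_ne_zero (by simp [Int.isUnit_iff])).1 (h10 _ (h7 ▸ left_mem_H _ _ _))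
  obtain ⟨rfl, h12⟩ := h9.resolve_right (by omega)
  obtain ⟨δ', h13, h14⟩ := T.mcG.out (T.supG.ge (hs.le h5).1) h6
  have hxt := mem_centralizer_singleton_iff.1 (mem_St.1 hx).1
  obtain ⟨i, hi, h15⟩ := (h13.mem_H_iff le_rfl).1 (h13.mem_H_of_commute (h14.ge (T.supG.ge t.2))
    (mem_centralizer_singleton_iff.1 (hs.le h5).2))
  obtain ⟨i, rfl⟩ := hi
  have h16 := h15.resolve_left fun h => h0 (mem_coe.1 ⟨_, h.symm⟩)
  have h17 : x * a ^ (2 ^ j : ℤ) * x⁻¹ = a ^ (2 ^ j : ℤ) := by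
    rcases h13.z_zpow i with h | h <;> rw [h] at h16
    · rw [one_mul, ← h8, eq_mul_inv_iff_mul_eq, ← hxt, mul_right_inj] at h16
      rw [← h16, hxt, mul_inv_cancel_right]
    · have h18 : x ^ 2 ∈ centralizer {(a : G) ^ (2 ^ j : ℤ)} := by
        have h19 : x * w * x⁻¹ = a ^ (2 ^ j : ℤ) := mul_left_cancel (a := w) (by
          rw [h13.commute_z, ← h16, ← mul_inv_eq_iff_eq_mul.2 hxt, h16, ← h8]; group)
        rw [mem_centralizer_singleton_iff, ← mul_inv_eq_iff_eq_mul]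
        conv_rhs => rw [← h19, ← h8]
        rw [sq]
        group
      exact mul_inv_eq_iff_eq_mul.2 (mem_centralizer_singleton_iff.1
        (mem_of_pow_p_pow_mem Nat.prime_two ho (n := 1) (by simpa using h18)))
  exact h6 (by rw [← h8, h17]; exact zpow_mem_zpowers _ _)

end Y

variable (N : Nb 2 P R e B D ω) (hG : ∀ v ∈ Gd a, R ≤ zpowers (v : G))
include N hG

theorem sum_X (F : P → ℂ) : ∑ v ∈ Xf e a y, F v / nX 2 e (Xf e a y) v =
    F 1 + F (zz m a) + (∑ v ∈ Gd a, F v) / 2 + ∑ t ∈ Yf e a y, F t := by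
  classical
  have h1 : ∀ v ∈ zpowers a, nX 2 e (Xf e a y) v = cl v := fun v hv => by
    rw [cl, Nat.card_eq_fintype_card, Fintype.card_subtype]
    refine congrArg _ (Finset.ext fun w => ?_)
    simp only [Finset.mem_filter, mem_Xf, Finset.mem_univ, true_and]
    refine ⟨fun ⟨h1, h2⟩ => ?_, fun h => ⟨.inl ?_, T.fc_of_conj h⟩⟩
    · have h1 := h1.resolve_right fun h => not_mem_of_fc h (h2.symm v.2) hv
      by_cases h3 : v ^ 2 = 1
      · by_cases h4 : v = 1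
        · rw [h4, orderOf_eq_one_iff.1 ((ord_eq h2).symm.trans (orderOf_eq_one_iff.2 h4))]
        · rw [T.mc.eq_z hv h3 h4, T.mc.eq_z h1 ((sq_iff h2).1 h3) fun h5 =>
            h4 (orderOf_eq_one_iff.1 ((ord_eq h2).trans (orderOf_eq_one_iff.2 h5)))]
      · exact (N.fc v w (hG v (mem_Gd.2 ⟨hv, h3⟩)) (hG w (mem_Gd.2 ⟨h1, mt (sq_iff h2).2 h3⟩))).1 h2
    · obtain ⟨g, rfl⟩ := isConj_iff.1 h
      exact T.mc.conj_mem hv g
  have h2 : ∀ t ∈ Yf e a y, nX 2 e (Xf e a y) t = 1 := fun t ht => Finset.card_eq_one.2 ⟨t, by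
    ext w
    simp only [Finset.mem_filter, mem_Xf, Finset.mem_singleton]
    refine ⟨fun ⟨h1, h2⟩ => ?_, fun h => h ▸ ⟨.inr (h ▸ ht), FC.refl w.2⟩⟩
    rcases (mem_Yf.1 ht).1 with rfl | ⟨rfl, h3⟩ <;>
      rcases (mem_Yf.1 (h1.resolve_left (not_mem_of_fc ht h2))).1 with rfl | ⟨rfl, h4⟩
    exacts [rfl, (h4 h2).elim, (h3 (h2.symm (a * w).2)).elim, rfl]⟩
  rw [Xf, Finset.sum_union (Finset.disjoint_left.2 fun v hv hv' =>
    not_mem_of_fc hv' (FC.refl v.2) (by simpa using hv)), ← Xf,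
    Finset.sum_subtype _ (p := (· ∈ zpowers a)) (by simp), Finset.sum_congr rfl fun x _ => by rw [h1 _ x.2],
    T.mc.sum_A fun v => F v / cl v, Mc.cl_one, T.mc.cl_z, Finset.sum_div,
    Finset.sum_congr rfl fun v hv => by rw [T.mc.cl_Gd hv],
    Finset.sum_congr (s₁ := Yf e a y) rfl fun t ht => by rw [h2 t ht]]
  simp

theorem card_B : Nat.card B + 1 = blockRank 2 B + rk 2 e (zz m a : P) + 2 ^ m + (Yf e a y).card := by
  have h := T.card_eq T.cover
  rw [T.sum_X N hG fun v => rk 2 e v, T.rk_one, Finset.sum_congr rfl fun v hv => by rw [N.rk v (hG v hv)],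
    Finset.sum_congr (s₁ := Yf e a y) rfl fun t ht => by rw [T.rk_Y ht]] at h
  simp only [Finset.sum_const, nsmul_eq_mul, T.mc.card_Gd] at h
  exact_mod_cast (by push_cast at h ⊢; linear_combination h : ((Nat.card B + 1 : ℕ) : ℂ) =
    (blockRank 2 B + rk 2 e (zz m a : P) + 2 ^ m + (Yf e a y).card : ℕ))

theorem sum_Gd (α β : G → ℂ) (F : P → ℂ) :
    Nat.card P * ((∑ v ∈ Gd a, F v * cw 2 e α β v) / 2) = ∑ v ∈ Gd a, F v * (D α v * conj (D β v)) := by
  rw [Finset.sum_div, Finset.mul_sum]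
  refine Finset.sum_congr rfl fun v hv => ?_
  have := N.mul_conj (hG v hv) α β
  rw [T.mc.cl_Gd hv] at this
  push_cast at this
  linear_combination -F v / 2 * this

variable [DecidablePred (· ∈ B)]

theorem trace_Gd : ∑ χ with χ ∈ B, ∑ v ∈ Gd a, D χ.1 v * conj (D χ.1 v) = 4 * 2 ^ m * (2 ^ m - 1) := by
  classical
  rw [Finset.sum_comm, Finset.sum_congr rfl (g := fun _ => (2 * 2 ^ m : ℂ)) fun v hv => ?_,
    Finset.sum_const, nsmul_eq_mul, T.mc.card_Gd]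
  · ring
  have := N.orth (hG v hv) (hG v hv)
  rw [if_pos (IsConj.refl v), T.mc.cl_Gd hv, T.card_P] at this
  push_cast at this
  linear_combination this / 2

omit hG
variable (ha : R ≤ zpowers (a : G))
include ha

omit [DecidablePred (· ∈ B)] in
theorem odd_iff : Odd (∑ l, co a (D χ.1) l) ↔ χ ∈ B ∧ blockHeight 2 B χ.1 = 0 := by
  rw [← N.not_dvd_iff ha (T.isDef_A (mem_zpowers a)) (card_mul_cl a) (one_eq (N.gen _ (gen_of_irr χ.2))),
    ← Int.not_even_iff_odd, even_iff_two_dvd]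
  rfl

theorem exists_beta : ∃ b : zpowers a →* ℂˣ, b ≠ 1 ∧ (∀ l, l.comp T.mc.tau = l ↔ l = 1 ∨ l = b) ∧
    (∀ (i : ℤ) (x : zpowers a), (x : P) = a ^ i → hc b x = if Even i then 1 else -1) ∧
    (Finset.univ.filter fun χ => χ ∈ B ∧ blockHeight 2 B χ.1 = 0).card = 4 ∧ ∀ χ ∈ B,
      (co a (D χ.1) 1 - co a (D χ.1) b) ^ 2 = if blockHeight 2 B χ.1 = 0 then 1 else 0 := by
  classical
  obtain ⟨b, h1, h2, h3⟩ := T.mc.exists_beta
  have h4 : ∀ χ : IrrCharacter G, Odd (co a (D χ.1) 1 - co a (D χ.1) b) ↔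
      χ ∈ B ∧ blockHeight 2 B χ.1 = 0 := fun χ => by
    have h5 := T.mc.even_sum (gen_classFun (N.gen _ (gen_of_irr χ.2))) (J := Finset.univ \ {1, b})
      (fun l hl => by
        simp only [Finset.mem_sdiff, Finset.mem_univ, Finset.mem_insert, Finset.mem_singleton, true_and,
          ← h2] at hl ⊢
        exact fun h => hl (h.symm.trans (MonoidHom.ext fun x => congrArg l (T.mc.tau_tau x))))
      fun l hl => by simpa [h2] using hl
    rw [← T.odd_iff N ha, ← Finset.sum_sdiff (Finset.subset_univ {1, b}), Finset.sum_pair h1.symm,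
      Int.odd_add', iff_true_intro h5, iff_true, Int.odd_add, Int.odd_sub]
  have h5 : ∀ v, extendByZero (zpowers a) (hc 1 - hc b) v ≠ 0 → R ≤ zpowers (v : G) := fun v hv => by
    obtain ⟨⟨i, rfl⟩, hv⟩ := ext_ne_zero hv
    rw [Pi.sub_apply, h3 i _ rfl] at hv
    refine ha.trans (zpowers_le.2 (mem_coe.2 (mem_zpowers_zpow_iff.2 ?_)))
    rw [T.mc.ord]
    push_cast
    refine Int.isCoprime_iff_gcd_eq_one.1 (IsCoprime.pow_right (Int.isCoprime_two_right.2 ?_))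
    exact Int.not_even_iff_odd.1 fun h => by simp [h, hc] at hv
  have h6 := N.gram h5 h5 (T.mc.ext_classFun fun x => by
    simp only [Pi.sub_apply, hc_apply, ← MonoidHom.comp_apply _ T.mc.tau, (h2 b).2 (.inr rfl),
      (h2 1).2 (.inl rfl)])
  have h7 : ∀ θ, 2 * classInner θ (extendByZero _ (hc 1 - hc b)) = _ := fun θ => T.mc.inner_ext θ _
  have h8 : ∑ χ with χ ∈ B, (co a (D χ.1) 1 - co a (D χ.1) b) ^ 2 = 4 := by
    have h8 := h7 (extendByZero _ (hc 1 - hc b))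
    simp only [ext_coe, CChar.CharFun.inner_sub_left, CChar.CharFun.inner_sub_right, inner_hc, h1, h1.symm,
      if_true, if_false, ← h6, Finset.mul_sum] at h8
    refine Int.cast_injective (α := ℂ) ?_
    rw [Int.cast_sum, Finset.sum_congr rfl (g := fun χ => 2 * (2 * (classInner (D χ.1) (extendByZero _
      (hc 1 - hc b)) * conj (classInner (D χ.1) (extendByZero _ (hc 1 - hc b)))))) fun χ _ => ?_,
      ← Finset.mul_sum, h8]
    · norm_num
    have h9 := h7 (D χ.1)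
    rw [CChar.CharFun.inner_sub_right, co_eq (N.gen _ (gen_of_irr χ.2)), co_eq (N.gen _ (gen_of_irr χ.2)),
      ← Int.cast_sub, mul_comm, ← eq_div_iff two_ne_zero] at h9
    rw [h9, map_div₀, map_intCast, map_ofNat]
    push_cast
    ring
  have h9 : (Finset.univ.filter fun χ => χ ∈ B ∧ blockHeight 2 B χ.1 = 0).card = 4 := by
    have h9 : ∀ χ ∈ Finset.univ.filter (· ∈ B), ∃ n : ℤ, 0 ≤ n ∧ (co a (D χ.1) 1 - co a (D χ.1) b) ^ 2 =
        (if blockHeight 2 B χ.1 = 0 then 1 else 0) + 4 * n := fun χ hχ => by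
      have h := h4 χ
      generalize co a (D χ.1) 1 - co a (D χ.1) b = c at h
      rw [and_iff_right (Finset.mem_filter.1 hχ).2] at h
      obtain ⟨n, rfl | rfl⟩ := Int.even_or_odd' c
      · exact ⟨n ^ 2, sq_nonneg _, by rw [if_neg (mt h.2 (by simp))]; ring⟩
      · exact ⟨n * (n + 1), by nlinarith [sq_nonneg (2 * n + 1), Int.le_self_sq (-n)], by
          rw [if_pos (h.1 (by simp))]; ring⟩
    choose! n h9 h10 using h9
    have h11 := Finset.sum_nonneg h9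
    obtain ⟨ψ, hψ⟩ := exists_height_zero (p := 2) (block_nonempty T.hM T.hB)
    have h12 : 0 < (Finset.univ.filter fun χ => χ ∈ B ∧ blockHeight 2 B χ.1 = 0).card :=
      Finset.card_pos.2 ⟨ψ, by simpa using hψ⟩
    rw [Finset.sum_congr rfl h10, Finset.sum_add_distrib, ← Finset.mul_sum, Finset.sum_boole,
      Finset.filter_filter] at h8
    omega
  exact ⟨b, h1, h2, h3, h9, fun χ hχ => eq_of_sum_four (s := Finset.univ.filter (· ∈ B))
    (q := fun χ => blockHeight 2 B χ.1 = 0) (n := fun χ => (co a (D χ.1) 1 - co a (D χ.1) b) ^ 2)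
    (fun _ _ => sq_nonneg _) (fun χ hχ h0 => pow_ne_zero _ fun h => by
      simpa [h] using (h4 χ).2 ⟨(Finset.mem_filter.1 hχ).2, h0⟩)
    (by rw [h8, Finset.filter_filter, h9]; rfl) χ (by simpa)⟩

theorem cw_Y (ht : t ∈ Yf e a y) (hχ : χ ∈ B) :
    4 * cw 2 e χ.1 χ.1 t = if blockHeight 2 B χ.1 = 0 then 1 else 0 := by
  have h0 := not_mem_of_fc ht (FC.refl t.2)
  obtain ⟨δ', h1, -⟩ := T.mc.out (T.mc.mem t) h0
  choose n hn using fun χ : IrrCharacter G => T.exists_int (T.isDef_Y ht) (orderOf_dvd_of_pow_eq_one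
    (congrArg Subtype.val h1.pow_four)) (gen_of_irr χ.2) (gen_of_irr χ.2) (.inl rfl)
  simp only [T.card_Y ht, Nat.cast_ofNat] at hn
  obtain ⟨b, -, -, -, h2, -⟩ := T.exists_beta N ha
  rw [hn, eq_of_sum_four (s := Finset.univ.filter (· ∈ B)) (q := fun χ => blockHeight 2 B χ.1 = 0)
    (n := n) (fun χ _ => ?_) (fun χ hχ h0 h => ?_) ?_ χ (by simpa)]
  · simp
  · refine Int.cast_injective (α := ℂ) ?_
    rw [Finset.filter_filter, h2, Int.cast_sum, ← Finset.sum_congr rfl fun χ _ => hn χ, ← Finset.mul_sum,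
      T.sum_cw_self, T.rk_Y ht]
    simp
  · have h3 := hn χ
    rw [T.cw_self] at h3
    have h4 : (4 * ‖cw 2 e χ.1 χ.1 t‖ : ℝ) = n χ := Complex.ofReal_injective (by push_cast; exact h3)
    exact_mod_cast h4 ▸ mul_nonneg zero_le_four (norm_nonneg _)
  · have hχ := (Finset.mem_filter.1 hχ).2
    exact T.cw_ne_zero hχ h0 hχ h0 t (by simpa [h] using hn χ)

include hG in
theorem row (hχ : χ ∈ B) : 4 * 2 ^ m = Nat.card P * cw 2 e χ.1 χ.1 (1 : P) +
    Nat.card P * cw 2 e χ.1 χ.1 (zz m a : P) + ∑ v ∈ Gd a, D χ.1 v * conj (D χ.1 v) +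
      2 ^ m * (Yf e a y).card * if blockHeight 2 B χ.1 = 0 then 1 else 0 := by
  have h1 := T.inner_eq T.cover (inSpan_irr hχ) (irr_classFun χ.2)
  have h2 := T.sum_Gd N hG χ.1 χ.1 1
  have h3 := Finset.sum_congr rfl fun t ht => T.cw_Y N ha (t := t) ht hχ
  simp only [Pi.one_apply, one_mul] at h2
  rw [← Finset.mul_sum, Finset.sum_const, nsmul_eq_mul] at h3
  rw [CChar.CharFun.inner_irr_self χ.2, T.sum_X N hG] at h1
  linear_combination 4 * 2 ^ m * h1 + h2 + 2 ^ m * h3 - (cw 2 e χ.1 χ.1 (1 : P) + cw 2 e χ.1 χ.1 (zz m a : P) +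
    (∑ v ∈ Gd a, cw 2 e χ.1 χ.1 v) / 2) * T.card_P

end Tm

end CA.H11Tm
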