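import Cfsg.Agent.Lib.Block.H11Tm

/-!
Brauer's theorem on 2-blocks with dihedral defect groups.
-/

set_option autoImplicit false
set_option linter.unusedSectionVars false

namespace CA.H11TmD

open Cfsg MonoidAlgebra CA.BlkVal CA.H11Amb CA.H11Eta CA.H11Cw CA.H11Nb CA.H11Row CA.H11Tm CA.H11PS CA.MC2
  CA.BlkHeight CA.H13Span CChar.CharFun CChar.CharOrth CChar.CharGen Subgroup
open CA.BlkCore hiding lam lam_mul lam_one
open CA.Ind (card_ne_zero)
open scoped ComplexConjugate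

theorem arith {n₀ n₁ n₂ n₃ n₄ : ℤ} (h : 8 * (n₀ ^ 2 + 2 * n₁ ^ 2 + 2 * n₂ ^ 2 + 2 * n₃ ^ 2 + n₄ ^ 2) -
    (n₀ + 2 * n₁ + 2 * n₂ + 2 * n₃ + n₄) ^ 2 < 16) (ho : Odd (n₀ + 2 * n₁ + 2 * n₂ + 2 * n₃ + n₄))
    (hx : n₁ - n₂ = 1 ∨ n₁ - n₂ = -1) :
    (n₃ - n₂ = n₁ - n₂ → (n₀ - 2 * n₁ + 2 * n₂ - 2 * n₃ + n₄) ^ 2 = 9) ∧
      (n₃ - n₂ = 0 → (n₀ - 2 * n₁ + 2 * n₂ - 2 * n₃ + n₄) ^ 2 = 1) := by
  obtain ⟨p, rfl⟩ : ∃ p, n₀ = n₂ + p := ⟨n₀ - n₂, by ring⟩
  obtain ⟨q, rfl⟩ : ∃ q, n₄ = n₂ + q := ⟨n₄ - n₂, by ring⟩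
  obtain ⟨x, rfl⟩ : ∃ x, n₁ = n₂ + x := ⟨n₁ - n₂, by ring⟩
  obtain ⟨z, rfl⟩ : ∃ z, n₃ = n₂ + z := ⟨n₃ - n₂, by ring⟩
  obtain ⟨r, hr⟩ := ho
  simp only [add_sub_cancel_left] at hx ⊢
  replace h : 8 * (p ^ 2 + 2 * x ^ 2 + 2 * z ^ 2 + q ^ 2) - (p + 2 * x + 2 * z + q) ^ 2 < 16 := by
    linarith
  rw [show n₂ + p - 2 * (n₂ + x) + 2 * n₂ - 2 * (n₂ + z) + (n₂ + q) = p + q - 2 * x - 2 * z by ring]
  constructor <;> rintro rfl <;> rcases hx with rfl | rfl <;>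
  · have h1 : -2 < p ∧ p < 2 ∧ -2 < q ∧ q < 2 := by
      refine ⟨?_, ?_, ?_, ?_⟩ <;> nlinarith [sq_nonneg (p - q), sq_nonneg (3 * q - 2), sq_nonneg (3 * q + 2),
        sq_nonneg (3 * p - 2), sq_nonneg (3 * p + 2)]
    obtain ⟨h1, h2, h3, h4⟩ := h1
    interval_cases p <;> interval_cases q <;> omega

variable {M : Ideal AlgInt} {G : Type*} [Group G] [Fintype G] {P : Subgroup G} [Fintype P]
  {e : (k M)[G]} {B : Set (IrrCharacter G)} {m : ℕ} {a y v : P} {χ ψ : IrrCharacter G}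
  {D : (G → ℂ) → P → ℂ} {ω : G → ℂ}

theorem good (T : Tm e B m 0 0 a y) (hv : v ∈ zpowers a) (h1 : v ≠ 1) :
    zpowers ((a : G) ^ (2 ^ m : ℤ)) ≤ zpowers (v : G) := by
  by_cases h : v ^ 2 = 1
  · rw [T.mc.eq_z hv h h1]; rfl
  · exact T.good (.inl rfl) (mem_Gd.2 ⟨hv, h⟩)

theorem not_sixteen [DecidablePred (· ∈ B)] (T : Tm e B 2 0 0 a y)
    (N : Nb 2 P (zpowers ((a : G) ^ (2 ^ 2 : ℤ))) e B D ω) (hY : Yf e a y = ∅)
    (h1 : ∀ χ ∈ B, ∀ ψ ∈ B, blockHeight 2 B χ.1 ≠ 0 → blockHeight 2 B ψ.1 ≠ 0 → χ = ψ)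
    (h2 : ∀ χ ∈ B, W Finset.univ (co a (D χ.1)) < 16) : False := by
  classical
  obtain ⟨L, ζ, l1, l2, -, l4, l5, l6⟩ := T.mc.exists_lam
  have hz := good T (zz 2 a).2 T.mc.z_ne
  have hg : ∀ χ : IrrCharacter G, IsGeneralizedCharacter P (D χ.1) := fun χ => N.gen _ (gen_of_irr χ.2)
  have h3 : ∀ i j v, (T.mc.rho (L i) - T.mc.rho (L j)) v ≠ 0 → v ∈ zpowers a ∧ v ≠ 1 := fun i j v h =>
    ⟨not_not.1 fun hv => h (by simp [T.mc.rho_out _ hv]), fun hv => h (by simp [hv, T.mc.rho_one])⟩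
  have h4 : ∀ i j v, (T.mc.rho (L i) - T.mc.rho (L j)) v ≠ 0 → _ := fun i j v h =>
    good T (h3 i j v h).1 (h3 i j v h).2
  have h5 : ∀ (χ : IrrCharacter G) i j, classInner (D χ.1) (T.mc.rho (L i) - T.mc.rho (L j)) =
      (co a (D χ.1) (L i) - co a (D χ.1) (L j) : ℤ) := fun χ i j => by
    rw [CChar.CharFun.inner_sub_right, T.mc.inner_rho (gen_classFun (hg χ)),
      T.mc.inner_rho (gen_classFun (hg χ)), co_eq (hg χ), co_eq (hg χ), Int.cast_sub]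
  have h6 : ∀ i j : ℤ, ((∑ χ with χ ∈ B, (co a (D χ.1) (L i) - co a (D χ.1) (L 2)) *
      (co a (D χ.1) (L j) - co a (D χ.1) (L 2)) : ℤ) : ℂ) = classInner (T.mc.rho (L j) - T.mc.rho (L 2))
        (T.mc.rho (L i) - T.mc.rho (L 2)) := fun i j => by
    rw [← N.gram (h4 i 2) (h4 j 2) (classFun_sub (T.mc.rho_classFun _) (T.mc.rho_classFun _))]
    simp only [h5, map_intCast, Int.cast_sum, Int.cast_mul]
  simp only [CChar.CharFun.inner_sub_left, CChar.CharFun.inner_sub_right, T.mc.inner_rho_rho, l5, l4] at h6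
  have h7 : ∑ χ with χ ∈ B, (co a (D χ.1) (L 1) - co a (D χ.1) (L 2)) ^ 2 = (2 : ℕ) := by
    have := h6 1 1
    norm_num at this
    simp only [sq]
    exact_mod_cast this
  have h8 : ∑ χ with χ ∈ B, (co a (D χ.1) (L 3) - co a (D χ.1) (L 2)) ^ 2 = 2 := by
    have := h6 3 3
    norm_num at this
    simp only [sq]
    exact_mod_cast this
  have h9 : ∑ χ with χ ∈ B, (co a (D χ.1) (L 1) - co a (D χ.1) (L 2)) *
      (co a (D χ.1) (L 3) - co a (D χ.1) (L 2)) = 1 := by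
    have := h6 1 3
    norm_num at this
    exact_mod_cast this
  have h10 := N.inner_reg (h4 1 2) (by simp [T.mc.rho_one])
  have h11 := N.trk (zz 2 a) rfl T.z_cent rfl (congrArg Subtype.val T.mc.zz_sq)
    ⟨_, T.mc.rho_irr (l := L 1) (by rw [l5, Ne, l4]; norm_num)⟩
    ⟨_, T.mc.rho_irr (l := L 2) (by rw [l5, Ne, l4]; norm_num)⟩ (by simp only [T.mc.rho_one])
    (by simp only [T.mc.rho_z, mul_pow, sq_eq_one_iff.2 (T.mc.hc_z _)])
    (fun t ht h1 hz => by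
      have : t ∉ zpowers a := fun h => hz (T.mc.eq_z h (by rwa [sq]) h1)
      simp only [T.mc.rho_out _ this, and_self])
    fun v hv => mem_coe.1 (h4 1 2 v (sub_ne_zero.2 hv) (mem_zpowers _))
  rw [← Finset.sum_subset (Finset.filter_subset (· ∈ B) _) fun χ _ hχ => by
    rw [← CChar.CharFun.inner_conj_symm, N.inner_of_not_mem (h4 1 2) (by simpa using hχ)]; simp] at h11
  simp only [← CChar.CharFun.inner_conj_symm (D _), h5, map_intCast] at h10 h11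
  have h12 : ∀ χ ∈ B, blockHeight 2 B χ.1 = 0 → co a (D χ.1) (L 1) - co a (D χ.1) (L 2) = 1 ∨
      co a (D χ.1) (L 1) - co a (D χ.1) (L 2) = -1 →
      (co a (D χ.1) (L 3) - co a (D χ.1) (L 2) = co a (D χ.1) (L 1) - co a (D χ.1) (L 2) →
        D χ.1 (zz 2 a) ^ 2 = 9) ∧
      (co a (D χ.1) (L 3) - co a (D χ.1) (L 2) = 0 → D χ.1 (zz 2 a) ^ 2 = 1) := fun χ hχ h0 hx => by
    have h12 := h2 χ hχ
    have h13 := (T.odd_iff N (zpowers_le.2 (zpow_mem_zpowers _ _))).2 ⟨hχ, h0⟩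
    have h14 : ∀ i j : ℤ, i + j = 8 → co a (D χ.1) (L i) = co a (D χ.1) (L j) := fun i j h => by
      rw [← T.mc.co_tau (gen_classFun (hg χ)), l5, (l4 _ j).2 ⟨-1, by linear_combination -h⟩]
    have h15 : ∀ f : ℤ → ℤ, ∑ l, f (co a (D χ.1) l) = f (co a (D χ.1) (L 0)) + 2 * f (co a (D χ.1) (L 1)) +
        2 * f (co a (D χ.1) (L 2)) + 2 * f (co a (D χ.1) (L 3)) + f (co a (D χ.1) (L 4)) := fun f => by
      refine Int.cast_injective (α := ℂ) ?_
      rw [Int.cast_sum, l6]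
      simp [Finset.sum_range_succ, h14 5 3 rfl, h14 6 2 rfl, h14 7 1 rfl]
      ring
    have h16 : (ζ : ℂ) ^ 4 = -1 := by
      refine (mul_self_eq_one_iff.1 ?_).resolve_left fun h => ?_
      · rw [← pow_add, ← Units.val_pow_eq_pow_val, show 4 + 4 = orderOf ζ from l1.symm, pow_orderOf_eq_one,
          Units.val_one]
      · have := orderOf_dvd_of_pow_eq_one (Units.ext h : ζ ^ 4 = 1)
        rw [l1] at this
        norm_num at this
    have h17 : ∀ j : ℕ, hc (L j) (zz 2 a) = (-1) ^ j := fun j => by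
      rw [hc_apply, l2 j _ _ rfl, ← h16, zpow_mul]; simp
    have h18 := eq_sum_co (hg χ) (zz 2 a)
    rw [l6] at h18
    simp only [h17] at h18
    rw [W, h15 (· ^ 2), h15 fun x => x, Finset.card_univ, T.mc.card_hom'] at h12
    rw [h15 fun x => x] at h13
    have h19 : D χ.1 (zz 2 a) = (co a (D χ.1) (L 0) - 2 * co a (D χ.1) (L 1) + 2 * co a (D χ.1) (L 2) -
        2 * co a (D χ.1) (L 3) + co a (D χ.1) (L 4) : ℤ) := by
      rw [h18]
      simp [Finset.sum_range_succ, h14 5 3 rfl, h14 6 2 rfl, h14 7 1 rfl]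
      ring
    rw [h19]
    exact_mod_cast arith h12 h13 hx
  generalize hx : (fun χ : IrrCharacter G => co a (D χ.1) (L 1) - co a (D χ.1) (L 2)) = x
  generalize hy : (fun χ : IrrCharacter G => co a (D χ.1) (L 3) - co a (D χ.1) (L 2)) = w
  simp only [congrFun hx, congrFun hy] at h7 h8 h9 h10 h11 h12
  have h13 : ∀ {R : Type} [AddCommMonoid R] (f : IrrCharacter G → R), (∀ χ, x χ = 0 → f χ = 0) →
      ∑ χ with χ ∈ B, f χ = ∑ χ ∈ Finset.univ.filter (· ∈ B) with x χ ≠ 0, f χ := fun f h =>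
    (Finset.sum_filter_of_ne fun χ _ => mt (h χ)).symm
  rw [h13 _ (by simp +contextual)] at h7 h9 h10 h11
  obtain ⟨h14, h15⟩ := CA.H11Inv.card_of_sum_sq (fun _ h => (Finset.mem_filter.1 h).2) (by norm_num) h7
  obtain ⟨χ, ψ, hne, h16⟩ := Finset.card_eq_two.1 h14
  have h17 : ∀ φ ∈ ({χ, ψ} : Finset _), φ ∈ B := fun φ h => by
    simpa using (Finset.mem_filter.1 (h16.ge h)).1
  have hχ := h17 χ (by simp)
  have hψ := h17 ψ (by simp)
  have h18 : w χ ^ 2 + w ψ ^ 2 ≤ 2 := by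
    rw [← Finset.sum_pair (f := fun χ => w χ ^ 2) hne, ← h8]
    exact Finset.sum_le_sum_of_subset_of_nonneg (fun φ h => by simpa using h17 φ h) fun _ _ _ => sq_nonneg _
  rw [h16] at h15
  rw [h16, Finset.sum_pair hne] at h9 h10 h11
  have h19 := h15 χ (by simp)
  have h20 := h15 ψ (by simp)
  have d1 := CChar.CharInt.charDegree_pos χ.2
  have d2 := CChar.CharInt.charDegree_pos ψ.2
  have h21 : x χ * charDegree χ.1 + x ψ * charDegree ψ.1 = 0 := by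
    rw [CChar.CharInt.irr_apply_one_eq χ.2, CChar.CharInt.irr_apply_one_eq ψ.2] at h10
    exact_mod_cast h10
  have h22 : x ψ = -x χ ∧ charDegree ψ.1 = charDegree χ.1 := by
    rcases h19 with h | h <;> rcases h20 with h' | h' <;> rw [h, h'] at h21 ⊢ <;> omega
  have h23 : ψ.1 1 = χ.1 1 := by rw [CChar.CharInt.irr_apply_one_eq χ.2, CChar.CharInt.irr_apply_one_eq ψ.2, h22.2]
  have h24 : blockHeight 2 B ψ.1 = blockHeight 2 B χ.1 := by rw [blockHeight_eq, blockHeight_eq, h22.2]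
  have h25 : blockHeight 2 B χ.1 = 0 := not_not.1 fun h => hne (h1 χ hχ ψ hψ h (h24 ▸ h))
  obtain ⟨h26, h27⟩ := T.val_mul (N.rk _ hz) (fun w hw => by
    obtain ⟨v, h1, h2⟩ := T.cover w
    have h3 : orderOf v = 2 := by
      rw [← ord_eq h2, ← orderOf_coe, ← ord_conj hw]; exact T.mcG.ord_z
    rw [T.mc.eq_z ((mem_Xf.1 h1).resolve_right (by simp [hY])) (h3 ▸ pow_orderOf_eq_one v)
      (by rintro rfl; simp at h3)] at h2
    exact h2.symm w.2) T.z_cent hχ hψ ω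
  have h28 : χ.1 (zz 2 a : P) * D ψ.1 (zz 2 a) = ψ.1 (zz 2 a : P) * D χ.1 (zz 2 a) := by
    have h := fun θ => N.val θ _ hz
    simp only [T.mc.cl_z, Nat.cast_one, mul_one] at h
    rw [h, h]
    linear_combination Nat.card P * h27
  have h29 : ψ.1 (zz 2 a : P) ^ 2 = χ.1 (zz 2 a : P) ^ 2 := by
    have := irr_apply_one_ne_zero χ.2
    have : (x χ : ℂ) ≠ 0 := by rcases h19 with h | h <;> simp [h]
    rw [h22.1, h23] at h11
    push_cast at h11
    field_simp at h11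
    exact mul_left_cancel₀ this (by linear_combination -h11)
  have h30 : D ψ.1 (zz 2 a) ^ 2 = D χ.1 (zz 2 a) ^ 2 :=
    mul_left_cancel₀ (pow_ne_zero 2 h26) (by rw [← mul_pow, h28, mul_pow, h29])
  obtain ⟨h31, h32⟩ := h12 χ hχ h25 h19
  obtain ⟨h33, h34⟩ := h12 ψ hψ (h24.trans h25) h20
  rw [h22.1] at h9 h33
  have h35 : -2 < w χ ∧ w χ < 2 ∧ -2 < w ψ ∧ w ψ < 2 := by
    refine ⟨?_, ?_, ?_, ?_⟩ <;> nlinarith [sq_nonneg (w χ), sq_nonneg (w ψ)]
  have h36 : w χ = x χ ∧ w ψ = 0 ∨ w χ = 0 ∧ w ψ = -x χ := by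
    rcases h19 with h | h <;> rw [h] at h9 ⊢ <;> omega
  rcases h36 with h | h
  · rw [h31 h.1, h34 h.2] at h30; norm_num at h30
  · rw [h32 h.1, h33 h.2] at h30; norm_num at h30

theorem dihedral [DecidablePred (· ∈ B)] (T : Tm e B m 0 0 a y) : Nat.card B = 2 ^ m + 3 ∧
    blockRank 2 B + (Yf e a y).card = 3 ∧
    (Finset.univ.filter fun χ => χ ∈ B ∧ blockHeight 2 B χ.1 = 0).card = 4 ∧
      ∀ χ ∈ B, blockHeight 2 B χ.1 ≤ 1 := by
  classical
  obtain ⟨D, ω, N⟩ := T.exists_nb (.inl ⟨rfl, fun w hw => by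
    obtain ⟨i, rfl⟩ := T.mc.eq_of_notMem (T.mc.mem w) hw
    exact (T.mc.shift i).sq_eq_one.2 (by simp)⟩)
  have hG := fun v (hv : v ∈ Gd a) => T.good (.inl rfl) hv
  have hz := good T (zz m a).2 T.mc.z_ne
  have ha : zpowers ((a : G) ^ (2 ^ m : ℤ)) ≤ zpowers (a : G) := zpowers_le.2 (zpow_mem_zpowers _ _)
  have hg : ∀ χ : IrrCharacter G, IsGeneralizedCharacter P (D χ.1) := fun χ => N.gen _ (gen_of_irr χ.2)
  obtain ⟨-, -, -, -, k0, -⟩ := T.exists_beta N ha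
  obtain ⟨n, n1, -, n2, n3⟩ := T.major (v := 1) (one_mem _) (one_pow _)
  obtain ⟨n', n4, -, n5, -⟩ := T.major T.z_cent T.z_sq
  have h1 : ∀ χ : IrrCharacter G, D χ.1 (zz m a) * conj (D χ.1 (zz m a)) = n' χ χ := fun χ => by
    rw [← n4, ← N.mul_conj hz, T.mc.cl_z, Nat.cast_one, mul_one]
  have h2 : ∀ χ ∈ B, 4 * 2 ^ m = n χ χ + W Finset.univ (co a (D χ.1)) +
      2 ^ m * (Yf e a y).card * if blockHeight 2 B χ.1 = 0 then 1 else 0 := fun χ hχ => by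
    have := T.row N hG ha hχ
    rw [n1, n4, ← h1, add_assoc (n χ χ : ℂ), T.mc.norm_all (hg χ)] at this
    exact_mod_cast this
  have h3 : ∑ χ with χ ∈ B, W Finset.univ (co a (D χ.1)) = 4 * (2 ^ m) ^ 2 := by
    refine Int.cast_injective (α := ℂ) ?_
    have := N.orth hz hz
    rw [if_pos (IsConj.refl _), T.mc.cl_z, T.card_P] at this
    simp only [Int.cast_sum, ← T.mc.norm_all (hg _), Finset.sum_add_distrib, T.trace_Gd N hG]
    push_cast at this ⊢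
    linear_combination this
  have hc : ((Finset.univ : Finset (zpowers a →* ℂˣ)).card : ℤ) = 2 * 2 ^ m := by
    rw [Finset.card_univ, T.mc.card_hom']; push_cast; ring
  have h4 : ∀ χ ∈ B, blockHeight 2 B χ.1 ≠ 0 → W Finset.univ (co a (D χ.1)) = 4 * 2 ^ m - 4 ∧
      blockHeight 2 B χ.1 = 1 ∧ m ≠ 0 := fun χ hχ h0 => by
    have h4 := h2 χ hχ
    have h5 := (n3 χ hχ χ).2.2 fun h => h0 h.2
    have h6 := Int.le_of_dvd (n2 χ hχ) h5
    have h7 : (2 : ℤ) ^ 2 ≤ 2 ^ (blockHeight 2 B χ.1 + 1) := pow_le_pow_right₀ one_le_two (by omega)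
    have h8 : W Finset.univ (co a (D χ.1)) ≠ 0 := fun h => by
      have h9 := T.mc.norm_all (hg χ)
      rw [T.mc.norm_Gd (hg χ), h1, h] at h9
      have h10 := n5 χ hχ
      have h11 := W_nonneg (J := Js m a 1) (r := co a (D χ.1))
      have h12 := W_nonneg (J := Js m a (-1)) (r := co a (D χ.1))
      generalize W (Js m a (-1)) (co a (D χ.1)) = r at h9 h12
      norm_cast at h9
      omega
    have h9 := (W_even Finset.univ_nonempty (by rw [Finset.card_univ, T.mc.card_hom']; simp [Nat.even_pow])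
      (Int.not_odd_iff_even.1 fun h => h0 ((T.odd_iff N ha).1 h).2)).resolve_left h8
    rw [if_neg h0, mul_zero, add_zero] at h4
    rw [hc] at h9
    push_cast at h6
    have h10 : (2 : ℤ) ^ (blockHeight 2 B χ.1 + 1) ≤ 2 ^ 2 := by omega
    rw [pow_le_pow_iff_right₀ one_lt_two] at h10
    exact ⟨by omega, by omega, by rintro rfl; omega⟩
  have h5 : ∀ χ ∈ B, W Finset.univ (co a (D χ.1)) < 4 * 2 ^ m := fun χ hχ => by
    have := h2 χ hχ
    have := n2 χ hχ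
    have : 0 ≤ (2 : ℤ) ^ m * (Yf e a y).card * if blockHeight 2 B χ.1 = 0 then 1 else 0 := by positivity
    omega
  have h6 : ∀ χ ∈ B, blockHeight 2 B χ.1 = 0 → W Finset.univ (co a (D χ.1)) = 2 * 2 ^ m - 1 ∨
      W Finset.univ (co a (D χ.1)) = 4 * 2 ^ m - 1 ∧ 2 ≤ m := fun χ hχ h0 => by
    have := W_odd (by rw [Finset.card_univ, T.mc.card_hom']) ((T.odd_iff N ha).2 ⟨hχ, h0⟩)
      (by have := h5 χ hχ; omega)
    omega
  let B0 := Finset.univ.filter fun χ => χ ∈ B ∧ blockHeight 2 B χ.1 = 0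
  let B1 := Finset.univ.filter fun χ => χ ∈ B ∧ ¬ blockHeight 2 B χ.1 = 0
  let F := B0.filter fun χ => W Finset.univ (co a (D χ.1)) ≠ 2 * 2 ^ m - 1
  have h7 : F.card * 2 ^ m + 2 * B1.card * (2 ^ m - 1) = (2 * (2 ^ m - 1) ^ 2 : ℤ) := by
    rw [← Finset.sum_filter_add_sum_filter_not _ (fun χ => blockHeight 2 B χ.1 = 0), Finset.filter_filter,
      Finset.filter_filter, Finset.sum_congr (s₁ := B1) rfl fun χ hχ =>
        (h4 χ (Finset.mem_filter.1 hχ).2.1 (Finset.mem_filter.1 hχ).2.2).1,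
      Finset.sum_congr (s₁ := B0) rfl (g := fun χ => 2 * 2 ^ m - 1 +
        if W Finset.univ (co a (D χ.1)) ≠ 2 * 2 ^ m - 1 then 2 * 2 ^ m else 0) fun χ hχ => by
          have := h6 χ (Finset.mem_filter.1 hχ).2.1 (Finset.mem_filter.1 hχ).2.2
          split_ifs <;> omega, Finset.sum_add_distrib, ← Finset.sum_filter] at h3
    simp only [Finset.sum_const, nsmul_eq_mul, show B0.card = 4 from k0] at h3
    push_cast at h3
    exact mul_left_cancel₀ two_ne_zero (by linear_combination h3)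
  have h8 : F.card = 0 := by
    by_contra h8
    obtain ⟨χ, hχ⟩ := Finset.card_ne_zero.1 h8
    obtain ⟨h9, h10⟩ := Finset.mem_filter.1 hχ
    obtain ⟨-, h9, h11⟩ := Finset.mem_filter.1 h9
    obtain ⟨h12, h13⟩ := (h6 χ h9 h11).resolve_left h10
    have h14 : F.card ≤ 4 := k0 ▸ Finset.card_filter_le _ _
    have h15 : (2 ^ m - 1 : ℤ) ∣ F.card := ⟨2 * (2 ^ m - 1) - 2 * B1.card - F.card, by linear_combination h7⟩
    have h16 := Int.le_of_dvd (by omega) h15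
    obtain rfl : m = 2 := by
      by_contra h
      have : (2 : ℤ) ^ 3 ≤ 2 ^ m := pow_le_pow_right₀ one_le_two (by omega)
      omega
    have h17 := h2 χ h9
    have h18 := n2 χ h9
    rw [if_pos h11] at h17
    exact not_sixteen T N (Finset.card_eq_zero.1 (by omega)) (fun χ h ψ h' h1 h2 =>
      Finset.card_le_one.1 (show B1.card ≤ 1 by omega) χ (by simpa [B1] using ⟨h, h1⟩) ψ
        (by simpa [B1] using ⟨h', h2⟩)) h5
  have h9 : B1.card + 1 = 2 ^ m := by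
    rcases Nat.eq_zero_or_pos m with rfl | hm
    · rw [Finset.card_eq_zero.2 (Finset.eq_empty_of_forall_notMem fun χ hχ =>
        (h4 χ (Finset.mem_filter.1 hχ).2.1 (Finset.mem_filter.1 hχ).2.2).2.2 rfl)]
      rfl
    · have : (2 : ℤ) ^ 1 ≤ 2 ^ m := pow_le_pow_right₀ one_le_two hm
      rw [h8] at h7
      zify
      exact mul_right_cancel₀ (b := 2 * (2 ^ m - 1)) (by omega) (by push_cast at h7; linear_combination h7)
  have h10 : Nat.card B = 2 ^ m + 3 := by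
    rw [CA.H11Contrib.card_set_eq, ← Finset.card_filter_add_card_filter_not (fun χ => blockHeight 2 B χ.1 = 0),
      Finset.filter_filter, Finset.filter_filter, k0, ← h9]
    ring
  have h11 := T.card_B N hG
  rw [N.rk _ hz] at h11
  refine ⟨h10, by omega, k0, fun χ hχ => ?_⟩
  by_cases h0 : blockHeight 2 B χ.1 = 0
  · omega
  · exact (h4 χ hχ h0).2.1.le

end CA.H11TmD
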