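import Cfsg.Agent.Lib.Block.H11TmZ

/-!
2-blocks with quaternion or semidihedral defect groups: rows of generalized decomposition numbers.
-/

set_option autoImplicit false
set_option linter.unusedSectionVars false

namespace CA.H11TmQ

open Cfsg MonoidAlgebra CA.BlkVal CA.H11Amb CA.H11Eta CA.H11Cw CA.H11Nb CA.H11Row CA.H11Tm CA.H11PS CA.MC2
  CA.BlkHeight CA.H13Span CChar.CharFun CChar.CharOrth CChar.CharGen Subgroup
open CA.BlkCore hiding lam lam_mul lam_one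
open CA.Ind (card_ne_zero ext_coe ext_of_mem)
open scoped ComplexConjugate

section int
variable {ι : Type*} {J : Finset ι} {r : ι → ℤ}

theorem four_dvd_W (h1 : Even J.card) (h2 : Even (∑ j ∈ J, r j)) : 4 ∣ W J r := by
  obtain ⟨s, hs⟩ : Even (∑ j ∈ J, r j ^ 2) := by
    have : Even (∑ j ∈ J, (r j ^ 2 - r j)) := Finset.even_sum _ fun j _ => by
      rw [sq, ← mul_sub_one]; exact Int.even_mul_pred_self _
    rw [Finset.sum_sub_distrib] at this
    exact (Int.even_sub.1 this).2 h2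
  obtain ⟨c, hc⟩ := h1
  obtain ⟨t, ht⟩ := h2
  exact ⟨c * s - t ^ 2, by rw [W, hs, ht, hc]; push_cast; ring⟩

theorem exists_of_eq [DecidableEq ι] (h : W J r = J.card - 1) (h2 : J.card = 2 ∨ 4 ≤ J.card) :
    ∃ i ∈ J, ∃ c d : ℤ, d ^ 2 = 1 ∧ ∀ j ∈ J, r j = c + if j = i then d else 0 := by
  obtain ⟨i, hi, c, d, h3⟩ : ∃ i ∈ J, ∃ c d : ℤ, ∀ j ∈ J, r j = c + if j = i then d else 0 := by
    rcases h2 with h2 | h2
    · obtain ⟨i, j, hij, rfl⟩ := Finset.card_eq_two.1 h2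
      exact ⟨i, by simp, r j, r i - r j, by simp [hij.symm]⟩
    · obtain ⟨i, hi, c, d, -, h3⟩ := exists_of_lt (r := r) (J := J) (Finset.card_pos.1 (by omega)) (by omega)
      exact ⟨i, hi, c, d, h3⟩
  refine ⟨i, hi, c, d, mul_left_cancel₀ (a := (J.card - 1 : ℤ)) (by omega) ?_, h3⟩
  rw [← (W_shift hi h3).1, h, mul_one]

end int

section grp
variable {K : Type*} [Group K] [Fintype K] {m j : ℕ} {ε δ : ℤ} {a y v : K} {θ η : K → ℂ} (h : Mc m ε δ a y)
  (hj : j + 1 = m) {l : zpowers a →* ℂˣ}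

variable (m a θ) in
/-- The variance of the part of given sign. -/
noncomputable abbrev Ws (s : ℂ) : ℤ := W (Js m a s) (co a θ)

variable (m j a η) in
/-- A generalized character that is stable under every possible fusion. -/
structure Eta (n : ℕ) : Prop where
  gen : IsGeneralizedCharacter K η
  one : η 1 = 2
  z : η (zz m a) = -2
  w : η (a ^ (2 ^ j : ℤ)) = 0
  out : ∀ t ∉ zpowers a, (t ^ 2 = 1 → η t = -2) ∧ (t ^ 2 ≠ 1 → η t = 0)
  nrm : classInner (fun x : zpowers a => η x) (fun x => η x) = 2 * n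
  ne : 2 ≤ m → η a ≠ η (zz m a * a)

include h hj

theorem fix_mem (hl : l.comp h.tau = l) : l ∈ Js m a 1 := by
  obtain ⟨b, -, h1, h2⟩ := h.exists_beta
  rcases (h1 l).1 hl with rfl | rfl
  · exact mem_Js.2 rfl
  · rw [mem_Js, h2 _ _ rfl, if_pos (by rw [← hj, pow_succ]; simp)]

theorem tau_mem {s : ℂ} (hl : l ∈ Js m a s) : l.comp h.tau ∈ Js m a s := by
  rw [mem_Js, hc_apply, MonoidHom.comp_apply, h.tau_z]; exact mem_Js.1 hl

theorem tau_ne (hl : l ∈ Js m a (-1)) : l.comp h.tau ≠ l := fun e => by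
  have := (mem_Js.1 hl).symm.trans (mem_Js.1 (fix_mem h hj e))
  norm_num at this

theorem even_minus (hθ : IsClassFunction K θ) : Even (∑ l ∈ Js m a (-1), co a θ l) :=
  h.even_sum hθ (fun _ => tau_mem h hj) fun _ => tau_ne h hj

theorem sum_zero {s : ℂ} (hs : s = 1 ∨ s = -1) (hv : v ∈ Gd a) : pt m a s (fun _ => 1) v = 0 :=
  (h.pt_eq_zero_iff hs).1 (by simp [W, sq]) v hv

theorem exists_mu (hθ : IsGeneralizedCharacter K θ) (h1 : Ws m a θ 1 = 2 ^ m - 1) (h2 : Ws m a θ (-1) = 0) :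
    ∃ (μ : zpowers a →* ℂˣ) (d : ℤ), μ.comp h.tau = μ ∧ d ^ 2 = 1 ∧ ∀ x : zpowers a, (x : K) ∈ Gd a → θ x = d * hc μ x := by
  classical
  have h3 : (Js m a 1).card = 2 ∨ 4 ≤ (Js m a 1).card := by
    rw [h.card_Js.1, ← hj, pow_succ]
    rcases j with _ | j
    · simp
    · have := Nat.one_le_two_pow (n := j); rw [pow_succ]; omega
  obtain ⟨μ, hμ, c, d, h4, h5⟩ := exists_of_eq (r := co a θ) (by rw [h.card_Js.1]; exact_mod_cast h1) h3
  refine ⟨μ, d, not_not.1 fun e => ?_, h4, fun x hx => ?_⟩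
  · have := h5 _ (tau_mem h hj hμ)
    rw [h.co_tau (gen_classFun hθ), h5 μ hμ, if_pos rfl, if_neg e] at this
    simp [show d = 0 by omega] at h4
  · have h6 := sum_zero h hj (.inl rfl) hx
    rw [(h.eq_add hθ x.2).1, (h.pt_eq_zero_iff (.inr rfl)).1 h2 _ hx, pt, ext_coe,
      Finset.sum_congr rfl fun l hl => by rw [h5 l hl]]
    simp only [pt, ext_coe, Int.cast_one, one_mul] at h6
    simp [add_mul, Finset.sum_add_distrib, ← Finset.mul_sum, h6, hμ]

theorem ord_w : orderOf (a ^ (2 ^ j : ℤ)) = 4 := h.ord_pow (j := 2) (by omega)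

theorem Eta.four {n : ℕ} (E : Eta m j a η n) (hv : orderOf v = 4) : η v = 0 := by
  by_cases h1 : v ∈ zpowers a
  · rcases CA.MC3.eq_or_inv_of_four (ord_w h hj) (h.mem_pow_of_pow_eq_one (j := 2) (by omega) h1
      (orderOf_dvd_iff_pow_eq_one.1 hv.dvd)) hv with rfl | rfl
    · exact E.w
    · rw [← h.conj_inv hj, classFun_apply (gen_classFun E.gen), E.w]
  · exact (E.out v h1).2 fun e => by simpa [hv] using Nat.le_of_dvd two_pos (orderOf_dvd_of_pow_eq_one e)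

theorem Eta.two {n : ℕ} (E : Eta m j a η n) (hv : v ^ 2 = 1) (h1 : v ≠ 1) : η v = -2 := by
  by_cases h2 : v ∈ zpowers a
  · rw [h.eq_z h2 hv h1]; exact E.z
  · exact (E.out v h2).1 hv

omit hj in
theorem ord_out (hv : v ∉ zpowers a) (h1 : v ^ 2 ≠ 1) : orderOf v = 4 :=
  let ⟨_, h2, _⟩ := h.out (h.mem v) hv
  orderOf_eq_prime_pow (p := 2) (n := 1) h1 h2.pow_four

theorem rho_mul (hl : l ∈ Js m a (-1)) (x : zpowers a) : h.rho l (zz m a * x) = -h.rho l x := by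
  have h1 := mem_Js.1 hl
  have h2 := mem_Js.1 (tau_mem h hj hl)
  rw [← coe_mul, h.rho_coe, h.rho_coe]
  simp only [hc_apply, map_mul, Units.val_mul] at h1 h2 ⊢
  rw [h1, h2]; ring

theorem exists_rho : ∃ l ∈ Js m a (-1), h.rho l (a ^ (2 ^ j : ℤ)) = 0 ∧ (2 ≤ m → h.rho l a ≠ 0) := by
  obtain ⟨L, ζ, l1, l2, -, -, l5, -⟩ := h.exists_lam
  have h1 : (ζ : ℂ) ^ (2 ^ m : ℤ) = -1 := by
    refine (mul_self_eq_one_iff.1 ?_).resolve_left fun e => ?_
    · rw [← zpow_add₀ ζ.ne_zero, ← Units.val_zpow_eq_zpow_val, Units.val_eq_one, ← orderOf_dvd_iff_zpow_eq_one, l1]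
      exact ⟨1, by push_cast; ring⟩
    · rw [← Units.val_zpow_eq_zpow_val, Units.val_eq_one, ← orderOf_dvd_iff_zpow_eq_one, l1] at e
      have := Int.le_of_dvd (by positivity) e
      push_cast at this
      rw [pow_le_pow_iff_right₀ one_lt_two] at this
      omega
  have h2 : L 1 ∈ Js m a (-1) := by rw [mem_Js, hc_apply, l2 1 _ _ rfl, mul_one, Units.val_zpow_eq_zpow_val, h1]
  refine ⟨L 1, h2, ?_, fun hm e => ?_⟩
  · have h3 := rho_mul h hj h2 ⟨_, zpow_mem_zpowers a (2 ^ j)⟩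
    have h4 : (zz m a : K) * a ^ (2 ^ j : ℤ) = y * a ^ (2 ^ j : ℤ) * y⁻¹ := by
      rw [h.conj_inv hj, eq_inv_iff_mul_eq_one, coe_zz, ← zpow_add, ← zpow_add, h.zpow_one, ← hj]
      exact ⟨1, by ring⟩
    rw [h4, classFun_apply (h.rho_classFun _)] at h3
    linear_combination h3 / 2
  · have h3 := h.rho_coe (L 1) ⟨a, mem_zpowers a⟩
    rw [e, l5, hc_apply, hc_apply, l2 _ 1 _ (zpow_one a).symm, l2 _ 1 _ (zpow_one a).symm] at h3
    have h4 : ζ ^ (2 ^ m * ε - 1 : ℤ) = ζ ^ (2 ^ m + 1 : ℤ) := Units.ext (by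
      simp only [one_mul, Units.val_zpow_eq_zpow_val] at h3 ⊢
      rw [zpow_add₀ ζ.ne_zero, h1]
      linear_combination -h3)
    rw [zpow_eq_zpow_iff_modEq, l1] at h4
    obtain ⟨c, hc⟩ := h4.dvd
    obtain ⟨n, rfl⟩ : ∃ n, m = n + 2 := ⟨m - 2, by omega⟩
    have : (2 : ℤ) = 4 * (2 ^ n * (2 * c - 1 + ε)) := by push_cast at hc; linear_combination hc
    omega

theorem inner_rho_A (hl : l ∈ Js m a (-1)) :
    (fun x : zpowers a => h.rho l x) = hc l + hc (l.comp h.tau) := funext fun x => h.rho_coe l x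

theorem eta_Q (hq : ∀ t ∉ zpowers a, t ^ 2 ≠ 1) : ∃ η, Eta m j a η 1 := by
  classical
  obtain ⟨l, h1, h2, h3⟩ := exists_rho h hj
  refine ⟨h.rho l, h.rho_gen l, h.rho_one l, by rw [h.rho_z, mem_Js.1 h1]; norm_num, h2,
    fun t ht => ⟨fun e => (hq t ht e).elim, fun _ => h.rho_out l ht⟩, ?_, fun hm e => h3 hm ?_⟩
  · simp [inner_rho_A h hj h1, CChar.CharFun.inner_add_left, CChar.CharFun.inner_add_right, inner_hc,
      tau_ne h hj h1, (tau_ne h hj h1).symm]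
    norm_num
  · linear_combination (e + rho_mul h hj h1 ⟨a, mem_zpowers a⟩) / 2

omit hj in
theorem eta_S (h : Mc m 1 0 a y) (hj : j + 1 = m) (hm : 2 ≤ m) {b : zpowers a →* ℂˣ} (hb1 : b ≠ 1)
    (hb2 : b.comp h.tau = b) (hb : ∀ (i : ℤ) (x : zpowers a), (x : K) = a ^ i → hc b x = if Even i then 1 else -1) :
    ∃ η, Eta m j a η 2 ∧ ∀ μ : zpowers a →* ℂˣ, μ = 1 ∨ μ = b →
      classInner (fun x : zpowers a => η x * hc μ x) (hc 1 - hc b) ^ 2 = 4 := by
  classical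
  obtain ⟨l, h1, h2, h3⟩ := exists_rho h hj
  have h4 := h.shift 1
  obtain ⟨U, h5, h7, h7'⟩ : ∃ U : Subgroup K, U.index = 2 ∧ (∀ i : ℤ, a ^ i ∈ U ↔ Even i) ∧
      ∀ i : ℤ, a ^ i * y ∈ U ↔ ¬ Even i := ⟨H 1 a (a ^ (1 : ℤ) * y), by
    rw [← relIndex_top_right, ← h.top, ← sup_shift a y 1, h4.relIndex_H_one (by omega)], fun i => by
    rw [h4.zpow_mem_H_iff (by omega), pow_one, even_iff_two_dvd], fun i => by
    rw [show a ^ i * y = a ^ (i - 1) * (a ^ (1 : ℤ) * y) by rw [← mul_assoc, ← zpow_add]; simp,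
      h4.zpow_mul_mem_H_iff (by omega), pow_one, ← even_iff_two_dvd, Int.even_sub_one]⟩
  have h6 : ∀ x : zpowers a, (if (x : K) ∈ U then (2 : ℂ) else 0) - 2 = hc b x - 1 := by
    rintro ⟨_, i, rfl⟩
    rw [hb i _ rfl, if_congr (h7 i) rfl rfl]
    split_ifs <;> norm_num
  let η : K → ℂ := fun g => h.rho l g + ((if g ∈ U then 2 else 0) - 2)
  have h8 : ∀ μ : zpowers a →* ℂˣ, (fun x : zpowers a => η x * hc μ x) =
      hc (l * μ) + hc (l.comp h.tau * μ) + (hc (b * μ) - hc μ) := fun μ => funext fun x => by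
    simp only [η, h6, Pi.add_apply, Pi.sub_apply, h.rho_coe, hc_apply, MonoidHom.mul_apply, Units.val_mul]
    ring
  have h9 : ∀ l ∈ Js m a (-1), ∀ μ ∈ Js m a 1, ∀ ν ∈ Js m a 1, l * μ ≠ ν := fun l hl μ hμ ν hν e => by
    rw [← e, mem_Js, hc_apply, MonoidHom.mul_apply, Units.val_mul, ← hc_apply, ← hc_apply, mem_Js.1 hl,
      mem_Js.1 hμ] at hν
    norm_num at hν
  have h10 := fix_mem h hj hb2
  have h11 : (1 : zpowers a →* ℂˣ) ∈ Js m a 1 := mem_Js.2 rfl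
  have h12 := tau_mem h hj h1
  have h13 : b * b = 1 := MonoidHom.ext fun ⟨_, i, rfl⟩ => Units.ext (by
    have := hb i ⟨_, i, rfl⟩ rfl
    rw [MonoidHom.mul_apply, Units.val_mul, ← hc_apply, this]
    split_ifs <;> simp)
  have h14 : ∀ l : zpowers a →* ℂˣ, l * 1 = l := fun l => mul_one l
  refine ⟨η, ⟨by
    convert gen_add (h.rho_gen l) (gen_sub (CA.H11Dih.gen_two h5) (gen_add gen_one gen_one)) using 1
    ext; simp [η, one_add_one_eq_two],
    by simp [η, h.rho_one], ?_, ?_, fun t ht => ?_, ?_, fun _ e => h3 hm ?_⟩, ?_⟩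
  · simp [η, h.rho_z, mem_Js.1 h1, show (zz m a : K) ∈ U from (h7 _).2 (by rw [← hj, pow_succ]; simp)]
  · simp [η, h2, (h7 (2 ^ j)).2 (Int.even_pow.2 ⟨even_two, by omega⟩)]
  · obtain ⟨i, rfl⟩ := h.eq_of_notMem (h.mem t) ht
    simp +contextual [η, h.rho_out l ht, (h.shift i).sq_eq_one, h7', ← Int.not_even_iff_odd]
  · have := h8 1
    have e1 := h9 l h1 1 h11
    have e2 := h9 _ h12 1 h11
    simp only [h14] at e1 e2 this
    rw [show (fun x : zpowers a => η x) = _ from .trans (by simp [hc_apply]) this]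
    simp [ CChar.CharFun.inner_add_left, CChar.CharFun.inner_add_right, CChar.CharFun.inner_sub_left,
      CChar.CharFun.inner_sub_right, inner_hc, tau_ne h hj h1, (tau_ne h hj h1).symm, e1 _ h10, e1 _ h11, e2 _ h10,
      e2 _ h11, (e1 _ h10).symm, (e1 _ h11).symm, (e2 _ h10).symm, (e2 _ h11).symm, hb1, hb1.symm]
    norm_num
  · have e1 := h6 ⟨a, mem_zpowers a⟩
    have e2 := h6 (zz m a * ⟨a, mem_zpowers a⟩)
    have e3 := mem_Js.1 h10
    simp only [η, hc_apply, map_mul, Units.val_mul, coe_mul] at e e1 e2 e3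
    rw [e3] at e2
    linear_combination (e + rho_mul h hj h1 ⟨a, mem_zpowers a⟩ - e1 + e2) / 2
  · rintro μ (rfl | rfl) <;>
    simp only [h8, CChar.CharFun.inner_add_left, CChar.CharFun.inner_sub_left, CChar.CharFun.inner_sub_right,
      inner_hc, h9 _ h1 _ h10 _ h10, h9 _ h1 _ h10 _ h11, h9 _ h1 _ h11 _ h10, h9 _ h1 _ h11 _ h11,
      h9 _ h12 _ h10 _ h10, h9 _ h12 _ h10 _ h11, h9 _ h12 _ h11 _ h10, h9 _ h12 _ h11 _ h11, h13] <;>
    norm_num [hb1, hb1.symm, h14]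

end grp

end CA.H11TmQ
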