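import Cfsg.Agent.Lib.Block.H11TmQ

/-!
Olsson's theorem on 2-blocks with quaternion or semidihedral defect groups.
-/

set_option autoImplicit false
set_option linter.unusedSectionVars false

namespace CA.H11TmR

open Cfsg MonoidAlgebra CA.BlkVal CA.H11Amb CA.H11Eta CA.H11Cw CA.H11Nb CA.H11Row CA.H11Tm CA.H11PS CA.MC2
  CA.BlkHeight CA.H13Span CA.H11TmQ CChar.CharFun CChar.CharOrth CChar.CharGen Subgroup
open CA.BlkCore hiding lam lam_mul lam_one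
open CA.Ind (card_ne_zero ext_coe ext_of_mem)
open scoped ComplexConjugate

variable {M : Ideal AlgInt} {G : Type*} [Group G] [Fintype G] {P : Subgroup G} [Fintype P]
  {e : (k M)[G]} {B : Set (IrrCharacter G)} {m j n : ℕ} {ε δ : ℤ} {a y v w : P} {χ ψ : IrrCharacter G}
  {D : (G → ℂ) → P → ℂ} {ω : G → ℂ} {η : P → ℂ} (T : Tm e B m ε δ a y) (hj : j + 1 = m)
  (N : Nb 2 P (zpowers ((a : G) ^ (2 ^ j : ℤ))) e B D ω)
include T hj N

theorem hG (v : P) (hv : v ∈ Gd a) : zpowers ((a : G) ^ (2 ^ j : ℤ)) ≤ zpowers (v : G) := T.good (.inr hj) hv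

omit T hj N in
theorem ha : zpowers ((a : G) ^ (2 ^ j : ℤ)) ≤ zpowers (a : G) := zpowers_le.2 (zpow_mem_zpowers _ _)

omit T hj in
theorem hg (χ : IrrCharacter G) : IsGeneralizedCharacter P (D χ.1) := N.gen _ (gen_of_irr χ.2)

theorem stb (E : Eta m j a η n) : Stb 2 e η := fun v w h => by
  by_cases h1 : v ^ 2 = 1
  · by_cases h2 : v = 1
    · rw [h2, orderOf_eq_one_iff.1 ((ord_eq h).symm.trans (orderOf_eq_one_iff.2 h2))]
    · rw [E.two T.mc hj h1 h2, E.two T.mc hj ((sq_iff h).1 h1) fun h3 =>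
        h2 (orderOf_eq_one_iff.1 ((ord_eq h).trans (orderOf_eq_one_iff.2 h3)))]
  have h2 := mt (sq_iff h).2 h1
  by_cases h3 : v ∈ zpowers a ∧ w ∈ zpowers a
  · exact classFun_of_isConj (gen_classFun E.gen) ((N.fc v w (hG T hj N _ (mem_Gd.2 ⟨h3.1, h1⟩))
      (hG T hj N _ (mem_Gd.2 ⟨h3.2, h2⟩))).1 h)
  have h4 : orderOf v = 4 := (not_and_or.1 h3).elim (ord_out T.mc · h1) fun h4 => (ord_eq h).trans (ord_out T.mc h4 h2)
  rw [E.four T.mc hj h4, E.four T.mc hj ((ord_eq h).symm.trans h4)]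

variable [DecidablePred (· ∈ B)]

theorem row (hχ : χ ∈ B) : ∃ s t : ℤ, Nat.card P * cw 2 e χ.1 χ.1 (1 : P) = s ∧ 0 < s ∧ 0 < t ∧
    (blockHeight 2 B χ.1 ≠ 0 → 2 ^ (blockHeight 2 B χ.1 + 1) ≤ s ∧ 2 ^ (blockHeight 2 B χ.1 + 1) ≤ t) ∧
    4 * 2 ^ m = s + t + 2 * (Ws m a (D χ.1) 1 + Ws m a (D χ.1) (-1)) +
      2 ^ m * (Yf e a y).card * if blockHeight 2 B χ.1 = 0 then 1 else 0 := by
  obtain ⟨n, n1, -, n2, n3⟩ := T.major (v := 1) (one_mem _) (one_pow _)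
  obtain ⟨n', n4, -, n5, n6⟩ := T.major T.z_cent T.z_sq
  refine ⟨n χ χ, n' χ χ, n1 χ χ, n2 χ hχ, n5 χ hχ, fun h0 => ⟨Int.le_of_dvd (n2 χ hχ) ((n3 χ hχ χ).2.2 fun h => h0 h.2),
    Int.le_of_dvd (n5 χ hχ) ((n6 χ hχ χ).2.2 fun h => h0 h.2)⟩, ?_⟩
  have := T.row N (hG T hj N) ha hχ
  rw [n1, n4, T.mc.norm_Gd (hg N χ)] at this
  exact_mod_cast this

theorem odd_iff : Odd (∑ l ∈ Js m a 1, co a (D χ.1) l) ↔ χ ∈ B ∧ blockHeight 2 B χ.1 = 0 := by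
  rw [← T.odd_iff N ha, T.mc.sum_Js, Int.odd_add, iff_true_intro (even_minus T.mc hj (gen_classFun (hg N χ))), iff_true]

theorem W_cases {s : ℂ} (hs : s = 1 ∨ s = -1) (h : Even (∑ l ∈ Js m a s, co a (D χ.1) l)) :
    0 ≤ Ws m a (D χ.1) s ∧ 4 ∣ Ws m a (D χ.1) s ∧ (Ws m a (D χ.1) s = 0 ∨ 2 * 2 ^ m - 4 ≤ Ws m a (D χ.1) s) := by
  have h1 : (Js m a s).card = 2 ^ m := by rcases hs with rfl | rfl; exacts [T.mc.card_Js.1, T.mc.card_Js.2]
  have h2 : Even (Js m a s).card := by rw [h1, ← hj, pow_succ]; simp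
  exact ⟨W_nonneg, four_dvd_W h2 h, by simpa [h1] using W_even (Finset.card_pos.1 (by simp [h1])) h2 h⟩

omit T N in
theorem pow_cases : m = 1 ∧ (2 : ℤ) ^ m = 2 ∨ m = 2 ∧ (2 : ℤ) ^ m = 4 ∨ m = 3 ∧ (2 : ℤ) ^ m = 8 ∨
    4 ≤ m ∧ 16 ≤ (2 : ℤ) ^ m := by
  rcases (by omega : m = 1 ∨ m = 2 ∨ m = 3 ∨ 4 ≤ m) with rfl | rfl | rfl | h
  · simp
  · simp
  · simp
  · exact .inr (.inr (.inr ⟨h, (pow_le_pow_right₀ (a := (2 : ℤ)) one_le_two h :)⟩))

theorem pos_row (hχ : χ ∈ B) (h0 : blockHeight 2 B χ.1 ≠ 0) : Ws m a (D χ.1) 1 = 0 ∧ Ws m a (D χ.1) (-1) = 0 ∨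
    Ws m a (D χ.1) 1 + Ws m a (D χ.1) (-1) = 2 * 2 ^ m - 4 ∧ blockHeight 2 B χ.1 = 1 ∧ 2 ≤ m ∧
      (Ws m a (D χ.1) 1 = 0 ∨ Ws m a (D χ.1) (-1) = 0) := by
  obtain ⟨s, t, -, -, -, h1, h2⟩ := row T hj N hχ
  have h3 := W_cases T hj N (.inl rfl) (Int.not_odd_iff_even.1 fun h => h0 ((odd_iff T hj N).1 h).2)
  have h4 := W_cases T hj N (.inr rfl) (even_minus T.mc hj (gen_classFun (hg N χ)))
  have h5 := pow_cases hj
  have h6 : blockHeight 2 B χ.1 = 1 ∧ (2 : ℤ) ^ (blockHeight 2 B χ.1 + 1) = 4 ∨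
      8 ≤ (2 : ℤ) ^ (blockHeight 2 B χ.1 + 1) := by
    rcases (by omega : blockHeight 2 B χ.1 = 1 ∨ 3 ≤ blockHeight 2 B χ.1 + 1) with h | h
    · simp [h]
    · exact .inr (pow_le_pow_right₀ (a := (2 : ℤ)) one_le_two h :)
  replace h1 := h1 h0
  rw [if_neg h0] at h2
  omega

theorem zero_row (hχ : χ ∈ B) (h0 : blockHeight 2 B χ.1 = 0) :
    Ws m a (D χ.1) 1 = 2 ^ m - 1 ∧ Ws m a (D χ.1) (-1) = 0 ∨
    Ws m a (D χ.1) 1 + Ws m a (D χ.1) (-1) = 2 * 2 ^ m - 1 ∧ Yf e a y = ∅ ∧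
      Nat.card P * cw 2 e χ.1 χ.1 (1 : P) = 1 ∧ 2 ≤ m ∧ Ws m a (D χ.1) 1 ≠ 0 ∧ (m = 2 → Ws m a (D χ.1) (-1) ≠ 0) := by
  obtain ⟨s, t, h1, h6, h7, -, h2⟩ := row T hj N hχ
  have h4 := W_cases T hj N (.inr rfl) (even_minus T.mc hj (gen_classFun (hg N χ)))
  have h5 := pow_cases hj
  have h8 : (0 : ℤ) ≤ 2 ^ m * (Yf e a y).card := by positivity
  have h9 : ((Js m a 1).card : ℤ) = 2 ^ m := by exact_mod_cast T.mc.card_Js.1
  rw [if_pos h0, mul_one] at h2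
  unfold Ws at *
  have h3 := W_odd (n := j) (hj ▸ T.mc.card_Js.1) ((odd_iff T hj N).2 ⟨hχ, h0⟩) (by omega)
  rw [h1, ← Finset.card_eq_zero, Int.cast_eq_one, ← Int.natCast_eq_zero, ← mul_eq_zero_iff_left
    (a := (2 : ℤ) ^ m) (b := (Yf e a y).card) (by positivity)]
  omega

theorem trace : ∑ χ with χ ∈ B, (Ws m a (D χ.1) 1 + Ws m a (D χ.1) (-1)) = 2 * 2 ^ m * (2 ^ m - 1) := by
  have := T.trace_Gd N (hG T hj N)
  simp only [T.mc.norm_Gd (hg N _), ← Finset.mul_sum] at this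
  exact Int.cast_injective (α := ℂ) (by push_cast at this ⊢; linear_combination this / 2)

omit T hj N in
theorem z_mul {K : Type*} [Group K] [Fintype K] {a y v : K} (h : Mc m ε δ a y) (hv : v ∈ Gd a) :
    zz m a * v ∈ Gd a := mem_Gd.2 ⟨mul_mem (zz m a).2 (mem_Gd.1 hv).1, by
  rw [(show Commute _ _ from (h.z_comm _).symm).mul_pow, coe_zz, h.z_sq, one_mul]; exact (mem_Gd.1 hv).2⟩

theorem orth_pm (hv : v ∈ Gd a) (hw : w ∈ Gd a) :
    ∑ χ with χ ∈ B, pt m a 1 (co a (D χ.1)) v * conj (pt m a (-1) (co a (D χ.1)) w) = 0 := by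
  classical
  have h1 := fun v w hv hw => N.orth (hG T hj N v hv) (hG T hj N w hw)
  have h2 : ∀ v w : P, IsConj (zz m a * v) (zz m a * w) ↔ IsConj v w := fun v w => by
    simp only [isConj_iff, ← mul_assoc, T.mc.z_comm]
    simp only [mul_assoc (zz m a : P), mul_right_inj]
  have h3 := h2 v (zz m a * w)
  rw [← mul_assoc, show (zz m a : P) * zz m a = 1 from congrArg Subtype.val T.mc.zz_sq, one_mul] at h3
  have h4 := h1 v w hv hw
  have h5 := h1 v _ hv (z_mul T.mc hw)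
  have h6 := h1 _ w (z_mul T.mc hv) hw
  have h7 := h1 _ _ (z_mul T.mc hv) (z_mul T.mc hw)
  rw [T.mc.cl_Gd hv] at h4 h5
  rw [T.mc.cl_Gd (z_mul T.mc hv)] at h6 h7
  rw [if_congr h3 rfl rfl, ← h5] at h6
  rw [if_congr (h2 v w) rfl rfl, ← h4] at h7
  simp only [fun χ => (T.mc.eq_add (hg N χ) (mem_Gd.1 hv).1).1, fun χ => (T.mc.eq_add (hg N χ) (mem_Gd.1 hv).1).2,
    fun χ => (T.mc.eq_add (hg N χ) (mem_Gd.1 hw).1).1, fun χ => (T.mc.eq_add (hg N χ) (mem_Gd.1 hw).1).2,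
    map_add, map_sub, add_mul, sub_mul, mul_add, mul_sub, Finset.sum_add_distrib, Finset.sum_sub_distrib] at h6 h7
  push_cast at h6 h7
  linear_combination h6 / 8 - h7 / 8

theorem D_zero (h1 : Ws m a (D χ.1) 1 = 0) (h2 : Ws m a (D χ.1) (-1) = 0) (hv : v ∈ Gd a) : D χ.1 v = 0 := by
  rw [(T.mc.eq_add (hg N χ) (mem_Gd.1 hv).1).1, (T.mc.pt_eq_zero_iff (.inl rfl)).1 h1 v hv,
    (T.mc.pt_eq_zero_iff (.inr rfl)).1 h2 v hv, add_zero]

theorem zero_ht (E : Eta m j a η n) (hχ : χ ∈ B) (h0 : blockHeight 2 B χ.1 = 0) (hψ : ψ ∈ B)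
    (h1 : blockHeight 2 B ψ.1 ≠ 0) (h2 : Ws m a (D ψ.1) 1 = 0) (h3 : Ws m a (D ψ.1) (-1) = 0) :
    blockHeight 2 B ψ.1 = m ∧ classInner (st 2 e η χ.1) ψ.1 ≠ 0 := by
  obtain ⟨s, n1, n2, -, n3⟩ := T.major (v := 1) (one_mem _) (one_pow _)
  have h4 : ∀ v, cw 2 e ψ.1 χ.1 v = 0 → cw 2 e χ.1 ψ.1 v = 0 := fun v h => by rw [← T.conj_cw, h, map_zero]
  have h5 : ∀ v ∈ Gd a, cw 2 e χ.1 ψ.1 v = 0 := fun v hv =>
    h4 v (N.cw_eq_zero' (hG T hj N v hv) (D_zero T hj N h2 h3 hv) _)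
  have h6 : ∀ v ∈ Yf e a y, cw 2 e χ.1 ψ.1 v = 0 := fun v hv =>
    h4 v (T.cw_eq_zero (by simpa [h1] using T.cw_Y N ha hv hψ) _)
  have h7 := T.inner_eq T.cover (inSpan_irr hχ) (irr_classFun ψ.2)
  have h8 := T.inner_st T.cover (stb T hj N E) (irr_classFun χ.2) (irr_classFun ψ.2)
  obtain ⟨x, hx⟩ := inner_gen_gen (st_gen T.hM T.mx (stb T hj N E) E.gen (gen_of_irr χ.2)) (gen_of_irr ψ.2)
  rw [inner_irr_of_ne χ.2 ψ.2 fun h => h1 (h ▸ h0), T.sum_X N (hG T hj N), Finset.sum_eq_zero h5,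
    Finset.sum_eq_zero h6] at h7
  rw [T.sum_X N (hG T hj N) fun v => η v * cw 2 e χ.1 ψ.1 v, Finset.sum_eq_zero fun v hv => by rw [h5 v hv, mul_zero],
    Finset.sum_eq_zero fun v hv => by rw [h6 v hv, mul_zero], E.one, E.z, hx] at h8
  have h9 : s ψ χ = 2 ^ m * x := Int.cast_injective (α := ℂ) (by
    rw [n2, ← n1, T.card_P]
    push_cast
    linear_combination -2 * 2 ^ m * h7 - 2 ^ m * h8)
  have h10 : ¬ _ := fun h => (n3 ψ hψ χ).2.1 h ⟨hχ, h0⟩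
  have h11 := CA.H11Contrib.height_add_two_le T.hM T.hB hψ (Nat.pos_of_ne_zero h1)
  rw [T.defect] at h11
  refine ⟨not_not.1 fun h => h10 (h9 ▸ (pow_dvd_pow _ (by omega)).mul_right _), fun h => h10 ?_⟩
  rw [h9, show x = 0 by exact_mod_cast hx.symm.trans h, mul_zero]
  exact dvd_zero _

variable (B D m a) in
/-- The characters of positive height with a nonzero row. -/
noncomputable def B1 : Finset (IrrCharacter G) := Finset.univ.filter fun χ => χ ∈ B ∧ blockHeight 2 B χ.1 ≠ 0 ∧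
  ¬ (Ws m a (D χ.1) 1 = 0 ∧ Ws m a (D χ.1) (-1) = 0)

variable (B D m a) in
/-- The characters of positive height with a zero row. -/
noncomputable def Zr : Finset (IrrCharacter G) := Finset.univ.filter fun χ => χ ∈ B ∧ blockHeight 2 B χ.1 ≠ 0 ∧
  Ws m a (D χ.1) 1 = 0 ∧ Ws m a (D χ.1) (-1) = 0

variable (B) in
/-- The characters of height zero. -/
noncomputable abbrev B0 : Finset (IrrCharacter G) := Finset.univ.filter fun χ => χ ∈ B ∧ blockHeight 2 B χ.1 = 0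

omit T hj N in
theorem sum_B {R : Type*} [AddCommMonoid R] (f : IrrCharacter G → R) : ∑ χ with χ ∈ B, f χ =
    ∑ χ ∈ B0 B, f χ + ∑ χ ∈ B1 B m a D, f χ + ∑ χ ∈ Zr B m a D, f χ := by
  rw [← Finset.sum_filter_add_sum_filter_not _ fun χ => blockHeight 2 B χ.1 = 0, add_assoc,
    ← Finset.sum_filter_add_sum_filter_not (Finset.filter (fun χ : IrrCharacter G => ¬ blockHeight 2 B χ.1 = 0) _)
      fun χ => ¬ (Ws m a (D χ.1) 1 = 0 ∧ Ws m a (D χ.1) (-1) = 0)]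
  simp only [Finset.filter_filter, not_not, and_assoc]
  rfl

theorem card_B0 : (B0 B).card = 4 := let ⟨_, _, _, _, h, _⟩ := T.exists_beta N ha; h

theorem card_eq : Nat.card B = 4 + (B1 B m a D).card + (Zr B m a D).card := by
  rw [CA.H11Contrib.card_set_eq, Finset.card_eq_sum_ones, sum_B (m := m) (a := a) (D := D), ← card_B0 T hj N]
  simp

theorem count : (((B0 B).filter fun χ => Ws m a (D χ.1) 1 + Ws m a (D χ.1) (-1) ≠ 2 ^ m - 1).card * 2 ^ m +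
    2 * (B1 B m a D).card * (2 ^ m - 2) : ℤ) = 2 * (2 ^ m - 1) * (2 ^ m - 2) := by
  have h := trace T hj N
  rw [sum_B (m := m) (a := a) (D := D), Finset.sum_eq_zero (s := Zr B m a D) fun χ hχ => by
      rw [(Finset.mem_filter.1 hχ).2.2.2.1, (Finset.mem_filter.1 hχ).2.2.2.2, add_zero],
    Finset.sum_congr (s₁ := B1 B m a D) rfl fun χ hχ => ((pos_row T hj N (Finset.mem_filter.1 hχ).2.1
      (Finset.mem_filter.1 hχ).2.2.1).resolve_left (Finset.mem_filter.1 hχ).2.2.2).1,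
    Finset.sum_congr (s₁ := B0 B) rfl (g := fun χ => 2 ^ m - 1 +
      if Ws m a (D χ.1) 1 + Ws m a (D χ.1) (-1) ≠ 2 ^ m - 1 then 2 ^ m else 0) fun χ hχ => by
        have := zero_row T hj N (Finset.mem_filter.1 hχ).2.1 (Finset.mem_filter.1 hχ).2.2
        split_ifs <;> omega, Finset.sum_add_distrib, ← Finset.sum_filter] at h
  simp only [Finset.sum_const, nsmul_eq_mul, card_B0 T hj N] at h
  push_cast at h
  linear_combination h

theorem no_fake (E : Eta m j a η n) (hk : Yf e a y = ∅ → 2 ^ m + 2 ≤ Nat.card B) (hχ : χ ∈ B)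
    (h0 : blockHeight 2 B χ.1 = 0) : Ws m a (D χ.1) 1 = 2 ^ m - 1 ∧ Ws m a (D χ.1) (-1) = 0 := by
  classical
  refine (zero_row T hj N hχ h0).resolve_right fun ⟨h1, h2, h3, h4, h5, h6⟩ => ?_
  have h7 := count T hj N
  have h8 := card_eq T hj N
  have h9 := pow_cases hj
  have h10 := hk h2
  obtain ⟨s, n1, n2, -, n3⟩ := T.major (v := 1) (one_mem _) (one_pow _)
  have h11 : ∑ ψ with ψ ∈ B, s ψ χ ^ 2 = 4 * 2 ^ m := Int.cast_injective (α := ℂ) (by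
    rw [Int.cast_sum, Finset.sum_congr rfl (g := fun ψ => Nat.card P ^ 2 * (cw 2 e χ.1 ψ.1 (1 : P) *
      cw 2 e ψ.1 χ.1 (1 : P))) fun ψ _ => by
        rw [sq, Int.cast_mul]; nth_rw 1 [n2]; rw [← n1, ← n1]; ring, ← Finset.mul_sum,
      T.sum_cw_mul, sq, mul_assoc, h3, T.card_P]
    simp)
  have h12 : ∀ ψ ∈ B, ((2 : ℤ) ^ blockHeight 2 B ψ.1) ^ 2 ≤ s ψ χ ^ 2 := fun ψ hψ =>
    Int.le_of_dvd (sq_pos_of_ne_zero fun h => (n3 ψ hψ χ).2.1 (by rw [h]; exact dvd_zero _) ⟨hχ, h0⟩)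
      (pow_dvd_pow_of_dvd (n3 ψ hψ χ).1 2)
  have h13 := Finset.sum_le_sum (s := Finset.univ.filter (· ∈ B)) fun ψ hψ => h12 ψ (Finset.mem_filter.1 hψ).2
  rw [h11, sum_B (m := m) (a := a) (D := D), Finset.sum_congr (s₁ := B0 B) rfl fun ψ hψ => by
      rw [(Finset.mem_filter.1 hψ).2.2], Finset.sum_congr (s₁ := B1 B m a D) rfl fun ψ hψ => by
      rw [((pos_row T hj N (Finset.mem_filter.1 hψ).2.1 (Finset.mem_filter.1 hψ).2.2.1).resolve_left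
        (Finset.mem_filter.1 hψ).2.2.2).2.1], Finset.sum_congr (s₁ := Zr B m a D) rfl fun ψ hψ => by
      obtain ⟨-, a1, a2, a3, a4⟩ := Finset.mem_filter.1 hψ
      rw [(zero_ht T hj N E hχ h0 a1 a2 a3 a4).1]] at h13
  simp only [Finset.sum_const, nsmul_eq_mul, card_B0 T hj N] at h13
  set F := (B0 B).filter fun χ => Ws m a (D χ.1) 1 + Ws m a (D χ.1) (-1) ≠ 2 ^ m - 1
  have h14 : χ ∈ F := by simp only [F, Finset.mem_filter]; exact ⟨⟨Finset.mem_univ _, hχ, h0⟩, by omega⟩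
  have h15 := Finset.card_pos.2 ⟨χ, h14⟩
  have h16 : F.card ≤ 4 := card_B0 T hj N ▸ Finset.card_filter_le _ _
  have h17 : (2 ^ m - 2 : ℤ) ∣ 2 * F.card :=
    ⟨2 * (2 ^ m - 1) - 2 * (B1 B m a D).card - F.card, by linear_combination h7⟩
  have h18 := Int.le_of_dvd (by omega) h17
  obtain ⟨rfl, h19⟩ : m = 2 ∧ F.card = 1 := by
    rcases h9 with ⟨rfl, -⟩ | ⟨rfl, -⟩ | ⟨rfl, -⟩ | h9 <;> omega
  obtain ⟨v, hv⟩ := not_forall.1 (mt (T.mc.pt_eq_zero_iff (.inl rfl)).2 h5)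
  obtain ⟨w, hw⟩ := not_forall.1 (mt (T.mc.pt_eq_zero_iff (.inr rfl)).2 (h6 rfl))
  push Not at hv hw
  have h20 := orth_pm T hj N hv.1 hw.1
  rw [Finset.sum_eq_single_of_mem χ (by simpa) fun ψ hψ hne => ?_] at h20
  · simp [hv.2, hw.2] at h20
  replace hψ := (Finset.mem_filter.1 hψ).2
  have h21 : Ws 2 a (D ψ.1) 1 = 0 ∨ Ws 2 a (D ψ.1) (-1) = 0 := by
    by_cases h : blockHeight 2 B ψ.1 = 0
    · refine .inr ((zero_row T hj N hψ h).resolve_right fun h' => hne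
        (Finset.card_le_one.1 h19.le _ ?_ _ h14)).2
      simp only [F, Finset.mem_filter]
      exact ⟨⟨Finset.mem_univ _, hψ, h⟩, by omega⟩
    · exact (pos_row T hj N hψ h).elim (.inl ·.1) (·.2.2.2)
  rcases h21 with h | h
  · rw [(T.mc.pt_eq_zero_iff (.inl rfl)).1 h v hv.1, zero_mul]
  · rw [(T.mc.pt_eq_zero_iff (.inr rfl)).1 h w hw.1, map_zero, mul_zero]

theorem norm_le (E : Eta m j a η n) (hχ : χ ∈ B) (h0 : blockHeight 2 B χ.1 = 0)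
    (h1 : ∀ v ∈ Gd a, D χ.1 v * conj (D χ.1 v) = 1) :
    (classInner (st 2 e η χ.1) (st 2 e η χ.1)).re ≤ 2 + n := by
  have h2 := T.inner_st_st T.cover (stb T hj N E) (stb T hj N E) (irr_classFun χ.2) (irr_classFun χ.2)
  have h3 := T.inner_eq T.cover (inSpan_irr hχ) (irr_classFun χ.2)
  have h4 := T.sum_Gd N (hG T hj N) χ.1 χ.1 fun v => η v * conj (η v)
  have h5 := T.sum_Gd N (hG T hj N) χ.1 χ.1 1
  have h6 := T.mc.sum_A fun v => η v * conj (η v)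
  have h7 := card_mul_inner (fun x : zpowers a => η x) fun x => η x
  have h8 : ∀ t ∈ Yf e a y, cw 2 e χ.1 χ.1 t = 1 / 4 := fun t ht => by
    linear_combination (T.cw_Y N ha ht hχ).trans (if_pos h0) / 4
  rw [T.sum_X N (hG T hj N) fun v => η v * conj (η v) * cw 2 e χ.1 χ.1 v] at h2
  rw [T.sum_X N (hG T hj N), CChar.CharFun.inner_irr_self χ.2, Finset.sum_congr rfl h8] at h3
  replace h4 := h4.trans (Finset.sum_congr rfl fun v hv => by rw [h1 v hv])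
  replace h5 := h5.trans (Finset.sum_congr rfl fun v hv => by rw [h1 v hv])
  rw [E.nrm, h6, T.mc.card_A] at h7
  simp only [E.one, E.z, map_neg, map_ofNat, Pi.one_apply, one_mul, mul_one, Finset.sum_const, nsmul_eq_mul, T.mc.card_Gd,
    T.card_P] at h2 h3 h4 h5 h7
  have h9 : classInner (st 2 e η χ.1) (st 2 e η χ.1) = 2 + n +
      ∑ t ∈ Yf e a y, (η t * conj (η t) * cw 2 e χ.1 χ.1 t - 1) := by
    refine mul_left_cancel₀ (a := 4 * 2 ^ m) (by simp) ?_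
    push_cast at h7
    simp only [Finset.sum_sub_distrib, Finset.sum_const, nsmul_eq_mul]
    linear_combination 4 * 2 ^ m * h2 - 16 * 2 ^ m * h3 + h4 - 4 * h5 - h7
  rw [h9, Complex.add_re, Complex.re_sum]
  refine add_le_of_le_of_nonpos (by simp) (Finset.sum_nonpos fun t ht => ?_)
  have := E.out t (not_mem_of_fc ht (FC.refl t.2))
  by_cases h : t ^ 2 = 1
  · rw [h8 t ht, this.1 h]; norm_num
  · rw [this.2 h]; norm_num

theorem main (E : Eta m j a η n) (hk : Yf e a y = ∅ → 2 ^ m + 2 ≤ Nat.card B) : ∃ r : ℕ,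
    (∀ χ ∈ B, blockHeight 2 B χ.1 = 0 ∨ blockHeight 2 B χ.1 = 1 ∨ blockHeight 2 B χ.1 = m) ∧
    (m = 1 → Nat.card B = 4 + r ∧ r ≤ 2 + n) ∧ (2 ≤ m → Nat.card B = 2 ^ m + 3 + r ∧
      (Finset.univ.filter fun χ => χ ∈ B ∧ blockHeight 2 B χ.1 = 1).card + 1 = 2 ^ m ∧ r ≤ 1 + n ∧
      ∀ b : zpowers a →* ℂˣ, b ≠ 1 → b.comp T.mc.tau = b → (∀ μ : zpowers a →* ℂˣ, μ = 1 ∨ μ = b →
        classInner (fun x : zpowers a => η x * hc μ x) (hc 1 - hc b) ^ 2 = 4) → r + 1 ≤ n) := by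
  classical
  obtain ⟨χ, hχ, h0⟩ := exists_height_zero (p := 2) (block_nonempty T.hM T.hB)
  obtain ⟨μ, d, h1, h2, h3⟩ := exists_mu T.mc hj (hg N χ) (no_fake T hj N E hk hχ h0).1 (no_fake T hj N E hk hχ h0).2
  have h4 := norm_le T hj N E hχ h0 fun v hv => by
    rw [h3 ⟨v, (mem_Gd.1 hv).1⟩ hv, map_mul, map_intCast, mul_mul_mul_comm, ← sq, ← Int.cast_pow, h2, hc_apply,
      Complex.mul_conj, Complex.normSq_eq_norm_sq, Complex.norm_eq_one_of_pow_eq_one (n := orderOf (⟨v,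
        (mem_Gd.1 hv).1⟩ : zpowers a)) (by rw [← Units.val_pow_eq_pow_val, ← map_pow, pow_orderOf_eq_one]; simp)
        (orderOf_pos _).ne']
    simp
  have h5 := st_gen T.hM T.mx (stb T hj N E) E.gen (gen_of_irr χ.2)
  have h6 := inSpan_st T.hM T.hB T.mx (η := η) (irr_classFun χ.2)
  obtain ⟨x, hx, -⟩ := gen_exists_int_coeffs h5
  have h7 : ∑ ψ ∈ B0 B, x ψ ^ 2 + ∑ ψ ∈ B1 B m a D, x ψ ^ 2 + (Zr B m a D).card ≤ 2 + n := by
    rw [inner_self_eq_sum_sq (gen_classFun h5) hx, Complex.intCast_re] at h4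
    have h7 := Finset.sum_le_sum_of_subset_of_nonneg (f := fun ψ => x ψ ^ 2) (Finset.filter_subset (· ∈ B) Finset.univ)
      fun _ _ _ => sq_nonneg _
    have h8 := Finset.card_nsmul_le_sum (Zr B m a D) (fun ψ => x ψ ^ 2) 1 fun ψ hψ => by
      obtain ⟨-, a1, a2, a3, a4⟩ := Finset.mem_filter.1 hψ
      exact sq_pos_of_ne_zero fun h => (zero_ht T hj N E hχ h0 a1 a2 a3 a4).2 (by rw [hx]; exact_mod_cast h)
    rw [sum_B (m := m) (a := a) (D := D)] at h7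
    norm_cast at h4
    simp only [nsmul_eq_mul, mul_one] at h8
    omega
  have h8 : ∀ v ∈ Gd a, η v * D χ.1 v = ∑ ψ with ψ ∈ B, x ψ * D ψ.1 v := fun v hv => by
    simp only [← N.D_st (hG T hj N v hv) (stb T hj N E) (irr_classFun χ.2), N.expand (hG T hj N v hv) h6, hx]
  have h9 := count T hj N
  have h10 := card_eq T hj N
  have h11 := Finset.sum_nonneg (s := B0 B) fun ψ _ => sq_nonneg (x ψ)
  have h12 := Finset.sum_nonneg (s := B1 B m a D) fun ψ _ => sq_nonneg (x ψ)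
  have h13 : ∀ ψ ∈ B1 B m a D, blockHeight 2 B ψ.1 = 1 ∧ 2 ≤ m := fun ψ hψ => by
    obtain ⟨-, a1, a2, a3⟩ := Finset.mem_filter.1 hψ
    exact ⟨((pos_row T hj N a1 a2).resolve_left a3).2.1, ((pos_row T hj N a1 a2).resolve_left a3).2.2.1⟩
  have h14 : ∀ ψ ∈ B, ψ ∉ B1 B m a D → blockHeight 2 B ψ.1 = 0 ∨ blockHeight 2 B ψ.1 = m := fun ψ hψ h =>
    or_iff_not_imp_left.2 fun h' => by
      obtain ⟨a1, a2⟩ : _ ∧ _ := not_not.1 fun h'' => h (Finset.mem_filter.2 ⟨Finset.mem_univ _, hψ, h', h''⟩)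
      exact (zero_ht T hj N E hχ h0 hψ h' a1 a2).1
  refine ⟨(Zr B m a D).card, fun ψ hψ => ?_, fun hm => ?_, fun hm => ?_⟩
  · by_cases h : ψ ∈ B1 B m a D
    · exact .inr (.inl (h13 ψ h).1)
    · exact (h14 ψ hψ h).imp_right .inr
  · rw [Finset.eq_empty_of_forall_notMem (s := B1 B m a D) fun ψ h => by have := h13 ψ h; omega] at h10
    exact ⟨h10, by omega⟩
  have h15 : (B1 B m a D).card + 1 = 2 ^ m := by
    rw [Finset.filter_false_of_mem fun ψ hψ => by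
      obtain ⟨-, a1, a2⟩ := Finset.mem_filter.1 hψ
      have := no_fake T hj N E hk a1 a2
      omega, Finset.card_empty] at h9
    have := pow_cases hj
    zify
    exact mul_right_cancel₀ (b := 2 * (2 ^ m - 2)) (by omega) (by push_cast at h9; linear_combination h9)
  have h16 : a ∈ Gd a := mem_Gd.2 ⟨mem_zpowers a, fun h => by
    have := Nat.le_of_dvd two_pos (T.mc.ord ▸ orderOf_dvd_of_pow_eq_one h)
    rw [pow_succ] at this
    have := Nat.one_lt_two_pow (n := m) (by omega)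
    omega⟩
  have h17 : 1 ≤ ∑ ψ ∈ B1 B m a D, x ψ ^ 2 := by
    by_contra h
    have h17 : ∀ ψ ∈ B, x ψ * D ψ.1 a = x ψ * D ψ.1 (zz m a * a) := fun ψ hψ => by
      by_cases h' : ψ ∈ B1 B m a D
      · simp [pow_eq_zero_iff two_ne_zero |>.1 ((Finset.sum_eq_zero_iff_of_nonneg fun ψ _ => sq_nonneg (x ψ)).1
          (by omega) ψ h')]
      · have : Ws m a (D ψ.1) (-1) = 0 := by
          by_cases h'' : blockHeight 2 B ψ.1 = 0
          · exact (no_fake T hj N E hk hψ h'').2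
          · exact (not_not.1 fun h3 => h' (Finset.mem_filter.2 ⟨Finset.mem_univ _, hψ, h'', h3⟩) : _ ∧ _).2
        rw [(T.mc.eq_add (hg N ψ) (mem_zpowers a)).1, (T.mc.eq_add (hg N ψ) (mem_zpowers a)).2,
          (T.mc.pt_eq_zero_iff (.inr rfl)).1 this a h16, add_zero, sub_zero]
    have h18 := Finset.sum_congr (s₁ := Finset.univ.filter (· ∈ B)) rfl fun ψ hψ => h17 ψ (Finset.mem_filter.1 hψ).2
    rw [← h8 a h16, ← h8 _ (z_mul T.mc h16), (T.mc.eq_add (hg N χ) (mem_zpowers a)).2,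
      (T.mc.pt_eq_zero_iff (.inr rfl)).1 (no_fake T hj N E hk hχ h0).2 a h16, sub_zero, ← add_zero (pt _ _ _ _ _),
      ← (T.mc.pt_eq_zero_iff (.inr rfl)).1 (no_fake T hj N E hk hχ h0).2 a h16,
      ← (T.mc.eq_add (hg N χ) (mem_zpowers a)).1] at h18
    exact E.ne hm (mul_right_cancel₀ (N.ne_zero ha hχ h0) h18)
  refine ⟨by omega, ?_, by omega, fun b hb1 hb2 hb3 => ?_⟩
  · rw [← h15]
    refine congrArg (Finset.card · + 1) (Finset.ext fun ψ => ⟨fun h => not_not.1 fun h' => ?_, fun h => ?_⟩)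
    · obtain ⟨-, a1, a2⟩ := Finset.mem_filter.1 h
      have := h14 ψ a1 h'
      omega
    · exact Finset.mem_filter.2 ⟨Finset.mem_univ _, (Finset.mem_filter.1 h).2.1, (h13 ψ h).1⟩
  obtain ⟨b', -, b2, b3, -, b4⟩ := T.exists_beta N ha
  obtain rfl := ((b2 b).1 hb2).resolve_left hb1
  have h18 : classInner (fun v : zpowers a => η v * hc μ v) (hc 1 - hc b) * d =
      (∑ ψ with ψ ∈ B, x ψ * (co a (D ψ.1) 1 - co a (D ψ.1) b) : ℤ) := by
    simp only [Int.cast_sum, Int.cast_mul, Int.cast_sub, ← co_eq (hg N _), ← CChar.CharFun.inner_sub_right]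
    simp only [CChar.CharFun.inner_def, Finset.mul_sum, Finset.sum_mul]
    rw [Finset.sum_comm]
    refine Finset.sum_congr rfl fun ⟨_, i, rfl⟩ _ => ?_
    by_cases hi : Even i
    · simp [b3 i ⟨_, i, rfl⟩ rfl, hi, hc_one]
    · have : a ^ i ∈ Gd a := mem_Gd.2 ⟨zpow_mem_zpowers _ _, fun h => hi (by
        rw [← zpow_natCast, ← zpow_mul, T.mc.zpow_one, ← hj, pow_succ, pow_succ] at h
        exact even_iff_two_dvd.2 (Dvd.dvd.trans (dvd_mul_left _ _) ((mul_dvd_mul_iff_right two_ne_zero).1 h)))⟩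
      have h18 := h8 _ this
      rw [h3 ⟨_, zpow_mem_zpowers _ _⟩ this] at h18
      simp only [mul_left_comm _ (Nat.card (zpowers a) : ℂ)⁻¹, ← mul_assoc (x _ : ℂ), ← Finset.mul_sum,
        ← Finset.sum_mul, ← h18]
      ring
  have h19 : (∑ ψ ∈ B0 B, x ψ * (co a (D ψ.1) 1 - co a (D ψ.1) b)) ^ 2 = 4 := Int.cast_injective (α := ℂ) (by
    rw [B0, ← Finset.filter_filter, Finset.sum_filter_of_ne fun ψ hψ h => not_not.1 fun h' => right_ne_zero_of_mul h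
      (by simpa [h'] using b4 ψ (Finset.mem_filter.1 hψ).2), Int.cast_pow, ← h18, mul_pow, hb3 μ ((b2 μ).1 h1),
      ← Int.cast_pow, h2]
    simp)
  have h20 := Finset.sum_mul_sq_le_sq_mul_sq (B0 B) x fun ψ => co a (D ψ.1) 1 - co a (D ψ.1) b
  have h21 : Even (∑ ψ ∈ B0 B, (x ψ ^ 2 - x ψ * (co a (D ψ.1) 1 - co a (D ψ.1) b))) := Finset.even_sum _ fun ψ hψ => by
    obtain ⟨-, a1, a2⟩ := Finset.mem_filter.1 hψ
    rcases sq_eq_one_iff.1 ((b4 ψ a1).trans (if_pos a2)) with h | h <;> rw [h] <;> simp [sq, parity_simps]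
  rw [Finset.sum_sub_distrib, Int.even_sub, ← Int.even_pow' (n := 2) two_ne_zero (m := ∑ _ ∈ _, _ * _), h19] at h21
  rw [h19] at h20
  obtain ⟨c, hc⟩ := h21.2 ⟨2, rfl⟩
  have h22 : ∑ ψ ∈ B0 B, x ψ ^ 2 ≠ 0 := fun h => by simp [h] at h20
  omega

end CA.H11TmR
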