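import Cfsg.Agent.Lib.Block.H11TmR

/-!
Tame 2-blocks: the numbers of characters.
-/

set_option autoImplicit false
set_option linter.unusedSectionVars false

namespace CA.H11TmS

open Cfsg MonoidAlgebra CA.BlkVal CA.H11Amb CA.H11Eta CA.H11Cw CA.H11Nb CA.H11Row CA.H11Tm CA.H11Max CA.MC2
  CA.H11TmQ CA.H11TmR CA.H11Pair Subgroup
open CA.BlkCore hiding lam lam_mul lam_one
open scoped commutatorElement

variable {M : Ideal AlgInt} {G : Type*} [Group G] [Fintype G] {P : Subgroup G} [Fintype P]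
  {e : (k M)[G]} {B : Set (IrrCharacter G)} {m j : ℕ} {ε δ : ℤ} {a y : P}

theorem loc (T : Tm e B m ε δ a y) (hj : j + 1 = m) : ∃ Y : Finset P, rk 2 e (zz m a : P) + Y.card = 3 ∧
    (∀ t ∈ Y, t = y ∨ t = a * y) ∧ (y ^ 2 ≠ 1 → (y ∈ Y ↔ y ∈ Yf e a y)) ∧ (y ^ 2 = 1 → y ∈ Y) ∧
      ((a * y) ^ 2 ≠ 1 → (a * y ∈ Y ↔ a * y ∈ Yf e a y)) := by
  classical
  have h1 : centralizer {((zz m a : P) : G)} = St ⊤ (zpowers ((zz m a : P) : G)) (lb 2 P e (zz m a : P)) := by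
    refine le_antisymm (.trans (by simp [CC_zpowers]) ((T.sub _).pr T.mx.pr).C_le_St) fun g hg => ?_
    obtain ⟨i, hi⟩ := (mem_normalizer_iff.1 (St_le_NN hg) _).1 (mem_zpowers _)
    refine mem_centralizer_singleton_iff.2 (mul_inv_eq_iff_eq_mul.1 ?_)
    rcases T.mcG.z_zpow i with h | h <;> rw [zpow_mul] at h
    · exact (T.mcG.z_ne (conj_eq_one_iff.1 (hi.symm.trans h))).elim
    · exact hi.symm.trans h
  obtain ⟨c, e', S, -⟩ := exists_lo T.toBk (T.sub _) h1 (T.supG.ge.trans (T.mcG.le_normalizer_pow (2 ^ m)))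
  have := Fintype.ofFinite (centralizer {((zz m a : P) : G)})
  have := Fintype.ofFinite (P.subgroupOf (centralizer {((zz m a : P) : G)}))
  have T' : Tm e' c m ε δ (S.io a) (S.io y) := ⟨S.bk, T.mc.toMC.map S.io.toMonoidHom S.io.injective, by
    rw [← S.io.coe_toMonoidHom, ← MonoidHom.map_zpowers, ← MonoidHom.map_zpowers, ← Subgroup.map_sup, T.mc.top,
      map_top_of_surjective _ S.io.surjective]⟩
  have h2 : ((zz m (S.io a) : P.subgroupOf (centralizer {((zz m a : P) : G)})) :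
      centralizer {((zz m a : P) : G)}) ∈ center (centralizer {((zz m a : P) : G)}) :=
    mem_center_iff.2 fun g => Subtype.ext (mem_centralizer_singleton_iff.1 g.2)
  have h3 := CA.H11TmZ.central T' hj h2
  have h4 : ∀ v : P, v ^ 2 ≠ 1 → zpowers ((zz m a : P) : G) ≤ zpowers (v : G) := fun v h =>
    zpowers_le.2 (mem_coe.2 (T.mc.z_mem h))
  have h5 : ∀ v w : P, w ^ 2 ≠ 1 ∨ v ^ 2 ≠ 1 → (FC 2 _ e' (S.io v : _) (S.io w : _) ↔ FC 2 P e v w) := fun v w h => by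
    by_cases h' : v ^ 2 ≠ 1 ∧ w ^ 2 ≠ 1
    · exact S.fc_iff T.toBk (h4 v h'.1) (h4 w h'.2)
    · refine iff_of_false (fun h5 => ?_) fun h5 => ?_ <;> have := sq_iff h5
      · simp only [← map_pow, map_eq_one_iff _ S.io.injective] at this
        tauto
      · tauto
  have h6 : ∀ t : P, t ^ 2 ≠ 1 → ((∀ v ∈ zpowers (S.io a), ¬ FC 2 (P.subgroupOf
      (centralizer {((zz m a : P) : G)})) e' (S.io t : _) (v : _)) ↔
      ∀ v ∈ zpowers a, ¬ FC 2 P e t v) := fun t ht => by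
    simp only [mem_zpowers_iff, forall_exists_index, forall_apply_eq_imp_iff, ← map_zpow, h5 t _ (.inr ht)]
  have h7 : a * y ≠ y := fun h => T.mc.z_ne (by rw [show a = 1 by simpa using h, one_zpow])
  refine ⟨Finset.univ.filter fun t => S.io t ∈ Yf e' (S.io a) (S.io y), ?_, ?_, fun h => ?_, fun h => ?_, fun h => ?_⟩
  · rw [S.rk_top T.toBk rfl rfl, ← h3]
    exact congrArg _ (Finset.card_equiv S.io.toEquiv (by simp))
  · simp +contextual [mem_Yf, ← map_mul, or_imp]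
  · simp only [Finset.mem_filter, Finset.mem_univ, mem_Yf, true_or, true_and, h6 y h]
  · simp only [Finset.mem_filter, Finset.mem_univ, mem_Yf, true_or, true_and]
    intro v hv h8
    have h9 := T'.mc.eq_z hv ((sq_iff h8).1 (by rw [← map_pow, h, map_one])) fun e =>
      T'.mc.y_ne_one (orderOf_eq_one_iff.1 ((ord_eq h8).trans (orderOf_eq_one_iff.2 e)))
    obtain ⟨g, hg⟩ := isConj_iff.1 h8.isConj.symm
    rw [h9, ← coe_zz, mem_center_iff.1 h2, mul_inv_cancel_right] at hg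
    exact T'.mc.notMem (Subtype.ext hg ▸ (zz m (S.io a)).2)
  · simp only [Finset.mem_filter, Finset.mem_univ, mem_Yf, true_and, ← map_mul, h6 _ h, h5 _ _ (.inl h), h7,
      S.io.apply_eq_iff_eq]

variable [DecidablePred (· ∈ B)]

theorem quaternion (T : Tm e B m 0 1 a y) (hm : 1 ≤ m) : blockRank 2 B ≤ 3 ∧
    Nat.card B = blockRank 2 B + 2 ^ m + 2 ∧ (B0 B).card = 4 ∧
    (∀ χ ∈ B, blockHeight 2 B χ.1 = 0 ∨ blockHeight 2 B χ.1 = 1 ∨ blockHeight 2 B χ.1 = m) ∧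
    (2 ≤ m → (Finset.univ.filter fun χ => χ ∈ B ∧ blockHeight 2 B χ.1 = 1).card + 1 = 2 ^ m) := by
  have hj := Nat.sub_add_cancel hm
  obtain ⟨D, ω, N⟩ := T.exists_nb (.inr hj)
  have hq : ∀ t ∉ zpowers a, t ^ 2 ≠ 1 := fun t ht => by
    obtain ⟨i, rfl⟩ := T.mc.eq_of_notMem (T.mc.mem t) ht
    simp [(T.mc.shift i).sq_eq_one]
  obtain ⟨η, E⟩ := eta_Q T.mc hj hq
  obtain ⟨Y, h1, h2, h3, -, h4⟩ := loc T hj
  have h5 := T.card_B N (hG T hj N)
  obtain rfl : Y = Yf e a y := Finset.ext fun t => by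
    have h6 := h3 (hq y T.mc.notMem)
    have h7 := h4 (hq _ fun h => T.mc.notMem (by simpa using mul_mem (inv_mem (mem_zpowers a)) h))
    refine ⟨fun h => ?_, fun h => ?_⟩
    · rcases h2 t h with rfl | rfl
      exacts [h6.1 h, h7.1 h]
    · rcases (mem_Yf.1 h).1 with rfl | ⟨rfl, -⟩
      exacts [h6.2 h, h7.2 h]
  have h6 := T.rk_one ▸ T.rk_pos (1 : P)
  obtain ⟨r, h7, h8, h9⟩ := main T hj N E fun _ => by omega
  refine ⟨?_, by omega, card_B0 T hj N, h7, fun h => (h9 h).2.1⟩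
  rcases hm.eq_or_lt with rfl | h
  · have := h8 rfl; omega
  · have := h9 h; omega

theorem semidihedral (T : Tm e B m 1 0 a y) (hm : 2 ≤ m) : ∃ r ≤ 1, Nat.card B = 2 ^ m + 3 + r ∧
    (blockRank 2 B = 1 + r ∨ blockRank 2 B = 2 + r ∧ y ∉ Yf e a y) ∧ (B0 B).card = 4 ∧
    (∀ χ ∈ B, blockHeight 2 B χ.1 = 0 ∨ blockHeight 2 B χ.1 = 1 ∨ blockHeight 2 B χ.1 = m) ∧
    (Finset.univ.filter fun χ => χ ∈ B ∧ blockHeight 2 B χ.1 = 1).card + 1 = 2 ^ m := by
  classical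
  have hj := Nat.sub_add_cancel (one_le_two.trans hm)
  obtain ⟨D, ω, N⟩ := T.exists_nb (.inr hj)
  obtain ⟨b, b1, b2, b3⟩ := T.mc.exists_beta
  obtain ⟨η, E, h0⟩ := eta_S T.mc T.mc hj hm b1 ((b2 b).2 (.inr rfl)) b3
  obtain ⟨Y, h1, h2, -, h3, h4⟩ := loc T hj
  have h5 := T.card_B N (hG T hj N)
  replace h3 := h3 (T.mc.sq_eq_one.2 (by simp))
  replace h4 := h4 (by simpa using (T.mc.shift 1).sq_eq_one.not)
  obtain rfl : Y = insert y (Yf e a y) := Finset.ext fun t => by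
    rw [Finset.mem_insert]
    refine ⟨fun h => ?_, fun h => ?_⟩
    · rcases h2 t h with rfl | rfl
      exacts [.inl rfl, .inr (h4.1 h)]
    · rcases h with rfl | h
      · exact h3
      · rcases (mem_Yf.1 h).1 with rfl | ⟨rfl, -⟩
        exacts [h3, h4.2 h]
  have h6 := T.rk_one ▸ T.rk_pos (1 : P)
  obtain ⟨r, h7, -, h9⟩ := main T hj N E fun h => by
    rw [h] at h1 h5
    simp only [insert_empty_eq, Finset.card_singleton, Finset.card_empty] at h1 h5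
    omega
  obtain ⟨h8, h9, -, h10⟩ := h9 hm
  have h11 := h10 b b1 ((b2 b).2 (.inr rfl)) h0
  refine ⟨r, by omega, h8, ?_, card_B0 T hj N, h7, h9⟩
  by_cases h : y ∈ Yf e a y
  · rw [Finset.insert_eq_of_mem h] at h1; omega
  · rw [Finset.card_insert_of_notMem h] at h1; exact .inr ⟨by omega, h⟩

theorem conj_z (T : Tm e B m ε δ a y) {t : P} (h1 : t ^ 2 = 1) (h2 : t ∉ zpowers a)
    (h3 : ¬ ∀ v ∈ zpowers a, ¬ FC 2 P e t v) : IsConj ((a : G) ^ (2 ^ m : ℤ)) t := by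
  push Not at h3
  obtain ⟨v, hv, h3⟩ := h3
  rw [T.mc.eq_z hv ((sq_iff h3).1 h1) fun e => h2 (orderOf_eq_one_iff.1 ((ord_eq h3).trans
    (orderOf_eq_one_iff.2 e)) ▸ one_mem _)] at h3
  exact h3.isConj.symm

theorem nonsolv (T : Tm e B m ε δ a y) (hm : 1 ≤ m) (h1 : IsConj ((a : G) ^ (2 ^ m : ℤ)) y)
    (h2 : 2 ≤ m ∨ IsConj ((a : G) ^ (2 ^ m : ℤ)) (a * y)) : Odd (Nat.card (center G)) ∧ ¬ Group.IsSolvable G := by
  classical
  have h := T.mcG
  refine ⟨CA.H13Inv.odd_card_iff.2 fun c hc h3 => ?_, fun ⟨n, hn⟩ => ?_⟩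
  · have h4 : zpowers c ≤ P := T.mx.isDef.ge_of_normal T.hp T.mx.blk 
      (IsPGroup.of_card (n := 1) (by rw [Nat.card_zpowers, h3, pow_one]))
      le_top (CC_le_NN _ |>.trans' fun g _ => by
        rw [CC_zpowers]; exact mem_centralizer_singleton_iff.2 (mem_center_iff.1 hc g))
    have h5 := h.eq_z (zpowers_pow_le _ _ ((h.inf_centralizer hm).le ⟨T.supG.ge (h4 (mem_zpowers c)),
      center_le_centralizer _ hc⟩)) (h3 ▸ pow_orderOf_eq_one c) (CA.H13Inv.ne_one h3)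
    obtain ⟨g, hg⟩ := isConj_iff.1 h1
    rw [← h5, mem_center_iff.1 hc, mul_inv_cancel_right, h5] at hg
    exact h.notMem ⟨_, hg⟩
  have h3 : ∃ n, (a : G) ^ (2 ^ m : ℤ) ∉ derivedSeries G n := ⟨n, by rw [hn]; exact h.z_ne⟩
  obtain ⟨n, h4⟩ := Nat.exists_eq_succ_of_ne_zero (n := Nat.find h3) fun e => (e ▸ Nat.find_spec h3) (mem_top _)
  have h5 := not_not.1 (Nat.find_min h3 (h4 ▸ n.lt_succ_self))
  have h6 := h4 ▸ Nat.find_spec h3
  have h7 : ∀ g, IsConj ((a : G) ^ (2 ^ m : ℤ)) g → g ∈ derivedSeries G n := fun g hg => by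
    obtain ⟨x, rfl⟩ := isConj_iff.1 hg
    exact (derivedSeries_normal G n).conj_mem _ h5 x
  have h8 : ∀ i : ℤ, (a : G) ^ i ∈ derivedSeries G n → (2 : ℤ) ^ m ∣ i := fun i hi => not_not.1 fun e => h6 (by
    have h8 := commutator_mem_commutator hi (h7 y h1)
    have h9 : ⁅(a : G) ^ i, (y : G)⁆ = a ^ (i - (2 ^ m * ε - 1) * i) := by
      rw [zpow_sub, ← h.conj_zpow, commutatorElement_def]; group
    rw [h9] at h8
    obtain ⟨k, hk, h10⟩ := h.exists_eq_pow (inf_le_right (a := derivedSeries G (n + 1)))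
    rcases hk.eq_or_lt with rfl | hk
    · have := h.zpow_eq.2 ((h.mem_pow_iff le_rfl).1 (h10.le ⟨h8, _, rfl⟩))
      exact (e (h.commute_iff.1 (by rw [h.y_mul, ← this]))).elim
    · exact (h10.ge (zpow_mem_zpowers_of_dvd _ (pow_dvd_pow 2 (by omega)))).1)
  rcases h2 with h2 | h2
  · have := Int.le_of_dvd two_pos (h8 2 (by simpa using h.H_one_le_of_normal (h7 y h1) (left_mem_H _ _ _)))
    have := pow_le_pow_right₀ (a := (2 : ℤ)) one_le_two h2
    omega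
  · have := Int.le_of_dvd one_pos (h8 1 (by simpa using mul_mem (h7 _ h2) (inv_mem (h7 y h1))))
    have := pow_le_pow_right₀ (a := (2 : ℤ)) one_le_two hm
    omega

end CA.H11TmS
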