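import Cfsg.Agent.Lib.Block.H11TmD
import Cfsg.Agent.Lib.Block.H11Bf

/-!
2-blocks with defect group of maximal class: the case of a central involution.
-/

set_option autoImplicit false
set_option linter.unusedSectionVars false

namespace CA.H11TmZ

open Cfsg MonoidAlgebra CA.BlkVal CA.H11Amb CA.H11Eta CA.H11Cw CA.H11Nb CA.H11Row CA.H11Tm CA.H11PS CA.MC2
  CA.BlkHeight CA.H13Span CA.BlkQuo CChar.CharFun CChar.CharOrth CChar.CharGen Subgroup
open CA.BlkCore hiding lam lam_mul lam_one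
open CA.Ind (card_ne_zero)
open scoped ComplexConjugate

variable {M : Ideal AlgInt} {G : Type*} [Group G] [Fintype G] {P : Subgroup G} [Fintype P]
  {e : (k M)[G]} {B : Set (IrrCharacter G)} {m j : ℕ} {ε δ : ℤ} {a y v : P} {χ ψ : IrrCharacter G}

theorem quot [DecidablePred (· ∈ B)] (T : Tm e B m ε δ a y) (hj : j + 1 = m)
    (hz : ((zz m a : P) : G) ∈ center G) :
    (Finset.univ.filter fun χ => χ ∈ B ∧ χ.1 (zz m a : P) = χ.1 1).card = 2 ^ j + 3 ∧ blockRank 2 B ≤ 3 := by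
  classical
  have h0 := zpowers_le.2 hz
  haveI : (zpowers ((zz m a : P) : G)).Normal := ⟨fun x hx g => by
    rwa [mem_center_iff.1 (h0 hx) g, mul_inv_cancel_right]⟩
  haveI := Fintype.ofFinite (G ⧸ zpowers ((zz m a : P) : G))
  have hφ := QuotientGroup.mk'_surjective (zpowers ((zz m a : P) : G))
  have hk := QuotientGroup.ker_mk' (zpowers ((zz m a : P) : G))
  generalize QuotientGroup.mk' (zpowers ((zz m a : P) : G)) = φ at hφ hk
  have hp : IsPGroup 2 φ.ker := hk.symm ▸ T.mx.pr.pg.to_le (zpowers_le.2 (zz m a : P).2)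
  have hc := CA.H11Bf.cent_of_center hφ Nat.prime_two hp (hk.trans_le h0)
  have h1 : ∀ i : ℤ, φ a ^ i = 1 ↔ 2 ^ m ∣ i := fun i => by
    rw [← map_zpow, ← MonoidHom.mem_ker, hk]; exact T.mcG.mem_pow_iff (Nat.le_succ m)
  have h2 : MC j 0 0 (φ a) (φ y) := by
    refine ⟨orderOf_eq_prime_pow (fun h => ?_) ?_, fun ⟨i, h⟩ => T.mcG.notMem ?_, ?_, ?_, by simp⟩
    · have := Int.le_of_dvd (by positivity) ((h1 (2 ^ j)).1 (by exact_mod_cast h))
      rw [pow_le_pow_iff_right₀ one_lt_two] at this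
      omega
    · exact_mod_cast (h1 (2 ^ (j + 1))).2 (hj ▸ dvd_rfl)
    · have : (y : G) * ((a : G) ^ i)⁻¹ ∈ φ.ker := by simp [MonoidHom.mem_ker, ← h]
      simpa using mul_mem (zpowers_pow_le _ _ (hk.le this)) (zpow_mem_zpowers (a : G) i)
    · rw [← map_inv, ← map_mul, ← map_mul, T.mcG.conj, map_zpow, zpow_sub, (h1 _).2 (dvd_mul_right _ _)]
      simp
    · rw [← map_pow, T.mcG.sq, map_zpow, (h1 _).2 (dvd_mul_right _ _)]
      simp
  haveI := Fintype.ofFinite (P.map φ)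
  obtain ⟨e', a', y', T'⟩ := exists_tm T.hM (isPBlock_preimage_of_regular hφ T.hM hp hc T.hB)
    (CA.BlkDom.isDefectGroup_preimage hφ T.hM hp hc T.hB T.isDefectGroup) h2 (by
      rw [← MonoidHom.map_zpowers, ← MonoidHom.map_zpowers, ← Subgroup.map_sup, T.supG])
  obtain ⟨h3, h4, -⟩ := CA.H11TmD.dihedral T'
  refine ⟨?_, by rw [CA.BlkRk.blockRank_preimage hφ T.hM hp hc (isSat_of_isPBlock T.hM T.hB)]; omega⟩
  rw [← h3, CA.H11Contrib.card_set_eq]
  refine (Finset.card_bij (fun ψ _ => infl hφ ψ) (fun ψ hψ => ?_) (fun _ _ _ _ h => infl_injective hφ h)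
    fun χ hχ => ?_).symm
  · simpa [show φ (zz m a : P) = 1 from hk.ge (mem_zpowers _)] using hψ
  · obtain ⟨h5, h6⟩ := (Finset.mem_filter.1 hχ).2
    obtain ⟨ψ, rfl⟩ := (exists_infl_iff hφ).2 (hk ▸ zpowers_le.2
      ((CChar.CharKer.mem_charKer (char_of_irr χ.2)).2 h6))
    exact ⟨ψ, by simpa using h5, rfl⟩

theorem filter_Gd {K : Type*} [Group K] [Fintype K] {a y : K} (h : Mc m ε δ a y) (hj : j + 1 = m)
    [DecidablePred fun v : K => IsConj v (zz m a * v)] :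
    ((Gd a).filter fun v : K => IsConj v (zz m a * v)).card = 2 := by
  classical
  have h1 : (a ^ (2 ^ j : ℤ)) ^ 2 = zz m a := by rw [← zpow_natCast, ← zpow_mul, coe_zz, ← hj]; norm_cast
  have h2 : orderOf (a ^ (2 ^ j : ℤ)) = 4 := h.ord_pow (j := 2) (by omega)
  have h3 : ∀ v : K, orderOf v = 4 → v ^ 2 ≠ 1 := fun v hv e => by
    simpa [hv] using Nat.le_of_dvd two_pos (orderOf_dvd_of_pow_eq_one e)
  have h4 : (zz m a : K) * a ^ (2 ^ j : ℤ) = (a ^ (2 ^ j : ℤ))⁻¹ := by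
    rw [← h1, eq_inv_iff_mul_eq_one, ← pow_succ, ← pow_succ]
    exact orderOf_dvd_iff_pow_eq_one.1 h2.dvd
  rw [← Finset.card_pair (a := a ^ (2 ^ j : ℤ)) (b := (a ^ (2 ^ j : ℤ))⁻¹) fun e =>
    h3 _ h2 (by rw [sq, mul_eq_one_iff_eq_inv]; exact e)]
  refine congrArg _ (Finset.ext fun v => ?_)
  simp only [Finset.mem_filter, mem_Gd, Finset.mem_insert, Finset.mem_singleton]
  constructor
  · rintro ⟨⟨⟨i, rfl⟩, h5⟩, h6⟩
    replace h6 := ((h.isConj_iff ⟨i, rfl⟩).1 h6).resolve_left fun e => h.zz_ne (by simpa using e)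
    have h7 : (2 : ℤ) ^ m ∣ i * 2 := h.commute_iff.1 (by
      rw [← mul_inv_eq_iff_eq_mul, zpow_mul, zpow_ofNat, ← conj_pow, ← h6, (show Commute _ _ from
        (h.z_comm _).symm).mul_pow, coe_zz, h.z_sq, one_mul])
    rw [← hj, pow_succ, mul_dvd_mul_iff_right two_ne_zero] at h7
    refine CA.MC3.eq_or_inv_of_four h2 (zpow_mem_zpowers_of_dvd _ h7) (orderOf_eq_prime_pow (p := 2) (n := 1) h5 ?_)
    exact orderOf_dvd_iff_pow_eq_one.1 ((orderOf_dvd_of_mem_zpowers (zpow_mem_zpowers_of_dvd _ h7)).trans h2.dvd)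
  · rintro (rfl | rfl)
    · exact ⟨⟨zpow_mem_zpowers _ _, h3 _ h2⟩, isConj_iff.2 ⟨y, by rw [h4, h.conj_inv hj]⟩⟩
    · exact ⟨⟨inv_mem (zpow_mem_zpowers _ _), h3 _ (by simpa using h2)⟩, isConj_iff.2 ⟨y, by
        rw [← conj_inv, h.conj_inv hj, ← h1, sq]; simp⟩⟩

theorem central (T : Tm e B m ε δ a y) (hj : j + 1 = m) (hz : ((zz m a : P) : G) ∈ center G) :
    blockRank 2 B + (Yf e a y).card = 3 := by
  classical
  obtain ⟨D, ω, N⟩ := T.exists_nb (.inr hj)
  have hG := fun v (hv : v ∈ Gd a) => T.good (.inr hj) hv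
  choose s hs h1 using fun χ : IrrCharacter G => exists_sign (mem_center_iff.1 hz) ((sq _).symm.trans T.z_sq) χ.2
  have h2 : ∀ (χ ψ : IrrCharacter G) (v : P), cw 2 e χ.1 ψ.1 ((zz m a : P) * v) = s χ * s ψ * cw 2 e χ.1 ψ.1 v := fun χ ψ v => by
    rw [T.cw_mul_left hz (h1 χ) (h1 ψ)]
    rcases hs ψ with h | h <;> simp [h]
  obtain ⟨χ₀, h3, h4⟩ := exists_height_zero (p := 2) (block_nonempty T.hM T.hB)
  let t : P → ℂ := fun v => ∑ χ with χ ∈ B, s χ * cw 2 e χ.1 χ.1 v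
  have h5 : ∀ v : P, ¬ FC 2 P e v (zz m a * v : P) → t v = 0 := fun v hv => by
    simp only [t, ← fun χ : IrrCharacter G => T.sum_cw_mul χ.1 χ.1 v, Finset.mul_sum]
    rw [Finset.sum_comm]
    refine Finset.sum_eq_zero fun χ _ => mul_left_cancel₀ (a := s χ) (by rcases hs χ with h | h <;> simp [h]) ?_
    rw [mul_zero, ← T.sum_cw_mul_ne (irr_classFun χ.2) (irr_classFun χ.2) hv, Finset.mul_sum]
    exact Finset.sum_congr rfl fun ψ _ => by rw [h2]; ring
  have h6 : ∀ v : P, FC 2 P e v (zz m a * v : P) → rk 2 e v = 1 → t v = s χ₀ := fun v hv hr => by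
    rw [← mul_one (s χ₀), ← Nat.cast_one, ← hr, ← T.sum_cw_self, Finset.mul_sum]
    refine Finset.sum_congr rfl fun χ _ => mul_right_cancel₀ (T.cw_ne_zero h3 h4 h3 h4 v) ?_
    have := T.stb_cw (irr_classFun χ.2) (irr_classFun χ₀.2) _ _ hv
    rw [h2] at this
    rw [mul_assoc, mul_assoc, T.cw_mul hr]
    rcases hs χ with h | h <;> rcases hs χ₀ with h' | h' <;> rw [h, h'] at this ⊢
    · linear_combination cw 2 e χ₀.1 χ.1 v * this
    · linear_combination -cw 2 e χ₀.1 χ.1 v * this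
  have h7 : ∑ χ with χ ∈ B, s χ = s χ₀ * (1 + (Yf e a y).card) := by
    rw [Finset.sum_congr rfl (g := fun χ => ∑ v ∈ Xf e a y, s χ * cw 2 e χ.1 χ.1 v / nX 2 e (Xf e a y) v)
      fun χ hχ => by
        simp only [mul_div_assoc, ← Finset.mul_sum, ← T.inner_eq T.cover (inSpan_irr (Finset.mem_filter.1 hχ).2)
          (irr_classFun χ.2), CChar.CharFun.inner_irr_self χ.2, mul_one], Finset.sum_comm]
    simp only [← Finset.sum_div]
    rw [T.sum_X N hG t, h5 1 fun h => T.mc.zz_ne (by simpa using (ord_eq h).symm),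
      h5 _ fun h => T.mc.zz_ne (by
        simpa [show (zz m a : P) * zz m a = 1 from congrArg Subtype.val T.mc.zz_sq] using ord_eq h),
      Finset.sum_congr rfl (g := fun v : P => if IsConj v (zz m a * v) then s χ₀ else 0) fun v hv => by
        split_ifs with h
        · exact h6 v (T.fc_of_conj h) (N.rk v (hG v hv))
        · refine h5 v (mt (N.fc _ _ (hG v hv) (hG _ (mem_Gd.2 ⟨mul_mem (zz m a).2 (mem_Gd.1 hv).1, ?_⟩))).1 h)
          rw [(show Commute _ _ from (T.mc.z_comm _).symm).mul_pow, coe_zz, T.mc.z_sq, one_mul]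
          exact (mem_Gd.1 hv).2,
      ← Finset.sum_filter, Finset.sum_const, filter_Gd T.mc hj,
      Finset.sum_congr (s₁ := Yf e a y) rfl (g := fun _ => s χ₀) fun v hv => by
        obtain ⟨δ', h, -⟩ := T.mc.out (T.mc.mem v) (not_mem_of_fc hv (FC.refl v.2))
        obtain ⟨i, hi⟩ := h.exists_conj_even (2 ^ j)
        exact h6 v (T.fc_of_conj (isConj_iff.2 ⟨_, hi.trans (by rw [coe_zz, ← hj, pow_succ'])⟩)) (T.rk_Y hv)]
    simp
    ring
  obtain ⟨h8, h9⟩ := quot T hj hz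
  have h10 : (Nat.card B : ℂ) + ∑ χ with χ ∈ B, s χ = 2 * (2 ^ j + 3 : ℕ) := by
    rw [CA.H11Contrib.card_set_eq, ← h8, Finset.card_eq_sum_ones, Nat.cast_sum, ← Finset.sum_add_distrib,
      ← Finset.filter_filter, ← Finset.sum_boole, Finset.mul_sum]
    refine Finset.sum_congr rfl fun χ _ => ?_
    have := h1 χ 1
    have h := irr_apply_one_ne_zero χ.2
    rw [mul_one] at this
    rcases hs χ with h' | h' <;> simp [this, h', neg_eq_self, h]
    norm_num
  have h11 := T.card_B N hG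
  rw [← mul_one (zz m a : P), T.rk_mul hz, T.rk_one, ← hj, pow_succ] at h11
  rcases hs χ₀ with h | h <;> rw [h7, h] at h10 <;> norm_cast at h10 <;> omega

end CA.H11TmZ
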