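import Cfsg.Agent.Lib.Block.H12DC
import Cfsg.Agent.Lib.Block.H12Brg
import Cfsg.Agent.Lib.Block.BlkCov

/-!
# Laradji's theorem; heights in blocks with a normal defect group
-/

set_option autoImplicit false
set_option linter.unusedSectionVars false

namespace CA.H12DC2

open Cfsg MonoidAlgebra CA.BlkAlg CA.BlkVal CA.BlkOmega CA.BlkRed CA.BlkCore CA.BlkDefect CA.SylIn
  CA.BlkHeight CA.BlkReg CA.BlkBas CA.H12PPart CA.H12Cover CA.H12DC CA.H11Amb CA.H11Def CA.H11Pair
  CA.H11Brg CA.H12Fong CA.H12FR CA.H12Brg CA.Clif CChar.CharFun CChar.CharOrth CChar.CharInt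
  CChar.CharKer Subgroup
open scoped ComplexConjugate

variable {p : ℕ} [hp : Fact p.Prime] {M : Ideal AlgInt} {G : Type*} [Group G] [Fintype G]
  {D P : Subgroup G} {B : Set (IrrCharacter G)} {χ ψ : IrrCharacter G} {g y : G}

theorem le_defect [D.Normal] (hM : IsPModular p M) (hB : IsPBlock M B) (hD : IsPGroup p D)
    (hP : IsDefectGroup p M B P) : D ≤ P :=
  ((isDefectGroup_iff_top hM hB).1 hP).ge_of_normal (p_eq_zero hM) (blk_eB hM hB) hD le_top
    (NN_top_of_normal D)

/-- Laradji's theorem. -/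
theorem laradji (hM : IsPModular p M) (hD : IsPGroup p D) (hZ : D ≤ center G)
    (h : (charDegree χ.1).factorization p = D.index.factorization p) :
    IsDefectGroup p M (blockOf M χ.1) D := by
  classical
  have : D.Normal := ⟨fun a ha b => by rwa [mem_center_iff.1 (hZ ha) b, mul_inv_cancel_right]⟩
  have := Fintype.ofFinite D
  have hB := isPBlock_blockOf (M := M) χ
  have hχ := self_mem_blockOf hM χ
  obtain ⟨P, hP⟩ := exists_isDefectGroup hM hB
  have hDP := le_defect hM hB hD hP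
  obtain ⟨l, hl⟩ := exists_central_unitsHom χ.2 hZ
  set θ : G → ℂ := fun g => if pPart p g ∈ D then χ.1 g else 0 with hθ
  have hC : ∀ y : G, ¬ p ∣ orderOf y → y ∈ centralizer (D : Set G) := fun y _ x hx =>
    (mem_center_iff.1 (hZ hx) y).symm
  have e : ∀ (x : D) y, ¬ p ∣ orderOf y → θ (x * y) = l x * χ.1 y := fun x y hy => by
    rw [← hl x y, hθ]
    exact if_pos (by
      rw [pPart_mul_of hp.out (hC y hy x x.2) (BlkQuo.orderOf_eq_pow_of_mem hp.out hD x.2) hy]
      exact x.2)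
  have h1 := inner_eq hp.out hD hC (φ := θ) (fun g hg => by_contra fun h => hg (if_neg h)) e e
  rw [inner_irr_self (irr_of_unitsHom l), mul_one] at h1
  obtain ⟨n, hn⟩ := exists_int_defect hM hB (char_of_irr χ.2) hχ
  have h2 := v_contr_le hM (char_of_irr χ.2) hχ
  obtain ⟨a, ha⟩ := IsPGroup.iff_card.1 hD
  have h3 : blockHeight p (blockOf M χ.1) χ.1 + a = blockDefect p (blockOf M χ.1) := by
    have h3 := factorization_add_blockDefect (p := p) hχ
    have h4 := factorization_index_add D p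
    rw [ha, hp.out.factorization_pow, Finsupp.single_eq_same] at h4
    omega
  rw [hn] at h2
  obtain ⟨m, rfl⟩ := pow_dvd_of_v_le hM h2
  have h4 : classInner θ θ = m := by
    rw [h1, ha]
    refine mul_left_cancel₀ (pow_ne_zero (blockHeight p (blockOf M χ.1) χ.1)
      (Nat.cast_ne_zero.2 hp.out.ne_zero)) ?_
    rw [← mul_assoc, Nat.cast_pow, ← pow_add, h3, hn]; push_cast; rfl
  have h5 : (0 : ℝ) < m := by
    have := inner_self_re_pos (φ := θ) fun e => irr_apply_one_ne_zero χ.2 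
      ((if_pos (H12PPart.pPart_mem hp.out (one_mem D))).symm.trans (congrFun e 1))
    rwa [h4, Complex.intCast_re] at this
  have h6 : (m : ℝ) ≤ 1 := by
    rw [← Complex.intCast_re, ← h4, ← Complex.one_re, ← inner_irr_self χ.2, inner_self_re,
      inner_self_re]
    refine mul_le_mul_of_nonneg_left (Finset.sum_le_sum fun g _ => ?_) (by positivity)
    simp only [hθ]
    split_ifs <;> simp
  obtain rfl : m = 1 := by
    have : 0 < m := by exact_mod_cast h5
    have : m ≤ 1 := by exact_mod_cast h6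
    omega
  have h7 := ((v_contr_eq_iff hM hB hχ).1 (by rw [hn]; simp)).2
  rw [h7, zero_add] at h3
  rwa [eq_of_le_of_card_ge hDP (by rw [card_defectGroup hM hB hP, ha, h3])]

section normal
variable [hP : P.Normal] {b : Set (IrrCharacter (P ⊔ CC P : Subgroup G))}

theorem sup_top : P.subgroupOf (P ⊔ CC P) ⊔
    centralizer (P.subgroupOf (P ⊔ CC P) : Set (P ⊔ CC P : Subgroup G)) = ⊤ := by
  refine top_le_iff.1 ?_
  rw [← subgroupOf_self, subgroupOf_sup le_sup_left le_sup_right]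
  exact sup_le_sup_left (fun x hx y hy => Subtype.ext (hx y hy)) _

theorem isDef_root (hM : IsPModular p M) (hB : IsPBlock M B) (hD : IsDefectGroup p M B P)
    (hb : IsPBlock M b) (h : Cov _ B b) : IsDef p (P ⊔ CC P) (ab M _ b) P := by
  have := Fintype.ofFinite (P ⊔ CC P : Subgroup G)
  obtain ⟨Q, hQ⟩ := exists_isDef (p_eq_zero hM) (blk_ab hM hb)
  obtain ⟨R, h1, h2⟩ := knorr (p_eq_zero hM) le_top (NN_top_of_normal _) (blk_ab hM hb)
    (blk_eB hM hB) ((cov_iff_ab hM hB hb).1 (cov_iff.1 h)) hQ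
  rw [defect_eq hM hB hD ((isDefectGroup_iff_top hM hB).2 h1), inf_eq_left.2 le_sup_left] at h2
  exact h2 ▸ hQ

theorem defect_root (hM : IsPModular p M) (hB : IsPBlock M B) (hD : IsDefectGroup p M B P)
    (hb : IsPBlock M b) (h : Cov _ B b) : IsDefectGroup p M b (P.subgroupOf _) :=
  (isDefectGroup_iff_subgroupOf hM hb le_sup_left).2 (isDef_root hM hB hD hb h)

theorem not_dvd_stab (hM : IsPModular p M) (hB : IsPBlock M B) (hD : IsDefectGroup p M B P)
    (hb : IsPBlock M b) (h : Cov _ B b) :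
    ¬ p ∣ (P ⊔ CC P).relIndex (⊤ ⊓ Stab (ab M (P ⊔ CC P) b)) := by
  have := Fintype.ofFinite (P ⊔ CC P : Subgroup G)
  have hp0 := p_eq_zero hM
  have he := blk_ab hM hb
  have hN := NN_top_of_normal (P ⊔ CC P)
  have h1 := isDef_root hM hB hD hb h
  have h2 := (cov_iff_ab hM hB hb).1 (cov_iff.1 h)
  have h3 := blk_of_CC_le hp0 (le_stab le_top he) (le_top.trans hN) he
    (mem_fixed_iff_le.2 inf_le_right) h1.pg le_sup_left h1.ne (inf_le_right.trans le_sup_right)
  have h4 := (h3.eq_of_mul_ne_zero (fr_blk le_top hN he (blk_eB hM hB) h2)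
    (by rwa [mul_assoc, he.idem]))
  obtain ⟨Q, hQ⟩ := exists_isDef hp0 h3
  have h5 := defect_eq hM hB hD ((isDefectGroup_iff_top hM hB).2
    (fr_isDef hp0 le_top hN he (blk_eB hM hB) h2 (by rwa [h4])))
  exact (isDef_iff_not_dvd hp0 (le_stab le_top he) (le_top.trans hN) he h3 h1).1 (h5 ▸ hQ)

theorem fact_over (hM : IsPModular p M) (hB : IsPBlock M B) (hD : IsDefectGroup p M B P)
    (hχ : χ ∈ B) {θ : IrrCharacter (P ⊔ CC P : Subgroup G)} (h : Over _ χ.1 θ.1) :
    (charDegree χ.1).factorization p =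
      (charDegree θ.1).factorization p + (P ⊔ CC P).index.factorization p := by
  have := Fintype.ofFinite (P ⊔ CC P : Subgroup G)
  have hb := isPBlock_blockOf (M := M) θ
  have h1 := not_dvd_stab hM hB hD hb ⟨χ, hχ, θ, self_mem_blockOf hM θ, h⟩
  have h2 := inertia_le_stab hM hb (self_mem_blockOf hM θ)
  obtain ⟨e, h3, h4⟩ := BlkCov.exists_degree_eq h
  obtain ⟨n, hn⟩ := inner_char_char (char_restrict (char_of_irr χ.2) (P ⊔ CC P)) (char_of_irr θ.2)
  have h5 := apply_one_eq χ.2 θ.2 (over_iff.1 h)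
  rw [hn, irr_apply_one_eq χ.2, irr_apply_one_eq θ.2, h4] at h5
  have h0 := (charDegree_pos θ.2).ne'
  have h6 : e = n * (inertia θ.1).index := mul_right_cancel₀ h0 (by exact_mod_cast h5)
  have h7 : e ≠ 0 := ne_zero_of_dvd_ne_zero index_ne_zero_of_finite h3
  rw [h4, Nat.factorization_mul h7 h0, Finsupp.add_apply, add_comm, add_right_inj]
  refine le_antisymm (Nat.factorization_le_factorization_of_dvd_right h3 h7
    index_ne_zero_of_finite) ?_
  rw [← relIndex_mul_index (le_stab le_top (blk_ab hM hb)), Nat.factorization_mul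
    (fun e => h1 (by rw [e]; exact dvd_zero p)) index_ne_zero_of_finite, Finsupp.add_apply,
    Nat.factorization_eq_zero_of_not_dvd h1, zero_add]
  exact Nat.factorization_le_factorization_of_dvd_right ((index_dvd_of_le (le_inf le_top h2)).trans
    (h6 ▸ Dvd.intro_left _ rfl)) index_ne_zero_of_finite h7

/-- The height of `χ` is read off from a constituent of its restriction to the defect group. -/
theorem height_eq (hM : IsPModular p M) (hB : IsPBlock M B) (hD : IsDefectGroup p M B P)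
    (hχ : χ ∈ B) {ζ : IrrCharacter P} (h : Over P χ.1 ζ.1) :
    blockHeight p B χ.1 = (charDegree ζ.1).factorization p := by
  have := Fintype.ofFinite (P ⊔ CC P : Subgroup G)
  have := Fintype.ofFinite P
  have := Fintype.ofFinite (P.subgroupOf (P ⊔ CC P))
  have hle : P ≤ P ⊔ CC P := le_sup_left
  have h1 := inner_res_eq_sum (inclusion hle)
    (classFun_restrict (irr_classFun χ.2) (P ⊔ CC P)) ζ.1
  obtain ⟨θ, -, h2⟩ := Finset.exists_ne_zero_of_sum_ne_zero (h1 ▸ over_iff.1 h)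
  have h3 : Over _ χ.1 θ.1 := over_iff.2 (left_ne_zero_of_mul h2)
  have hb := isPBlock_blockOf (M := M) θ
  have h4 := defect_root hM hB hD hb ⟨χ, hχ, θ, self_mem_blockOf hM θ, h3⟩
  obtain ⟨ζ', h5, h6⟩ := exists_height hM hb h4 sup_top (self_mem_blockOf hM θ)
  have h7 : Over (P.subgroupOf (P ⊔ CC P)) θ.1 (so _ ζ.1) := by
    rw [over_iff, ← so_res hle, inner_so hle]; exact right_ne_zero_of_mul h2
  obtain ⟨g, h8⟩ := exists_cjI_of_over (θ := ζ') (φ := ⟨_, (so_irr_iff hle).2 ζ.2⟩) h5 h7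
  have h9 : charDegree ζ.1 = charDegree ζ'.1 := BlkCov.charDegree_eq_of_apply
    ((congrFun (congrArg Subtype.val h8) 1).trans (cj_apply_one g ζ'.1))
  have h10 := blockHeight_add_minNu (p := p) hχ
  rw [minNu_eq_index hM hB hD, fact_over hM hB hD hχ h3, h6, ← relIndex_mul_index hle,
    relIndex, Nat.factorization_mul index_ne_zero_of_finite index_ne_zero_of_finite, Finsupp.add_apply,
    ← h9, add_assoc] at h10
  exact add_right_cancel h10

theorem exists_over (hM : IsPModular p M) (hB : IsPBlock M B) (hP' : IsPGroup p P)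
    (ζ : IrrCharacter P) : ∃ χ ∈ B, Over P χ.1 ζ.1 := by
  obtain ⟨χ, hχ⟩ := block_nonempty hM hB
  obtain ⟨θ, h1⟩ := exists_under P χ
  exact exists_over_of_cov hM (b := blockOf M ζ.1) ⟨ζ, rfl⟩ (isSat_of_isPBlock hM hB)
    ⟨χ, hχ, θ, BlkKer.sameBlock_of_isPGroup hM hP' ζ θ, h1⟩ (self_mem_blockOf hM ζ)

/-- Reynolds' theorem. -/
theorem reynolds (hM : IsPModular p M) (hB : IsPBlock M B) (hD : IsDefectGroup p M B P) :
    (∀ a ∈ P, ∀ c ∈ P, a * c = c * a) ↔ ∀ χ ∈ B, blockHeight p B χ.1 = 0 := by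
  have hP' := isPGroup_of_isDefectGroup hD
  refine ⟨fun h χ hχ => ?_, fun h a ha c hc => congrArg Subtype.val
    (comm_iff_irr_apply_one.2 (fun ζ hζ => ?_) (⟨a, ha⟩ : P) ⟨c, hc⟩)⟩
  · obtain ⟨ζ, h1⟩ := exists_under P χ
    have := irr_apply_one_of_comm (fun a b : P => Subtype.ext (h a a.2 b b.2)) ζ.2
    rw [irr_apply_one_eq ζ.2, Nat.cast_eq_one] at this
    rw [height_eq hM hB hD hχ h1, this, Nat.factorization_one, Finsupp.zero_apply]
  · obtain ⟨χ, hχ, h1⟩ := exists_over hM hB hP' ⟨ζ, hζ⟩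
    have h2 := (height_eq hM hB hD hχ h1).symm.trans (h χ hχ)
    obtain ⟨d, hd⟩ := IsPGroup.iff_card.1 hP'
    obtain ⟨i, -, hi⟩ := (Nat.dvd_prime_pow hp.out).1 (hd ▸ charDegree_dvd_card hζ)
    rw [hi, hp.out.factorization_pow, Finsupp.single_eq_same] at h2
    rw [irr_apply_one_eq hζ, hi, h2, pow_zero, Nat.cast_one]

end normal

end CA.H12DC2
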