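import Cfsg.Agent.Lib.Block.H11Frob
import Cfsg.Agent.Lib.Grp.H12PSolv
import Cfsg.Agent.Lib.Block.H11Cyc

/-!
Groups in which pairs of elements of order `p` generate `p`-solvable subgroups: a class
multiplication count in the principal block.
-/

set_option autoImplicit false
set_option linter.unusedSectionVars false

namespace CA.PairSolv

open Cfsg Subgroup CA.BlkCore CA.H12PPart CA.H13Span CA.H13Lift CA.SylIn CA.H11PS CA.Core
  CA.H12PSolv CChar.CharFun CChar.CharOrth CChar.CharGen CChar.CharKer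
open scoped ComplexConjugate

section grp
variable {p : ℕ} [hp : Fact p.Prime]

theorem mem_core {H : Type*} [Group H] [Finite H] (hs : IsPSolvable p H)
    (hab : ∀ Q : Sylow p H, ∀ a ∈ (Q : Subgroup H), ∀ b ∈ (Q : Subgroup H), a * b = b * a) {x y : H}
    (hx : x ^ p = 1) (hy : y ^ p = 1) (hg : closure ({x, y} : Set H) = ⊤) {h : H}
    (hh : orderOf (pPart p h) ≠ p) : h ∈ pPrimeCore p H := by
  set π := QuotientGroup.mk' (pPrimeCore p H)
  have hπ : Function.Surjective π := QuotientGroup.mk'_surjective _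
  have h1 : ∀ Q : Sylow p (H ⧸ pPrimeCore p H), ∀ a ∈ Q.1, ∀ b ∈ Q.1,
      a * b = b * a := fun Q a ha b hb => by
    obtain ⟨R, rfl⟩ := Sylow.mapSurjective_surjective hπ p Q
    rw [Sylow.coe_mapSurjective] at ha hb
    obtain ⟨a, ha, rfl⟩ := ha
    obtain ⟨b, hb, rfl⟩ := hb
    rw [← map_mul, hab R a ha b hb, map_mul]
  have h2 : ∀ u : H, u ^ p = 1 → π u ∈ pCore p (H ⧸ pPrimeCore p H) := fun u hu => by
    have : IsPGroup p (zpowers (π u)) := isPGroup_zpowers
      (((Nat.dvd_prime_pow hp.out (m := 1)).1 (by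
        rw [pow_one, orderOf_dvd_iff_pow_eq_one, ← map_pow, hu, map_one])).imp fun _ h => h.2)
    obtain ⟨Q, hQ⟩ := this.exists_le_sylow
    exact centralizer_pCore_le (psolv_quotient hs _) pPrimeCore_quotient_pPrimeCore
      (mem_centralizer_iff.2 fun c hc =>
        h1 Q c (isPGroup_pCore.le_sylow_of_normal Q hc) _ (hQ (mem_zpowers _)))
  have h3 : ∀ u : H, π u ∈ pCore p (H ⧸ pPrimeCore p H) := fun u => by
    have : closure ({x, y} : Set H) ≤ (pCore p (H ⧸ pPrimeCore p H)).comap π := by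
      rw [closure_le]
      rintro _ (rfl | rfl)
      exacts [h2 _ hx, h2 _ hy]
    exact this (hg ▸ mem_top u)
  obtain ⟨Q⟩ : Nonempty (Sylow p (H ⧸ pPrimeCore p H)) := inferInstance
  have h4 : ∀ u v : H, Commute (π u) (π v) := fun u v =>
    h1 Q _ (isPGroup_pCore.le_sylow_of_normal Q (h3 u)) _ (isPGroup_pCore.le_sylow_of_normal Q (h3 v))
  have h5 : ∀ u : H, π u ^ p = 1 := fun u => by
    have hu : u ∈ closure ({x, y} : Set H) := hg ▸ mem_top u
    induction hu using closure_induction with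
    | mem u hu => rcases hu with rfl | rfl <;> rw [← map_pow] <;> simp [hx, hy]
    | one => simp
    | mul u v _ _ hu hv => rw [map_mul, (h4 u v).mul_pow, hu, hv, one_mul]
    | inv u _ hu => rw [map_inv, inv_pow, hu, inv_one]
  have h6 : pPart p h ^ p = 1 := by
    have h7 : pPart p h ^ p ∈ pPrimeCore p H := by
      rw [← QuotientGroup.eq_one_iff]; exact (map_pow π _ _).trans (h5 _)
    have h8 := inf_eq_bot_of_isPGroup_of_coprime (isPGroup_zpowers (orderOf_pPart hp.out h))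
      (coprime_pPrimeCore (G := H) (p := p))
    exact mem_bot.1 (h8 ▸ ⟨pow_mem (mem_zpowers _) _, h7⟩)
  have h7 : ¬ p ∣ orderOf h := (pPart_eq_one_iff hp.out).1 <| orderOf_eq_one_iff.1 <|
    ((Nat.dvd_prime hp.out).1 (orderOf_dvd_of_pow_eq_one h6)).resolve_right hh
  rw [← QuotientGroup.eq_one_iff]
  refine orderOf_eq_one_iff.1 (((Nat.dvd_prime hp.out).1
    (orderOf_dvd_of_pow_eq_one (h5 h))).resolve_right fun e => h7 ?_)
  exact e.symm.dvd.trans (orderOf_map_dvd π h)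

theorem pair {G : Type*} [Group G] [Finite G] {P : Subgroup G} (hP : IsSylowIn p P ⊤)
    (hab : ∀ a b : P, a * b = b * a) {x y : G} (hx : x ^ p = 1) (hy : y ^ p = 1)
    (hs : IsPSolvable p (closure ({x, y} : Set G))) {t t' : G} (ht : t ∈ zpowers y)
    (ht' : t' ∈ zpowers y) (h : orderOf (pPart p (x * t)) ≠ p)
    (h' : orderOf (pPart p (x * t')) ≠ p) : t = t' := by
  set H := closure ({x, y} : Set G)
  have hxH : x ∈ H := subset_closure (by simp)
  have hyH : y ∈ H := subset_closure (by simp)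
  have hz : zpowers y ≤ H := zpowers_le.2 hyH
  have key : ∀ s (hs : s ∈ zpowers y), orderOf (pPart p (x * s)) ≠ p →
      (⟨x * s, mul_mem hxH (hz hs)⟩ : H) ∈ pPrimeCore p H := fun s hs' hh => by
    refine mem_core hs (fun Q a ha b hb => ?_) (x := ⟨x, hxH⟩) (y := ⟨y, hyH⟩) (Subtype.ext hx)
      (Subtype.ext hy) ?_ ?_
    · obtain ⟨g, -, hg⟩ := hP.exists_conj_le (Q.2.map H.subtype) le_top
      have := congrArg Subtype.val (hab ⟨_, conj_le_iff.1 hg _ ⟨a, ha, rfl⟩⟩
        ⟨_, conj_le_iff.1 hg _ ⟨b, hb, rfl⟩⟩)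
      simp only [coe_mul, conj_mul, mul_left_inj, mul_right_inj, coe_subtype] at this
      exact Subtype.ext this
    · apply map_injective H.subtype_injective
      rw [MonoidHom.map_closure, ← MonoidHom.range_eq_map, range_subtype]
      simp [H, Set.image_insert_eq]
    · rwa [← orderOf_coe, coe_pPart hp.out]
  have h1 := mul_mem (inv_mem (key t ht h)) (key t' ht' h')
  have h2 := inf_eq_bot_of_isPGroup_of_coprime (isPGroup_zpowers (x := y)
    (((Nat.dvd_prime_pow hp.out (m := 1)).1 (by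
      rw [pow_one, orderOf_dvd_iff_pow_eq_one, hy])).imp fun _ h => h.2))
    (coprime_map_pPrimeCore (p := p) H)
  have h3 : t⁻¹ * t' ∈ zpowers y ⊓ (pPrimeCore p H).map H.subtype :=
    mem_inf.2 ⟨mul_mem (inv_mem ht) ht', _, h1, by simp [mul_assoc]⟩
  rwa [h2, mem_bot, inv_mul_eq_one] at h3

end grp

variable {p : ℕ} [hp : Fact p.Prime] {M : Ideal AlgInt} {G : Type*} [Group G] [Fintype G]
  {P : Subgroup G}

theorem count (hP : IsSylowIn p P ⊤) (hab : ∀ a b : P, a * b = b * a)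
    (hc : ∀ x y : G, orderOf x = p → orderOf y = p → IsPSolvable p (closure ({x, y} : Set G)))
    {z : G} (hz : orderOf z = p) {T : Finset G} (hT : ∀ t ∈ T, t ∈ zpowers z) {x : G}
    (hx : orderOf x = p) (b : G) :
    (T.card : ℝ) - 1 ≤ ∑ t ∈ T, if orderOf (pPart p (x * (b * t * b⁻¹))) = p then (1 : ℝ) else 0 := by
  classical
  have hy : orderOf (b * z * b⁻¹) = p := ((MulAut.conj b).orderOf_eq z).trans hz
  have h1 : (T.filter fun t => ¬ orderOf (pPart p (x * (b * t * b⁻¹))) = p).card ≤ 1 :=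
    Finset.card_le_one.2 fun t ht t' ht' => by
      obtain ⟨ht, e⟩ := Finset.mem_filter.1 ht
      obtain ⟨ht', e'⟩ := Finset.mem_filter.1 ht'
      have := pair hP hab (hx ▸ pow_orderOf_eq_one x) (hy ▸ pow_orderOf_eq_one _) (hc _ _ hx hy)
        (conj_zpowers b z ▸ conj_mem_conj.2 (hT t ht)) (conj_zpowers b z ▸ conj_mem_conj.2 (hT t' ht'))
        e e'
      simpa using this
  have h2 := Finset.card_filter_add_card_filter_not (s := T)
    fun t => orderOf (pPart p (x * (b * t * b⁻¹))) = p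
  rw [Finset.sum_boole, ← h2]
  have : (((T.filter fun t => ¬ orderOf (pPart p (x * (b * t * b⁻¹))) = p).card : ℕ) : ℝ) ≤ 1 := by
    exact_mod_cast h1
  push_cast
  linarith

variable (p P) in
/-- The elements of order `p`. -/
noncomputable def pel [Fintype P] : Finset P := Finset.univ.filter fun y : P => orderOf y.1 = p

theorem mem_pel [Fintype P] {y : P} : y ∈ pel p P ↔ orderOf (y : G) = p := by simp [pel]

theorem core (hM : IsPModular p M) [Fintype P] [DecidablePred (· ∈ principalBlock M G)] {w : ℕ}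
    (S : Sec p P w) (hP : IsSylowIn p P ⊤) (hab : ∀ a b : P, a * b = b * a)
    (hc : ∀ x y : G, orderOf x = p → orderOf y = p → IsPSolvable p (closure ({x, y} : Set G)))
    {z : G} (hz : orderOf z = p) {T : Finset G} (hT : ∀ t ∈ T, t ∈ zpowers z ∧ orderOf t = p)
    (hT0 : T.Nonempty) (hw : w ≠ 0) {κ : ℕ}
    (hκ : (pel p P).card = κ) (hκ0 : κ ≠ 0)
    {a d : IrrCharacter G → ℝ} (hd : ∀ χ, χ.1 1 = d χ)
    (h1 : ∀ χ ∈ principalBlock M G, ∑ t ∈ T, χ.1 t = T.card * a χ)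
    (h2 : ∀ χ ∈ principalBlock M G, ∑ y ∈ pel p P, χ.1 y = κ * a χ) :
    κ * ∑ χ with χ ∈ principalBlock M G, a χ ^ 2 = w ∧
      ∑ χ with χ ∈ principalBlock M G, a χ * d χ = 0 ∧
      (w : ℝ) * (T.card - 1) ≤ κ * T.card * ∑ χ with χ ∈ principalBlock M G, a χ ^ 3 / d χ := by
  classical
  set f : P → ℂ := fun y => if orderOf (y : G) = p then 1 else 0 with hf
  have hs : Stab P f := fun x y h => by
    obtain ⟨c, e⟩ := isConj_iff.1 h
    have : orderOf (y : G) = orderOf (x : G) := e ▸ (MulAut.conj c).orderOf_eq (x : G)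
    simp only [hf, this]
  have f1 : f 1 = 0 := by simp [hf, hp.out.ne_one.symm]
  obtain ⟨Θ, hΘd⟩ : ∃ Θ, Θ = lift p P f := ⟨_, rfl⟩
  have hΘ : InSpan (principalBlock M G) Θ := hΘd ▸ inSpan_lift hM hs
  have hw' : (w : ℂ) ≠ 0 := Nat.cast_ne_zero.2 hw
  have hκ' : (κ : ℂ) ≠ 0 := Nat.cast_ne_zero.2 hκ0
  have e0 : ∀ θ : G → ℂ, InSpan (principalBlock M G) θ →
      w * classInner θ Θ = ∑ y ∈ pel p P, θ y := fun θ hθ => by
    rw [hΘd, S.inner_lift hM hθ hs f1, card_mul_inner, pel, Finset.sum_filter]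
    exact Finset.sum_congr rfl fun y _ => by simp only [hf]; split_ifs <;> simp
  have e1 : ∀ χ ∈ principalBlock M G, classInner Θ χ.1 = κ * a χ / w := fun χ hχ => by
    have := (e0 _ (inSpan_irr hχ)).trans (h2 χ hχ)
    rw [← CChar.CharFun.inner_conj_symm, eq_div_iff hw', ← Complex.conj_natCast w, ← map_mul, mul_comm, this]
    simp
  have e2 : ∀ g, Θ g = ((if orderOf (pPart p g) = p then 1 else 0 : ℝ) : ℂ) := fun g => by
    obtain ⟨c, -, hc⟩ := hP.exists_conj_le (isPGroup_zpowers (orderOf_pPart hp.out g)) le_top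
    rw [hΘd, lift_apply hs (x := ⟨_, conj_le_iff.1 hc _ (mem_zpowers _)⟩) (isConj_iff.2 ⟨c, rfl⟩).symm]
    have : orderOf (c * pPart p g * c⁻¹) = orderOf (pPart p g) := (MulAut.conj c).orderOf_eq _
    simp only [hf, this]
    split_ifs <;> simp
  refine ⟨?_, ?_, ?_⟩
  · have h3 := e0 _ hΘ
    rw [CA.H11Sec.inner_eq_sum_of_inSpan hΘ, Finset.sum_congr rfl (g := fun χ => (κ * a χ / w : ℂ) ^ 2)
      fun χ hχ => by rw [e1 χ (Finset.mem_filter.1 hχ).2]; simp [sq],
      Finset.sum_congr (s₁ := pel p P) rfl (g := fun _ => (1 : ℂ)) fun y hy => by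
        rw [hΘd, lift_coe S.pg hs]; exact if_pos (mem_pel.1 hy),
      Finset.sum_const, hκ, nsmul_eq_mul, mul_one] at h3
    simp only [div_pow, mul_pow, ← Finset.sum_div, ← Finset.mul_sum] at h3
    apply Complex.ofReal_injective
    push_cast
    field_simp at h3
    linear_combination h3
  · have h3 := hΘ.apply_eq 1
    rw [show Θ 1 = 0 from hΘd ▸ (lift_one hp.out hs).trans f1, Finset.sum_congr rfl (g := fun χ => (κ / w : ℂ) * (a χ * d χ))
      fun χ hχ => by rw [e1 χ (Finset.mem_filter.1 hχ).2, hd]; ring, ← Finset.mul_sum, eq_comm,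
      mul_eq_zero] at h3
    apply Complex.ofReal_injective
    push_cast
    exact h3.resolve_left (div_ne_zero hκ' hw')
  · have h3 : ∑ s ∈ T, ∑ t ∈ T, ∑ u, ∑ b, Θ (u * s * u⁻¹ * (b * t * b⁻¹)) =
        (Nat.card G : ℂ) ^ 2 * (κ * T.card ^ 2 / w *
          ∑ χ with χ ∈ principalBlock M G, (a χ : ℂ) ^ 3 / d χ) := by
      simp only [sum_conj_conj hΘ.1, ← Finset.mul_sum]
      congr 1
      rw [Finset.sum_congr rfl fun s _ => Finset.sum_comm, Finset.sum_comm, Finset.mul_sum,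
        Finset.sum_filter]
      refine Finset.sum_congr rfl fun χ _ => ?_
      split_ifs with hχ
      · simp only [← Finset.mul_sum, ← Finset.sum_div, ← Finset.sum_mul, h1 χ hχ, e1 χ hχ, hd]
        ring
      · simp [hΘ.2 χ hχ]
    have h4 : (Nat.card G : ℝ) ^ 2 * (T.card * (T.card - 1)) ≤ ∑ s ∈ T, ∑ t ∈ T, ∑ u : G, ∑ b : G,
        if orderOf (pPart p (u * s * u⁻¹ * (b * t * b⁻¹))) = p then (1 : ℝ) else 0 := by
      calc _ = ∑ s ∈ T, ∑ u : G, ∑ b : G, ((T.card : ℝ) - 1) := by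
            simp only [Finset.sum_const, Finset.card_univ, nsmul_eq_mul, Nat.card_eq_fintype_card]
            ring
        _ ≤ _ := Finset.sum_le_sum fun s hs => by
            rw [Finset.sum_comm (s := T)]
            refine Finset.sum_le_sum fun u _ => ?_
            rw [Finset.sum_comm (s := T)]
            exact Finset.sum_le_sum fun b _ => count hP hab hc hz (fun t ht => (hT t ht).1)
              (((MulAut.conj u).orderOf_eq s).trans (hT s hs).2) b
    simp only [e2] at h3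
    have h5 : (∑ s ∈ T, ∑ t ∈ T, ∑ u : G, ∑ b : G,
        if orderOf (pPart p (u * s * u⁻¹ * (b * t * b⁻¹))) = p then (1 : ℝ) else 0) =
        (Nat.card G : ℝ) ^ 2 * (κ * T.card ^ 2 / w *
          ∑ χ with χ ∈ principalBlock M G, a χ ^ 3 / d χ) := by
      apply Complex.ofReal_injective
      rw [Complex.ofReal_sum, Finset.sum_congr rfl fun s _ => by
        rw [Complex.ofReal_sum, Finset.sum_congr rfl fun t _ => by
          rw [Complex.ofReal_sum, Finset.sum_congr rfl fun u _ => Complex.ofReal_sum _ _]], h3]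
      push_cast
      rfl
    have hG : (0 : ℝ) < (Nat.card G : ℝ) ^ 2 := by have := Nat.card_pos (α := G); positivity
    have h6 := le_of_mul_le_mul_left (h4.trans_eq h5) hG
    have hw2 : (0 : ℝ) < w := by have := Nat.pos_of_ne_zero hw; positivity
    have hT2 : (0 : ℝ) < T.card := by have := hT0.card_pos; positivity
    rw [div_mul_eq_mul_div, le_div_iff₀ hw2] at h6
    refine le_of_mul_le_mul_left ?_ hT2
    linarith

theorem mult [Fintype P] {χ : G → ℂ} (hχ : IsCharacter G χ) {g : P → ℂ}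
    (h : ∀ y : P, y ≠ 1 → χ y = g y) (ψ : P →* ℂˣ) :
    ∃ e : ℕ, χ 1 - g 1 + Nat.card P * classInner g (hc ψ) = Nat.card P * e := by
  obtain ⟨e, he⟩ := inner_char_char (char_restrict hχ P) (char_of_irr (hc_irr ψ))
  refine ⟨e, ?_⟩
  have h1 := card_mul_inner ((fun y : P => χ y) - g) (hc ψ)
  rw [Finset.sum_eq_single 1 (fun y _ hy => by simp [h y hy]) (by simp), hc_apply_one,
    CChar.CharFun.inner_sub_left, he] at h1
  simp only [Pi.sub_apply, OneMemClass.coe_one, map_one, mul_one] at h1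
  linear_combination -h1

theorem ne_of_simple [IsSimpleGroup G] {χ : IrrCharacter G} (h : χ ≠ irrOne G) {y : G}
    (hy : y ≠ 1) : χ.1 y ≠ χ.1 1 := fun e => hy <| mem_bot.1 <|
  charKer_eq_bot_of_simple χ.2 (fun e => h (Subtype.ext e)) ▸ (mem_charKer (char_of_irr χ.2)).2 e

theorem const [IsSimpleGroup G] (hab : ∀ a b : P, a * b = b * a) {χ : IrrCharacter G}
    (h1 : χ ≠ irrOne G) {c : ℂ} (h : ∀ y : P, y ≠ 1 → χ.1 y = c) {y : P} (hy : y ≠ 1) :
    ∃ a : ℤ, c = a ∧ a + Nat.card P ≤ (χ.1 1).re := by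
  classical
  have := Fintype.ofFinite P
  have : Nontrivial P := ⟨⟨y, 1, hy⟩⟩
  have : Finite (P →* ℂˣ) := finite_hom
  have : Nontrivial (P →* ℂˣ) :=
    Finite.one_lt_card_iff_nontrivial.1 (by rw [card_hom hab]; exact Finite.one_lt_card)
  obtain ⟨ψ, hψ⟩ := exists_ne (1 : P →* ℂˣ)
  obtain ⟨e, he⟩ := mult (char_of_irr χ.2) (g := fun _ => c) h ψ
  obtain ⟨D, -, hD⟩ := irr_apply_one χ.2
  have h2 : (fun _ : P => c) = c • hc 1 := by funext; simp [hc_one]
  rw [h2, CChar.CharFun.inner_smul_left, inner_hc, if_neg hψ.symm, hD] at he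
  simp only [mul_zero, add_zero] at he
  refine ⟨D - Nat.card P * e, by push_cast; linear_combination -he, ?_⟩
  have h3 : e ≠ 0 := by
    rintro rfl
    refine ne_of_simple h1 (y := y) (fun e => hy (Subtype.ext e)) ?_
    rw [h y hy, hD]
    simpa [sub_eq_zero, eq_comm] using he
  have h4 : (1 : ℝ) ≤ e := by exact_mod_cast Nat.one_le_iff_ne_zero.2 h3
  have h5 : (0 : ℝ) ≤ Nat.card P := Nat.cast_nonneg _
  rw [hD]
  push_cast
  simp only [Complex.natCast_re]
  nlinarith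

theorem deg (χ : IrrCharacter G) : χ.1 1 = (χ.1 1).re ∧ 0 < (χ.1 1).re := by
  obtain ⟨D, h, hD⟩ := irr_apply_one χ.2
  rw [hD]
  simpa using h

theorem cube_le {a d r : ℝ} (hd : 0 < d) (h : a ≤ r * d) : a ^ 3 / d ≤ r * a ^ 2 := by
  rw [div_le_iff₀ hd]; nlinarith [sq_nonneg a]

theorem elem [IsSimpleGroup G] (hM : IsPModular p M) (hp2 : p ≠ 2)
    (S : Sec p P (Nat.card P * (Nat.card P - 1))) (hP : IsSylowIn p P ⊤)
    (hab : ∀ a b : P, a * b = b * a)
    (hc : ∀ x y : G, orderOf x = p → orderOf y = p → IsPSolvable p (closure ({x, y} : Set G)))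
    (h1 : P ≠ ⊥) (hexp : ∀ y : P, y ≠ 1 → orderOf (y : G) = p)
    (hconst : ∀ χ ∈ principalBlock M G, ∀ y y' : P, y ≠ 1 → y' ≠ 1 → χ.1 y = χ.1 y') : False := by
  classical
  have := Fintype.ofFinite P
  have := (nontrivial_iff_ne_bot P).2 h1
  obtain ⟨z, hz⟩ := exists_ne (1 : P)
  have hz' := hexp z hz
  have hzz : (z : G) ≠ (z : G)⁻¹ := fun e => hp2 ((Nat.prime_dvd_prime_iff_eq hp.out Nat.prime_two).1
    (hz' ▸ orderOf_dvd_of_pow_eq_one (by rw [sq]; exact mul_eq_one_iff_eq_inv.2 e)))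
  have hn : 3 ≤ Nat.card P := by
    have h2 := Nat.le_of_dvd Nat.card_pos (hz' ▸ P.orderOf_dvd_natCard z.2)
    have := hp.out.two_le
    omega
  have hA : ∀ χ ∈ principalBlock M G, ∃ a : ℤ, χ.1 z = a ∧
      (χ ≠ irrOne G → a + Nat.card P ≤ (χ.1 1).re) := fun χ hχ => by
    by_cases e : χ = irrOne G
    · exact ⟨1, by simp [e, irrOne_apply], fun h => absurd e h⟩
    · exact (const hab e (fun y hy => hconst χ hχ y z hy hz) hz).imp fun a h => ⟨h.1, fun _ => h.2⟩
  choose! a ha1 ha2 using hA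
  have hpel : pel p P = Finset.univ.erase 1 := by
    ext y
    simp only [mem_pel, Finset.mem_erase, Finset.mem_univ, and_true]
    exact ⟨fun h e => hp.out.ne_one (by simpa [e] using h.symm), hexp y⟩
  have hκ : (pel p P).card = Nat.card P - 1 := by
    rw [hpel, Finset.card_erase_of_mem (Finset.mem_univ _), Finset.card_univ,
      Nat.card_eq_fintype_card]
  obtain ⟨c1, c2, c3⟩ := core hM S hP hab hc hz' (T := {(z : G), (z : G)⁻¹}) (fun t ht => by
      rcases Finset.mem_insert.1 ht with rfl | ht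
      · exact ⟨mem_zpowers _, hz'⟩
      · rw [Finset.mem_singleton.1 ht]; exact ⟨inv_mem (mem_zpowers _), (orderOf_inv _).trans hz'⟩)
    (by simp) (Nat.mul_ne_zero (by omega) (by omega)) hκ (by omega) (a := fun χ => a χ)
    (d := fun χ => (χ.1 1).re) (fun χ => (deg χ).1)
    (fun χ hχ => by
      rw [Finset.sum_pair hzz, Finset.card_pair hzz, ← coe_inv, hconst χ hχ z⁻¹ z (inv_ne_one.2 hz) hz,
        ha1 χ hχ]
      push_cast; ring)
    (fun χ hχ => by
      rw [Finset.sum_congr rfl (g := fun _ => (a χ : ℂ)) fun y hy => by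
        rw [hconst χ hχ y z (Finset.mem_erase.1 (hpel ▸ hy)).1 hz, ha1 χ hχ], Finset.sum_const, hκ]
      simp)
  set B := Finset.univ.filter (· ∈ principalBlock M G)
  have ho : irrOne G ∈ B := Finset.mem_filter.2 ⟨Finset.mem_univ _, irrOne_mem_principalBlock hM⟩
  have ao : a (irrOne G) = 1 := by
    have := ha1 _ (Finset.mem_filter.1 ho).2
    rw [irrOne_apply] at this
    exact_mod_cast this.symm
  have d0 : ((irrOne G).1 1).re = 1 := by simp [irrOne_apply]
  obtain ⟨ξ, hξ, hneg⟩ : ∃ ξ ∈ B, a ξ < 0 := by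
    by_contra! h
    have := Finset.single_le_sum (f := fun χ => (a χ : ℝ) * (χ.1 1).re)
      (fun χ hχ => mul_nonneg (by exact_mod_cast h χ hχ) (deg χ).2.le) ho
    rw [c2, ao, d0] at this
    norm_num at this
  have hξ' : ξ ∈ B.erase (irrOne G) := Finset.mem_erase.2 ⟨fun e => by rw [e, ao] at hneg; omega, hξ⟩
  have hn' : (3 : ℝ) ≤ Nat.card P := by exact_mod_cast hn
  have hn1 : (0 : ℝ) < (Nat.card P - 1 : ℕ) := by exact_mod_cast (by omega)
  rw [Finset.card_pair hzz] at c3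
  rw [Nat.cast_mul, mul_comm (Nat.card P : ℝ)] at c1 c3
  replace c1 := mul_left_cancel₀ hn1.ne' c1
  rw [mul_assoc, mul_assoc] at c3
  replace c3 := le_of_mul_le_mul_left c3 hn1
  rw [← Finset.add_sum_erase _ _ ho, ← Finset.add_sum_erase _ _ hξ', ao] at c1 c3
  have hξ1 : (a ξ : ℝ) ≤ -1 := by exact_mod_cast (by omega)
  have h3 : (a ξ : ℝ) ^ 3 / (ξ.1 1).re ≤ 0 := by
    simpa using cube_le (deg ξ).2 (r := 0) (a := a ξ) (by linarith)
  have h4 : ∑ χ ∈ (B.erase (irrOne G)).erase ξ, (a χ : ℝ) ^ 3 / (χ.1 1).re ≤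
      ∑ χ ∈ (B.erase (irrOne G)).erase ξ, 1 / 4 * (a χ : ℝ) ^ 2 := Finset.sum_le_sum fun χ hχ => by
    obtain ⟨h5, h6⟩ := Finset.mem_erase.1 (Finset.mem_of_mem_erase hχ)
    have h7 := ha2 χ (Finset.mem_filter.1 h6).2 h5
    have h8 := Finset.single_le_sum (f := fun χ => (a χ : ℝ) ^ 2) (fun χ _ => sq_nonneg _) hχ
    have h9 : (0 : ℝ) ≤ (a χ - 1) * (a χ - 2) := by
      exact_mod_cast (by rcases le_or_gt (a χ) 1 with h | h <;> nlinarith :
        0 ≤ (a χ - 1) * (a χ - 2))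
    refine cube_le (deg χ).2 ?_
    push_cast at c1
    nlinarith
  rw [← Finset.mul_sum] at h4
  rw [d0] at c3
  push_cast at c1 c3
  nlinarith

section cyc
open CA.H11Frob
variable [Fintype P] {m : ℕ}

theorem mem_zp (hcyc : IsCyclic P) {y z : P} (hy : y ∈ pel p P) (hz : z ∈ pel p P) :
    y ∈ zpowers z := by
  obtain ⟨k, hk⟩ := mem_zpowers_iff.1 (CA.NPC2.le_of_card_dvd_of_isCyclic hcyc (zpowers_le.2 y.2)
    (zpowers_le.2 z.2) (by rw [Nat.card_zpowers, Nat.card_zpowers, mem_pel.1 hy, mem_pel.1 hz])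
    (mem_zpowers _))
  exact mem_zpowers_iff.2 ⟨k, Subtype.ext hk⟩

theorem ne_one_of_pel {y : P} (hy : y ∈ pel p P) : y ≠ 1 := fun e =>
  hp.out.ne_one (by simpa [e] using (mem_pel.1 hy).symm)

theorem card_pel (hcyc : IsCyclic P) {z : P} (hz : z ∈ pel p P) : (pel p P).card = p - 1 := by
  classical
  rw [← Nat.totient_prime hp.out, ← IsCyclic.card_orderOf_eq_totient (α := P)
    (((orderOf_coe z).symm.trans (mem_pel.1 hz)).symm.dvd.trans orderOf_dvd_card)]
  simp [pel]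

theorem sum_pel (hab : ∀ a b : P, a * b = b * a) {z : P} (hz : z ∈ pel p P) {ψ : P →* ℂˣ}
    (h : ψ z ≠ 1) : ∑ y ∈ pel p P, hc ψ y = -1 := by
  classical
  have h1 : ∀ y : P, y ∈ insert 1 (pel p P) ↔ y ^ p = 1 := fun y => by
    rw [Finset.mem_insert, mem_pel, orderOf_coe, ← orderOf_dvd_iff_pow_eq_one, Nat.dvd_prime hp.out,
      orderOf_eq_one_iff]
  have h2 : ∑ y ∈ insert 1 (pel p P), hc ψ (z * y) = ∑ y ∈ insert 1 (pel p P), hc ψ y :=
    Finset.sum_equiv (Equiv.mulLeft z) (fun y => by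
      rw [h1, h1, Equiv.coe_mulLeft, Commute.mul_pow (hab z y),
        (h1 z).1 (Finset.mem_insert_of_mem hz), one_mul]) fun _ _ => rfl
  simp only [hc_apply, map_mul, Units.val_mul, ← Finset.mul_sum] at h2
  rw [Finset.sum_insert fun h => ne_one_of_pel h rfl, map_one, Units.val_one] at h2
  have h3 : (ψ z : ℂ) - 1 ≠ 0 := sub_ne_zero.2 fun e => h (Units.ext e)
  apply mul_left_cancel₀ h3
  simp only [hc_apply]
  linear_combination h2

theorem triv (hcyc : IsCyclic P) {z y : P} (hz : z ∈ pel p P) (hy : y ∈ pel p P)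
    {ψ φ : P →* ℂˣ} (h : cl φ = cl ψ) (h1 : ψ z = 1) : φ y = 1 := by
  obtain ⟨n, rfl⟩ := orb_eq ψ ▸ cl_eq_iff.1 h
  have : n⁻¹ • y ∈ pel p P := mem_pel.2 <| by
    rw [coe_smul]; exact ((MulAut.conj _).orderOf_eq (y : G)).trans (mem_pel.1 hy)
  obtain ⟨k, hk⟩ := mem_zpowers_iff.1 (mem_zp hcyc this hz)
  rw [tw_apply, ← hk, map_zpow, h1, one_zpow]

theorem bound [IsSimpleGroup G] (F : Frob p P m) (hM : IsPModular p M) (hcyc : IsCyclic P)
    (hm : 2 ≤ m) (hmp : m ≤ p - 1) [Nontrivial (Ix P)] {z : P} (hz : z ∈ pel p P)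
    {χ : IrrCharacter G} (hχ : χ ∈ principalBlock M G) (h1 : χ ≠ irrOne G) {a : ℝ}
    (ha : ∑ y ∈ pel p P, χ.1 y = (p - 1 : ℕ) * a) (hsq : a ^ 2 + 1 ≤ Nat.card P) :
    a ≤ 1 / 3 * (χ.1 1).re := by
  classical
  have hp1 : (0 : ℝ) < (p - 1 : ℕ) := by exact_mod_cast (by omega)
  have hp1' : ((p - 1 : ℕ) : ℂ) ≠ 0 := Nat.cast_ne_zero.2 (by omega)
  have hcon : ∀ c : ℤ, (∀ y ∈ pel p P, χ.1 y = c) → c + Nat.card P ≤ (χ.1 1).re →
      a ≤ 1 / 3 * (χ.1 1).re := fun c hc h => by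
    rw [Finset.sum_congr rfl hc, Finset.sum_const, card_pel hcyc hz, nsmul_eq_mul] at ha
    have : (c : ℝ) = a := by exact_mod_cast mul_left_cancel₀ hp1' ha
    nlinarith [sq_nonneg (a - 1)]
  have hy : ∀ y : P, IsConj (y : G) (pPart p (y : G)) := fun y => by
    rw [(pPart_eq_self_iff hp.out).2 (orderOf_of_mem F.syl.isPGroup y.2)]
  obtain ⟨i₀⟩ : Nonempty (Ix P) := inferInstance
  obtain ⟨δ, d, μ, E⟩ := F.exists_exc hM i₀
  by_cases hμ : χ ∈ Set.range μ
  swap
  · obtain ⟨c, e, h⟩ := const F.comm h1 (fun y h => E.val_other F hM hχ hμ i₀ h (hy y))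
      (ne_one_of_pel hz)
    exact hcon c (fun y h => (E.val_other F hM hχ hμ i₀ (ne_one_of_pel h) (hy y)).trans e) h
  obtain ⟨i, rfl⟩ := hμ
  obtain ⟨j, hj⟩ := exists_ne i
  obtain ⟨ψ, hψ, rfl⟩ := ix_surj i
  obtain ⟨φ, hφ, rfl⟩ := ix_surj j
  have hv := fun (y : P) (h : y ≠ 1) => E.val_mu F hM (ix ψ hψ) h (hy y)
  have hg : ∀ ξ : P →* ℂˣ, ξ ≠ 1 → ∃ e : ℕ, (μ (ix ψ hψ)).1 1 - (d + δ * m) +
      Nat.card P * (δ * if cl ξ = cl ψ then 1 else 0) = Nat.card P * e := fun ξ hξ => by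
    obtain ⟨e, he⟩ := mult (char_of_irr (μ (ix ψ hψ)).2)
      (g := (d : ℂ) • hc 1 + (δ : ℂ) • eta (ix ψ hψ)) (fun y h => by simp [hv y h, hc_one]) ξ
    rw [CChar.CharFun.inner_add_left, CChar.CharFun.inner_smul_left, CChar.CharFun.inner_smul_left,
      inner_hc, inner_hc_eta, if_neg hξ.symm] at he
    rw [Pi.add_apply, Pi.smul_apply, Pi.smul_apply, F.eta_one, hc_apply_one, mul_zero, zero_add,
      smul_eq_mul, smul_eq_mul, mul_one] at he
    exact ⟨e, he⟩
  obtain ⟨e, he⟩ := hg φ hφ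
  obtain ⟨e', he'⟩ := hg ψ hψ
  rw [if_neg fun h : cl φ = cl ψ => hj (Subtype.ext h), mul_zero, mul_zero, add_zero] at he
  rw [if_pos rfl, he, mul_one, ← mul_add] at he'
  replace he' : (e : ℤ) + δ = e' := by exact_mod_cast mul_left_cancel₀ (CA.Ind.card_ne_zero P) he'
  have hD : ((μ (ix ψ hψ)).1 1).re = d + δ * m + Nat.card P * e := by
    apply Complex.ofReal_injective
    rw [← (deg _).1]; push_cast; linear_combination he
  have hP0 : (0 : ℝ) ≤ Nat.card P := Nat.cast_nonneg _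
  by_cases ht : ψ z = 1
  · have h2 : ∀ y ∈ pel p P, (μ (ix ψ hψ)).1 y = ((d + δ * m : ℤ) : ℂ) := fun y h => by
      rw [hv y (ne_one_of_pel h), eta, Finset.sum_apply, Finset.sum_congr rfl (g := fun _ => (1 : ℂ))
        fun ξ hξ => by rw [hc_apply, triv hcyc hz h (Finset.mem_filter.1 hξ).2 ht, Units.val_one],
        Finset.sum_const, F.card_fiber]
      simp
    refine hcon _ h2 ?_
    have h3 : e ≠ 0 := by
      rintro rfl
      refine ne_of_simple h1 (y := z) (fun e => ne_one_of_pel hz (Subtype.ext e)) ?_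
      rw [h2 z hz]; push_cast at he ⊢; linear_combination -he
    have h4 : (1 : ℝ) ≤ e := by exact_mod_cast Nat.one_le_iff_ne_zero.2 h3
    rw [hD]; push_cast; nlinarith
  have h2 : ∑ y ∈ pel p P, eta (ix ψ hψ) y = -m := by
    simp only [eta, Finset.sum_apply]
    rw [Finset.sum_comm, Finset.sum_congr rfl (g := fun _ => (-1 : ℂ)) fun ξ hξ =>
      sum_pel F.comm hz fun h => ht (triv hcyc hz hz (Finset.mem_filter.1 hξ).2.symm h),
      Finset.sum_const, F.card_fiber]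
    simp
  rw [Finset.sum_congr rfl fun y h => hv y (ne_one_of_pel h), Finset.sum_add_distrib,
    ← Finset.mul_sum, h2, Finset.sum_const, card_pel hcyc hz, nsmul_eq_mul] at ha
  replace ha : ((p - 1 : ℕ) : ℝ) * d + δ * -m = (p - 1 : ℕ) * a := by exact_mod_cast ha
  have h3 := E.norm F hM i₀
  rw [CA.H12Orth.finsum_mem_irr] at h3
  have h4 := Finset.single_le_sum (f := fun χ => co p m i₀ χ ^ 2) (fun _ _ => sq_nonneg _)
    (s := Finset.univ.filter (· ∈ principalBlock M G \ Set.range μ)) (a := irrOne G)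
    (Finset.mem_filter.2 ⟨Finset.mem_univ _, irrOne_mem_principalBlock hM, E.one_not_mem F hM⟩)
  rw [E.co_one F hM] at h4
  have h5 : (2 : ℤ) ≤ Fintype.card (Ix P) := by exact_mod_cast Fintype.one_lt_card
  have h6 : ∀ x : ℤ, x ^ 2 ≤ m → 2 * (x : ℝ) ≤ m := fun x hx => by
    have : (2 : ℤ) ≤ m := by exact_mod_cast hm
    exact_mod_cast (by rcases le_or_gt x 1 with h | h <;> nlinarith : 2 * x ≤ m)
  have h7 := h6 d (by nlinarith [sq_nonneg d, sq_nonneg (d - δ)])
  have h8 := h6 (d - δ) (by nlinarith [sq_nonneg d])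
  have h9 : (1 : ℝ) + 2 * m ≤ Nat.card P := by
    have := F.card_eq
    have h5 : 2 ≤ Fintype.card (Ix P) := Fintype.one_lt_card
    exact_mod_cast (by nlinarith : 1 + 2 * m ≤ Nat.card P)
  have hm' : (m : ℝ) ≤ (p - 1 : ℕ) := by exact_mod_cast hmp
  have hm0 : (0 : ℝ) ≤ m := Nat.cast_nonneg _
  have he0 : (0 : ℝ) ≤ e := Nat.cast_nonneg _
  rw [hD]
  rcases E.sign with rfl | rfl
  · have : a ≤ d := le_of_mul_le_mul_left (by push_cast at ha; linarith) hp1
    push_cast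
    nlinarith
  · have : a ≤ d + 1 := le_of_mul_le_mul_left (by push_cast at ha; linarith) hp1
    have h4 : (1 : ℝ) ≤ e := by exact_mod_cast (by omega)
    push_cast at h8 ⊢
    nlinarith

omit [Fintype P] in
theorem cyc [IsSimpleGroup G] (F : Frob p P m) (hM : IsPModular p M) (hcyc : IsCyclic P)
    (hm : 2 ≤ m) (hmp : m ≤ p - 1) (h1 : P ≠ ⊥)
    (hc : ∀ x y : G, orderOf x = p → orderOf y = p → IsPSolvable p (closure ({x, y} : Set G))) :
    False := by
  classical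
  have := Fintype.ofFinite P
  obtain ⟨k, hk⟩ := F.syl.isPGroup.exists_card_eq
  have hk0 : k ≠ 0 := fun e => h1 (card_eq_one.1 (by rw [hk, e, pow_zero]))
  have hdvd : p ∣ Nat.card P := hk ▸ dvd_pow_self p hk0
  have hle := Nat.le_of_dvd Nat.card_pos hdvd
  obtain ⟨z, hz⟩ := exists_prime_orderOf_dvd_card' p hdvd
  replace hz : z ∈ pel p P := mem_pel.2 ((orderOf_coe z).trans hz)
  by_cases hn : m + 1 < Nat.card P
  swap
  · have h2 : Nat.card P = p := by omega
    have h3 : Fintype.card (Ix P) = 1 := by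
      rw [F.card_ix, show Nat.card P - 1 = m by omega, Nat.div_self (by omega)]
    obtain ⟨i, hi⟩ := Fintype.card_eq_one_iff.1 h3
    refine elem hM (by omega) (by rw [show Nat.card P - 1 = m by omega]; exact F.sec) F.syl F.comm
      hc h1 (fun y hy => ?_) fun χ hχ y y' hy hy' => ?_
    · exact ((Nat.dvd_prime hp.out).1 (h2 ▸ P.orderOf_dvd_natCard y.2)).resolve_left
        fun e => hy (Subtype.ext (orderOf_eq_one_iff.1 e))
    · have h4 : ∀ y : P, y ≠ 1 → eta i y = -1 := fun y hy => by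
        rw [← F.sum_eta hy, Fintype.sum_eq_single i fun j hj => absurd (hi j) hj]
      rw [F.val hM (inSpan_irr hχ) hy, F.val hM (inSpan_irr hχ) hy',
        Fintype.sum_eq_single i fun j hj => absurd (hi j) hj,
        Fintype.sum_eq_single i fun j hj => absurd (hi j) hj, h4 y hy, h4 y' hy']
  have := F.nontrivial hn
  have hp1 : (0 : ℝ) < (p - 1 : ℕ) := by exact_mod_cast (by omega)
  have hp1' : ((p - 1 : ℕ) : ℂ) ≠ 0 := Nat.cast_ne_zero.2 (by omega)
  have ha : ∀ χ : IrrCharacter G, ∑ y ∈ pel p P, χ.1 y =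
      (p - 1 : ℕ) * (((∑ y ∈ pel p P, χ.1 y).re / (p - 1 : ℕ) : ℝ) : ℂ) := fun χ => by
    rw [Complex.ofReal_div, Complex.ofReal_natCast, mul_div_cancel₀ _ hp1', eq_comm,
      ← Complex.conj_eq_iff_re, map_sum]
    exact Finset.sum_equiv (Equiv.inv P) (fun y => by simp [mem_pel]) fun y _ =>
      (char_apply_inv (char_of_irr χ.2) _).symm
  obtain ⟨a, ha⟩ : ∃ a : IrrCharacter G → ℝ, ∀ χ : IrrCharacter G,
    ∑ y ∈ pel p P, χ.1 y = (p - 1 : ℕ) * a χ := ⟨_, ha⟩
  have hT : ((pel p P).map (Function.Embedding.subtype _)).card = p - 1 := by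
    rw [Finset.card_map, card_pel hcyc hz]
  obtain ⟨c1, -, c3⟩ := core hM F.sec F.syl F.comm hc (mem_pel.1 hz)
    (T := (pel p P).map (Function.Embedding.subtype _)) (fun t ht => by
      obtain ⟨y, hy, rfl⟩ := Finset.mem_map.1 ht
      obtain ⟨k, rfl⟩ := mem_zpowers_iff.1 (mem_zp hcyc hy hz)
      exact ⟨zpow_mem (mem_zpowers _) k, mem_pel.1 hy⟩)
    (Finset.card_pos.1 (by omega)) (Nat.mul_ne_zero (by omega) (by omega)) (card_pel hcyc hz)
    (by omega) (a := a) (d := fun χ => (χ.1 1).re) (fun χ => (deg χ).1)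
    (fun χ _ => by rw [Finset.sum_map, hT]; exact ha χ) fun χ _ => ha χ
  set B := Finset.univ.filter (· ∈ principalBlock M G)
  have ho : irrOne G ∈ B := Finset.mem_filter.2 ⟨Finset.mem_univ _, irrOne_mem_principalBlock hM⟩
  have ao : a (irrOne G) = 1 := by
    have := ha (irrOne G)
    simp only [irrOne_apply, Finset.sum_const, card_pel hcyc hz, nsmul_eq_mul] at this
    exact_mod_cast (mul_left_cancel₀ hp1' this).symm
  have d0 : ((irrOne G).1 1).re = 1 := by simp [irrOne_apply]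
  rw [← Finset.add_sum_erase _ _ ho, ao] at c1 c3
  rw [hT, d0] at c3
  have hm' : (m : ℝ) ≤ (p - 1 : ℕ) := by exact_mod_cast hmp
  have hP0 : (0 : ℝ) ≤ Nat.card P := Nat.cast_nonneg _
  have h2 : 1 + ∑ χ ∈ B.erase (irrOne G), a χ ^ 2 ≤ Nat.card P :=
    le_of_mul_le_mul_left (by push_cast at c1; nlinarith) hp1
  have h4 : ∑ χ ∈ B.erase (irrOne G), a χ ^ 3 / (χ.1 1).re ≤
      ∑ χ ∈ B.erase (irrOne G), 1 / 3 * a χ ^ 2 := Finset.sum_le_sum fun χ hχ => by
    obtain ⟨h5, h6⟩ := Finset.mem_erase.1 hχ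
    have h8 := Finset.single_le_sum (f := fun χ => a χ ^ 2) (fun χ _ => sq_nonneg _) hχ
    exact cube_le (deg χ).2 (bound F hM hcyc hm hmp hz (Finset.mem_filter.1 h6).2 h5 (ha χ)
      (by linarith))
  rw [← Finset.mul_sum] at h4
  have h5 : (3 : ℝ) * ((Nat.card P * m : ℕ) * ((p - 1 : ℕ) - 1)) ≤
      2 * (p - 1 : ℕ) ^ 2 + (p - 1 : ℕ) * (Nat.card P * m : ℕ) := by
    rw [← c1] at c3 ⊢
    nlinarith [mul_le_mul_of_nonneg_left h4 (mul_pos hp1 hp1).le]
  obtain ⟨q, rfl⟩ : ∃ q, p = q + 3 := ⟨p - 3, by omega⟩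
  rw [show q + 3 - 1 = q + 2 from rfl] at h5 hmp
  have h6 : Nat.card P * m * (2 * q + 1) ≤ 2 * (q + 2) ^ 2 := by
    have : ((Nat.card P * m : ℕ) : ℝ) * (2 * q + 1) ≤ 2 * (q + 2) ^ 2 := by
      push_cast at h5 ⊢; linarith
    exact_mod_cast this
  have h7 := Nat.mul_le_mul_right (2 * q + 1) (Nat.mul_le_mul_left (Nat.card P) hm)
  rcases Nat.eq_zero_or_pos q with rfl | hq
  · omega
  · have := Nat.mul_le_mul_right (2 * (2 * q + 1)) hle
    have h8 : q ≠ 1 := fun e => by have := hp.out; rw [e] at this; norm_num at this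
    nlinarith [show 2 ≤ q by omega]

end cyc

end CA.PairSolv
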